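import Mathlib

set_option autoImplicit false
set_option linter.unusedVariables false
set_option linter.style.multiGoal false
set_option linter.unusedSectionVars false

/-!
# A chain of conjugates meeting in prime-index subgroups

`P` a subgroup of a finite group, `σ` an automorphism, `P ∩ σP` normal of prime index `p` in `σP`.
The iterated intersections behave like intervals of root subgroups.
-/

namespace Cfsg.Agent.Lib.Components.ChainBound

open Subgroup
open scoped Pointwise

variable {G : Type*} [Group G] [Finite G]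

theorem le_of_card_step {p : ℕ} (hp : p.Prime) {A B C : Subgroup G} (hAB : A ≤ B)
    (hcard : Nat.card B = p * Nat.card A) (hAC : A ≤ C) {y : G} (hyB : y ∈ B) (hyA : y ∉ A)
    (hyC : y ∈ C) : B ≤ C := by
  have h1 : A ≤ B ⊓ C := le_inf hAB hAC
  have h2 : B ⊓ C ≤ B := inf_le_left
  have d1 : Nat.card A ∣ Nat.card ↥(B ⊓ C) := Subgroup.card_dvd_of_le h1
  have d2 : Nat.card ↥(B ⊓ C) ∣ Nat.card B := Subgroup.card_dvd_of_le h2
  obtain ⟨q, hq⟩ := d1
  have hApos : 0 < Nat.card A := Nat.card_pos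
  have hq' : q ∣ p := by
    rw [hcard, hq, mul_comm p] at d2
    exact Nat.dvd_of_mul_dvd_mul_left hApos d2
  rcases (Nat.dvd_prime hp).mp hq' with rfl | rfl
  · have : A = B ⊓ C := Subgroup.eq_of_le_of_card_ge h1 (by rw [hq, mul_one])
    exact absurd (this ▸ (⟨hyB, hyC⟩ : y ∈ B ⊓ C)) hyA
  · have : B ⊓ C = B := Subgroup.eq_of_le_of_card_ge h2 (by rw [hcard, hq, mul_comm])
    rw [← this]
    exact inf_le_right

theorem conj_mem_of_card_step {p : ℕ} [hpf : Fact p.Prime] {A B : Subgroup G} (hAB : A ≤ B)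
    (hB : IsPGroup p B) (hcard : Nat.card B = p * Nat.card A) {b y : G} (hb : b ∈ B) (hy : y ∈ A) :
    b * y * b⁻¹ ∈ A := by
  have hp := hpf.out
  have hcA : Nat.card (A.subgroupOf B) = Nat.card A :=
    Nat.card_congr (Subgroup.subgroupOfEquivOfLe hAB).toEquiv
  have hind : (A.subgroupOf B).index = p := by
    have h := (A.subgroupOf B).card_mul_index
    rw [hcA, hcard, mul_comm p] at h
    exact Nat.eq_of_mul_eq_mul_left Nat.card_pos h
  obtain ⟨k, hk⟩ := IsPGroup.iff_card.mp hB
  have hk0 : k ≠ 0 := by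
    rintro rfl
    rw [pow_zero] at hk
    rw [hk] at hcard
    have := Nat.card_pos (α := A)
    have h2 := hp.two_le
    nlinarith
  have hmin : (Nat.card B).minFac = p := by
    rw [hk]
    exact hp.pow_minFac hk0
  have hN : (A.subgroupOf B).Normal :=
    Subgroup.normal_of_index_eq_minFac_card (by rw [hind, hmin])
  have hy' : (⟨y, hAB hy⟩ : B) ∈ A.subgroupOf B := by
    rw [Subgroup.mem_subgroupOf]
    exact hy
  have := hN.conj_mem _ hy' ⟨b, hb⟩
  rw [Subgroup.mem_subgroupOf] at this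
  simpa using this

variable (σ : MulAut G) (P : Subgroup G)

/-- the conjugates -/
def Pz (i : ℤ) : Subgroup G := (σ ^ i) • P

/-- intersection of a range of conjugates -/
def Iv (lo hi : ℤ) : Subgroup G := ⨅ (i : ℤ) (_ : lo ≤ i ∧ i ≤ hi), Pz σ P i

theorem mem_Iv {lo hi : ℤ} {x : G} :
    x ∈ Iv σ P lo hi ↔ ∀ i, lo ≤ i → i ≤ hi → x ∈ Pz σ P i := by
  simp only [Iv, Subgroup.mem_iInf, and_imp]

theorem Iv_anti {lo hi lo' hi' : ℤ} (h1 : lo' ≤ lo) (h2 : hi ≤ hi') :
    Iv σ P lo' hi' ≤ Iv σ P lo hi := by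
  intro x hx
  rw [mem_Iv] at hx ⊢
  intro i a b
  exact hx i (by omega) (by omega)

theorem Iv_self (i : ℤ) : Iv σ P i i = Pz σ P i := by
  ext x
  rw [mem_Iv]
  constructor
  · intro h
    exact h i le_rfl le_rfl
  · intro h j a b
    have : j = i := by omega
    rwa [this]

theorem Pz_zero : Pz σ P 0 = P := by
  simp [Pz]

theorem zpow_smul_Iv (k lo hi : ℤ) : (σ ^ k) • Iv σ P lo hi = Iv σ P (lo + k) (hi + k) := by
  ext x
  rw [Subgroup.mem_pointwise_smul_iff_inv_smul_mem, mem_Iv, mem_Iv]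
  constructor
  · intro h i h1 h2
    have h3 := h (i - k) (by omega) (by omega)
    rw [Pz, Subgroup.mem_pointwise_smul_iff_inv_smul_mem] at h3 ⊢
    rw [smul_smul, ← mul_inv_rev, ← zpow_add] at h3
    have : k + (i - k) = i := by omega
    rwa [this] at h3
  · intro h i h1 h2
    have h3 := h (i + k) (by omega) (by omega)
    rw [Pz, Subgroup.mem_pointwise_smul_iff_inv_smul_mem] at h3 ⊢
    rw [smul_smul, ← mul_inv_rev, ← zpow_add]
    rwa [add_comm k i]

theorem card_zpow_smul (a : MulAut G) (H : Subgroup G) : Nat.card ↥(a • H) = Nat.card H :=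
  Nat.card_congr (Subgroup.equivSMul a H).toEquiv.symm

theorem card_Iv_shift (k lo hi : ℤ) :
    Nat.card (Iv σ P (lo + k) (hi + k)) = Nat.card (Iv σ P lo hi) := by
  rw [← zpow_smul_Iv, card_zpow_smul]

/-- A union of two adjacent ranges. -/
theorem mem_Iv_of_inf {lo hi lo' hi' : ℤ} {x : G} (h1 : x ∈ Iv σ P lo hi) (h2 : x ∈ Iv σ P lo' hi')
    {a b : ℤ} (hab : ∀ i, a ≤ i → i ≤ b → (lo ≤ i ∧ i ≤ hi) ∨ (lo' ≤ i ∧ i ≤ hi')) :
    x ∈ Iv σ P a b := by
  rw [mem_Iv] at h1 h2 ⊢
  intro i h3 h4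
  rcases hab i h3 h4 with ⟨h5, h6⟩ | ⟨h5, h6⟩
  · exact h1 i h5 h6
  · exact h2 i h5 h6

/-- `F m` : the order of the intersection of `m + 1` consecutive conjugates. -/
noncomputable def F (m : ℕ) : ℕ := Nat.card (Iv σ P 0 m)

theorem card_Iv (lo : ℤ) (m : ℕ) : Nat.card (Iv σ P lo (lo + m)) = F σ P m := by
  have h : Iv σ P lo (lo + m) = Iv σ P (0 + lo) (m + lo) := by rw [zero_add, add_comm]
  rw [h, F]
  exact card_Iv_shift σ P lo 0 m

section Step

variable {p : ℕ} [hpf : Fact p.Prime]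

/-- Base hypotheses. -/
structure Hyp (σ : MulAut G) (P : Subgroup G) (p : ℕ) : Prop where
  pg : IsPGroup p P
  step : Nat.card ↥(σ • P) = p * Nat.card ↥(P ⊓ σ • P)
  h1 : ∀ Q : Subgroup G, Q ≤ P → (Q.subgroupOf P).Normal → σ • Q = Q → Q = ⊥

variable {σ P}

theorem Pz_succ_eq (a : ℤ) : Pz σ P a ⊓ Pz σ P (a + 1) = (σ ^ a) • (P ⊓ σ • P) := by
  have : (σ ^ a) • (P ⊓ σ • P) = (σ ^ a) • P ⊓ (σ ^ a) • (σ • P) := by
    ext x
    simp only [Subgroup.mem_inf, Subgroup.mem_pointwise_smul_iff_inv_smul_mem]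
  rw [this, Pz, Pz, zpow_add, zpow_one, mul_smul]

theorem IsPGroup_Iv (hyp : Hyp σ P p) (lo hi : ℤ) (h : lo ≤ hi) : IsPGroup p (Iv σ P lo hi) := by
  have h1 : Iv σ P lo hi ≤ Pz σ P lo := by
    intro x hx
    rw [mem_Iv] at hx
    exact hx lo le_rfl h
  have h2 : IsPGroup p (Pz σ P lo) := by
    rw [Pz]
    have h3 : Nat.card ↥((σ ^ lo) • P) = Nat.card P := card_zpow_smul _ _
    obtain ⟨k, hk⟩ := IsPGroup.iff_card.mp hyp.pg
    exact IsPGroup.of_card (n := k) (by rw [h3, hk])
  exact h2.to_le h1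

theorem card_P_shift (a : ℤ) : Nat.card (Pz σ P a) = Nat.card P := card_zpow_smul _ _

/-- The basic step: `|Iv (a+1) (a+m+1)| = |Iv a (a+m+1)|` or `p` times it. -/
theorem card_step (hyp : Hyp σ P p) (m : ℕ) : F σ P m = F σ P (m + 1) ∨ F σ P m = p * F σ P (m + 1) := by
  have hp := hpf.out
  set H := Iv σ P 1 (1 + m) with hH
  have hcardH : Nat.card H = F σ P m := card_Iv σ P 1 m
  set Q := Pz σ P 0 ⊓ Pz σ P 1 with hQ
  set T := Iv σ P 0 (0 + (m + 1 : ℕ)) with hT
  have hcardT : Nat.card T = F σ P (m + 1) := card_Iv σ P 0 (m + 1)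
  have hHP : H ≤ Pz σ P 1 := by
    intro x hx
    rw [mem_Iv] at hx
    exact hx 1 le_rfl (by omega)
  have hTeq : T = Q ⊓ H := by
    ext x
    rw [hT, mem_Iv, Subgroup.mem_inf, hQ, Subgroup.mem_inf, hH, mem_Iv]
    constructor
    · intro h
      refine ⟨⟨h 0 le_rfl (by omega), h 1 (by omega) (by push_cast; omega)⟩, ?_⟩
      intro i h1 h2
      exact h i (by omega) (by push_cast; omega)
    · rintro ⟨⟨h1, h2⟩, h3⟩ i h4 h5
      by_cases h0 : i = 0
      · rw [h0]; exact h1
      · exact h3 i (by omega) (by push_cast at h5; omega)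
  have hQP : Q ≤ Pz σ P 1 := inf_le_right
  have hQcard : Nat.card (Pz σ P 1) = p * Nat.card Q := by
    have h1 : Q = (σ ^ (0 : ℤ)) • (P ⊓ σ • P) := by
      rw [hQ]; simpa using Pz_succ_eq (σ := σ) (P := P) 0
    rw [h1, card_zpow_smul]
    simp only [Pz, zpow_one]
    exact hyp.step
  have hrel : Q.relIndex (Pz σ P 1) = p := by
    have h := (Q.subgroupOf (Pz σ P 1)).card_mul_index
    have hc : Nat.card (Q.subgroupOf (Pz σ P 1)) = Nat.card Q :=
      Nat.card_congr (Subgroup.subgroupOfEquivOfLe hQP).toEquiv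
    rw [hc, hQcard, mul_comm p] at h
    exact Nat.eq_of_mul_eq_mul_left Nat.card_pos h
  have hr : T.relIndex H ≤ p := by
    rw [hTeq, Subgroup.inf_relIndex_right, ← hrel]
    exact Subgroup.relIndex_le_of_le_right hHP (by rw [hrel]; exact hp.ne_zero)
  have hTH : T ≤ H := by rw [hTeq]; exact inf_le_right
  have hmul : Nat.card H = T.relIndex H * Nat.card T := by
    have h := (T.subgroupOf H).card_mul_index
    have hc : Nat.card (T.subgroupOf H) = Nat.card T :=
      Nat.card_congr (Subgroup.subgroupOfEquivOfLe hTH).toEquiv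
    rw [hc] at h
    rw [← h, Subgroup.relIndex, mul_comm]
  have hHp : IsPGroup p H := IsPGroup_Iv hyp 1 (1 + m) (by omega)
  obtain ⟨k, hk⟩ := IsPGroup.iff_card.mp hHp
  have hd : T.relIndex H ∣ p ^ k := by
    rw [← hk, hmul]
    exact dvd_mul_right _ _
  obtain ⟨e, he, hre⟩ := (Nat.dvd_prime_pow hp).mp hd
  have he1 : e ≤ 1 := by
    by_contra hcon
    have h2 : 2 ≤ e := by omega
    have h3 : p ^ 2 ≤ p ^ e := Nat.pow_le_pow_right hp.pos h2
    have h4 := hp.two_le
    rw [hre] at hr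
    nlinarith
  rw [← hcardH, ← hcardT, hmul, hre]
  interval_cases e
  · left; simp
  · right; simp

variable (σ P) in
theorem Iv_zero_succ (m : ℕ) : Iv σ P 0 ((m + 1 : ℕ) : ℤ) ≤ Iv σ P 0 m :=
  Iv_anti σ P le_rfl (by push_cast; omega)

theorem F_zero : F σ P 0 = Nat.card P := by
  rw [F]
  have : Iv σ P 0 ((0 : ℕ) : ℤ) = P := by
    have := Iv_self σ P 0
    rw [Pz_zero] at this
    simpa using this
  rw [this]

theorem F_one (hyp : Hyp σ P p) : Nat.card P = p * F σ P 1 := by
  have h1 : Iv σ P 0 ((1 : ℕ) : ℤ) = P ⊓ σ • P := by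
    ext x
    rw [mem_Iv, Subgroup.mem_inf]
    constructor
    · intro h
      have h0 := h 0 le_rfl (by norm_num)
      have h1 := h 1 (by norm_num) (by norm_num)
      rw [Pz_zero] at h0
      simp only [Pz, zpow_one] at h1
      exact ⟨h0, h1⟩
    · rintro ⟨h0, h1⟩ i h2 h3
      have h4 : i = 0 ∨ i = 1 := by push_cast at h3; omega
      rcases h4 with rfl | rfl
      · rwa [Pz_zero]
      · simpa [Pz] using h1
  rw [F, h1]
  have := hyp.step
  rwa [card_zpow_smul] at this

/-- When the chain is stable at the first possible place, the intersection is trivial. -/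
theorem stable_bot (hyp : Hyp σ P p) (m : ℕ) (hm : F σ P (m + 1) = F σ P m)
    (hmin : ∀ l < m, F σ P (l + 1) ≠ F σ P l) : Iv σ P 0 m = ⊥ := by
  have hp := hpf.out
  set R := Iv σ P 0 m with hR
  -- R = Iv 0 (m+1)
  have h1 : Iv σ P 0 ((m + 1 : ℕ) : ℤ) = R := by
    apply Subgroup.eq_of_le_of_card_ge (Iv_zero_succ σ P m)
    have h := hm
    rw [F, F] at h
    exact h.ge
  have h2 : Iv σ P 0 ((m + 1 : ℕ) : ℤ) = Iv σ P 1 (1 + m) := by
    apply Subgroup.eq_of_le_of_card_ge (Iv_anti σ P (by norm_num) (by push_cast; omega))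
    have h3 : Nat.card (Iv σ P 1 (1 + m)) = F σ P m := card_Iv σ P 1 m
    rw [h3]
    have h := hm
    rw [F] at h
    exact h.ge
  have hσ : σ • R = R := by
    have h3 := zpow_smul_Iv σ P 1 0 m
    rw [zpow_one] at h3
    rw [hR, h3]
    have h4 : (0 : ℤ) + 1 = 1 := by norm_num
    rw [h4, add_comm (m : ℤ) 1, ← h2, h1]
  have hzσ : ∀ k : ℤ, (σ ^ k) • R = R := by
    intro k
    have : σ ∈ MulAction.stabilizer (MulAut G) R := hσ
    exact (MulAction.stabilizer (MulAut G) R).zpow_mem this k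
  have hRk : ∀ k : ℤ, Iv σ P k (k + m) = R := by
    intro k
    have h3 := zpow_smul_Iv σ P k 0 m
    rw [hR] at hzσ
    rw [hzσ k, zero_add, add_comm (m : ℤ) k] at h3
    exact h3.symm
  have hFl : ∀ l < m, F σ P l = p * F σ P (l + 1) := by
    intro l hl
    rcases card_step hyp l with h | h
    · exact absurd h.symm (hmin l hl)
    · exact h
  -- downward induction
  have hT : ∀ (r : ℕ) (l : ℕ), l + r = m → ∀ (k : ℤ) (b y : G), b ∈ Iv σ P k (k + l) → y ∈ R →
      b * y * b⁻¹ ∈ R := by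
    intro r
    induction r with
    | zero =>
      intro l hl k b y hb hy
      have hl' : l = m := by omega
      subst hl'
      rw [hRk k] at hb
      exact R.mul_mem (R.mul_mem hb hy) (R.inv_mem hb)
    | succ r ih =>
      intro l hl k b y hb hy
      have hlm : l < m := by omega
      have hl1 : l + 1 + r = m := by omega
      set B0 := Iv σ P k (k + l) with hB0
      set A := Iv σ P k (k + (l + 1 : ℕ)) with hA
      set A' := Iv σ P (k - 1) ((k - 1) + (l + 1 : ℕ)) with hA'
      have hcB0 : Nat.card B0 = F σ P l := card_Iv σ P k l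
      have hcA : Nat.card A = F σ P (l + 1) := card_Iv σ P k (l + 1)
      have hcA' : Nat.card A' = F σ P (l + 1) := card_Iv σ P (k - 1) (l + 1)
      have hAB : A ≤ B0 := Iv_anti σ P le_rfl (by push_cast; omega)
      have hA'B : A' ≤ B0 := Iv_anti σ P (by omega) (by push_cast; omega)
      have hcstep : Nat.card B0 = p * Nat.card A := by rw [hcB0, hcA, hFl l hlm]
      have hBp : IsPGroup p B0 := IsPGroup_Iv hyp k (k + l) (by omega)
      -- the normalizer
      have hAN : A ≤ Subgroup.normalizer (R : Set G) := by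
        intro a ha
        rw [Subgroup.mem_normalizer_iff]
        intro z
        constructor
        · intro hz
          exact ih (l + 1) hl1 k a z ha hz
        · intro hz
          have h3 := ih (l + 1) hl1 k a⁻¹ _ (A.inv_mem ha) hz
          have h4 : a⁻¹ * (a * z * a⁻¹) * a⁻¹⁻¹ = z := by group
          rwa [h4] at h3
      have hA'N : A' ≤ Subgroup.normalizer (R : Set G) := by
        intro a ha
        rw [Subgroup.mem_normalizer_iff]
        intro z
        constructor
        · intro hz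
          exact ih (l + 1) hl1 (k - 1) a z ha hz
        · intro hz
          have h3 := ih (l + 1) hl1 (k - 1) a⁻¹ _ (A'.inv_mem ha) hz
          have h4 : a⁻¹ * (a * z * a⁻¹) * a⁻¹⁻¹ = z := by group
          rwa [h4] at h3
      by_cases hle : A' ≤ A
      · -- A' = A
        have hAeq : A' = A := Subgroup.eq_of_le_of_card_ge hle (by rw [hcA, hcA'])
        by_cases hlast : l + 1 = m
        · -- A = R : index p
          have hAR : A = R := by
            rw [hA, hlast]
            exact hRk k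
          rw [← hAR] at hy ⊢
          exact conj_mem_of_card_step hAB hBp hcstep hb hy
        · -- contradiction with minimality
          exfalso
          have hl2 : l + 1 < m := by omega
          apply hmin (l + 1) hl2
          have h5 : Iv σ P (k - 1) ((k - 1) + (l + 2 : ℕ)) = A := by
            apply le_antisymm
            · exact Iv_anti σ P (by omega) (by push_cast; omega)
            · intro x hx
              have hx' : x ∈ A' := by rw [hAeq]; exact hx
              apply mem_Iv_of_inf σ P hx hx'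
              intro i h6 h7
              push_cast at h7
              by_cases h8 : i = k - 1
              · right; constructor <;> push_cast <;> omega
              · left; constructor <;> push_cast <;> omega
          have h6 : Nat.card (Iv σ P (k - 1) ((k - 1) + (l + 2 : ℕ))) = F σ P (l + 2) :=
            card_Iv σ P (k - 1) (l + 2)
          rw [h5, hcA] at h6
          exact h6.symm
      · obtain ⟨w, hw, hwA⟩ := SetLike.not_le_iff_exists.mp hle
        have hBN : B0 ≤ Subgroup.normalizer (R : Set G) :=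
          le_of_card_step hp hAB hcstep hAN (hA'B hw) hwA (hA'N hw)
        have := (Subgroup.mem_normalizer_iff.mp (hBN hb) y).mp hy
        exact this
  apply hyp.h1 R
  · intro x hx
    rw [hR, mem_Iv] at hx
    have := hx 0 le_rfl (by omega)
    rwa [Pz_zero] at this
  · constructor
    intro n hn g
    rw [Subgroup.mem_subgroupOf] at hn ⊢
    have hg : (g : G) ∈ Iv σ P 0 (0 + ((0 : ℕ) : ℤ)) := by
      have h3 := Iv_self σ P 0
      rw [Pz_zero] at h3
      simp only [Nat.cast_zero, add_zero]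
      rw [h3]
      exact g.2
    have := hT m 0 (by omega) 0 g n hg hn
    simpa using this
  · exact hσ

/-- The chain theorem. -/
theorem exists_t (hyp : Hyp σ P p) :
    ∃ t : ℕ, 1 ≤ t ∧ Nat.card P = p ^ t ∧
      (∀ (lo : ℤ) (l : ℕ), l ≤ t → Nat.card (Iv σ P lo (lo + l)) = p ^ (t - l)) ∧
      (∀ lo hi : ℤ, lo + t ≤ hi → Iv σ P lo hi = ⊥) := by
  have hp := hpf.out
  have hex : ∃ m, F σ P (m + 1) = F σ P m := by
    by_contra hcon
    push Not at hcon
    have hF : ∀ l, F σ P l = p * F σ P (l + 1) := by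
      intro l
      rcases card_step hyp l with h | h
      · exact absurd h.symm (hcon l)
      · exact h
    have hpow : ∀ l, F σ P 0 = p ^ l * F σ P l := by
      intro l
      induction l with
      | zero => simp
      | succ l ih => rw [ih, hF l, pow_succ]; ring
    have hpos : 0 < F σ P (F σ P 0) := Nat.card_pos
    have h1 := hpow (F σ P 0)
    have h2 : F σ P 0 < p ^ (F σ P 0) := Nat.lt_pow_self hp.one_lt
    have h3 : p ^ (F σ P 0) ≤ p ^ (F σ P 0) * F σ P (F σ P 0) := Nat.le_mul_of_pos_right _ hpos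
    omega
  classical
  set t := Nat.find hex with ht
  have hstab : F σ P (t + 1) = F σ P t := Nat.find_spec hex
  have hmin : ∀ l < t, F σ P (l + 1) ≠ F σ P l := fun l hl => Nat.find_min hex hl
  have hbot0 : Iv σ P 0 t = ⊥ := stable_bot hyp t hstab hmin
  have hFt : F σ P t = 1 := by rw [F, hbot0]; simp
  have hFl : ∀ l < t, F σ P l = p * F σ P (l + 1) := by
    intro l hl
    rcases card_step hyp l with h | h
    · exact absurd h.symm (hmin l hl)
    · exact h
  have hFp : ∀ (r l : ℕ), l + r = t → F σ P l = p ^ r := by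
    intro r
    induction r with
    | zero =>
      intro l hl
      have : l = t := by omega
      rw [this, hFt]; simp
    | succ r ih =>
      intro l hl
      rw [hFl l (by omega), ih (l + 1) (by omega), pow_succ]
      ring
  have ht1 : 1 ≤ t := by
    by_contra hcon
    have ht0 : t = 0 := by omega
    rw [ht0] at hstab
    have h1 := F_one hyp
    rw [← F_zero (σ := σ), zero_add] at *
    rw [hstab] at h1
    have h2 := hp.two_le
    have h3 : 0 < F σ P 0 := Nat.card_pos
    nlinarith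
  refine ⟨t, ht1, ?_, ?_, ?_⟩
  · rw [← F_zero (σ := σ)]
    exact hFp t 0 (by omega)
  · intro lo l hl
    rw [card_Iv]
    exact hFp (t - l) l (by omega)
  · intro lo hi h
    have h1 : Iv σ P lo hi ≤ Iv σ P lo (lo + t) := Iv_anti σ P le_rfl h
    have h2 : Iv σ P lo (lo + t) = ⊥ := by
      have h3 := zpow_smul_Iv σ P lo 0 t
      rw [hbot0, Subgroup.smul_bot, zero_add, add_comm (t : ℤ) lo] at h3
      exact h3.symm
    rw [h2] at h1
    exact le_bot_iff.mp h1

end Step

section Intervals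

variable {p : ℕ} [hpf : Fact p.Prime] {σ : MulAut G} {P : Subgroup G}

/-- Package. -/
structure Sys (σ : MulAut G) (P : Subgroup G) (p t : ℕ) : Prop where
  ht1 : 1 ≤ t
  hcard : ∀ (lo : ℤ) (l : ℕ), l ≤ t → Nat.card (Iv σ P lo (lo + l)) = p ^ (t - l)
  hbot : ∀ lo hi : ℤ, lo + t ≤ hi → Iv σ P lo hi = ⊥

variable (σ P) in
/-- intervals of positions -/
def U (t : ℕ) (u v : ℤ) : Subgroup G := Iv σ P (v - t) (u - 1)

variable {t : ℕ}

theorem U_mono {u u' v v' : ℤ} (hu : u' ≤ u) (hv : v ≤ v') : U σ P t u v ≤ U σ P t u' v' :=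
  Iv_anti σ P (by omega) (by omega)

omit hpf in
theorem card_U (S : Sys σ P p t) {u v : ℤ} (h1 : u ≤ v + 1) (h2 : v + 1 - u ≤ t) :
    Nat.card (U σ P t u v) = p ^ (v + 1 - u).toNat := by
  have h3 := S.hcard (v - t) (t - (v + 1 - u).toNat) (by omega)
  have h4 : (v - t) + ((t - (v + 1 - u).toNat : ℕ) : ℤ) = u - 1 := by omega
  rw [h4] at h3
  rw [U, h3]
  congr 1
  omega

omit hpf in
theorem card_U_left (S : Sys σ P p t) (hp : p.Prime) {u v : ℤ} (h1 : u ≤ v) (h2 : v + 1 - u ≤ t) :
    Nat.card (U σ P t u v) = p * Nat.card (U σ P t (u + 1) v) := by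
  rw [card_U S (by omega) h2, card_U S (by omega) (by omega)]
  have : (v + 1 - u).toNat = (v + 1 - (u + 1)).toNat + 1 := by omega
  rw [this, pow_succ, mul_comm]

omit hpf in
theorem card_U_right (S : Sys σ P p t) (hp : p.Prime) {u v : ℤ} (h1 : u ≤ v) (h2 : v + 1 - u ≤ t) :
    Nat.card (U σ P t u v) = p * Nat.card (U σ P t u (v - 1)) := by
  rw [card_U S (by omega) h2, card_U S (by omega) (by omega)]
  have : (v + 1 - u).toNat = (v - 1 + 1 - u).toNat + 1 := by omega
  rw [this, pow_succ, mul_comm]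

omit hpf in
theorem U_bot (S : Sys σ P p t) (u : ℤ) : U σ P t u (u - 1) = ⊥ :=
  S.hbot _ _ (by omega)

omit hpf in
theorem U_inf_eq_one (S : Sys σ P p t) {u1 v1 u2 v2 : ℤ} (h1 : v2 + 1 ≤ u1) (h2 : v1 - t ≤ u2) {x : G}
    (hx1 : x ∈ U σ P t u1 v1) (hx2 : x ∈ U σ P t u2 v2) : x = 1 := by
  have h3 : x ∈ Iv σ P (v2 - t) (u1 - 1) := by
    apply mem_Iv_of_inf σ P hx1 hx2
    intro i h4 h5
    by_cases h6 : i ≤ u2 - 1
    · right; omega
    · left; omega
  rw [S.hbot _ _ (by omega)] at h3
  exact h3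

theorem U_inf_mem {u v : ℤ} (h : v - u ≤ t) {x : G} (hx1 : x ∈ U σ P t (u + 1) v)
    (hx2 : x ∈ U σ P t u (v - 1)) : x ∈ U σ P t (u + 1) (v - 1) := by
  apply mem_Iv_of_inf σ P hx1 hx2
  intro i h4 h5
  by_cases h6 : i ≤ u - 1
  · right; omega
  · left; omega

theorem U_pg (S : Sys σ P p t) {u v : ℤ} (h1 : u ≤ v + 1) (h2 : v + 1 - u ≤ t) :
    IsPGroup p (U σ P t u v) := IsPGroup.of_card (card_U S h1 h2)

theorem conj_left (S : Sys σ P p t) {u v : ℤ} (h1 : u ≤ v) (h2 : v + 1 - u ≤ t) {b y : G}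
    (hb : b ∈ U σ P t u v) (hy : y ∈ U σ P t (u + 1) v) : b * y * b⁻¹ ∈ U σ P t (u + 1) v :=
  conj_mem_of_card_step (U_mono (by omega) le_rfl) (U_pg S (by omega) h2)
    (card_U_left S hpf.out h1 h2) hb hy

theorem conj_right (S : Sys σ P p t) {u v : ℤ} (h1 : u ≤ v) (h2 : v + 1 - u ≤ t) {b y : G}
    (hb : b ∈ U σ P t u v) (hy : y ∈ U σ P t u (v - 1)) : b * y * b⁻¹ ∈ U σ P t u (v - 1) :=
  conj_mem_of_card_step (U_mono le_rfl (by omega)) (U_pg S (by omega) h2)
    (card_U_right S hpf.out h1 h2) hb hy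

theorem comm_mem (S : Sys σ P p t) {u v : ℤ} (h1 : u ≤ v) (h2 : v + 1 - u ≤ t) {e a : G}
    (he : e ∈ U σ P t u v) (ha : a ∈ U σ P t u v)
    (hA : e ∈ U σ P t (u + 1) v ∨ a ∈ U σ P t (u + 1) v)
    (hB : e ∈ U σ P t u (v - 1) ∨ a ∈ U σ P t u (v - 1)) :
    e * a⁻¹ * e⁻¹ * a ∈ U σ P t (u + 1) (v - 1) := by
  have hai := (U σ P t u v).inv_mem ha
  have hei := (U σ P t u v).inv_mem he
  apply U_inf_mem (by omega)
  · rcases hA with h | h
    · have h3 := conj_left S h1 h2 hai ((U σ P t (u + 1) v).inv_mem h)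
      rw [inv_inv] at h3
      have h4 := (U σ P t (u + 1) v).mul_mem h h3
      have h5 : e * (a⁻¹ * e⁻¹ * a) = e * a⁻¹ * e⁻¹ * a := by group
      rwa [h5] at h4
    · have h3 := conj_left S h1 h2 he ((U σ P t (u + 1) v).inv_mem h)
      exact (U σ P t (u + 1) v).mul_mem h3 h
  · rcases hB with h | h
    · have h3 := conj_right S h1 h2 hai ((U σ P t u (v - 1)).inv_mem h)
      rw [inv_inv] at h3
      have h4 := (U σ P t u (v - 1)).mul_mem h h3
      have h5 : e * (a⁻¹ * e⁻¹ * a) = e * a⁻¹ * e⁻¹ * a := by group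
      rwa [h5] at h4
    · have h3 := conj_right S h1 h2 he ((U σ P t u (v - 1)).inv_mem h)
      exact (U σ P t u (v - 1)).mul_mem h3 h

omit [Finite G] in
theorem comm_alg {e A b : G} (h1 : e * b = b * e)
    (h2 : (e * A⁻¹ * e⁻¹ * A) * b = b * (e * A⁻¹ * e⁻¹ * A)) :
    e * (A * b * A⁻¹ * b⁻¹) = (A * b * A⁻¹ * b⁻¹) * e := by
  set v := e * A⁻¹ * e⁻¹ * A with hv
  have h3 : e * A⁻¹ = v * A⁻¹ * e := by rw [hv]; group
  have h4 : e * A = A * v⁻¹ * e := by rw [hv]; group
  have h5 : v⁻¹ * b * v = b := by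
    rw [mul_assoc, ← h2]; group
  have h6 : e * b⁻¹ = b⁻¹ * e := by
    have : b⁻¹ * (e * b) * b⁻¹ = b⁻¹ * (b * e) * b⁻¹ := by rw [h1]
    have h7 : b⁻¹ * (e * b) * b⁻¹ = b⁻¹ * e := by group
    have h8 : b⁻¹ * (b * e) * b⁻¹ = e * b⁻¹ := by group
    rw [h7, h8] at this
    exact this.symm
  calc e * (A * b * A⁻¹ * b⁻¹) = (e * A) * b * A⁻¹ * b⁻¹ := by group
    _ = A * v⁻¹ * (e * b) * A⁻¹ * b⁻¹ := by rw [h4]; group
    _ = A * v⁻¹ * b * (e * A⁻¹) * b⁻¹ := by rw [h1]; group
    _ = A * (v⁻¹ * b * v) * A⁻¹ * (e * b⁻¹) := by rw [h3]; group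
    _ = (A * b * A⁻¹ * b⁻¹) * e := by rw [h5, h6]; group

/-- Generators. -/
noncomputable def xx (σ : MulAut G) (a : G) (w : ℤ) : G := (σ ^ (w - 1)) • a

omit [Finite G] in
theorem xx_shift (a : G) (w k : ℤ) : (σ ^ k) • xx σ a w = xx σ a (w + k) := by
  rw [xx, xx, smul_smul, ← zpow_add]
  congr 2
  omega

omit [Finite G] in
theorem xx_ne (a : G) (ha : a ≠ 1) (w : ℤ) : xx σ a w ≠ 1 := by
  rw [xx, MulAut.smul_def]
  intro h
  exact ha ((map_eq_one_iff _ (MulEquiv.injective _)).mp h)

theorem xx_mem {a : G} (ha : a ∈ U σ P t 1 1) (w : ℤ) : xx σ a w ∈ U σ P t w w := by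
  have h : U σ P t w w = (σ ^ (w - 1)) • U σ P t 1 1 := by
    rw [U, U, zpow_smul_Iv]
    congr 1 <;> omega
  rw [h, xx]
  exact Subgroup.smul_mem_pointwise_smul _ _ _ ha

omit [Finite G] in
theorem Cm_shift {a : G} {k l : ℤ} (h : xx σ a k * xx σ a l = xx σ a l * xx σ a k) (m : ℤ) :
    xx σ a (k + m) * xx σ a (l + m) = xx σ a (l + m) * xx σ a (k + m) := by
  have h1 : (σ ^ m) • (xx σ a k * xx σ a l) = (σ ^ m) • (xx σ a l * xx σ a k) := by rw [h]
  simpa only [smul_mul', xx_shift] using h1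

theorem U_le (S : Sys σ P p t) {a : G} (ha : a ∈ U σ P t 1 1) (ha1 : a ≠ 1) (C : Subgroup G) :
    ∀ (len : ℕ) (u : ℤ), len ≤ t → (∀ w : ℤ, u ≤ w → w ≤ u + len - 1 → xx σ a w ∈ C) →
      U σ P t u (u + len - 1) ≤ C := by
  have hp := hpf.out
  intro len
  induction len with
  | zero =>
    intro u _ _
    have : u + ((0 : ℕ) : ℤ) - 1 = u - 1 := by simp
    rw [this, U_bot S]
    exact bot_le
  | succ len ih =>
    intro u hlen hC
    have h1 := ih (u + 1) (by omega) (fun w h2 h3 => hC w (by omega) (by push_cast; omega))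
    have h2 : u + 1 + (len : ℤ) - 1 = u + ((len + 1 : ℕ) : ℤ) - 1 := by push_cast; ring
    rw [h2] at h1
    have hmem : xx σ a u ∈ U σ P t u (u + ((len + 1 : ℕ) : ℤ) - 1) :=
      U_mono le_rfl (by push_cast; omega) (xx_mem ha u)
    refine le_of_card_step hp (U_mono (by omega) le_rfl)
      (card_U_left S hp (by push_cast; omega) (by push_cast; omega)) h1 hmem ?_
      (hC u le_rfl (by push_cast; omega))
    intro hcon
    exact xx_ne a ha1 u (U_inf_eq_one S (by omega) (by push_cast; omega) hcon (xx_mem ha u))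

theorem P_eq_U (m : ℤ) : Pz σ P m = U σ P t (m + 1) (m + t) := by
  rw [U, ← Iv_self]
  congr 1 <;> omega

/-- The main combinatorial bound. -/
theorem bound (S : Sys σ P p t) (n : ℕ) (hn : 1 ≤ n)
    (hcent : ∀ z ∈ P, (∀ m : ℕ, m ≤ n → ∀ y ∈ Pz σ P m, z * y = y * z) → z = 1) :
    t ≤ 3 * n ∧ t ≠ 3 * n - 1 := by
  have hp := hpf.out
  have ht1 := S.ht1
  -- a generator
  obtain ⟨a, ha, ha1⟩ : ∃ a ∈ U σ P t 1 1, a ≠ 1 := by
    by_contra hcon
    push Not at hcon
    have h1 : U σ P t 1 1 = ⊥ := by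
      rw [eq_bot_iff]
      intro x hx
      exact hcon x hx
    have h2 := card_U S (u := 1) (v := 1) (by norm_num) (by push_cast; omega)
    rw [h1] at h2
    simp only [Subgroup.card_bot] at h2
    have h3 : (1 + 1 - 1 : ℤ).toNat = 1 := by norm_num
    rw [h3, pow_one] at h2
    exact hp.one_lt.ne h2
  set x := xx σ a with hx
  have hxmem : ∀ w, x w ∈ U σ P t w w := xx_mem ha
  have hxU : ∀ w u v : ℤ, u ≤ w → w ≤ v → x w ∈ U σ P t u v := fun w u v h1 h2 =>
    U_mono h1 h2 (hxmem w)
  have hxne : ∀ w, x w ≠ 1 := xx_ne a ha1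
  -- elements of `P`
  have hPU : U σ P t 1 t = P := by
    have := P_eq_U (σ := σ) (P := P) (t := t) 0
    rw [Pz_zero] at this
    simpa using this.symm
  have hle : ∀ (u v : ℤ) (C : Subgroup G), u ≤ v + 1 → v + 1 - u ≤ t →
      (∀ w : ℤ, u ≤ w → w ≤ v → x w ∈ C) → U σ P t u v ≤ C := by
    intro u v C h1 h2 h3
    have h4 := U_le S ha ha1 C (v + 1 - u).toNat u (by omega) (fun w h5 h6 => h3 w h5 (by omega))
    have h5 : u + ((v + 1 - u).toNat : ℤ) - 1 = v := by omega
    rwa [h5] at h4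
  have hcen : ∀ (w : ℤ), 1 ≤ w → w ≤ t → (∀ (m : ℕ), m ≤ n → ∀ k : ℤ, (m : ℤ) + 1 ≤ k → k ≤ m + t →
      x k * x w = x w * x k) → False := by
    intro w h1 h2 h3
    apply hxne w
    apply hcent
    · rw [← hPU]
      exact hxU w 1 t h1 h2
    · intro m hm y hy
      rw [P_eq_U (t := t)] at hy
      have h4 : U σ P t ((m : ℤ) + 1) (m + t) ≤ Subgroup.centralizer {x w} := by
        apply hle _ _ _ (by omega) (by omega)
        intro k h5 h6
        rw [Subgroup.mem_centralizer_singleton_iff]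
        exact h3 m hm k h5 h6
      have h5 := h4 hy
      rw [Subgroup.mem_centralizer_singleton_iff] at h5
      exact h5.symm
  by_cases hex : ∃ m : ℕ, 1 ≤ m ∧ m + 1 ≤ t ∧ x 1 * x (1 + m) ≠ x (1 + m) * x 1
  · classical
    set d := Nat.find hex with hd
    obtain ⟨hd1, hdt, hdc⟩ := Nat.find_spec hex
    rw [← hd] at hd1 hdt hdc
    have hdmin : ∀ m : ℕ, 1 ≤ m → m < d → x 1 * x (1 + m) = x (1 + m) * x 1 := by
      intro m h1 h2
      have h3 := Nat.find_min hex (m := m) h2
      push Not at h3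
      exact h3 h1 (by omega)
    -- all close pairs commute
    have hclose1 : ∀ (k l : ℤ), k ≤ l → l - k < d → x k * x l = x l * x k := by
      intro k l h1 h2
      by_cases h3 : k = l
      · rw [h3]
      · have h4 := hdmin (l - k).toNat (by omega) (by omega)
        have h5 := Cm_shift (σ := σ) (a := a) h4 (k - 1)
        have h6 : (1 : ℤ) + (k - 1) = k := by omega
        have h7 : (1 : ℤ) + ((l - k).toNat : ℤ) + (k - 1) = l := by omega
        rw [h6, h7] at h5
        exact h5
    have hclose : ∀ (k l : ℤ), |k - l| < d → x k * x l = x l * x k := by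
      intro k l h
      rw [abs_lt] at h
      by_cases h1 : k ≤ l
      · exact hclose1 k l h1 (by omega)
      · exact (hclose1 l k (by omega) (by omega)).symm
    -- the commutator
    set c := x 1 * x (1 + d) * (x 1)⁻¹ * (x (1 + d))⁻¹ with hc
    have hc1 : c ≠ 1 := by
      intro h
      apply hdc
      rw [hc] at h
      have h2 : x 1 * x (1 + d) = (x 1 * x (1 + d) * (x 1)⁻¹ * (x (1 + d))⁻¹) * (x (1 + d) * x 1) := by
        group
      rw [h2, h, one_mul]
    have hcU : c ∈ U σ P t 2 d := by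
      have h1 := comm_mem S (u := 1) (v := 1 + d) (by omega) (by push_cast; omega)
        (e := x 1) (a := (x (1 + d))⁻¹) (hxU _ _ _ le_rfl (by omega))
        (Subgroup.inv_mem _ (hxU _ _ _ (by omega) le_rfl))
        (Or.inr (Subgroup.inv_mem _ (hxU _ _ _ (by omega) le_rfl)))
        (Or.inl (hxU _ _ _ le_rfl (by omega)))
      rw [inv_inv] at h1
      have h2 : (1 : ℤ) + 1 = 2 := by norm_num
      have h3 : (1 : ℤ) + d - 1 = d := by omega
      rwa [h2, h3] at h1
    have hd2 : 2 ≤ d := by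
      by_contra hcon
      have h1 : d = 1 := by omega
      rw [h1] at hcU
      have h2 := U_bot S (u := 2) (p := p) (t := t) (σ := σ) (P := P)
      have h3 : (2 : ℤ) - 1 = ((1 : ℕ) : ℤ) := by norm_num
      rw [h3] at h2
      rw [h2] at hcU
      exact hc1 hcU
    -- claim L
    have claimL : ∀ s : ℕ, 1 ≤ s → s < d → d + s + 1 ≤ t →
        c * x (1 + d + s) = x (1 + d + s) * c := by
      intro s hs1 hsd hst
      have hv : x (1 + d + s) * (x 1)⁻¹ * (x (1 + d + s))⁻¹ * x 1 ∈ U σ P t 2 (d + s) := by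
        have h1 := comm_mem S (u := 1) (v := 1 + d + s) (by omega) (by push_cast; omega)
          (e := x (1 + d + s)) (a := x 1) (hxU _ _ _ (by omega) le_rfl)
          (hxU _ _ _ le_rfl (by omega))
          (Or.inl (hxU _ _ _ (by omega) le_rfl))
          (Or.inr (hxU _ _ _ le_rfl (by omega)))
        have h2 : (1 : ℤ) + 1 = 2 := by norm_num
        have h3 : (1 : ℤ) + d + s - 1 = d + s := by omega
        rwa [h2, h3] at h1
      have hU : U σ P t 2 ((d : ℤ) + s) ≤ Subgroup.centralizer {x (1 + d)} := by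
        apply hle _ _ _ (by omega) (by omega)
        intro k h5 h6
        rw [Subgroup.mem_centralizer_singleton_iff]
        apply hclose
        rw [abs_lt]
        omega
      have hv2 := hU hv
      rw [Subgroup.mem_centralizer_singleton_iff] at hv2
      have heb : x (1 + d + s) * x (1 + d) = x (1 + d) * x (1 + d + s) := by
        apply hclose
        rw [abs_lt]
        omega
      have := comm_alg heb hv2
      exact this.symm
    -- claim R
    have claimR : ∀ s : ℕ, 1 ≤ s → s < d → d + s + 1 ≤ t →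
        c * x (1 - s) = x (1 - s) * c := by
      intro s hs1 hsd hst
      have hv : x (1 - s) * (x (1 + d))⁻¹ * (x (1 - s))⁻¹ * x (1 + d) ∈ U σ P t (2 - s) d := by
        have h1 := comm_mem S (u := 1 - s) (v := 1 + d) (by omega) (by push_cast; omega)
          (e := x (1 - s)) (a := x (1 + d)) (hxU _ _ _ le_rfl (by omega))
          (hxU _ _ _ (by omega) le_rfl)
          (Or.inr (hxU _ _ _ (by omega) le_rfl))
          (Or.inl (hxU _ _ _ le_rfl (by omega)))
        have h2 : (1 : ℤ) - s + 1 = 2 - s := by omega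
        have h3 : (1 : ℤ) + d - 1 = d := by omega
        rwa [h2, h3] at h1
      have hU : U σ P t (2 - s) d ≤ Subgroup.centralizer {x 1} := by
        apply hle _ _ _ (by omega) (by omega)
        intro k h5 h6
        rw [Subgroup.mem_centralizer_singleton_iff]
        apply hclose
        rw [abs_lt]
        omega
      have hv2 := hU hv
      rw [Subgroup.mem_centralizer_singleton_iff] at hv2
      have heb : x (1 - s) * x 1 = x 1 * x (1 - s) := by
        apply hclose
        rw [abs_lt]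
        omega
      have h4 := comm_alg heb hv2
      have h5 : x (1 + d) * x 1 * (x (1 + d))⁻¹ * (x 1)⁻¹ = c⁻¹ := by
        rw [hc]; group
      rw [h5] at h4
      -- `e * c⁻¹ = c⁻¹ * e`
      have h6 : c * (x (1 - s) * c⁻¹) * c = c * (c⁻¹ * x (1 - s)) * c := by rw [h4]
      have h7 : c * (x (1 - s) * c⁻¹) * c = c * x (1 - s) := by group
      have h8 : c * (c⁻¹ * x (1 - s)) * c = x (1 - s) * c := by group
      rw [h7, h8] at h6
      exact h6
    -- leading position
    have hQ : ∃ r : ℕ, c ∉ U σ P t (2 + r) d := by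
      refine ⟨d - 1, ?_⟩
      have h1 : (2 : ℤ) + ((d - 1 : ℕ) : ℤ) = d + 1 := by omega
      rw [h1]
      have h2 : U σ P t ((d : ℤ) + 1) d = ⊥ := by
        have := U_bot S (u := (d : ℤ) + 1) (p := p) (t := t) (σ := σ) (P := P)
        simpa using this
      rw [h2]
      exact hc1
    set i := Nat.find hQ with hi
    have hi1 : c ∉ U σ P t (2 + i) d := Nat.find_spec hQ
    have hi0 : i ≠ 0 := by
      intro h0
      rw [h0] at hi1
      exact hi1 (by simpa using hcU)
    have hi2 : c ∈ U σ P t (1 + i) d := by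
      have h1 := Nat.find_min hQ (m := i - 1) (by omega)
      push Not at h1
      have h2 : (2 : ℤ) + ((i - 1 : ℕ) : ℤ) = 1 + i := by omega
      rwa [h2] at h1
    have hid : i ≤ d - 1 := by
      apply Nat.find_min'
      have h1 : (2 : ℤ) + ((d - 1 : ℕ) : ℤ) = d + 1 := by omega
      rw [h1]
      have h2 : U σ P t ((d : ℤ) + 1) d = ⊥ := by
        have := U_bot S (u := (d : ℤ) + 1) (p := p) (t := t) (σ := σ) (P := P)
        simpa using this
      rw [h2]
      exact hc1
    -- trailing position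
    have hQ' : ∃ r : ℕ, c ∉ U σ P t 2 ((d : ℤ) - r) := by
      refine ⟨d - 1, ?_⟩
      have h1 : (d : ℤ) - ((d - 1 : ℕ) : ℤ) = 2 - 1 := by omega
      rw [h1, U_bot S]
      exact hc1
    set r1 := Nat.find hQ' with hr1
    have hr11 : c ∉ U σ P t 2 ((d : ℤ) - r1) := Nat.find_spec hQ'
    have hr10 : r1 ≠ 0 := by
      intro h0
      rw [h0] at hr11
      exact hr11 (by simpa using hcU)
    have hr12 : c ∈ U σ P t 2 ((d : ℤ) - r1 + 1) := by
      have h1 := Nat.find_min hQ' (m := r1 - 1) (by omega)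
      push Not at h1
      have h2 : (d : ℤ) - ((r1 - 1 : ℕ) : ℤ) = (d : ℤ) - r1 + 1 := by omega
      rwa [h2] at h1
    have hr1d : r1 ≤ d - 1 := by
      apply Nat.find_min'
      have h1 : (d : ℤ) - ((d - 1 : ℕ) : ℤ) = 2 - 1 := by omega
      rw [h1, U_bot S]
      exact hc1
    -- the three inequalities
    have hL : t ≤ d + i := by
      by_contra hcon
      have hst : d + i + 1 ≤ t := by omega
      have h1 := claimL i (by omega) (by omega) hst
      have hAC : U σ P t (2 + i) d ≤ Subgroup.centralizer {x (1 + d + i)} := by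
        apply hle _ _ _ (by omega) (by omega)
        intro k h5 h6
        rw [Subgroup.mem_centralizer_singleton_iff]
        apply hclose
        rw [abs_lt]
        omega
      have hcard := card_U_left S hp (u := 1 + i) (v := d) (by omega) (by omega)
      have h2 : (1 : ℤ) + i + 1 = 2 + i := by omega
      rw [h2] at hcard
      have hBC := le_of_card_step hp (U_mono (by omega) le_rfl) hcard hAC hi2 hi1
        (by rw [Subgroup.mem_centralizer_singleton_iff]; exact h1)
      have h3 := hBC (hxU (1 + i) (1 + i) d le_rfl (by omega))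
      rw [Subgroup.mem_centralizer_singleton_iff] at h3
      have h4 := Cm_shift (σ := σ) (a := a) h3 (-(i : ℤ))
      have h5 : (1 : ℤ) + i + -(i : ℤ) = 1 := by omega
      have h6 : (1 : ℤ) + d + i + -(i : ℤ) = 1 + d := by omega
      rw [h5, h6] at h4
      exact hdc h4
    have hR : t ≤ d + r1 := by
      by_contra hcon
      have hst : d + r1 + 1 ≤ t := by omega
      have h1 := claimR r1 (by omega) (by omega) hst
      have hAC : U σ P t 2 ((d : ℤ) - r1) ≤ Subgroup.centralizer {x (1 - r1)} := by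
        apply hle _ _ _ (by omega) (by omega)
        intro k h5 h6
        rw [Subgroup.mem_centralizer_singleton_iff]
        apply hclose
        rw [abs_lt]
        omega
      have hcard := card_U_right S hp (u := 2) (v := (d : ℤ) - r1 + 1) (by omega) (by omega)
      have h2 : (d : ℤ) - r1 + 1 - 1 = (d : ℤ) - r1 := by omega
      rw [h2] at hcard
      have hBC := le_of_card_step hp (U_mono le_rfl (by omega)) hcard hAC hr12 hr11
        (by rw [Subgroup.mem_centralizer_singleton_iff]; exact h1)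
      have h3 := hBC (hxU ((d : ℤ) - r1 + 1) 2 _ (by omega) le_rfl)
      rw [Subgroup.mem_centralizer_singleton_iff] at h3
      have h4 := Cm_shift (σ := σ) (a := a) h3 ((r1 : ℤ) - d)
      have h5 : (d : ℤ) - r1 + 1 + ((r1 : ℤ) - d) = 1 := by omega
      have h6 : (1 : ℤ) - r1 + ((r1 : ℤ) - d) = 1 - d := by omega
      rw [h5, h6] at h4
      -- `x 1` and `x (1 - d)` do not commute
      have h7 := Cm_shift (σ := σ) (a := a) h4 (d : ℤ)
      have h8 : (1 : ℤ) + d = 1 + d := rfl
      have h9 : (1 : ℤ) - d + d = 1 := by omega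
      rw [h9] at h7
      exact hdc h7.symm
    have hij : i + r1 ≤ d := by
      by_contra hcon
      apply hc1
      refine U_inf_eq_one S (u1 := 1 + i) (v1 := d) (u2 := 2) (v2 := (d : ℤ) - r1 + 1) ?_ ?_ hi2 hr12
      · omega
      · omega
    -- centrality
    have hfin : 2 * d ≤ n + t := by
      by_contra hcon
      apply hcen d (by omega) (by omega)
      intro m hm k h1 h2
      apply hclose
      rw [abs_lt]
      omega
    constructor
    · omega
    · omega
  · push Not at hex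
    have hclose1 : ∀ (k l : ℤ), k ≤ l → l - k < t → x k * x l = x l * x k := by
      intro k l h1 h2
      by_cases h3 : k = l
      · rw [h3]
      · have h4 := hex (l - k).toNat (by omega) (by omega)
        have h5 := Cm_shift (σ := σ) (a := a) h4 (k - 1)
        have h6 : (1 : ℤ) + (k - 1) = k := by omega
        have h7 : (1 : ℤ) + ((l - k).toNat : ℤ) + (k - 1) = l := by omega
        rw [h6, h7] at h5
        exact h5
    have hnt : t ≤ n := by
      by_contra hcon
      apply hcen t (by omega) le_rfl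
      intro m hm k h1 h2
      by_cases h3 : k ≤ t
      · exact hclose1 k t h3 (by omega)
      · exact (hclose1 t k (by omega) (by omega)).symm
    constructor
    · omega
    · omega

end Intervals

section PGroup

/-- The `p`-group step. -/
theorem isPGroup_of {p : ℕ} (hp : p.Prime) (σ : MulAut G) (P : Subgroup G)
    (hN : ((P ⊓ σ • P).subgroupOf (σ • P)).Normal) (hidx : (P ⊓ σ • P).relIndex (σ • P) = p)
    (h1 : ∀ Q : Subgroup G, Q ≤ P → (Q.subgroupOf P).Normal → σ • Q = Q → Q = ⊥) : IsPGroup p P := by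
  have hmemP : ∀ x ∈ σ • P, (orderOf x).Coprime p → x ∈ P := by
    intro x hx hco
    set B := σ • P with hB
    let x' : B := ⟨x, hx⟩
    haveI := hN
    have hc : Nat.card (↥B ⧸ (P ⊓ B).subgroupOf B) = p := hidx
    have h2 : ((x' : ↥B ⧸ (P ⊓ B).subgroupOf B)) ^ p = 1 := by
      rw [← hc]
      exact pow_card_eq_one'
    have h3 : x' ^ p ∈ (P ⊓ B).subgroupOf B := by
      rw [← QuotientGroup.eq_one_iff]
      exact h2
    rw [Subgroup.mem_subgroupOf] at h3
    have h4 : x ^ p ∈ P := by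
      have h5 := h3.1
      simpa [x'] using h5
    obtain ⟨m, hm⟩ := exists_pow_eq_self_of_coprime hco.symm
    rw [← hm]
    exact P.pow_mem h4 m
  set W := Subgroup.closure {x : G | x ∈ P ∧ (orderOf x).Coprime p} with hW
  have hWP : W ≤ P := by
    rw [hW, Subgroup.closure_le]
    intro x hx
    exact hx.1
  have hWn : (W.subgroupOf P).Normal := by
    constructor
    intro n hn g
    rw [Subgroup.mem_subgroupOf] at hn ⊢
    push_cast
    refine Subgroup.closure_induction (p := fun y _ => (g : G) * y * (g : G)⁻¹ ∈ W) ?_ ?_ ?_ ?_ hn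
    · intro y hy
      apply Subgroup.subset_closure
      refine ⟨P.mul_mem (P.mul_mem g.2 hy.1) (P.inv_mem g.2), ?_⟩
      have h3 : orderOf ((g : G) * y * (g : G)⁻¹) = orderOf y :=
        orderOf_injective (MulAut.conj (g : G)).toMonoidHom (MulEquiv.injective _) y
      rw [h3]
      exact hy.2
    · simp
    · intro a b _ _ ha hb
      have h3 : (g : G) * (a * b) * (g : G)⁻¹ = ((g : G) * a * (g : G)⁻¹) * ((g : G) * b * (g : G)⁻¹) := by
        group
      rw [h3]
      exact W.mul_mem ha hb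
    · intro a _ ha
      have h3 : (g : G) * a⁻¹ * (g : G)⁻¹ = ((g : G) * a * (g : G)⁻¹)⁻¹ := by group
      rw [h3]
      exact W.inv_mem ha
  have hσW : σ • W = W := by
    have hsub : ∀ y ∈ W, σ • y ∈ W := by
      intro y hy
      refine Subgroup.closure_induction (p := fun y _ => σ • y ∈ W) ?_ ?_ ?_ ?_ hy
      · intro y hy
        apply Subgroup.subset_closure
        have h3 : orderOf (σ • y) = orderOf y :=
          orderOf_injective (σ : G →* G) (MulEquiv.injective σ) y
        refine ⟨hmemP _ (Subgroup.smul_mem_pointwise_smul _ _ _ hy.1) ?_, ?_⟩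
        · rw [h3]; exact hy.2
        · rw [h3]; exact hy.2
      · rw [smul_one]; exact W.one_mem
      · intro a b _ _ ha hb
        rw [smul_mul']
        exact W.mul_mem ha hb
      · intro a _ ha
        rw [smul_inv']
        exact W.inv_mem ha
    apply Subgroup.eq_of_le_of_card_ge
    · intro x hx
      obtain ⟨y, hy, rfl⟩ := Subgroup.mem_smul_pointwise_iff_exists _ _ _ |>.mp hx
      exact hsub y hy
    · rw [card_zpow_smul]
  have hWbot := h1 W hWP hWn hσW
  rintro ⟨x, hx⟩
  have ho : orderOf x ≠ 0 := (orderOf_pos x).ne'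
  obtain ⟨e, m, hm, hem⟩ := Nat.exists_eq_pow_mul_and_not_dvd ho p hp.ne_one
  refine ⟨e, ?_⟩
  have hdvd : p ^ e ∣ orderOf x := ⟨m, hem⟩
  have hord : orderOf (x ^ p ^ e) = m := by
    rw [orderOf_pow_of_dvd (pow_ne_zero _ hp.ne_zero) hdvd, hem]
    exact Nat.mul_div_cancel_left _ (pow_pos hp.pos _)
  have hy : x ^ p ^ e ∈ W := by
    apply Subgroup.subset_closure
    refine ⟨P.pow_mem hx _, ?_⟩
    rw [hord]
    exact ((Nat.Prime.coprime_iff_not_dvd hp).mpr hm).symm
  rw [hWbot, Subgroup.mem_bot] at hy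
  exact Subtype.ext hy

end PGroup

/-- The full statement in terms of an automorphism. -/
theorem chain_bound {p : ℕ} (hp : p.Prime) (σ : MulAut G) (P : Subgroup G)
    (hN : ((P ⊓ σ • P).subgroupOf (σ • P)).Normal) (hidx : (P ⊓ σ • P).relIndex (σ • P) = p)
    (h1 : ∀ Q : Subgroup G, Q ≤ P → (Q.subgroupOf P).Normal → σ • Q = Q → Q = ⊥)
    (n : ℕ) (hn : 1 ≤ n)
    (hcent : ∀ z ∈ P, (∀ m : ℕ, m ≤ n → ∀ y ∈ Pz σ P m, z * y = y * z) → z = 1) :
    ∃ t : ℕ, Nat.card P = p ^ t ∧ 1 ≤ t ∧ t ≤ 3 * n ∧ t ≠ 3 * n - 1 := by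
  haveI hpf : Fact p.Prime := ⟨hp⟩
  have hPg := isPGroup_of hp σ P hN hidx h1
  have hstep : Nat.card ↥(σ • P) = p * Nat.card ↥(P ⊓ σ • P) := by
    have h := ((P ⊓ σ • P).subgroupOf (σ • P)).card_mul_index
    have hc : Nat.card ((P ⊓ σ • P).subgroupOf (σ • P)) = Nat.card ↥(P ⊓ σ • P) :=
      Nat.card_congr (Subgroup.subgroupOfEquivOfLe inf_le_right).toEquiv
    rw [hc] at h
    rw [← h, mul_comm]
    congr 1
  have hyp : Hyp σ P p := ⟨hPg, hstep, h1⟩
  obtain ⟨t, ht1, hc, hcard, hbot⟩ := exists_t hyp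
  have S : Sys σ P p t := ⟨ht1, hcard, hbot⟩
  obtain ⟨h3, h4⟩ := bound S n hn hcent
  exact ⟨t, hc, ht1, h3, h4⟩

end Cfsg.Agent.Lib.Components.ChainBound
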