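import Mathlib
import Cfsg.Agent.Lib.Components.Layer
import Cfsg.Agent.Lib.Components.Quasisimple

/-!
# Groups whose cyclic `p`-subgroups of equal order are conjugate: the layer is quasisimple.
-/

set_option autoImplicit false
set_option linter.style.haveILetI false
set_option linter.unusedSectionVars false

namespace Cfsg.Agent.Lib.Components.ConjCyclic

open Cfsg Cfsg.Agent.Lib.Components.Layer Cfsg.Agent.Lib.Components.Quasisimple
open scoped commutatorElement

universe u

variable {G : Type u} [Group G] [Finite G]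

/-- A component has a non-central `2`-element (Odd Order). -/
theorem exists_noncentral_two_element
    (hFT : ∀ (K : Type u) [Group K] [Finite K], Odd (Nat.card K) → Group.IsSolvable K)
    {L : Subgroup G} (hL : IsComponent L) :
    ∃ x ∈ L, (∃ a : ℕ, orderOf x = 2 ^ a) ∧ ∃ y ∈ L, x * y ≠ y * x := by
  classical
  have hq : IsQuasisimple ↥L := hL.2
  have hns := not_isSolvable_of_isQuasisimple hq
  have hev : ¬ Odd (Nat.card (↥L ⧸ Subgroup.center ↥L)) := by
    intro hodd
    haveI h1 := hFT _ hodd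
    haveI h2 : Group.IsSolvable (Subgroup.center ↥L) :=
      Group.isSolvable_of_comm (fun a b => Subtype.ext (Subgroup.mem_center_iff.mp b.2 a.1))
    exact hns (Group.isSolvable_of_ker_le_range (Subgroup.center ↥L).subtype
      (QuotientGroup.mk' (Subgroup.center ↥L)) (by
        rw [QuotientGroup.ker_mk', Subgroup.range_subtype]))
  have h2 : 2 ∣ Nat.card (↥L ⧸ Subgroup.center ↥L) :=
    (Nat.not_odd_iff_even.mp hev).two_dvd
  haveI hp2 : Fact (Nat.Prime 2) := ⟨Nat.prime_two⟩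
  obtain ⟨xb, hxb⟩ := exists_prime_orderOf_dvd_card' 2 h2
  obtain ⟨x, rfl⟩ := QuotientGroup.mk'_surjective _ xb
  -- split the order of `x` into `2`-part and odd part
  have hpos : orderOf x ≠ 0 := (orderOf_pos x).ne'
  obtain ⟨a, m, hmodd, hm⟩ : ∃ a m : ℕ, ¬ 2 ∣ m ∧ orderOf x = 2 ^ a * m := by
    refine ⟨_, _, Nat.not_dvd_ordCompl Nat.prime_two hpos, (Nat.ordProj_mul_ordCompl_eq_self _ 2).symm⟩
  have hm0 : m ≠ 0 := by
    rintro rfl
    exact hmodd (dvd_zero 2)
  have hmodd' : Odd m := Nat.not_even_iff_odd.mp (fun h => hmodd h.two_dvd)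
  set y : ↥L := x ^ m with hy
  have hord : orderOf y = 2 ^ a := by
    rw [hy, orderOf_pow_of_dvd hm0 (by rw [hm]; exact dvd_mul_left _ _), hm]
    exact Nat.mul_div_cancel _ (Nat.pos_of_ne_zero hm0)
  have hyb : QuotientGroup.mk' (Subgroup.center ↥L) y = QuotientGroup.mk' (Subgroup.center ↥L) x := by
    rw [hy, map_pow]
    obtain ⟨k, hk⟩ := hmodd'
    rw [hk, pow_succ, pow_mul]
    have : (QuotientGroup.mk' (Subgroup.center ↥L) x) ^ 2 = 1 := by
      rw [← hxb]; exact pow_orderOf_eq_one _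
    rw [this, one_pow, one_mul]
  have hyne : y ∉ Subgroup.center ↥L := by
    intro hc
    have h1 : QuotientGroup.mk' (Subgroup.center ↥L) y = 1 := (QuotientGroup.eq_one_iff y).mpr hc
    rw [hyb] at h1
    rw [h1, orderOf_one] at hxb
    omega
  rw [Subgroup.mem_center_iff] at hyne
  push Not at hyne
  obtain ⟨z, hz⟩ := hyne
  refine ⟨y.1, y.2, ⟨a, ?_⟩, z.1, z.2, ?_⟩
  · rw [Subgroup.orderOf_coe]; exact hord
  · intro h
    apply hz
    apply Subtype.ext
    exact h.symm

/-- The key step: two distinct components cannot have commuting non-central `2`-elements. -/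
theorem no_two_components_aux
    (hP : ∀ (p : ℕ), p.Prime → ∀ A B : Subgroup G, IsCyclic ↥A → IsCyclic ↥B → IsPGroup p ↥A →
      Nat.card ↥A = Nat.card ↥B → ∃ g : G, B = A.map (MulAut.conj g).toMonoidHom)
    {L₁ L₂ : Subgroup G} (h₁ : IsComponent L₁) (h₂ : IsComponent L₂) (hne : L₁ ≠ L₂)
    {x y : G} (hx : x ∈ L₁) (hy : y ∈ L₂) {a b : ℕ} (hxo : orderOf x = 2 ^ a) (hyo : orderOf y = 2 ^ b)
    (hba : b ≤ a) (hxc : ∃ s ∈ L₁, x * s ≠ s * x) (hyc : ∃ s ∈ L₂, y * s ≠ s * y) : False := by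
  classical
  have hcomm : ∀ {L M : Subgroup G}, ⁅L, M⁆ = ⊥ → ∀ u ∈ L, ∀ v ∈ M, u * v = v * u := by
    intro L M h u hu v hv
    have h1 : ⁅u, v⁆ ∈ ⁅L, M⁆ := Subgroup.commutator_mem_commutator hu hv
    rw [h, Subgroup.mem_bot, commutatorElement_eq_one_iff_mul_comm] at h1
    exact h1
  have h12 : ⁅L₁, L₂⁆ = ⊥ := by
    rcases eq_or_commutator_eq_bot h₁ h₂ with h | h
    · exact absurd h hne
    · exact h
  have hxy : x * y = y * x := hcomm h12 x hx y hy
  set w : G := x * y with hw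
  have hxy' : Commute x y := hxy
  have hwpow : w ^ (2 ^ a) = 1 := by
    rw [hw, hxy'.mul_pow, ← hxo, pow_orderOf_eq_one, one_mul]
    exact orderOf_dvd_iff_pow_eq_one.mp (by rw [hyo, hxo]; exact pow_dvd_pow 2 hba)
  have hwo : orderOf w ∣ 2 ^ a := orderOf_dvd_of_pow_eq_one hwpow
  obtain ⟨c, hca, hc⟩ := (Nat.dvd_prime_pow Nat.prime_two).mp hwo
  -- the power of `x` with the order of `w`
  set x' : G := x ^ (2 ^ (a - c)) with hx'
  have hx'o : orderOf x' = 2 ^ c := by
    rw [hx', orderOf_pow_of_dvd (pow_ne_zero _ (by norm_num)) (by rw [hxo]; exact pow_dvd_pow 2 (by omega)), hxo]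
    rw [Nat.pow_div (by omega) (by norm_num)]
    congr 1
    omega
  have hA : IsCyclic (Subgroup.zpowers x') := inferInstance
  have hB : IsCyclic (Subgroup.zpowers w) := inferInstance
  have hAp : IsPGroup 2 (Subgroup.zpowers x') := by
    intro z
    obtain ⟨k, hk⟩ := (Subgroup.mem_zpowers_iff).mp z.2
    refine ⟨c, ?_⟩
    apply Subtype.ext
    show z.1 ^ (2 ^ c) = 1
    rw [← hk, ← zpow_natCast, zpow_comm, zpow_natCast, ← hx'o, pow_orderOf_eq_one, one_zpow]
  have hcard : Nat.card (Subgroup.zpowers x') = Nat.card (Subgroup.zpowers w) := by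
    rw [Nat.card_zpowers, Nat.card_zpowers, hx'o, hc]
  obtain ⟨g, hg⟩ := hP 2 Nat.prime_two _ _ hA hB hAp hcard
  set L₃ : Subgroup G := L₁.map (MulAut.conj g).toMonoidHom with hL₃
  have h₃ : IsComponent L₃ := isComponent_conj g h₁
  have hx'L : x' ∈ L₁ := L₁.pow_mem hx _
  have hwL₃ : w ∈ L₃ := by
    have h1 : w ∈ Subgroup.zpowers w := Subgroup.mem_zpowers w
    rw [hg] at h1
    obtain ⟨u, hu, huu⟩ := h1
    refine ⟨u, ?_, huu⟩
    have : Subgroup.zpowers x' ≤ L₁ := by
      rw [Subgroup.zpowers_le]; exact hx'L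
    exact this hu
  rcases eq_or_commutator_eq_bot h₃ h₁ with h31 | h31
  · -- `w ∈ L₁`, so `y ∈ L₁` is central in `L₂`
    rw [h31] at hwL₃
    have hyL₁ : y ∈ L₁ := by
      have : y = x⁻¹ * w := by rw [hw]; group
      rw [this]
      exact L₁.mul_mem (L₁.inv_mem hx) hwL₃
    obtain ⟨s, hs, hss⟩ := hyc
    exact hss (hcomm h12 y hyL₁ s hs)
  · -- `w` commutes with `L₁`, as does `y`; so `x` is central in `L₁`
    obtain ⟨s, hs, hss⟩ := hxc
    apply hss
    have h1 : w * s = s * w := hcomm h31 w hwL₃ s hs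
    have h2 : y * s = s * y := (hcomm h12 s hs y hy).symm
    have : x * y * s = s * (x * y) := h1
    have h3 : x * s * y = s * x * y := by
      calc x * s * y = x * (s * y) := by group
        _ = x * (y * s) := by rw [h2]
        _ = s * (x * y) := by rw [← mul_assoc, this]
        _ = s * x * y := by group
    exact mul_right_cancel h3

theorem component_unique
    (hFT : ∀ (K : Type u) [Group K] [Finite K], Odd (Nat.card K) → Group.IsSolvable K)
    (hP : ∀ (p : ℕ), p.Prime → ∀ A B : Subgroup G, IsCyclic ↥A → IsCyclic ↥B → IsPGroup p ↥A →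
      Nat.card ↥A = Nat.card ↥B → ∃ g : G, B = A.map (MulAut.conj g).toMonoidHom)
    {L₁ L₂ : Subgroup G} (h₁ : IsComponent L₁) (h₂ : IsComponent L₂) : L₁ = L₂ := by
  by_contra hne
  obtain ⟨x, hx, ⟨a, hxo⟩, hxc⟩ := exists_noncentral_two_element hFT h₁
  obtain ⟨y, hy, ⟨b, hyo⟩, hyc⟩ := exists_noncentral_two_element hFT h₂
  rcases le_total b a with h | h
  · exact no_two_components_aux hP h₁ h₂ hne hx hy hxo hyo h hxc hyc
  · exact no_two_components_aux hP h₂ h₁ (Ne.symm hne) hy hx hyo hxo h hyc hxc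

/-- **The layer is quasisimple.** -/
theorem layer_simple_quotient
    (hFT : ∀ (K : Type u) [Group K] [Finite K], Odd (Nat.card K) → Group.IsSolvable K)
    (hP : ∀ (p : ℕ), p.Prime → ∀ A B : Subgroup G, IsCyclic ↥A → IsCyclic ↥B → IsPGroup p ↥A →
      Nat.card ↥A = Nat.card ↥B → ∃ g : G, B = A.map (MulAut.conj g).toMonoidHom)
    (hE : Cfsg.layer G ≠ ⊥) :
    IsSimpleGroup (↥(Cfsg.layer G) ⧸ Subgroup.center ↥(Cfsg.layer G)) ∧
      ¬ IsMulCommutative (↥(Cfsg.layer G) ⧸ Subgroup.center ↥(Cfsg.layer G)) := by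
  have hex : ∃ L : Subgroup G, IsComponent L := by
    by_contra hno
    push Not at hno
    apply hE
    unfold Cfsg.layer
    rw [sSup_eq_bot]
    intro K hK
    exact absurd hK (hno K)
  obtain ⟨L, hL⟩ := hex
  have hlay : Cfsg.layer G = L := by
    apply le_antisymm
    · exact sSup_le (fun K hK => (component_unique hFT hP hK hL).le)
    · exact le_layer hL
  subst hlay
  have hq : IsQuasisimple ↥(Cfsg.layer G) := hL.2
  refine ⟨hq.2, ?_⟩
  intro hcomm
  haveI := hq.1
  haveI := hq.2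
  have h1 : ∀ u v : ↥(Cfsg.layer G), ⁅u, v⁆ ∈ Subgroup.center ↥(Cfsg.layer G) := by
    intro u v
    rw [← QuotientGroup.eq_one_iff]
    have : ((⁅u, v⁆ : ↥(Cfsg.layer G)) : ↥(Cfsg.layer G) ⧸ Subgroup.center ↥(Cfsg.layer G))
        = ⁅(u : ↥(Cfsg.layer G) ⧸ Subgroup.center ↥(Cfsg.layer G)), (v : ↥(Cfsg.layer G) ⧸ Subgroup.center ↥(Cfsg.layer G))⁆ := rfl
    rw [this, commutatorElement_eq_one_iff_mul_comm]
    exact hcomm.is_comm.comm _ _
  have h2 : commutator ↥(Cfsg.layer G) ≤ Subgroup.center ↥(Cfsg.layer G) := by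
    rw [commutator_def, Subgroup.commutator_le]
    intro u _ v _
    exact h1 u v
  have h3 : Subgroup.center ↥(Cfsg.layer G) = ⊤ := by
    rw [eq_top_iff, ← hq.1.commutator_eq_top]
    exact h2
  have h4 : Subsingleton (↥(Cfsg.layer G) ⧸ Subgroup.center ↥(Cfsg.layer G)) := by
    rw [h3]
    exact QuotientGroup.subsingleton_quotient_top
  exact not_subsingleton (↥(Cfsg.layer G) ⧸ Subgroup.center ↥(Cfsg.layer G)) h4

end Cfsg.Agent.Lib.Components.ConjCyclic
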