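/-
Automorphism groups of abelian `2`-groups generated by "transvections": the key step for essential
abelian subgroups with `Aut_S(P)` of order `2` (used for the Sylow `2`-subgroups of `GL₃`).
-/
import Mathlib

set_option autoImplicit false
set_option linter.style.haveILetI false

namespace Cfsg.Agent.Lib.Components.GL3A

variable {V : Type*} [Group V]

/-- An odd-order automorphism that is trivial on the involutions of a subgroup of commuting
`2`-elements is trivial on this subgroup. -/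
theorem fix_of_fix_sq (W : Subgroup V) (hc : ∀ x ∈ W, ∀ y ∈ W, x * y = y * x) (ρ : MulAut V) {n : ℕ}
    (hn : Odd n) (hρ : ρ ^ n = 1) (hW : ∀ v ∈ W, ρ v ∈ W)
    (h1 : ∀ v ∈ W, v ^ 2 = 1 → ρ v = v) :
    ∀ k : ℕ, ∀ v ∈ W, v ^ 2 ^ k = 1 → ρ v = v := by
  intro k
  induction k with
  | zero =>
    intro v _ hv
    have : v = 1 := by simpa using hv
    rw [this, map_one]
  | succ k ih =>
    intro v hv hvk
    have hv2 : ρ (v ^ 2) = v ^ 2 := by
      apply ih _ (W.pow_mem hv 2)
      rw [← pow_mul, mul_comm, ← pow_succ]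
      exact hvk
    set c := v⁻¹ * ρ v with hcdef
    have hcW : c ∈ W := W.mul_mem (W.inv_mem hv) (hW v hv)
    have hcc : c ^ 2 = 1 := by
      have h3 : ρ v * ρ v = v * v := by
        have : ρ (v ^ 2) = ρ v * ρ v := by rw [pow_two, map_mul]
        rw [← this, hv2, pow_two]
      have hcomm : v⁻¹ * ρ v = ρ v * v⁻¹ := hc _ (W.inv_mem hv) _ (hW v hv)
      rw [pow_two, hcdef]
      calc v⁻¹ * ρ v * (v⁻¹ * ρ v) = v⁻¹ * (ρ v * v⁻¹) * ρ v := by group
        _ = v⁻¹ * (v⁻¹ * ρ v) * ρ v := by rw [hcomm]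
        _ = v⁻¹ * v⁻¹ * (ρ v * ρ v) := by group
        _ = 1 := by rw [h3]; group
    have hfix : ρ c = c := h1 c hcW hcc
    have hv' : ρ v = v * c := by rw [hcdef]; group
    have hpow : ∀ m : ℕ, (ρ ^ m) v = v * c ^ m := by
      intro m
      induction m with
      | zero => simp
      | succ m ihm =>
        rw [pow_succ', MulAut.mul_apply, ihm, map_mul, map_pow, hfix, hv']
        rw [pow_succ', mul_assoc]
    have h4 := hpow n
    rw [hρ] at h4
    obtain ⟨m, rfl⟩ := hn
    have h5 : c ^ (2 * m + 1) = c := by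
      rw [pow_succ, pow_mul, hcc, one_pow, one_mul]
    rw [h5] at h4
    have h6 : v = v * c := h4
    have h7 : c = 1 := by simpa using h6.symm
    rw [hv', h7, mul_one]

/-- The order of elements of a finite `2`-group, in the form used above. -/
theorem exists_two_pow_eq_one [Finite V] (hV : IsPGroup 2 V) (v : V) : ∃ k : ℕ, v ^ 2 ^ k = 1 :=
  hV v

/-- An odd-order automorphism of a finite `2`-group with commuting elements that fixes all
involutions is trivial. -/
theorem eq_one_of_fix_sq (hV : IsPGroup 2 V) (hc : ∀ x y : V, x * y = y * x) (ρ : MulAut V) {n : ℕ}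
    (hn : Odd n) (hρ : ρ ^ n = 1) (h1 : ∀ v : V, v ^ 2 = 1 → ρ v = v) : ρ = 1 := by
  ext v
  obtain ⟨k, hk⟩ := hV v
  exact fix_of_fix_sq ⊤ (fun x _ y _ => hc x y) ρ hn hρ (fun _ _ => trivial) (fun v _ hv => h1 v hv)
    k v trivial hk

/-- If an odd-order automorphism moves `w` by a fixed element `c` of order at most `2`, then `c = 1`. -/
theorem eq_one_of_step (ρ : MulAut V) {m : ℕ} (hm : Odd m) (hρ : ρ ^ m = 1) {w c : V}
    (hw : ρ w = w * c) (hc : ρ c = c) (hcc : c ^ 2 = 1) : c = 1 := by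
  have hpow : ∀ k : ℕ, (ρ ^ k) w = w * c ^ k := by
    intro k
    induction k with
    | zero => simp
    | succ k ih =>
      rw [pow_succ', MulAut.mul_apply, ih, map_mul, map_pow, hc, hw]
      rw [pow_succ', mul_assoc]
  have h4 := hpow m
  rw [hρ] at h4
  obtain ⟨k, rfl⟩ := hm
  have h5 : c ^ (2 * k + 1) = c := by
    rw [pow_succ, pow_mul, hcc, one_pow, one_mul]
  rw [h5] at h4
  have h6 : w = w * c := h4
  simpa using h6.symm

/-- **The pair lemma.** Two "transvections" with centres `z₂`, `z₁` such that `z₁` lies in the axis of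
the first one generate a `2`-group. -/
theorem isPGroup_closure_pair [Finite V] (hV : IsPGroup 2 V) (hc : ∀ x y : V, x * y = y * x)
    {t₁ t₂ : MulAut V} {z₁ z₂ : V} (hz₁ : z₁ ^ 2 = 1) (hz₂ : z₂ ^ 2 = 1)
    (h11 : t₁ z₁ = z₁) (h12 : t₁ z₂ = z₂) (h21 : t₂ z₁ = z₁)
    (ht₁ : ∀ v : V, v ^ 2 = 1 → t₁ v = v ∨ t₁ v = v * z₂)
    (ht₂ : ∀ v : V, v ^ 2 = 1 → t₂ v = v ∨ t₂ v = v * z₁) :
    IsPGroup 2 (Subgroup.closure ({t₁, t₂} : Set (MulAut V))) := by
  classical
  haveI : Finite (MulAut V) := Finite.of_injective (fun α : MulAut V => (α : V → V))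
    (fun a b h => MulEquiv.ext (congrFun h))
  have hcc : ∀ e f : ℕ, (z₁ ^ e * z₂ ^ f) ^ 2 = 1 := by
    intro e f
    have h1 : (z₁ ^ e) ^ 2 = 1 := by rw [← pow_mul, mul_comm, pow_mul, hz₁, one_pow]
    have h2 : (z₂ ^ f) ^ 2 = 1 := by rw [← pow_mul, mul_comm, pow_mul, hz₂, one_pow]
    rw [pow_two, mul_assoc, ← mul_assoc (z₂ ^ f), hc (z₂ ^ f) (z₁ ^ e)]
    rw [mul_assoc, ← pow_two, h2, mul_one, ← pow_two, h1]
  -- the stability property
  let Pr : MulAut V → Prop := fun ρ => ρ z₁ = z₁ ∧ (ρ z₂ = z₂ ∨ ρ z₂ = z₂ * z₁) ∧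
    ∀ v : V, v ^ 2 = 1 → ∃ e f : ℕ, ρ v = v * (z₁ ^ e * z₂ ^ f)
  have hPr : ∀ ρ ∈ Subgroup.closure ({t₁, t₂} : Set (MulAut V)), Pr ρ := by
    intro ρ hρ
    induction hρ using Subgroup.closure_induction with
    | mem x hx =>
      rcases hx with rfl | hx
      · refine ⟨h11, Or.inl h12, fun v hv => ?_⟩
        rcases ht₁ v hv with h | h
        · exact ⟨0, 0, by simp [h]⟩
        · exact ⟨0, 1, by simp [h]⟩
      · rw [Set.mem_singleton_iff] at hx
        subst hx
        refine ⟨h21, ?_, fun v hv => ?_⟩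
        · exact ht₂ z₂ hz₂
        · rcases ht₂ v hv with h | h
          · exact ⟨0, 0, by simp [h]⟩
          · exact ⟨1, 0, by simp [h]⟩
    | one =>
      exact ⟨rfl, Or.inl rfl, fun v _ => ⟨0, 0, by simp⟩⟩
    | mul x y _ _ hx hy =>
      obtain ⟨hx1, hx2, hx3⟩ := hx
      obtain ⟨hy1, hy2, hy3⟩ := hy
      refine ⟨?_, ?_, fun v hv => ?_⟩
      · rw [MulAut.mul_apply, hy1, hx1]
      · rw [MulAut.mul_apply]
        rcases hy2 with h | h
        · rw [h]; exact hx2
        · rw [h, map_mul, hx1]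
          rcases hx2 with h' | h'
          · rw [h']; exact Or.inr rfl
          · rw [h', mul_assoc, ← pow_two, hz₁, mul_one]; exact Or.inl rfl
      · obtain ⟨e, f, h⟩ := hy3 v hv
        rw [MulAut.mul_apply, h, map_mul, map_mul, map_pow, map_pow, hx1]
        obtain ⟨e', f', h'⟩ := hx3 v hv
        rw [h']
        rcases hx2 with h2 | h2
        · rw [h2]
          refine ⟨e' + e, f' + f, ?_⟩
          rw [pow_add, pow_add]
          simp only [mul_assoc]
          congr 2
          rw [← mul_assoc, ← mul_assoc, hc (z₂ ^ f') (z₁ ^ e)]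
        · rw [h2, (show Commute z₂ z₁ from hc _ _).mul_pow]
          refine ⟨e' + e + f, f' + f, ?_⟩
          rw [pow_add, pow_add, pow_add]
          simp only [mul_assoc]
          congr 2
          have e1 : z₂ ^ f' * (z₁ ^ e * (z₂ ^ f * z₁ ^ f)) = z₁ ^ e * (z₁ ^ f * (z₂ ^ f' * z₂ ^ f)) := by
            rw [hc (z₂ ^ f) (z₁ ^ f), ← mul_assoc, ← mul_assoc, hc (z₂ ^ f') (z₁ ^ e)]
            simp only [mul_assoc]
            congr 1
            rw [← mul_assoc, ← mul_assoc, hc (z₂ ^ f') (z₁ ^ f)]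
          exact e1
    | inv x _ hx =>
      obtain ⟨hx1, hx2, hx3⟩ := hx
      have hinv : ∀ u w : V, x u = w → x⁻¹ w = u := by
        intro u w h
        rw [← h, MulAut.inv_apply_self]
      have hx1' : x⁻¹ z₁ = z₁ := hinv _ _ hx1
      refine ⟨hx1', ?_, fun v hv => ?_⟩
      · rcases hx2 with h | h
        · exact Or.inl (hinv _ _ h)
        · refine Or.inr (hinv _ _ ?_)
          rw [map_mul, h, hx1, mul_assoc, ← pow_two, hz₁, mul_one]
      · have hw : (x⁻¹ v) ^ 2 = 1 := by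
          rw [← map_pow, hv, map_one]
        obtain ⟨e, f, h⟩ := hx3 (x⁻¹ v) hw
        refine ⟨e, f, ?_⟩
        rw [MulAut.apply_inv_self] at h
        calc x⁻¹ v = x⁻¹ v * ((z₁ ^ e * z₂ ^ f) * (z₁ ^ e * z₂ ^ f)) := by
              rw [← pow_two, hcc, mul_one]
          _ = (x⁻¹ v * (z₁ ^ e * z₂ ^ f)) * (z₁ ^ e * z₂ ^ f) := (mul_assoc _ _ _).symm
          _ = v * (z₁ ^ e * z₂ ^ f) := by rw [← h]
  -- all elements have `2`-power order
  intro g
  have hg0 : orderOf (g : MulAut V) ≠ 0 := (orderOf_pos _).ne'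
  obtain ⟨k, m, hm, hord⟩ := Nat.exists_eq_two_pow_mul_odd hg0
  refine ⟨k, Subtype.ext ?_⟩
  set ρ : MulAut V := (g : MulAut V) ^ 2 ^ k with hρdef
  have hρm : ρ ^ m = 1 := by
    rw [hρdef, ← pow_mul, ← hord, pow_orderOf_eq_one]
  have hρc : ρ ∈ Subgroup.closure ({t₁, t₂} : Set (MulAut V)) := Subgroup.pow_mem _ g.2 _
  obtain ⟨h1, h2, h3⟩ := hPr ρ hρc
  have hfz₂ : ρ z₂ = z₂ := by
    rcases h2 with h | h
    · exact h
    · have := eq_one_of_step ρ hm hρm h h1 hz₁
      rw [h, this, mul_one]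
  have hρ1 : ρ = 1 := by
    apply eq_one_of_fix_sq hV hc ρ hm hρm
    intro v hv
    obtain ⟨e, f, h⟩ := h3 v hv
    have hfix : ρ (z₁ ^ e * z₂ ^ f) = z₁ ^ e * z₂ ^ f := by
      rw [map_mul, map_pow, map_pow, h1, hfz₂]
    have := eq_one_of_step ρ hm hρm h hfix (hcc e f)
    rw [h, this, mul_one]
  simpa [hρdef] using hρ1

theorem comm_of_conj_eq {x y w : V} (h : x * y * x⁻¹ = w) : x * y = w * x := by
  rw [← h]; group

section Main

variable [Finite V] (hV : IsPGroup 2 V) (hc : ∀ x y : V, x * y = y * x)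
  {L : Subgroup (MulAut V)} {τ α : MulAut V} {z a : V}

/-- Data for a transvection `τ` in a group `L` of automorphisms with Sylow `2`-subgroups of order `2`. -/
structure Tv (L : Subgroup (MulAut V)) (τ : MulAut V) (z a : V) : Prop where
  τL : τ ∈ L
  ττ : τ * τ = 1
  zz : z ^ 2 = 1
  τz : τ z = z
  tv : ∀ v : V, v ^ 2 = 1 → τ v = v ∨ τ v = v * z
  fix : ∀ v : V, v ^ 2 = 1 → τ v = v → v = 1 ∨ v = a ∨ v = z ∨ v = a * z
  syl : ∀ K : Subgroup (MulAut V), K ≤ L → IsPGroup 2 K → Nat.card K ≤ 2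

variable (T : Tv L τ z a)

include T in
/-- A conjugate of `τ` is a transvection with centre the conjugate of `z`. -/
theorem Tv.conj_tv (β : MulAut V) (v : V) (hv : v ^ 2 = 1) :
    (β * τ * β⁻¹) v = v ∨ (β * τ * β⁻¹) v = v * β z := by
  have hw : (β⁻¹ v) ^ 2 = 1 := by rw [← map_pow, hv, map_one]
  simp only [MulAut.mul_apply]
  rcases T.tv _ hw with h | h
  · left
    rw [h, MulAut.apply_inv_self]
  · right
    rw [h, map_mul, MulAut.apply_inv_self]

include T in
theorem Tv.conj_fix (β : MulAut V) : (β * τ * β⁻¹) (β z) = β z := by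
  simp only [MulAut.mul_apply, MulAut.inv_apply_self, T.τz]

include T in
theorem Tv.conj_mem {β : MulAut V} (hβ : β ∈ L) : β * τ * β⁻¹ ∈ L :=
  L.mul_mem (L.mul_mem hβ T.τL) (L.inv_mem hβ)

include T in
theorem Tv.sq_center (β : MulAut V) : (β z) ^ 2 = 1 := by
  rw [← map_pow, T.zz, map_one]

include T in
/-- Two distinct elements of a `2`-subgroup of `L` cannot both be nontrivial. -/
theorem Tv.eq_of_card {K : Subgroup (MulAut V)} (hK : K ≤ L) (hp : IsPGroup 2 K) {x y : MulAut V}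
    (hx : x ∈ K) (hy : y ∈ K) (hx1 : x ≠ 1) (hy1 : y ≠ 1) : x = y := by
  classical
  haveI : Finite (MulAut V) := Finite.of_injective (fun α : MulAut V => (α : V → V))
    (fun a b h => MulEquiv.ext (congrFun h))
  by_contra hne
  have hcard := T.syl K hK hp
  have h3 : 3 ≤ Nat.card K := by
    have hsub : ({⟨1, K.one_mem⟩, ⟨x, hx⟩, ⟨y, hy⟩} : Finset K).card = 3 := by
      rw [Finset.card_insert_of_notMem, Finset.card_insert_of_notMem, Finset.card_singleton]
      · simp only [Finset.mem_singleton, Subtype.mk.injEq]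
        exact hne
      · simp only [Finset.mem_insert, Finset.mem_singleton, Subtype.mk.injEq, not_or]
        exact ⟨hx1.symm, hy1.symm⟩
    rw [← hsub]
    haveI : Fintype K := Fintype.ofFinite K
    rw [Nat.card_eq_fintype_card]
    exact Finset.card_le_univ _
  omega

include hV hc T in
/-- **Key step**: if the centre of one conjugate of `τ` lies in the axis of another one, they agree. -/
theorem Tv.conj_eq_of_fix {β γ : MulAut V} (hβ : β ∈ L) (hγ : γ ∈ L) (hτ1 : τ ≠ 1)
    (h : (γ * τ * γ⁻¹) (β z) = β z) : β * τ * β⁻¹ = γ * τ * γ⁻¹ := by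
  have hp := isPGroup_closure_pair hV hc (t₁ := γ * τ * γ⁻¹) (t₂ := β * τ * β⁻¹) (z₁ := β z)
    (z₂ := γ z) (T.sq_center β) (T.sq_center γ) h (T.conj_fix γ) (T.conj_fix β) (T.conj_tv γ)
    (T.conj_tv β)
  have hK : Subgroup.closure ({γ * τ * γ⁻¹, β * τ * β⁻¹} : Set (MulAut V)) ≤ L := by
    rw [Subgroup.closure_le]
    rintro _ (rfl | h')
    · exact T.conj_mem hγ
    · rw [Set.mem_singleton_iff] at h'
      subst h'
      exact T.conj_mem hβ
  have hne : ∀ δ : MulAut V, δ * τ * δ⁻¹ ≠ 1 := by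
    intro δ h1
    apply hτ1
    have : τ = δ⁻¹ * (δ * τ * δ⁻¹) * δ := by group
    rw [this, h1]
    group
  exact T.eq_of_card hK hp (Subgroup.subset_closure (Or.inr rfl)) (Subgroup.subset_closure (Or.inl rfl))
    (hne β) (hne γ)

include T in
theorem Tv.τ_inv : τ⁻¹ = τ := inv_eq_of_mul_eq_one_left T.ττ

variable (hα : α ∈ L) (hn : ¬ IsPGroup 2 (Subgroup.closure ({τ, α * τ * α⁻¹} : Set (MulAut V))))

include T in
theorem Tv.closure_self_isPGroup : IsPGroup 2 (Subgroup.closure ({τ, τ} : Set (MulAut V))) := by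
  haveI : Finite (MulAut V) := Finite.of_injective (fun α : MulAut V => (α : V → V))
    (fun a b h => MulEquiv.ext (congrFun h))
  have e : Subgroup.closure ({τ, τ} : Set (MulAut V)) = Subgroup.zpowers τ := by
    rw [Set.pair_eq_singleton, Subgroup.zpowers_eq_closure]
  rw [e]
  refine IsPGroup.of_card (n := (orderOf τ).log2) ?_
  have h2 : τ ^ 2 = 1 := by rw [pow_two, T.ττ]
  rw [Nat.card_zpowers]
  rcases (Nat.dvd_prime Nat.prime_two).1 (orderOf_dvd_of_pow_eq_one h2) with h | h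
  · rw [h]; rfl
  · rw [h]; rfl

include T hn in
theorem Tv.ne_one : τ ≠ 1 := by
  rintro rfl
  apply hn
  have e : ({1, α * 1 * α⁻¹} : Set (MulAut V)) = {1} := by
    simp
  rw [e, Subgroup.closure_singleton_one]
  exact IsPGroup.of_bot

include T hn in
theorem Tv.ne_conj : α * τ * α⁻¹ ≠ τ := by
  intro h
  apply hn
  rw [h]
  exact T.closure_self_isPGroup

include hV hc T hα hn in
theorem Tv.moves_z' : τ (α z) = α z * z := by
  rcases T.tv _ (T.sq_center α) with h | h
  · exfalso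
    apply T.ne_conj hn
    have := T.conj_eq_of_fix hV hc (β := α) (γ := 1) hα L.one_mem (T.ne_one hn) (by simpa using h)
    simpa using this
  · exact h

include hV hc T hα hn in
theorem Tv.moves_z : (α * τ * α⁻¹) z = z * α z := by
  rcases T.conj_tv α z T.zz with h | h
  · exfalso
    apply T.ne_conj hn
    have := T.conj_eq_of_fix hV hc (β := 1) (γ := α) L.one_mem hα (T.ne_one hn) (by simpa using h)
    simpa using this.symm
  · exact h

include hV hc T hα hn in
theorem Tv.z_ne_one : z ≠ 1 := by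
  intro h
  have h1 := T.moves_z' hV hc hα hn
  rw [h, mul_one] at h1
  have h2 := T.moves_z hV hc hα hn
  rw [h, one_mul, map_one, map_one] at h2
  have h3 := T.conj_eq_of_fix hV hc (β := α) (γ := 1) hα L.one_mem (T.ne_one hn)
    (by rw [one_mul, inv_one, mul_one, h, map_one, map_one])
  apply T.ne_conj hn
  simpa using h3

include hV hc T hα hn in
/-- The conjugates of `τ` in `L`. -/
theorem Tv.conj_cases {β : MulAut V} (hβ : β ∈ L) :
    β * τ * β⁻¹ = τ ∨ β * τ * β⁻¹ = α * τ * α⁻¹ ∨ β * τ * β⁻¹ = τ * (α * τ * α⁻¹) * τ := by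
  have hτ1 := T.ne_one hn
  rcases T.tv _ (T.sq_center β) with h | h
  · left
    have := T.conj_eq_of_fix hV hc (β := β) (γ := 1) hβ L.one_mem hτ1 (by simpa using h)
    simpa using this
  rcases T.conj_tv α _ (T.sq_center β) with h' | h'
  · right; left
    exact T.conj_eq_of_fix hV hc hβ hα hτ1 h'
  · right; right
    have hτα : τ * α ∈ L := L.mul_mem T.τL hα
    have e : (τ * α) * τ * (τ * α)⁻¹ = τ * (α * τ * α⁻¹) * τ := by
      rw [mul_inv_rev, T.τ_inv]
      group
    rw [← e]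
    apply T.conj_eq_of_fix hV hc hβ hτα hτ1
    rw [e]
    simp only [MulAut.mul_apply] at h' ⊢
    have hz1 := T.moves_z hV hc hα hn
    simp only [MulAut.mul_apply] at hz1
    have hτv' : τ (β z) = β z * z := h
    have e2 : β z * α z * (z * α z) = β z * z * (α z * α z) := by
      calc β z * α z * (z * α z) = β z * (α z * z) * α z := by group
        _ = β z * (z * α z) * α z := by rw [hc (α z) z]
        _ = β z * z * (α z * α z) := by group
    rw [hτv', map_mul α⁻¹, map_mul τ, map_mul α, h', hz1, e2, ← pow_two (α z), T.sq_center α, mul_one,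
      map_mul, h, T.τz, mul_assoc, ← pow_two, T.zz, mul_one]

include hV hc T hα hn in
/-- The centralizer of `τ` in `L` is `⟨τ⟩`. -/
theorem Tv.centralizer_cases {ρ : MulAut V} (hρ : ρ ∈ L) (hcomm : ρ * τ = τ * ρ) :
    ρ = 1 ∨ ρ = τ := by
  classical
  haveI : Finite (MulAut V) := Finite.of_injective (fun α : MulAut V => (α : V → V))
    (fun a b h => MulEquiv.ext (congrFun h))
  have hg0 : orderOf ρ ≠ 0 := (orderOf_pos _).ne'
  obtain ⟨k, m, hm, hord⟩ := Nat.exists_eq_two_pow_mul_odd hg0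
  obtain ⟨σ, hσdef⟩ : ∃ σ, σ = ρ ^ 2 ^ k := ⟨_, rfl⟩
  have hσm : σ ^ m = 1 := by
    rw [hσdef, ← pow_mul, ← hord, pow_orderOf_eq_one]
  have hσc : σ * τ = τ * σ := by
    rw [hσdef]
    exact ((show Commute ρ τ from hcomm).pow_left _).eq
  have hσapp : ∀ v, σ (τ v) = τ (σ v) := by
    intro v
    have := congrArg (fun f : MulAut V => f v) hσc
    simpa only [MulAut.mul_apply] using this
  have hz1 := T.z_ne_one hV hc hα hn
  have hmz' := T.moves_z' hV hc hα hn
  -- `σ` fixes `z`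
  have hσz : σ z = z := by
    have h1 : (σ (α z)) ^ 2 = 1 := by rw [← map_pow, T.sq_center α, map_one]
    have h2 : τ (σ (α z)) = σ (α z) * σ z := by rw [← hσapp, hmz', map_mul]
    rcases T.tv _ h1 with h | h
    · exfalso
      rw [h2] at h
      have : σ z = 1 := by simpa using h
      exact hz1 (by simpa using this)
    · rw [h2] at h
      exact mul_left_cancel h
  -- `σ` fixes the axis
  have hax : ∀ v : V, v ^ 2 = 1 → τ v = v → σ v = v := by
    intro v hv hτv
    have hw : (σ v) ^ 2 = 1 := by rw [← map_pow, hv, map_one]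
    have hτw : τ (σ v) = σ v := by rw [← hσapp, hτv]
    have hne1 : ∀ u, u = 1 → σ u = 1 := by
      rintro u rfl
      exact map_one _
    have key : σ v = v ∨ σ v = v * z := by
      have inj : ∀ u u', σ u = σ u' → u = u' := fun u u' h => σ.injective h
      rcases T.fix v hv hτv with h1 | h1 | h1 | h1
      · left; rw [h1, map_one]
      · rcases T.fix _ hw hτw with h2 | h2 | h2 | h2
        · left; rw [inj v 1 (by rw [h2, map_one])]; exact map_one _
        · left; rw [h2, h1]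
        · left; rw [inj v z (by rw [h2, hσz])]; exact hσz
        · right; rw [h2, h1]
      · left; rw [h1]; exact hσz
      · rcases T.fix _ hw hτw with h2 | h2 | h2 | h2
        · left; rw [inj v 1 (by rw [h2, map_one])]; exact map_one _
        · right; rw [h2, h1, mul_assoc, ← pow_two, T.zz, mul_one]
        · left; rw [inj v z (by rw [h2, hσz])]; exact hσz
        · left; rw [h2, h1]
    rcases key with h | h
    · exact h
    · exact absurd (eq_one_of_step σ hm hσm h hσz T.zz) hz1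
  -- so `σ` is trivial
  have hσ1 : σ = 1 := by
    apply eq_one_of_fix_sq hV hc σ hm hσm
    intro v hv
    rcases T.tv v hv with h | h
    · exact hax v hv h
    · have hw : (σ v) ^ 2 = 1 := by rw [← map_pow, hv, map_one]
      obtain ⟨c, hcdef⟩ : ∃ c, c = v⁻¹ * σ v := ⟨_, rfl⟩
      have hcc : c ^ 2 = 1 := by
        have e : c ^ 2 = v⁻¹ ^ 2 * (σ v) ^ 2 := by
          rw [hcdef, pow_two, pow_two, pow_two]
          have := hc (σ v) v⁻¹
          calc v⁻¹ * σ v * (v⁻¹ * σ v) = v⁻¹ * (σ v * v⁻¹) * σ v := by group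
            _ = v⁻¹ * (v⁻¹ * σ v) * σ v := by rw [this]
            _ = v⁻¹ * v⁻¹ * (σ v * σ v) := by group
        rw [e, hw, inv_pow, hv]
        simp
      have hτc : τ c = c := by
        rw [hcdef, map_mul, map_inv, h, ← hσapp, h, map_mul, hσz]
        have := hc (σ v) z
        calc (v * z)⁻¹ * (σ v * z) = z⁻¹ * v⁻¹ * (σ v * z) := by group
          _ = z⁻¹ * (v⁻¹ * σ v) * z := by group
          _ = (v⁻¹ * σ v) * z⁻¹ * z := by rw [hc z⁻¹]
          _ = v⁻¹ * σ v := by group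
      have hσc' := hax c hcc hτc
      have hσv : σ v = v * c := by rw [hcdef]; group
      have := eq_one_of_step σ hm hσm hσv hσc' hcc
      rw [hσv, this, mul_one]
  have hρ2 : ρ ^ 2 ^ k = 1 := by rw [← hσdef, hσ1]
  -- a `2`-element commuting with `τ`
  by_cases h1 : ρ = 1
  · exact Or.inl h1
  right
  have hp1 : IsPGroup 2 (Subgroup.zpowers ρ) := by
    refine IsPGroup.of_card (n := Nat.log 2 (Nat.card (Subgroup.zpowers ρ))) ?_
    obtain ⟨j, -, hj⟩ := (Nat.dvd_prime_pow Nat.prime_two).1 (orderOf_dvd_of_pow_eq_one hρ2)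
    rw [Nat.card_zpowers, hj, Nat.log_pow (by norm_num : 1 < 2)]
  have hp2 : IsPGroup 2 (Subgroup.zpowers τ) := by
    have e : Subgroup.closure ({τ, τ} : Set (MulAut V)) = Subgroup.zpowers τ := by
      rw [Set.pair_eq_singleton, Subgroup.zpowers_eq_closure]
    rw [← e]
    exact T.closure_self_isPGroup
  have hle : Subgroup.zpowers ρ ≤ Subgroup.normalizer ((Subgroup.zpowers τ : Subgroup (MulAut V)) : Set (MulAut V)) := by
    rw [Subgroup.zpowers_le]
    have hcm : Commute ρ τ := hcomm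
    rw [Subgroup.mem_normalizer_iff]
    intro h
    constructor
    · rintro ⟨n, rfl⟩
      refine ⟨n, ?_⟩
      simp only
      rw [(hcm.zpow_right n).eq, mul_inv_cancel_right]
    · rintro ⟨n, hn'⟩
      refine ⟨n, ?_⟩
      simp only at hn' ⊢
      have : ρ * τ ^ n * ρ⁻¹ = τ ^ n := by rw [(hcm.zpow_right n).eq, mul_inv_cancel_right]
      rw [← this] at hn'
      apply mul_left_cancel (a := ρ)
      apply mul_right_cancel (b := ρ⁻¹)
      exact hn'
  have hp := hp1.to_sup_of_normal_right' hp2 hle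
  have hKL : Subgroup.zpowers ρ ⊔ Subgroup.zpowers τ ≤ L :=
    sup_le (Subgroup.zpowers_le.2 hρ) (Subgroup.zpowers_le.2 T.τL)
  exact T.eq_of_card hKL hp (Subgroup.mem_sup_left (Subgroup.mem_zpowers ρ))
    (Subgroup.mem_sup_right (Subgroup.mem_zpowers τ)) h1 (T.ne_one hn)

include hV hc T hα hn in
/-- **`L` is generated by `τ` and the opposite conjugate.** -/
theorem Tv.le_closure : L ≤ Subgroup.closure ({τ, α * τ * α⁻¹} : Set (MulAut V)) := by
  intro β hβ
  obtain ⟨τ', hτ'⟩ : ∃ τ', τ' = α * τ * α⁻¹ := ⟨_, rfl⟩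
  obtain ⟨K, hK⟩ : ∃ K, K = Subgroup.closure ({τ, α * τ * α⁻¹} : Set (MulAut V)) := ⟨_, rfl⟩
  rw [← hK]
  have hτK : τ ∈ K := by rw [hK]; exact Subgroup.subset_closure (Or.inl rfl)
  have hτ'K : τ' ∈ K := by rw [hK, hτ']; exact Subgroup.subset_closure (Or.inr rfl)
  have hτ'L : τ' ∈ L := by rw [hτ']; exact T.conj_mem hα
  have hne := T.ne_conj hn
  rw [← hτ'] at hne
  have hτ1 := T.ne_one hn
  have hτ'1 : τ' ≠ 1 := by
    intro h
    apply hτ1
    have : τ = α⁻¹ * τ' * α := by rw [hτ']; group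
    rw [this, h]
    group
  have hinv := T.τ_inv
  obtain ⟨τ'', hτ''⟩ : ∃ τ'', τ'' = τ * τ' * τ := ⟨_, rfl⟩
  have hτ''L : τ'' ∈ L := by
    rw [hτ'']
    exact L.mul_mem (L.mul_mem T.τL hτ'L) T.τL
  have hτ''K : τ'' ∈ K := by
    rw [hτ'']
    exact K.mul_mem (K.mul_mem hτK hτ'K) hτK
  have hcases := fun (δ : MulAut V) (hδ : δ ∈ L) => T.conj_cases hV hc hα hn hδ
  simp only [← hτ', ← hτ''] at hcases
  have hcent := fun (δ : MulAut V) (hδ : δ ∈ L) => T.centralizer_cases hV hc hα hn hδ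
  have hcentK : ∀ δ ∈ L, δ * τ * δ⁻¹ = τ → δ ∈ K := by
    intro δ hδ h
    have h1 : δ * τ = τ * δ := comm_of_conj_eq h
    rcases hcent δ hδ h1 with rfl | rfl
    · exact K.one_mem
    · exact hτK
  have hτ''τ : τ'' ≠ τ := by
    intro h
    apply hne
    rw [hτ''] at h
    have : τ' = τ * (τ * τ' * τ) * τ := by
      have h2 := T.ττ
      calc τ' = (τ * τ) * τ' * (τ * τ) := by rw [h2]; group
        _ = τ * (τ * τ' * τ) * τ := by group
    rw [this, h, T.ττ, one_mul]
  have hτ''1 : τ'' ≠ 1 := by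
    intro h
    apply hτ'1
    rw [hτ''] at h
    have h3 : τ' = τ * (τ * τ' * τ) * τ := by
      have h2 := T.ττ
      calc τ' = (τ * τ) * τ' * (τ * τ) := by rw [h2]; group
        _ = τ * (τ * τ' * τ) * τ := by group
    rw [h3, h, mul_one, T.ττ]
  -- `τ'' τ τ''⁻¹ = τ'`
  have h1 : τ'' * τ * τ''⁻¹ = τ' := by
    rcases hcases τ'' hτ''L with h | h | h
    · exfalso
      have h2 : τ'' * τ = τ * τ'' := comm_of_conj_eq h
      rcases hcent τ'' hτ''L h2 with h3 | h3
      · exact hτ''1 h3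
      · exact hτ''τ h3
    · exact h
    · exfalso
      apply hτ''τ
      have : τ'' * τ = τ'' * τ'' := comm_of_conj_eq h
      exact (mul_left_cancel this).symm
  have h2 : τ' * τ * τ'⁻¹ = τ'' := by
    rcases hcases τ' hτ'L with h | h | h
    · exfalso
      have h2 : τ' * τ = τ * τ' := comm_of_conj_eq h
      rcases hcent τ' hτ'L h2 with h3 | h3
      · exact hτ'1 h3
      · exact hne h3
    · exfalso
      apply hne
      have : τ' * τ = τ' * τ' := comm_of_conj_eq h
      exact (mul_left_cancel this).symm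
    · exact h
  rcases hcases β hβ with h | h | h
  · exact hcentK β hβ h
  · -- `τ''⁻¹ β` centralizes `τ`
    have h3 : (τ''⁻¹ * β) * τ * (τ''⁻¹ * β)⁻¹ = τ := by
      have : (τ''⁻¹ * β) * τ * (τ''⁻¹ * β)⁻¹ = τ''⁻¹ * (β * τ * β⁻¹) * τ'' := by group
      rw [this, h, ← h1]
      group
    have h4 := hcentK _ (L.mul_mem (L.inv_mem hτ''L) hβ) h3
    have e : β = τ'' * (τ''⁻¹ * β) := by group
    rw [e]
    exact K.mul_mem hτ''K h4
  · have h3 : (τ'⁻¹ * β) * τ * (τ'⁻¹ * β)⁻¹ = τ := by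
      have : (τ'⁻¹ * β) * τ * (τ'⁻¹ * β)⁻¹ = τ'⁻¹ * (β * τ * β⁻¹) * τ' := by group
      rw [this, h, ← h2]
      group
    have h4 := hcentK _ (L.mul_mem (L.inv_mem hτ'L) hβ) h3
    have e : β = τ' * (τ'⁻¹ * β) := by group
    rw [e]
    exact K.mul_mem hτ'K h4

end Main

end Cfsg.Agent.Lib.Components.GL3A
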