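/-
Fusion systems on `2`-groups `S` with an abelian maximal subgroup `A` inverted modulo `Z(S)`
(the nonabelian Sylow `2`-subgroups of `F^× × GL₂(F)` containing `F^× × 1`'s involution): abelian essentials.
-/
import Mathlib
import Cfsg.Agent.Lib.Fusion.AbelianMax
import Cfsg.Agent.Lib.Components.GL3A

set_option autoImplicit false
set_option linter.style.haveILetI false

namespace Cfsg.Agent.Lib.Components.GL3B

open Cfsg Cfsg.FusionSystem Cfsg.Agent.Lib.Fusion.Basic Cfsg.Agent.Lib.Fusion.Saturated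
  Cfsg.Agent.Lib.Fusion.Saturated2 Cfsg.Agent.Lib.Fusion.Essential
  Cfsg.Agent.Lib.Fusion.EssentialPair Cfsg.Agent.Lib.Fusion.AbelianMax
  Cfsg.Agent.Lib.Components.GL3A
open scoped commutatorElement

variable {Ω : Type*} [Group Ω] {S A P : Subgroup Ω} {a z : Ω}

/-- The abstract situation. -/
structure Setup (S A : Subgroup Ω) (a z : Ω) : Prop where
  D : Data S A 2
  nonab : ¬ IsMulCommutative ↥S
  norm : ∀ y ∈ S, y ∉ A → ∀ b ∈ A, y * b * y⁻¹ * b ∈ cen S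
  zc : z ∈ ⁅S, S⁆
  z1 : z ≠ 1
  zz : z ^ 2 = 1
  uniq : ∀ u ∈ ⁅S, S⁆, u ^ 2 = 1 → u = 1 ∨ u = z
  cyc : ∃ u₀ : Ω, ⁅S, S⁆ = Subgroup.zpowers u₀
  ac : a ∈ cen S
  aa : a ^ 2 = 1
  an : a ∉ ⁅S, S⁆
  om : ∀ v ∈ cen S, v ^ 2 = 1 → v = 1 ∨ v = a ∨ v = z ∨ v = a * z

section Basic

variable [Finite S] (U : Setup S A a z)

include U

theorem Setup.comm_le_S : ⁅S, S⁆ ≤ S := by
  rw [Subgroup.commutator_le]
  intro g hg h hh
  rw [commutatorElement_def]
  exact S.mul_mem (S.mul_mem (S.mul_mem hg hh) (S.inv_mem hg)) (S.inv_mem hh)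

theorem Setup.comm_le_A : ⁅S, S⁆ ≤ A := by
  rw [Subgroup.commutator_le]
  intro g hg h hh
  rw [commutatorElement_def]
  exact U.D.comm_mem hg hh

omit U [Finite S] in
theorem sq_mem_of_data (D : Data S A 2) {x : Ω} (hx : x ∈ S) : x * x ∈ A := by
  have h := Subgroup.mul_self_mem_of_index_two D.index (⟨x, hx⟩ : S)
  exact h

theorem Setup.sq_central {x : Ω} (hx : x ∈ S) (hxA : x ∉ A) : x * x ∈ cen S :=
  U.D.central_of_comm (sq_mem_of_data U.D hx) hx hxA (by group)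

/-- An element outside `A` is a fixed one times an element of `A`. -/
theorem Setup.exists_mul_of_not_mem {x g : Ω} (hx : x ∈ S) (hxA : x ∉ A) (hg : g ∈ S) (hgA : g ∉ A) :
    ∃ b ∈ A, g = b * x := by
  obtain ⟨b, hb, k, e⟩ := U.D.exists_decomp hx hxA hg
  have hx2 : x * x ∈ A := sq_mem_of_data U.D hx
  rcases Nat.even_or_odd' k with ⟨m, rfl | rfl⟩
  · exfalso
    apply hgA
    rw [e, pow_mul, pow_two]
    exact A.mul_mem hb (A.pow_mem hx2 m)
  · refine ⟨b * x ^ (2 * m), A.mul_mem hb ?_, ?_⟩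
    · rw [pow_mul, pow_two]
      exact A.pow_mem hx2 m
    · rw [e, pow_succ, mul_assoc]

/-- The "commutator map" on `A`. -/
theorem Setup.kappa_mem {x b : Ω} (hx : x ∈ S) (hb : b ∈ A) : x * b * x⁻¹ * b⁻¹ ∈ ⁅S, S⁆ := by
  have : x * b * x⁻¹ * b⁻¹ = ⁅x, b⁆ := by rw [commutatorElement_def]
  rw [this]
  exact Subgroup.commutator_mem_commutator hx (U.D.le hb)

theorem Setup.conj_A {x b : Ω} (hx : x ∈ S) (hb : b ∈ A) : x * b * x⁻¹ ∈ A :=
  U.D.conj_mem hx hb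

/-- An element `x ∉ A` inverts the commutator subgroup, first on the commutators `[x, b]`. -/
theorem Setup.invert_kappa {x b : Ω} (hx : x ∈ S) (hxA : x ∉ A) (hb : b ∈ A) :
    x * (x * b * x⁻¹ * b⁻¹) * x⁻¹ = (x * b * x⁻¹ * b⁻¹)⁻¹ := by
  have hxx := U.sq_central hx hxA
  have h1 : (x * x) * b = b * (x * x) := ((mem_cen.1 hxx).2 b (U.D.le hb)).symm
  have hc := U.D.comm _ (U.conj_A hx hb) b hb
  have h2 : x * x * b * (x * x)⁻¹ = b := by rw [h1]; group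
  calc x * (x * b * x⁻¹ * b⁻¹) * x⁻¹ = (x * x * b * (x * x)⁻¹) * (x * b⁻¹ * x⁻¹) := by group
    _ = b * (x * b⁻¹ * x⁻¹) := by rw [h2]
    _ = (x * b * x⁻¹ * b⁻¹)⁻¹ := by group

/-- The commutator subgroup is the image of the commutator map. -/
theorem Setup.exists_kappa {x u : Ω} (hx : x ∈ S) (hxA : x ∉ A) (hu : u ∈ ⁅S, S⁆) :
    ∃ b ∈ A, u = x * b * x⁻¹ * b⁻¹ := by
  let K : Subgroup Ω :=
    { carrier := {u | ∃ b ∈ A, u = x * b * x⁻¹ * b⁻¹}
      mul_mem' := by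
        rintro _ _ ⟨b, hb, rfl⟩ ⟨c, hc, rfl⟩
        refine ⟨b * c, A.mul_mem hb hc, ?_⟩
        have h1 := U.D.comm _ (A.inv_mem hb) _ (U.conj_A hx hc)
        calc x * b * x⁻¹ * b⁻¹ * (x * c * x⁻¹ * c⁻¹) = x * b * x⁻¹ * (b⁻¹ * (x * c * x⁻¹)) * c⁻¹ := by group
          _ = x * b * x⁻¹ * ((x * c * x⁻¹) * b⁻¹) * c⁻¹ := by rw [h1]
          _ = x * (b * c) * x⁻¹ * (b * c)⁻¹ := by
              have h2 := U.D.comm _ hb _ hc
              have h3 : (b * c)⁻¹ = b⁻¹ * c⁻¹ := by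
                rw [mul_inv_rev]
                exact U.D.comm _ (A.inv_mem hc) _ (A.inv_mem hb)
              rw [h3]
              group
      one_mem' := ⟨1, A.one_mem, by group⟩
      inv_mem' := by
        rintro _ ⟨b, hb, rfl⟩
        refine ⟨b⁻¹, A.inv_mem hb, ?_⟩
        have h1 := U.D.comm _ (U.conj_A hx (A.inv_mem hb)) _ hb
        calc (x * b * x⁻¹ * b⁻¹)⁻¹ = b * (x * b⁻¹ * x⁻¹) := by group
          _ = x * b⁻¹ * x⁻¹ * b := h1.symm
          _ = x * b⁻¹ * x⁻¹ * b⁻¹⁻¹ := by group }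
  have hle : ⁅S, S⁆ ≤ K := by
    rw [Subgroup.commutator_le]
    -- first the case of `g ∈ A`
    have h1 : ∀ g ∈ A, ∀ h ∈ S, ⁅g, h⁆ ∈ K := by
      intro g hg h hh
      by_cases hhA : h ∈ A
      · refine ⟨1, A.one_mem, ?_⟩
        rw [commutatorElement_def]
        have := U.D.comm _ hg _ hhA
        rw [this]
        group
      · obtain ⟨c, hc, rfl⟩ := U.exists_mul_of_not_mem hx hxA hh hhA
        refine ⟨g⁻¹, A.inv_mem hg, ?_⟩
        have h2 := U.D.comm _ hg _ hc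
        rw [commutatorElement_def]
        have h3 := U.D.comm _ hc _ (A.mul_mem hg (U.conj_A hx (A.inv_mem hg)))
        calc g * (c * x) * g⁻¹ * (c * x)⁻¹ = (g * c) * (x * g⁻¹ * x⁻¹) * c⁻¹ := by group
          _ = (c * g) * (x * g⁻¹ * x⁻¹) * c⁻¹ := by rw [h2]
          _ = (c * (g * (x * g⁻¹ * x⁻¹))) * c⁻¹ := by group
          _ = ((g * (x * g⁻¹ * x⁻¹)) * c) * c⁻¹ := by rw [h3]
          _ = g * (x * g⁻¹ * x⁻¹) := by group
          _ = (x * g⁻¹ * x⁻¹) * g := U.D.comm _ hg _ (U.conj_A hx (A.inv_mem hg))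
          _ = x * g⁻¹ * x⁻¹ * g⁻¹⁻¹ := by group
    intro g hg h hh
    by_cases hgA : g ∈ A
    · exact h1 g hgA h hh
    by_cases hhA : h ∈ A
    · have := h1 h hhA g hg
      have e : ⁅g, h⁆ = ⁅h, g⁆⁻¹ := by
        rw [commutatorElement_inv]
      rw [e]
      exact K.inv_mem this
    · obtain ⟨b, hb, rfl⟩ := U.exists_mul_of_not_mem hx hxA hg hgA
      obtain ⟨c, hc, rfl⟩ := U.exists_mul_of_not_mem hx hxA hh hhA
      refine ⟨c * b⁻¹, A.mul_mem hc (A.inv_mem hb), ?_⟩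
      rw [commutatorElement_def]
      have hcb := A.mul_mem hc (A.inv_mem hb)
      have h2 := U.D.comm _ hb _ (U.conj_A hx hcb)
      have h3 := U.D.comm _ hb _ hc
      calc b * x * (c * x) * (b * x)⁻¹ * (c * x)⁻¹ = b * (x * (c * b⁻¹) * x⁻¹) * c⁻¹ := by group
        _ = (x * (c * b⁻¹) * x⁻¹) * b * c⁻¹ := by rw [h2]
        _ = x * (c * b⁻¹) * x⁻¹ * (c * b⁻¹)⁻¹ := by
            have h4 : (c * b⁻¹)⁻¹ = b * c⁻¹ := by group
            rw [h4]
            group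
  exact hle hu

/-- `x ∉ A` inverts `S'`. -/
theorem Setup.invert {x u : Ω} (hx : x ∈ S) (hxA : x ∉ A) (hu : u ∈ ⁅S, S⁆) : x * u * x⁻¹ = u⁻¹ := by
  obtain ⟨b, hb, rfl⟩ := U.exists_kappa hx hxA hu
  exact U.invert_kappa hx hxA hb

/-- The elements of `S'` in the centre. -/
theorem Setup.central_comm {u : Ω} (hu : u ∈ ⁅S, S⁆) (hc : u ∈ cen S) : u = 1 ∨ u = z := by
  apply U.uniq u hu
  obtain ⟨x, hx, hxA⟩ : ∃ x ∈ S, x ∉ A := by
    by_contra hcon
    push Not at hcon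
    have hi := U.D.index
    have : A.subgroupOf S = ⊤ := by
      rw [eq_top_iff]
      rintro ⟨g, hg⟩ -
      exact hcon g hg
    rw [this] at hi
    simp at hi
  have h1 := U.invert hx hxA hu
  have h2 : x * u * x⁻¹ = u := by
    rw [(mem_cen.1 hc).2 x hx]
    group
  rw [h2] at h1
  rw [pow_two]
  nth_rewrite 1 [h1]
  group

theorem Setup.zcen : z ∈ cen S := by
  refine mem_cen.2 ⟨U.comm_le_S U.zc, fun s hs => ?_⟩
  have h1 : s * z * s⁻¹ ∈ ⁅S, S⁆ := by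
    have hn : s * z * s⁻¹ = ⁅s, z⁆ * z := by
      rw [commutatorElement_def]; group
    rw [hn]
    exact Subgroup.mul_mem _ (Subgroup.commutator_mem_commutator hs (U.comm_le_S U.zc)) U.zc
  have h2 : (s * z * s⁻¹) ^ 2 = 1 := by
    have : s * z * s⁻¹ * (s * z * s⁻¹) = s * (z * z) * s⁻¹ := by group
    rw [pow_two, this, ← pow_two, U.zz]
    group
  rcases U.uniq _ h1 h2 with h | h
  · exfalso
    apply U.z1
    have : z = s⁻¹ * (s * z * s⁻¹) * s := by group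
    rw [this, h]
    group
  · calc s * z = (s * z * s⁻¹) * s := by group
      _ = z * s := by rw [h]

theorem Setup.cen_le_A : cen S ≤ A := U.D.cen_le U.nonab

/-- `x ∉ A` with `x` commuting with `b ∈ A`: then `b` is central. -/
theorem Setup.cen_of_comm {x b : Ω} (hx : x ∈ S) (hxA : x ∉ A) (hb : b ∈ A) (h : x * b * x⁻¹ = b) :
    b ∈ cen S :=
  U.D.central_of_comm hb hx hxA (comm_of_conj_eq h)

end Basic

section Moving

/-- Automorphisms moving elements by a subgroup `D`: closed under generation. -/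
theorem moving_of_closure {P D : Subgroup Ω} {X : Set (MulAut P)}
    (hX : ∀ β ∈ X, ∀ x : P, (x : Ω)⁻¹ * (β x : P) ∈ D) :
    ∀ β ∈ Subgroup.closure X, ∀ x : P, (x : Ω)⁻¹ * (β x : P) ∈ D := by
  intro β hβ
  induction hβ using Subgroup.closure_induction with
  | mem b hb => exact hX b hb
  | one =>
    intro x
    simp
  | mul b c _ _ hb hc =>
    intro x
    have h1 := hc x
    have h2 := hb (c x)
    have e : (x : Ω)⁻¹ * ((b * c) x : P) = ((x : Ω)⁻¹ * (c x : P)) * (((c x : P) : Ω)⁻¹ * (b (c x) : P)) := by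
      rw [MulAut.mul_apply]
      group
    rw [e]
    exact D.mul_mem h1 h2
  | inv b _ hb =>
    intro x
    have h1 := hb (b⁻¹ x)
    rw [MulAut.apply_inv_self] at h1
    have e : (x : Ω)⁻¹ * (b⁻¹ x : P) = (((b⁻¹ x : P) : Ω)⁻¹ * (x : Ω))⁻¹ := by group
    rw [e]
    exact D.inv_mem h1

end Moving

section Abelian

variable [Finite S] {F : FusionSystem S}

/-- A `2`-subgroup of `Aut_F(P)` has at most two elements when `Aut_S(P) = {1, τ}`. -/
theorem card_le_two (hS : IsPGroup 2 S) (hF : F.IsSaturated 2) (hE : F.IsEssential 2 P) {τ : MulAut P}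
    (hτ : ∀ β ∈ autInducedBy S P, β = 1 ∨ β = τ) {K : Subgroup (MulAut P)} (hKL : K ≤ F.autGroup P)
    (hK : IsPGroup 2 K) : Nat.card K ≤ 2 := by
  classical
  have hPS : P ≤ S := hE.1.1
  haveI : Finite (F.autGroup P) := finite_autGroup hPS
  obtain ⟨R, hR⟩ := (fullyNormalized_props hS hF hE.2.1).2.2
  let K' : Subgroup (F.autGroup P) := K.subgroupOf (F.autGroup P)
  have hcK : Nat.card K' = Nat.card K := Nat.card_congr (Subgroup.subgroupOfEquivOfLe hKL).toEquiv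
  have hp : IsPGroup 2 K' := IsPGroup.of_equiv hK (Subgroup.subgroupOfEquivOfLe hKL).symm
  obtain ⟨R', hR'⟩ := hp.exists_le_sylow
  have h1 : Nat.card K' ≤ Nat.card R' := Subgroup.card_le_of_le hR'
  have h2 : Nat.card R' = Nat.card R := Nat.card_congr (Sylow.equiv R' R).toEquiv
  have h3 : Nat.card R ≤ 2 := by
    let f : ↥(R : Subgroup (F.autGroup P)) → Bool := fun r => decide (((r : F.autGroup P) : MulAut P) = 1)
    have hmem : ∀ r : ↥(R : Subgroup (F.autGroup P)), ((r : F.autGroup P) : MulAut P) = 1 ∨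
        ((r : F.autGroup P) : MulAut P) = τ := by
      intro r
      have : (r : F.autGroup P) ∈ (autInducedBy S P).subgroupOf (F.autGroup P) := by
        rw [← hR]
        exact r.2
      exact hτ _ this
    have hf : Function.Injective f := by
      intro r r' h
      apply Subtype.ext
      apply Subtype.ext
      simp only [f, decide_eq_decide] at h
      rcases hmem r with h1 | h1
      · rw [h1]
        exact (h.1 h1).symm
      · rcases hmem r' with h2 | h2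
        · rw [h2]
          exact h.2 h2
        · rw [h1, h2]
    have := Nat.card_le_card_of_injective f hf
    simpa using this
  omega

/-- **The main lemma on abelian essential subgroups.** -/
theorem abMain (U : Setup S A a z) (hS : IsPGroup 2 S) (hF : F.IsSaturated 2) (hE : F.IsEssential 2 P)
    (hab : ∀ s ∈ P, ∀ t ∈ P, s * t = t * s) {t : Ω} (ht : t ∈ S)
    (htN : t ∈ Subgroup.normalizer (P : Set Ω)) (htP : t ∉ P)
    (hN : ∀ g ∈ S, g ∈ Subgroup.normalizer (P : Set Ω) → g ∈ P ∨ t⁻¹ * g ∈ P)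
    (hzP : z ∈ P) (haP : a ∈ P)
    (htv : ∀ v ∈ P, v ^ 2 = 1 → t * v * t⁻¹ = v ∨ t * v * t⁻¹ = v * z)
    (hfix : ∀ v ∈ P, v ^ 2 = 1 → t * v * t⁻¹ = v → v ∈ cen S)
    {u₁ : Ω} (hu₁ : u₁ ∈ P) (hmv : ∀ w ∈ P, t * w * t⁻¹ * w⁻¹ ∈ Subgroup.zpowers u₁) :
    ∃ α ∈ F.autGroup P,
      (∀ β ∈ F.autGroup P, ∀ x : P, (x : Ω)⁻¹ * (β x : P) ∈
        Subgroup.zpowers u₁ ⊔ Subgroup.zpowers ((α ⟨u₁, hu₁⟩ : P) : Ω)) ∧
      t * ((α ⟨z, hzP⟩ : P) : Ω) * t⁻¹ = (α ⟨z, hzP⟩ : P) * z := by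
  classical
  have hPS : P ≤ S := hE.1.1
  haveI hPf : Finite P := finite_of_le hPS
  have hC : centralizerIn S P ≤ P := hE.1.2 P (Cfsg.Agent.Lib.Fusion.Basic.IsConj.refl hPS)
  have hV : IsPGroup 2 P := hS.to_le hPS
  have hc : ∀ x y : P, x * y = y * x := fun x y => Subtype.ext (hab x x.2 y y.2)
  let τ : MulAut P := normConj t htN
  have hτapp : ∀ x : P, ((τ x : P) : Ω) = t * x * t⁻¹ := fun x => rfl
  have ht2 : t * t ∈ P := by
    rcases hN (t * t) (S.mul_mem ht ht) (Subgroup.mul_mem _ htN htN) with h | h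
    · exact h
    · exfalso
      apply htP
      simpa using h
  have hcomm2 : ∀ q ∈ P, ∀ x ∈ P, q * x * q⁻¹ = x := by
    intro q hq x hx
    rw [hab q hq x hx]
    group
  have hτS : ∀ β ∈ autInducedBy S P, β = 1 ∨ β = τ := by
    intro β hβ
    obtain ⟨g, hg, hgc⟩ := mem_autInducedBy_iff.1 hβ
    have hgN := mem_normalizer_of_aut hgc
    rcases hN g hg hgN with h | h
    · left
      ext x
      rw [hgc]
      exact hcomm2 g h x x.2
    · right
      ext x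
      rw [hgc, hτapp]
      have := hcomm2 _ h x x.2
      calc g * x * g⁻¹ = t * (t⁻¹ * g * x * (t⁻¹ * g)⁻¹) * t⁻¹ := by group
        _ = t * x * t⁻¹ := by rw [this]
  have T : Tv (F.autGroup P) τ ⟨z, hzP⟩ ⟨a, haP⟩ := by
    refine ⟨autInducedBy_le_autGroup hPS (normConj_mem_autInducedBy ht htN), ?_, ?_, ?_, ?_, ?_, ?_⟩
    · ext x
      show t * (t * x * t⁻¹) * t⁻¹ = x
      have := hcomm2 _ ht2 x x.2
      calc t * (t * x * t⁻¹) * t⁻¹ = t * t * x * (t * t)⁻¹ := by group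
        _ = x := this
    · exact Subtype.ext U.zz
    · apply Subtype.ext
      show t * z * t⁻¹ = z
      rw [(mem_cen.1 U.zcen).2 t ht]
      group
    · intro v hv
      have hv' : (v : Ω) ^ 2 = 1 := congrArg Subtype.val hv
      rcases htv v v.2 hv' with h | h
      · exact Or.inl (Subtype.ext h)
      · exact Or.inr (Subtype.ext h)
    · intro v hv hτv
      have hv' : (v : Ω) ^ 2 = 1 := congrArg Subtype.val hv
      have hτv' : t * (v : Ω) * t⁻¹ = v := congrArg Subtype.val hτv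
      rcases U.om v (hfix v v.2 hv' hτv') hv' with h | h | h | h
      · exact Or.inl (Subtype.ext h)
      · exact Or.inr (Or.inl (Subtype.ext h))
      · exact Or.inr (Or.inr (Or.inl (Subtype.ext h)))
      · exact Or.inr (Or.inr (Or.inr (Subtype.ext h)))
    · intro K hKL hK
      exact card_le_two hS hF hE hτS hKL hK
  obtain ⟨α, hαL, hα⟩ := exists_pair hS hF hE
  have hτmem : τ ∈ autInducedBy S P := normConj_mem_autInducedBy ht htN
  have hτinn : τ ∉ Inn P := normConj_not_mem_inn hPS hC ht htN htP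
  have hn := hα τ hτmem τ hτmem hτinn hτinn
  have hle := T.le_closure hV hc hαL hn
  refine ⟨α, hαL, ?_, ?_⟩
  · intro β hβ x
    refine moving_of_closure ?_ β (hle hβ) x
    have hmvP : ∀ w : P, (w : Ω)⁻¹ * (τ w : P) ∈ Subgroup.zpowers u₁ := by
      intro w
      have h1 := hmv w w.2
      have h2 : (w : Ω)⁻¹ * (τ w : P) = t * w * t⁻¹ * (w : Ω)⁻¹ := by
        rw [hτapp]
        have := hab _ (P.inv_mem w.2) _ (τ w).2
        rw [hτapp] at this
        exact this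
      rw [h2]
      exact h1
    rintro b (rfl | hb) y
    · exact (le_sup_left : Subgroup.zpowers u₁ ≤ _) (hmvP y)
    · rw [Set.mem_singleton_iff] at hb
      subst hb
      apply (le_sup_right : Subgroup.zpowers ((α ⟨u₁, hu₁⟩ : P) : Ω) ≤ _)
      obtain ⟨k, hk⟩ := Subgroup.mem_zpowers_iff.1 (hmvP (α⁻¹ y))
      rw [Subgroup.mem_zpowers_iff]
      refine ⟨k, ?_⟩
      have e1 : (α⁻¹ y)⁻¹ * τ (α⁻¹ y) = (⟨u₁, hu₁⟩ : P) ^ k := by
        apply Subtype.ext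
        simpa using hk.symm
      have e2 : y⁻¹ * (α * τ * α⁻¹) y = α ((α⁻¹ y)⁻¹ * τ (α⁻¹ y)) := by
        simp
      have e3 := congrArg (Subtype.val) e2
      rw [e1, map_zpow] at e3
      simpa using e3.symm
  · have h1 := T.moves_z' hV hc hαL hn
    exact congrArg Subtype.val h1

omit [Finite S] in
/-- Existence of an element of `S'` with square `z`. -/
theorem exists_sq_eq_z (U : Setup S A a z) (k : ℕ) : ∀ u ∈ ⁅S, S⁆, u ^ 2 ^ k = 1 → u ^ 2 ≠ 1 →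
    ∃ u' ∈ ⁅S, S⁆, u' ^ 2 = z := by
  induction k with
  | zero =>
    intro u _ h1 h2
    apply absurd _ h2
    have : u = 1 := by simpa using h1
    rw [this, one_pow]
  | succ k ih =>
    intro u hu h1 h2
    by_cases h3 : (u ^ 2) ^ 2 = 1
    · rcases U.uniq _ (Subgroup.pow_mem _ hu 2) h3 with h | h
      · exact absurd h h2
      · exact ⟨u, hu, h⟩
    · apply ih (u ^ 2) (Subgroup.pow_mem _ hu 2) _ h3
      rw [← pow_mul, ← pow_succ']
      exact h1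

/-- The abelian subgroup `A` as an essential subgroup. -/
theorem abA (U : Setup S A a z) (hS : IsPGroup 2 S) (hF : F.IsSaturated 2) (hE : F.IsEssential 2 A) :
    ∃ ω ∈ A, (∀ β ∈ F.autGroup A, ∀ x : A, (x : Ω)⁻¹ * (β x : A) ∈ ⁅S, S⁆ ⊔ Subgroup.zpowers ω) ∧
      ((∃ u ∈ ⁅S, S⁆, u ^ 2 ≠ 1) → ∃ w ∈ cen S, w ^ 2 = z) ∧
      ((∀ u ∈ ⁅S, S⁆, u ^ 2 = 1) → ω ^ 2 = 1 ∧ ω ∉ cen S ∧ ∀ v ∈ cen S, v ^ 2 ≠ z) := by
  classical
  obtain ⟨y, hy, hyA⟩ : ∃ x ∈ S, x ∉ A := by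
    by_contra hcon
    push Not at hcon
    have hi := U.D.index
    have : A.subgroupOf S = ⊤ := by
      rw [eq_top_iff]
      rintro ⟨g, hg⟩ -
      exact hcon g hg
    rw [this] at hi
    simp at hi
  obtain ⟨u₀, hu₀⟩ := U.cyc
  have hu₀S : u₀ ∈ ⁅S, S⁆ := by rw [hu₀]; exact Subgroup.mem_zpowers u₀
  have hu₀A : u₀ ∈ A := U.comm_le_A hu₀S
  have hzA : z ∈ A := U.comm_le_A U.zc
  have haA : a ∈ A := U.cen_le_A U.ac
  have hyN : y ∈ Subgroup.normalizer (A : Set Ω) := by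
    rw [Subgroup.mem_normalizer_iff]
    intro h
    constructor
    · exact fun hh => U.conj_A hy hh
    · intro hh
      have := U.conj_A (S.inv_mem hy) hh
      simpa [mul_assoc] using this
  have hNA : ∀ g ∈ S, g ∈ Subgroup.normalizer (A : Set Ω) → g ∈ A ∨ y⁻¹ * g ∈ A := by
    intro g hg _
    by_cases hgA : g ∈ A
    · exact Or.inl hgA
    · right
      obtain ⟨b, hb, rfl⟩ := U.exists_mul_of_not_mem hy hyA hg hgA
      have : y⁻¹ * (b * y) = y⁻¹ * b * y⁻¹⁻¹ := by group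
      rw [this]
      exact U.conj_A (S.inv_mem hy) hb
  have htv : ∀ v ∈ A, v ^ 2 = 1 → y * v * y⁻¹ = v ∨ y * v * y⁻¹ = v * z := by
    intro v hv hvv
    have hvi : v⁻¹ = v := by
      rw [pow_two] at hvv
      exact inv_eq_of_mul_eq_one_left hvv
    have h1 := U.norm y hy hyA v hv
    have h2 := U.kappa_mem hy hv
    rw [hvi] at h2
    rcases U.central_comm h2 h1 with h | h
    · left
      have : y * v * y⁻¹ = (y * v * y⁻¹ * v) * v⁻¹ := by group
      rw [this, h]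
      simp [hvi]
    · right
      have : y * v * y⁻¹ = (y * v * y⁻¹ * v) * v⁻¹ := by group
      rw [this, h, hvi]
      exact U.D.comm _ hzA _ hv
  have hfix : ∀ v ∈ A, v ^ 2 = 1 → y * v * y⁻¹ = v → v ∈ cen S := fun v hv _ h =>
    U.cen_of_comm hy hyA hv h
  have hmv : ∀ w ∈ A, y * w * y⁻¹ * w⁻¹ ∈ Subgroup.zpowers u₀ := by
    intro w hw
    rw [← hu₀]
    exact U.kappa_mem hy hw
  obtain ⟨α, hαL, h1, h2⟩ := abMain U hS hF hE U.D.comm hy hyN hyA hNA hzA haA htv hfix hu₀A hmv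
  have hαz : ((α ⟨z, hzA⟩ : A) : Ω) ^ 2 = 1 := by
    have : (α ⟨z, hzA⟩) ^ 2 = 1 := by
      rw [← map_pow]
      have : (⟨z, hzA⟩ : A) ^ 2 = 1 := Subtype.ext U.zz
      rw [this, map_one]
    simpa using congrArg Subtype.val this
  have hαne : ((α ⟨z, hzA⟩ : A) : Ω) ∉ cen S := by
    intro hc
    have h3 : y * ((α ⟨z, hzA⟩ : A) : Ω) * y⁻¹ = (α ⟨z, hzA⟩ : A) := by
      rw [(mem_cen.1 hc).2 y hy]
      group
    rw [h2] at h3
    exact U.z1 (by simpa using h3)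
  refine ⟨(α ⟨u₀, hu₀A⟩ : A), (α ⟨u₀, hu₀A⟩).2, ?_, ?_, ?_⟩
  · intro β hβ x
    have hle : Subgroup.zpowers u₀ ⊔ Subgroup.zpowers ((α ⟨u₀, hu₀A⟩ : A) : Ω) ≤
        ⁅S, S⁆ ⊔ Subgroup.zpowers ((α ⟨u₀, hu₀A⟩ : A) : Ω) := sup_le_sup_right (by rw [hu₀]) _
    exact hle (h1 β hβ x)
  · rintro ⟨u, hu, huu⟩
    obtain ⟨k, hk⟩ := IsPGroup.iff_orderOf.1 hS ⟨u, U.comm_le_S hu⟩
    have hk' : u ^ 2 ^ k = 1 := by
      have : (⟨u, U.comm_le_S hu⟩ : S) ^ 2 ^ k = 1 := by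
        rw [← hk, pow_orderOf_eq_one]
      simpa using congrArg Subtype.val this
    obtain ⟨u', hu', hu'z⟩ := exists_sq_eq_z U k u hu hk' huu
    have hu'A := U.comm_le_A hu'
    obtain ⟨p, hp⟩ : ∃ p : Ω, p = (α ⟨u', hu'A⟩ : A) := ⟨_, rfl⟩
    have hpA : p ∈ A := by rw [hp]; exact (α _).2
    have hpp : p ^ 2 = (α ⟨z, hzA⟩ : A) := by
      have : (⟨u', hu'A⟩ : A) ^ 2 = ⟨z, hzA⟩ := Subtype.ext hu'z
      rw [← this, map_pow, hp]
      rfl
    have hqA : y * p * y⁻¹ ∈ A := U.conj_A hy hpA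
    have hyy := U.sq_central hy hyA
    have hyyp : (y * y) * p = p * (y * y) := ((mem_cen.1 hyy).2 p (U.D.le hpA)).symm
    refine ⟨p * (y * p * y⁻¹), ?_, ?_⟩
    · apply U.cen_of_comm hy hyA (A.mul_mem hpA hqA)
      have h3 : y * (y * p * y⁻¹) * y⁻¹ = p := by
        calc y * (y * p * y⁻¹) * y⁻¹ = (y * y) * p * (y * y)⁻¹ := by group
          _ = p := by rw [hyyp]; group
      calc y * (p * (y * p * y⁻¹)) * y⁻¹ = (y * p * y⁻¹) * (y * (y * p * y⁻¹) * y⁻¹) := by group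
        _ = (y * p * y⁻¹) * p := by rw [h3]
        _ = p * (y * p * y⁻¹) := U.D.comm _ hqA _ hpA
    · have hq2 : (y * p * y⁻¹) ^ 2 = y * p ^ 2 * y⁻¹ := by
        rw [pow_two, pow_two]
        group
      have hcomm := U.D.comm _ hpA _ hqA
      have e : (p * (y * p * y⁻¹)) ^ 2 = p ^ 2 * (y * p * y⁻¹) ^ 2 := by
        rw [pow_two, pow_two, pow_two]
        calc p * (y * p * y⁻¹) * (p * (y * p * y⁻¹)) = p * ((y * p * y⁻¹) * p) * (y * p * y⁻¹) := by group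
          _ = p * (p * (y * p * y⁻¹)) * (y * p * y⁻¹) := by rw [← hcomm]
          _ = _ := by group
      rw [e, hq2, hpp, h2, ← mul_assoc, ← pow_two, hαz, one_mul]
  · intro hall
    have hu₀z : u₀ = z := by
      rcases U.uniq u₀ hu₀S (hall u₀ hu₀S) with h | h
      · exfalso
        have hz := U.zc
        rw [hu₀, h, Subgroup.zpowers_one_eq_bot, Subgroup.mem_bot] at hz
        exact U.z1 hz
      · exact h
    subst hu₀z
    refine ⟨hαz, hαne, ?_⟩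
    intro v hv hvz
    apply hαne
    have hvA : v ∈ A := U.cen_le_A hv
    have e : ((α ⟨u₀, hzA⟩ : A) : Ω) = (((α ⟨v, hvA⟩ : A) : Ω)) ^ 2 := by
      have : (⟨v, hvA⟩ : A) ^ 2 = ⟨u₀, hzA⟩ := Subtype.ext hvz
      rw [← this, map_pow]
      rfl
    rw [e]
    obtain ⟨b, hb⟩ : ∃ b : Ω, b = (α ⟨v, hvA⟩ : A) := ⟨_, rfl⟩
    rw [← hb]
    have hbA : b ∈ A := by rw [hb]; exact (α _).2
    apply U.cen_of_comm hy hyA (A.pow_mem hbA 2)
    have h3 := hall _ (U.kappa_mem hy hbA)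
    have hc3 := U.D.comm _ (U.conj_A hy hbA) _ (A.inv_mem hbA)
    have e3 : (y * b * y⁻¹ * b⁻¹) ^ 2 = (y * b ^ 2 * y⁻¹) * (b ^ 2)⁻¹ := by
      rw [pow_two, pow_two]
      calc y * b * y⁻¹ * b⁻¹ * (y * b * y⁻¹ * b⁻¹) = (y * b * y⁻¹) * (b⁻¹ * (y * b * y⁻¹)) * b⁻¹ := by group
        _ = (y * b * y⁻¹) * ((y * b * y⁻¹) * b⁻¹) * b⁻¹ := by rw [← hc3]
        _ = _ := by group
    rw [e3] at h3
    exact mul_inv_eq_one.1 h3

/-- An abelian essential subgroup not contained in `A`. -/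
theorem abX (U : Setup S A a z) (hS : IsPGroup 2 S) (hF : F.IsSaturated 2) (hE : F.IsEssential 2 P)
    (hab : ∀ s ∈ P, ∀ t ∈ P, s * t = t * s) {x : Ω} (hx : x ∈ P) (hxA : x ∉ A) :
    ∃ y ∈ P, y ∉ A ∧ y ^ 2 = 1 ∧ (∀ v ∈ cen S, v ^ 2 ≠ z) ∧ (∃ c ∈ cen S, y = c * x) ∧
      ∀ β ∈ F.autGroup P, ∀ w : P, (w : Ω)⁻¹ * (β w : P) ∈ ⁅S, S⁆ ⊔ Subgroup.zpowers y := by
  classical
  have hPS : P ≤ S := hE.1.1
  have hC : centralizerIn S P ≤ P := hE.1.2 P (Cfsg.Agent.Lib.Fusion.Basic.IsConj.refl hPS)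
  have hcenP : cen S ≤ P := cen_le_of_centric hE.1
  have hPA : ∀ w ∈ P, w ∈ A → w ∈ cen S := fun w hw hwA =>
    U.D.central_of_comm hwA (hPS hx) hxA (hab x hx w hw)
  have hzP : z ∈ P := hcenP U.zcen
  have haP : a ∈ P := hcenP U.ac
  obtain ⟨a₀, ha₀, ha₀N, ha₀P⟩ := U.D.exists_normalizing hF hE hx hxA
  have ha₀S := U.D.le ha₀
  have hmvc : ∀ w ∈ P, a₀ * w * a₀⁻¹ * w⁻¹ ∈ cen S := by
    intro w hw
    apply hPA
    · exact P.mul_mem ((Subgroup.mem_normalizer_iff.1 ha₀N w).1 hw) (P.inv_mem hw)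
    · have : a₀ * w * a₀⁻¹ * w⁻¹ = ⁅a₀, w⁆ := by rw [commutatorElement_def]
      rw [this]
      exact U.comm_le_A (Subgroup.commutator_mem_commutator ha₀S (hPS hw))
  have hmvz : ∀ w ∈ P, a₀ * w * a₀⁻¹ * w⁻¹ = 1 ∨ a₀ * w * a₀⁻¹ * w⁻¹ = z := by
    intro w hw
    refine U.central_comm ?_ (hmvc w hw)
    have : a₀ * w * a₀⁻¹ * w⁻¹ = ⁅a₀, w⁆ := by rw [commutatorElement_def]
    rw [this]
    exact Subgroup.commutator_mem_commutator ha₀S (hPS hw)
  have hNi := U.D.index_normalizer hF hE hx hxA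
  have hNP : ∀ g ∈ S, g ∈ Subgroup.normalizer (P : Set Ω) → g ∈ P ∨ a₀⁻¹ * g ∈ P := by
    intro g hg hgN
    by_cases hgP : g ∈ P
    · exact Or.inl hgP
    · right
      have h1 := Subgroup.mul_mem_iff_of_index_two hNi (a := (⟨a₀⁻¹, S.inv_mem ha₀S, Subgroup.inv_mem _ ha₀N⟩ : ↥(S ⊓ Subgroup.normalizer (P : Set Ω))))
        (b := ⟨g, hg, hgN⟩)
      have h2 : a₀⁻¹ ∉ P := fun h => ha₀P (by simpa using P.inv_mem h)
      exact h1.2 (iff_of_false h2 hgP)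
  have htv : ∀ v ∈ P, v ^ 2 = 1 → a₀ * v * a₀⁻¹ = v ∨ a₀ * v * a₀⁻¹ = v * z := by
    intro v hv _
    rcases hmvz v hv with h | h
    · left
      have : a₀ * v * a₀⁻¹ = (a₀ * v * a₀⁻¹ * v⁻¹) * v := by group
      rw [this, h, one_mul]
    · right
      have : a₀ * v * a₀⁻¹ = (a₀ * v * a₀⁻¹ * v⁻¹) * v := by group
      rw [this, h]
      exact (mem_cen.1 U.zcen).2 v (hPS hv) |>.symm
  have hfix : ∀ v ∈ P, v ^ 2 = 1 → a₀ * v * a₀⁻¹ = v → v ∈ cen S := by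
    intro v hv _ hv2
    by_cases hvA : v ∈ A
    · exact hPA v hv hvA
    · exfalso
      apply ha₀P
      apply hC
      refine ⟨ha₀S, Subgroup.mem_centralizer_iff.2 fun w hw => ?_⟩
      obtain ⟨b, hbP, hb, k, rfl⟩ := U.D.decomp_P hPS hv hvA hw
      have h1 := (mem_cen.1 (hPA b hbP hb)).2 a₀ ha₀S
      have h2 : Commute a₀ v := comm_of_conj_eq hv2
      have h3 : Commute a₀ (b * v ^ k) := Commute.mul_right h1 (h2.pow_right k)
      exact h3.eq.symm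
  have hmv : ∀ w ∈ P, a₀ * w * a₀⁻¹ * w⁻¹ ∈ Subgroup.zpowers z := by
    intro w hw
    rcases hmvz w hw with h | h
    · rw [h]; exact Subgroup.one_mem _
    · rw [h]; exact Subgroup.mem_zpowers z
  obtain ⟨α, hαL, h1, h2⟩ := abMain U hS hF hE hab ha₀S ha₀N ha₀P hNP hzP haP htv hfix hzP hmv
  obtain ⟨y, hy⟩ : ∃ y : Ω, y = (α ⟨z, hzP⟩ : P) := ⟨_, rfl⟩
  have hyP : y ∈ P := by rw [hy]; exact (α _).2
  rw [← hy] at h1 h2
  have hyc : y ∉ cen S := by
    intro hc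
    have h3 : a₀ * y * a₀⁻¹ = y := by
      rw [(mem_cen.1 hc).2 a₀ ha₀S]
      group
    rw [h2] at h3
    exact U.z1 (by simpa using h3)
  have hyA : y ∉ A := fun h => hyc (hPA y hyP h)
  have hsq : ∀ g ∈ P, g ^ 2 ∈ cen S := by
    intro g hg
    rw [pow_two]
    by_cases hgA : g ∈ A
    · exact hPA _ (P.mul_mem hg hg) (A.mul_mem hgA hgA)
    · exact U.sq_central (hPS hg) hgA
  refine ⟨y, hyP, hyA, ?_, ?_, ?_, ?_⟩
  · have : (α ⟨z, hzP⟩) ^ 2 = 1 := by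
      rw [← map_pow]
      have : (⟨z, hzP⟩ : P) ^ 2 = 1 := Subtype.ext U.zz
      rw [this, map_one]
    rw [hy]
    simpa using congrArg Subtype.val this
  · intro v hv hvz
    apply hyc
    have hvP := hcenP hv
    have e : y = (((α ⟨v, hvP⟩ : P) : Ω)) ^ 2 := by
      have : (⟨v, hvP⟩ : P) ^ 2 = ⟨z, hzP⟩ := Subtype.ext hvz
      rw [hy, ← this, map_pow]
      rfl
    rw [e]
    exact hsq _ (α _).2
  · obtain ⟨b, hb, hbe⟩ := U.exists_mul_of_not_mem (hPS hx) hxA (hPS hyP) hyA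
    refine ⟨b, ?_, hbe⟩
    apply hPA _ _ hb
    have : b = y * x⁻¹ := by rw [hbe]; group
    rw [this]
    exact P.mul_mem hyP (P.inv_mem hx)
  · intro β hβ w
    have hle : Subgroup.zpowers z ⊔ Subgroup.zpowers y ≤ ⁅S, S⁆ ⊔ Subgroup.zpowers y :=
      sup_le_sup_right (Subgroup.zpowers_le.2 U.zc) _
    exact hle (h1 β hβ w)

end Abelian

end Cfsg.Agent.Lib.Components.GL3B
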