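/-
`2`-groups `V` with `V/Z(V)` a four-group and `V' = ⟨z⟩`, and their automorphisms of odd order
("Pauli groups" `Z * Q₈`).
-/
import Mathlib
import Cfsg.Agent.Lib.Components.GL3A

set_option autoImplicit false
set_option linter.style.haveILetI false

namespace Cfsg.Agent.Lib.Components.GL3C

open Cfsg.Agent.Lib.Components.GL3A
open scoped commutatorElement

variable {V : Type*} [Group V] {z a : V}

/-- The hypotheses. -/
structure PT (z a : V) : Prop where
  hV : IsPGroup 2 V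
  zc : z ∈ Subgroup.center V
  zz : z ^ 2 = 1
  z1 : z ≠ 1
  om : ∀ v ∈ Subgroup.center V, v ^ 2 = 1 → v = 1 ∨ v = a ∨ v = z ∨ v = a * z
  comm : ∀ g h : V, g * h * g⁻¹ * h⁻¹ = 1 ∨ g * h * g⁻¹ * h⁻¹ = z
  sq : ∀ g : V, g ^ 2 ∈ Subgroup.center V
  cover : ∃ b₁ b₂ : V, ∀ h : V, ∃ c ∈ Subgroup.center V, h = c ∨ h = c * b₁ ∨ h = c * b₂ ∨ h = c * (b₁ * b₂)
  nonab : ∃ g h : V, g * h ≠ h * g

variable [Finite V] (T : PT z a)

include T

theorem PT.zfix (β : MulAut V) : β z = z := by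
  obtain ⟨g, h, hgh⟩ := T.nonab
  have h1 : g * h * g⁻¹ * h⁻¹ = z := by
    rcases T.comm g h with h1 | h1
    · exfalso
      apply hgh
      have : g * h = (g * h * g⁻¹ * h⁻¹) * (h * g) := by group
      rw [this, h1, one_mul]
    · exact h1
  have h2 : β z = β g * β h * (β g)⁻¹ * (β h)⁻¹ := by
    rw [← h1]
    simp only [map_mul, map_inv]
  rcases T.comm (β g) (β h) with h3 | h3
  · exfalso
    rw [h3] at h2
    apply T.z1
    simpa using h2
  · rw [h2, h3]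

omit T in
theorem cen_map {c : V} (hc : c ∈ Subgroup.center V) (β : MulAut V) : β c ∈ Subgroup.center V := by
  rw [Subgroup.mem_center_iff] at hc ⊢
  intro g
  have := hc (β⁻¹ g)
  have h2 := congrArg β this
  simpa using h2

/-- An automorphism of odd order is trivial on the centre. -/
theorem PT.oddfix {β : MulAut V} {m : ℕ} (hm : Odd m) (hβ : β ^ m = 1) {c : V}
    (hc : c ∈ Subgroup.center V) : β c = c := by
  obtain ⟨k, hk⟩ := T.hV c
  refine fix_of_fix_sq (Subgroup.center V) (fun x hx y _ => (Subgroup.mem_center_iff.1 hx y).symm) β hm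
    hβ (fun v hv => cen_map hv β) ?_ k c hc hk
  intro v hv hvv
  have hw : (β v) ^ 2 = 1 := by rw [← map_pow, hvv, map_one]
  have hwc := cen_map hv β
  have inj : ∀ u u', β u = β u' → u = u' := fun u u' h => β.injective h
  have hz := T.zfix β
  have key : β v = v ∨ β v = v * z := by
    rcases T.om v hv hvv with h1 | h1 | h1 | h1
    · left; rw [h1, map_one]
    · rcases T.om _ hwc hw with h2 | h2 | h2 | h2
      · left; rw [inj v 1 (by rw [h2, map_one])]; exact map_one _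
      · left; rw [h2, h1]
      · left; rw [inj v z (by rw [h2, hz])]; exact hz
      · right; rw [h2, h1]
    · left; rw [h1]; exact hz
    · rcases T.om _ hwc hw with h2 | h2 | h2 | h2
      · left; rw [inj v 1 (by rw [h2, map_one])]; exact map_one _
      · right; rw [h2, h1, mul_assoc, ← pow_two, T.zz, mul_one]
      · left; rw [inj v z (by rw [h2, hz])]; exact hz
      · left; rw [h2, h1]
  rcases key with h | h
  · exact h
  · exact absurd (eq_one_of_step β hm hβ h hz T.zz) T.z1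

/-- If an odd automorphism moves `g` by a central element, it fixes `g`. -/
theorem PT.stepZ {β : MulAut V} {m : ℕ} (hm : Odd m) (hβ : β ^ m = 1) {g : V}
    (hg : g⁻¹ * β g ∈ Subgroup.center V) : β g = g := by
  obtain ⟨c, hc⟩ : ∃ c, c = g⁻¹ * β g := ⟨_, rfl⟩
  rw [← hc] at hg
  have hβg : β g = g * c := by rw [hc]; group
  have hcfix := T.oddfix hm hβ hg
  have hgg := T.oddfix hm hβ (T.sq g)
  have hcc : c ^ 2 = 1 := by
    rw [map_pow, hβg] at hgg
    have hcm := (Subgroup.mem_center_iff.1 hg g)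
    have e : (g * c) ^ 2 = g ^ 2 * c ^ 2 := by
      rw [pow_two, pow_two, pow_two]
      calc g * c * (g * c) = g * (c * g) * c := by group
        _ = g * (g * c) * c := by rw [hcm]
        _ = g * g * (c * c) := by group
    rw [e] at hgg
    simpa using hgg
  have := eq_one_of_step β hm hβ hβg hcfix hcc
  rw [hβg, this, mul_one]

/-- If the square of an odd automorphism moves `g` by a central element, it fixes `g`. -/
theorem PT.sqfix {β : MulAut V} {m : ℕ} (hm : Odd m) (hβ : β ^ m = 1) {g : V}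
    (hg : g⁻¹ * β (β g) ∈ Subgroup.center V) : β g = g := by
  have h1 : (β * β) ^ m = 1 := by
    have : β * β = β ^ 2 := (pow_two β).symm
    rw [this, ← pow_mul, mul_comm, pow_mul, hβ, one_pow]
  have h2 := T.stepZ (β := β * β) hm h1 (g := g) (by simpa using hg)
  obtain ⟨k, rfl⟩ := hm
  have h3 : ∀ n : ℕ, (β ^ (2 * n)) g = g := by
    intro n
    rw [pow_mul, pow_two]
    induction n with
    | zero => simp
    | succ n ih => rw [pow_succ', MulAut.mul_apply, ih, h2]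
  have h4 := h3 (k + 1)
  have h5 : β ^ (2 * (k + 1)) = β := by
    have : 2 * (k + 1) = (2 * k + 1) + 1 := by ring
    rw [this, pow_succ, hβ, one_mul]
  rwa [h5] at h4

/-- Any two inequivalent noncentral elements cover `V` modulo the centre. -/
theorem PT.cover2 {g₀ g₁ : V} (h0 : g₀ ∉ Subgroup.center V) (h1 : g₁ ∉ Subgroup.center V)
    (h01 : g₀⁻¹ * g₁ ∉ Subgroup.center V) (h : V) :
    ∃ c ∈ Subgroup.center V, h = c * 1 ∨ h = c * g₀ ∨ h = c * g₁ ∨ h = c * (g₀ * g₁) := by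
  classical
  let N : Subgroup V := Subgroup.center V
  let Q := V ⧸ N
  haveI : Fintype Q := Fintype.ofFinite Q
  let q : V → Q := fun v => (QuotientGroup.mk v : Q)
  have hq1 : ∀ v, q v = 1 ↔ v ∈ N := fun v => QuotientGroup.eq_one_iff v
  have hqe : ∀ v w, q v = q w ↔ v⁻¹ * w ∈ N := fun v w => QuotientGroup.eq
  have hqmul : ∀ v w, q (v * w) = q v * q w := fun v w => rfl
  have hqc : ∀ c ∈ N, ∀ w, q (c * w) = q w := by
    intro c hc w
    rw [hqmul, (hq1 c).2 hc, one_mul]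
  -- cardinality
  obtain ⟨b₁, b₂, hb⟩ := T.cover
  have hcard : Fintype.card Q ≤ 4 := by
    have hsub : (Finset.univ : Finset Q) ⊆ {1, q b₁, q b₂, q (b₁ * b₂)} := by
      intro x _
      obtain ⟨v, rfl⟩ := QuotientGroup.mk_surjective x
      obtain ⟨c, hc, h | h | h | h⟩ := hb v
      · have : q v = 1 := (hq1 v).2 (by rw [h]; exact hc)
        simp only [Finset.mem_insert, Finset.mem_singleton]
        exact Or.inl this
      · have : q v = q b₁ := by rw [h]; exact hqc c hc _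
        simp only [Finset.mem_insert, Finset.mem_singleton]
        exact Or.inr (Or.inl this)
      · have : q v = q b₂ := by rw [h]; exact hqc c hc _
        simp only [Finset.mem_insert, Finset.mem_singleton]
        exact Or.inr (Or.inr (Or.inl this))
      · have : q v = q (b₁ * b₂) := by rw [h]; exact hqc c hc _
        simp only [Finset.mem_insert, Finset.mem_singleton]
        exact Or.inr (Or.inr (Or.inr this))
    have := Finset.card_le_card hsub
    rw [Finset.card_univ] at this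
    exact this.trans Finset.card_le_four
  -- the four cosets
  have hq0 : q g₀ ≠ 1 := fun e => h0 ((hq1 _).1 e)
  have hq1' : q g₁ ≠ 1 := fun e => h1 ((hq1 _).1 e)
  have hq01 : q g₀ ≠ q g₁ := fun e => h01 ((hqe _ _).1 e)
  have hq2 : q g₀ * q g₀ = 1 := by
    rw [← hqmul, hq1, ← pow_two]
    exact T.sq g₀
  have hne1 : q (g₀ * g₁) ≠ 1 := by
    intro e
    rw [hqmul] at e
    apply hq01
    have : q g₀ = q g₀ * (q g₀ * q g₁) := by rw [e, mul_one]
    rw [this, ← mul_assoc, hq2, one_mul]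
  have hne2 : q (g₀ * g₁) ≠ q g₀ := by
    intro e
    rw [hqmul] at e
    apply hq1'
    simpa using e
  have hne3 : q (g₀ * g₁) ≠ q g₁ := by
    intro e
    rw [hqmul] at e
    apply hq0
    simpa using e
  have huniv : ({1, q g₀, q g₁, q (g₀ * g₁)} : Finset Q) = Finset.univ := by
    apply Finset.eq_univ_of_card
    rw [Finset.card_insert_of_notMem, Finset.card_insert_of_notMem, Finset.card_insert_of_notMem,
      Finset.card_singleton]
    · have h5 : 0 < Fintype.card Q := Fintype.card_pos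
      -- `|Q| = 4`
      have h4 : 4 ≤ Fintype.card Q := by
        have h6 : ({1, q g₀, q g₁, q (g₀ * g₁)} : Finset Q).card = 4 := by
          rw [Finset.card_insert_of_notMem, Finset.card_insert_of_notMem, Finset.card_insert_of_notMem,
            Finset.card_singleton]
          · simpa using hne3.symm
          · simp only [Finset.mem_insert, Finset.mem_singleton, not_or]
            exact ⟨hq01, hne2.symm⟩
          · simp only [Finset.mem_insert, Finset.mem_singleton, not_or]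
            exact ⟨hq0.symm, hq1'.symm, hne1.symm⟩
        rw [← h6]
        exact Finset.card_le_univ _
      omega
    · simpa using hne3.symm
    · simp only [Finset.mem_insert, Finset.mem_singleton, not_or]
      exact ⟨hq01, hne2.symm⟩
    · simp only [Finset.mem_insert, Finset.mem_singleton, not_or]
      exact ⟨hq0.symm, hq1'.symm, hne1.symm⟩
  have hmem : q h ∈ ({1, q g₀, q g₁, q (g₀ * g₁)} : Finset Q) := by
    rw [huniv]
    exact Finset.mem_univ _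
  simp only [Finset.mem_insert, Finset.mem_singleton] at hmem
  have hsplit : ∀ w, q h = q w → ∃ c ∈ Subgroup.center V, h = c * w := by
    intro w hw
    have h3 := (hqe _ _).1 hw
    have h4 : (h⁻¹ * w)⁻¹ ∈ Subgroup.center V := N.inv_mem h3
    have h5 : h * w⁻¹ ∈ Subgroup.center V := by
      have h6 := (inferInstance : (Subgroup.center V).Normal).conj_mem _ h4 h
      have e : h * (h⁻¹ * w)⁻¹ * h⁻¹ = h * w⁻¹ := by group
      rwa [e] at h6
    exact ⟨h * w⁻¹, h5, by group⟩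
  rcases hmem with h2 | h2 | h2 | h2
  · obtain ⟨c, hc, e⟩ := hsplit 1 (by rw [h2]; rfl)
    exact ⟨c, hc, Or.inl e⟩
  · obtain ⟨c, hc, e⟩ := hsplit g₀ h2
    exact ⟨c, hc, Or.inr (Or.inl e)⟩
  · obtain ⟨c, hc, e⟩ := hsplit g₁ h2
    exact ⟨c, hc, Or.inr (Or.inr (Or.inl e))⟩
  · obtain ⟨c, hc, e⟩ := hsplit _ h2
    exact ⟨c, hc, Or.inr (Or.inr (Or.inr e))⟩

/-- The three elements permuted by an odd automorphism. -/
theorem PT.exists_r {σ : MulAut V} {m : ℕ} (hm : Odd m) (hσ : σ ^ m = 1) (hσ1 : σ ≠ 1) :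
    ∃ r₀ r₁ r₂ : V, r₀ ∉ Subgroup.center V ∧ r₁ ∉ Subgroup.center V ∧ r₂ ∉ Subgroup.center V ∧
      r₀⁻¹ * r₁ ∉ Subgroup.center V ∧ r₀⁻¹ * r₂ ∉ Subgroup.center V ∧ r₁⁻¹ * r₂ ∉ Subgroup.center V ∧
      r₀ ^ 2 = z ∧ r₁ ^ 2 = z ∧ r₂ ^ 2 = z ∧ r₀ * r₁ * r₂ = 1 ∧ σ r₀ = r₁ ∧ σ r₁ = r₂ ∧ σ r₂ = r₀ ∧
      r₁ * r₀ * r₁⁻¹ * r₀⁻¹ = z := by
  classical
  obtain ⟨g₀, hg₀⟩ : ∃ g₀, g₀⁻¹ * σ g₀ ∉ Subgroup.center V := by
    by_contra hcon
    push Not at hcon
    apply hσ1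
    ext g
    exact T.stepZ hm hσ (hcon g)
  have hZ : ∀ {x : V}, x ∈ Subgroup.center V → ∀ w, x * w = w * x := fun hx w =>
    (Subgroup.mem_center_iff.1 hx w).symm
  have hσinv : ∀ {x : V}, σ x ∈ Subgroup.center V → x ∈ Subgroup.center V := by
    intro x hx
    have := cen_map hx σ⁻¹
    simpa using this
  obtain ⟨g₁, hg₁⟩ : ∃ g₁, g₁ = σ g₀ := ⟨_, rfl⟩
  obtain ⟨g₂, hg₂⟩ : ∃ g₂, g₂ = σ g₁ := ⟨_, rfl⟩
  rw [← hg₁] at hg₀
  have h0 : g₀ ∉ Subgroup.center V := by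
    intro h
    apply hg₀
    rw [hg₁, T.oddfix hm hσ h]
    simp [Subgroup.one_mem]
  have h1 : g₁ ∉ Subgroup.center V := fun h => h0 (hσinv (by rw [← hg₁]; exact h))
  have h2 : g₂ ∉ Subgroup.center V := fun h => h1 (hσinv (by rw [← hg₂]; exact h))
  have h12 : g₁⁻¹ * g₂ ∉ Subgroup.center V := by
    intro h
    apply hg₀
    apply hσinv
    rw [map_mul, map_inv, ← hg₁, ← hg₂]
    exact h
  have h02 : g₀⁻¹ * g₂ ∉ Subgroup.center V := by
    intro h
    have := T.sqfix hm hσ (g := g₀) (by rw [← hg₁, ← hg₂]; exact h)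
    apply hg₀
    rw [hg₁, this]
    simp [Subgroup.one_mem]
  -- the product is central
  have hN : g₀ * g₁ * g₂ ∈ Subgroup.center V := by
    obtain ⟨c, hc, h | h | h | h⟩ := T.cover2 h0 h1 hg₀ g₂
    · exact absurd (by rw [h, mul_one]; exact hc) h2
    · exfalso
      apply h02
      rw [h]
      have e : g₀⁻¹ * (c * g₀) = c := by
        rw [hZ hc g₀]
        group
      rw [e]
      exact hc
    · exfalso
      apply h12
      rw [h]
      have e : g₁⁻¹ * (c * g₁) = c := by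
        rw [hZ hc g₁]
        group
      rw [e]
      exact hc
    · rw [h]
      have e : g₀ * g₁ * (c * (g₀ * g₁)) = c * ((g₀ * g₁) ^ 2) := by
        calc g₀ * g₁ * (c * (g₀ * g₁)) = (g₀ * g₁ * c) * (g₀ * g₁) := by group
          _ = (c * (g₀ * g₁)) * (g₀ * g₁) := by rw [hZ hc (g₀ * g₁)]
          _ = c * ((g₀ * g₁) ^ 2) := by rw [pow_two]; group
      rw [e]
      exact Subgroup.mul_mem _ hc (T.sq _)
  obtain ⟨N, hNdef⟩ : ∃ N, N = g₀ * g₁ * g₂ := ⟨_, rfl⟩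
  rw [← hNdef] at hN
  -- the cube root
  obtain ⟨v, hvc, hv⟩ : ∃ v ∈ Subgroup.center V, v ^ 3 = N⁻¹ := by
    have hcop : Nat.Coprime 3 (orderOf N⁻¹) := by
      obtain ⟨k, hk⟩ := IsPGroup.iff_orderOf.1 T.hV N⁻¹
      rw [hk]
      exact Nat.Coprime.pow_right k (by norm_num)
    obtain ⟨w, hw⟩ := exists_pow_eq_self_of_coprime hcop
    refine ⟨N⁻¹ ^ w, Subgroup.pow_mem _ (Subgroup.inv_mem _ hN) _, ?_⟩
    rw [← pow_mul, mul_comm, pow_mul]
    exact hw
  have hσv : σ v = v := T.oddfix hm hσ hvc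
  obtain ⟨r₀, hr₀⟩ : ∃ r₀, r₀ = g₀ * v := ⟨_, rfl⟩
  obtain ⟨r₁, hr₁⟩ : ∃ r₁, r₁ = g₁ * v := ⟨_, rfl⟩
  obtain ⟨r₂, hr₂⟩ : ∃ r₂, r₂ = g₂ * v := ⟨_, rfl⟩
  have hσ0 : σ r₀ = r₁ := by rw [hr₀, hr₁, map_mul, hσv, hg₁]
  have hσ1' : σ r₁ = r₂ := by rw [hr₁, hr₂, map_mul, hσv, hg₂]
  have hprod : r₀ * r₁ * r₂ = 1 := by
    rw [hr₀, hr₁, hr₂]
    have e : g₀ * v * (g₁ * v) * (g₂ * v) = (g₀ * g₁ * g₂) * v ^ 3 := by
      rw [pow_succ, pow_two]
      have h3 := hZ hvc g₁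
      have h4 := hZ hvc g₂
      calc g₀ * v * (g₁ * v) * (g₂ * v) = g₀ * (v * g₁) * v * (g₂ * v) := by group
        _ = g₀ * (g₁ * v) * v * (g₂ * v) := by rw [h3]
        _ = g₀ * g₁ * (v * v) * g₂ * v := by group
        _ = g₀ * g₁ * (v * (v * g₂)) * v := by group
        _ = g₀ * g₁ * (v * (g₂ * v)) * v := by rw [h4]
        _ = g₀ * g₁ * ((v * g₂) * v) * v := by group
        _ = g₀ * g₁ * ((g₂ * v) * v) * v := by rw [h4]
        _ = _ := by group
    rw [e, hv, ← hNdef]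
    group
  have hσ2 : σ r₂ = r₀ := by
    have h4 := congrArg σ hprod
    rw [map_mul, map_mul, hσ0, hσ1', map_one] at h4
    have h5 : r₁ * r₂ = r₀⁻¹ := by
      have : r₀ * (r₁ * r₂) = 1 := by rw [← mul_assoc]; exact hprod
      exact eq_inv_of_mul_eq_one_right this
    rw [h5] at h4
    have h6 : σ r₂ = r₀ * (r₀⁻¹ * σ r₂) := by group
    rw [h6, h4, mul_one]
  have hcenr : ∀ x, x ∉ Subgroup.center V → x * v ∉ Subgroup.center V := by
    intro x hx h
    apply hx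
    have : x = (x * v) * v⁻¹ := by group
    rw [this]
    exact Subgroup.mul_mem _ h (Subgroup.inv_mem _ hvc)
  have hdiff : ∀ x y, x⁻¹ * y ∉ Subgroup.center V → (x * v)⁻¹ * (y * v) ∉ Subgroup.center V := by
    intro x y hxy
    have e : (x * v)⁻¹ * (y * v) = x⁻¹ * y := by
      calc (x * v)⁻¹ * (y * v) = v⁻¹ * (x⁻¹ * y) * v := by group
        _ = v⁻¹ * (v * (x⁻¹ * y)) := by rw [mul_assoc, ← hZ hvc (x⁻¹ * y)]
        _ = x⁻¹ * y := by group
    rw [e]
    exact hxy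
  have hn0 : r₀ ∉ Subgroup.center V := by rw [hr₀]; exact hcenr _ h0
  have hn1 : r₁ ∉ Subgroup.center V := by rw [hr₁]; exact hcenr _ h1
  have hn2 : r₂ ∉ Subgroup.center V := by rw [hr₂]; exact hcenr _ h2
  have hd01 : r₀⁻¹ * r₁ ∉ Subgroup.center V := by rw [hr₀, hr₁]; exact hdiff _ _ hg₀
  have hd02 : r₀⁻¹ * r₂ ∉ Subgroup.center V := by rw [hr₀, hr₂]; exact hdiff _ _ h02
  have hd12 : r₁⁻¹ * r₂ ∉ Subgroup.center V := by rw [hr₁, hr₂]; exact hdiff _ _ h12
  -- the squares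
  obtain ⟨c₀, hc₀⟩ : ∃ c₀, c₀ = r₀ ^ 2 := ⟨_, rfl⟩
  have hc₀Z : c₀ ∈ Subgroup.center V := by rw [hc₀]; exact T.sq r₀
  have hs1 : r₁ ^ 2 = c₀ := by
    rw [← hσ0, ← map_pow, ← hc₀]
    exact T.oddfix hm hσ hc₀Z
  have hs2 : r₂ ^ 2 = c₀ := by
    rw [← hσ1', ← map_pow, hs1]
    exact T.oddfix hm hσ hc₀Z
  -- the commutator
  have ht : r₁ * r₀ * r₁⁻¹ * r₀⁻¹ = z := by
    rcases T.comm r₁ r₀ with h | h
    · exfalso
      have hcm : r₁ * r₀ = r₀ * r₁ := by
        have : r₁ * r₀ = (r₁ * r₀ * r₁⁻¹ * r₀⁻¹) * (r₀ * r₁) := by group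
        rw [this, h, one_mul]
      apply hn0
      rw [Subgroup.mem_center_iff]
      intro g
      obtain ⟨c, hc, e | e | e | e⟩ := T.cover2 hn0 hn1 hd01 g
      · rw [e]
        calc c * 1 * r₀ = c * r₀ := by group
          _ = r₀ * c := hZ hc r₀
          _ = r₀ * (c * 1) := by group
      · rw [e]
        calc c * r₀ * r₀ = r₀ * c * r₀ := by rw [hZ hc]
          _ = r₀ * (c * r₀) := by group
      · rw [e]
        calc c * r₁ * r₀ = c * (r₁ * r₀) := by group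
          _ = c * (r₀ * r₁) := by rw [hcm]
          _ = (c * r₀) * r₁ := by group
          _ = (r₀ * c) * r₁ := by rw [hZ hc]
          _ = r₀ * (c * r₁) := by group
      · rw [e]
        calc c * (r₀ * r₁) * r₀ = c * r₀ * (r₁ * r₀) := by group
          _ = c * r₀ * (r₀ * r₁) := by rw [hcm]
          _ = (r₀ * c) * r₀ * r₁ := by rw [hZ hc]; group
          _ = r₀ * (c * (r₀ * r₁)) := by group
    · exact h
  have hcc3 : c₀ ^ 3 = z := by
    have h1' : r₁ * r₀ = z * (r₀ * r₁) := by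
      rw [← ht]; group
    have h2' : (r₀ * r₁) * (r₀ * r₁) = z * (c₀ * c₀) := by
      have hzc := (Subgroup.mem_center_iff.1 T.zc)
      calc (r₀ * r₁) * (r₀ * r₁) = r₀ * (r₁ * r₀) * r₁ := by group
        _ = r₀ * (z * (r₀ * r₁)) * r₁ := by rw [h1']
        _ = (r₀ * z) * r₀ * r₁ * r₁ := by group
        _ = (z * r₀) * r₀ * r₁ * r₁ := by rw [hzc r₀]
        _ = z * (r₀ ^ 2 * r₁ ^ 2) := by rw [pow_two, pow_two]; group
        _ = z * (c₀ * c₀) := by rw [← hc₀, hs1]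
    have h3' : r₀ * r₁ = r₂⁻¹ := eq_inv_of_mul_eq_one_left hprod
    have h4' : (r₀ * r₁) * (r₀ * r₁) = c₀⁻¹ := by
      rw [h3', ← hs2, pow_two]
      group
    rw [h2'] at h4'
    have h5' : z * (c₀ * c₀ * c₀) = 1 := by
      calc z * (c₀ * c₀ * c₀) = (z * (c₀ * c₀)) * c₀ := by group
        _ = 1 := by rw [h4']; group
    have hzi : z⁻¹ = z := inv_eq_of_mul_eq_one_left (by rw [← pow_two, T.zz])
    have h6' : c₀ * c₀ * c₀ = z⁻¹ := eq_inv_of_mul_eq_one_right h5'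
    rw [hzi] at h6'
    rw [pow_succ, pow_two]
    exact h6'
  have hc₀z : c₀ = z := by
    obtain ⟨k, hk⟩ := T.hV c₀
    have hx3 : (c₀ ^ 2) ^ 3 = 1 := by
      rw [← pow_mul, mul_comm, pow_mul, hcc3, T.zz]
    have hxk : (c₀ ^ 2) ^ 2 ^ k = 1 := by
      rw [← pow_mul, mul_comm, pow_mul]
      have : c₀ ^ 2 ^ k = 1 := by simpa using hk
      rw [this, one_pow]
    have hd := Nat.dvd_gcd (orderOf_dvd_of_pow_eq_one hx3) (orderOf_dvd_of_pow_eq_one hxk)
    have hg : Nat.gcd 3 (2 ^ k) = 1 := Nat.Coprime.pow_right k (by norm_num)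
    rw [hg, Nat.dvd_one, orderOf_eq_one_iff] at hd
    rw [← hcc3, pow_succ, hd, one_mul]
  refine ⟨r₀, r₁, r₂, hn0, hn1, hn2, hd01, hd02, hd12, ?_, ?_, ?_, hprod, hσ0, hσ1', hσ2, ht⟩
  · rw [← hc₀, hc₀z]
  · rw [hs1, hc₀z]
  · rw [hs2, hc₀z]

/-- Inverse of a square root of `z`. -/
theorem PT.inv_eq {r : V} (h : r ^ 2 = z) : r⁻¹ = z * r := by
  apply inv_eq_of_mul_eq_one_right
  have hzc := (Subgroup.mem_center_iff.1 T.zc r)
  calc r * (z * r) = (r * z) * r := by group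
    _ = (z * r) * r := by rw [hzc]
    _ = z * (r * r) := by group
    _ = z * r ^ 2 := by rw [pow_two]
    _ = z ^ 2 := by rw [h, pow_two]
    _ = 1 := T.zz

/-- The multiplication table of the three elements. -/
theorem PT.table {r₀ r₁ r₂ : V} (h0 : r₀ ^ 2 = z) (h1 : r₁ ^ 2 = z) (h2 : r₂ ^ 2 = z)
    (hp : r₀ * r₁ * r₂ = 1) (ht : r₁ * r₀ * r₁⁻¹ * r₀⁻¹ = z) :
    r₀ * r₁ = z * r₂ ∧ r₁ * r₀ = r₂ ∧ r₁ * r₂ = z * r₀ ∧ r₀ * r₂ = r₁ ∧ r₂ * r₁ = r₀ ∧ r₂ * r₀ = z * r₁ := by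
  have hzc : ∀ w, z * w = w * z := fun w => (Subgroup.mem_center_iff.1 T.zc w).symm
  have hzz : z * z = 1 := by rw [← pow_two, T.zz]
  have hr2i : r₂⁻¹ = z * r₂ := T.inv_eq h2
  have hr0i : r₀⁻¹ = z * r₀ := T.inv_eq h0
  have t01 : r₀ * r₁ = z * r₂ := by
    rw [← hr2i]; exact eq_inv_of_mul_eq_one_left hp
  have t10 : r₁ * r₀ = r₂ := by
    have : r₁ * r₀ = (r₁ * r₀ * r₁⁻¹ * r₀⁻¹) * (r₀ * r₁) := by group
    rw [this, ht, t01, ← mul_assoc, hzz, one_mul]
  have t12 : r₁ * r₂ = z * r₀ := by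
    rw [← hr0i]
    have : r₀ * (r₁ * r₂) = 1 := by rw [← mul_assoc]; exact hp
    exact eq_inv_of_mul_eq_one_right this
  have t20 : r₂ * r₀ = z * r₁ := by
    calc r₂ * r₀ = r₁ * (r₀ * r₀) := by rw [← t10]; group
      _ = r₁ * r₀ ^ 2 := by rw [pow_two]
      _ = r₁ * z := by rw [h0]
      _ = z * r₁ := (hzc r₁).symm
  have t21 : r₂ * r₁ = r₀ := by
    have e : r₂ * r₁ = r₁ * (r₀ * r₁) := by rw [← t10]; group
    rw [e, t01]
    calc r₁ * (z * r₂) = (r₁ * z) * r₂ := by group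
      _ = (z * r₁) * r₂ := by rw [hzc r₁]
      _ = z * (r₁ * r₂) := by group
      _ = z * (z * r₀) := by rw [t12]
      _ = (z * z) * r₀ := by group
      _ = r₀ := by rw [hzz, one_mul]
  have t02 : r₀ * r₂ = r₁ := by
    have e : r₀ * r₂ = (r₀ * r₁) * r₀ := by rw [← t10]; group
    rw [e, t01]
    calc z * r₂ * r₀ = z * (r₂ * r₀) := by group
      _ = z * (z * r₁) := by rw [t20]
      _ = (z * z) * r₁ := by group
      _ = r₁ := by rw [hzz, one_mul]
  exact ⟨t01, t10, t12, t02, t21, t20⟩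

/-- Elements of the subgroup generated by `r₀, r₁`. -/
theorem PT.closure_elts {r₀ r₁ r₂ : V} (h0 : r₀ ^ 2 = z) (h1 : r₁ ^ 2 = z) (h2 : r₂ ^ 2 = z)
    (hp : r₀ * r₁ * r₂ = 1) (ht : r₁ * r₀ * r₁⁻¹ * r₀⁻¹ = z) {d : V}
    (hd : d ∈ Subgroup.closure ({r₀, r₁} : Set V)) :
    ∃ e : ℕ, d = z ^ e ∨ d = z ^ e * r₀ ∨ d = z ^ e * r₁ ∨ d = z ^ e * r₂ := by
  have hzc : ∀ w, z * w = w * z := fun w => (Subgroup.mem_center_iff.1 T.zc w).symm
  have hzp : ∀ (e : ℕ) w, w * z ^ e = z ^ e * w := by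
    intro e w
    induction e with
    | zero => simp
    | succ n ih =>
      rw [pow_succ, ← mul_assoc, ih, mul_assoc, ← hzc w, ← mul_assoc]
  obtain ⟨t01, t10, t12, t02, t21, t20⟩ := T.table h0 h1 h2 hp ht
  have hr0i : r₀⁻¹ = z * r₀ := T.inv_eq h0
  have hr1i : r₁⁻¹ = z * r₁ := T.inv_eq h1
  let Q : V → Prop := fun d => ∃ e : ℕ, d = z ^ e ∨ d = z ^ e * r₀ ∨ d = z ^ e * r₁ ∨ d = z ^ e * r₂
  have hQz : ∀ d, Q d → Q (z * d) := by
    rintro d ⟨e, h | h | h | h⟩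
    · exact ⟨e + 1, Or.inl (by rw [h, pow_succ']) ⟩
    · exact ⟨e + 1, Or.inr (Or.inl (by rw [h, pow_succ', mul_assoc]))⟩
    · exact ⟨e + 1, Or.inr (Or.inr (Or.inl (by rw [h, pow_succ', mul_assoc])))⟩
    · exact ⟨e + 1, Or.inr (Or.inr (Or.inr (by rw [h, pow_succ', mul_assoc])))⟩
  have hQ0 : ∀ d, Q d → Q (r₀ * d) := by
    rintro d ⟨e, h | h | h | h⟩
    · exact ⟨e, Or.inr (Or.inl (by rw [h, hzp]))⟩
    · refine ⟨e + 1, Or.inl ?_⟩
      rw [h, ← mul_assoc, hzp, mul_assoc, ← pow_two, h0, pow_succ]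
    · refine ⟨e + 1, Or.inr (Or.inr (Or.inr ?_))⟩
      rw [h, ← mul_assoc, hzp, mul_assoc, t01, pow_succ, mul_assoc]
    · refine ⟨e, Or.inr (Or.inr (Or.inl ?_))⟩
      rw [h, ← mul_assoc, hzp, mul_assoc, t02]
  have hQ1 : ∀ d, Q d → Q (r₁ * d) := by
    rintro d ⟨e, h | h | h | h⟩
    · exact ⟨e, Or.inr (Or.inr (Or.inl (by rw [h, hzp])))⟩
    · refine ⟨e, Or.inr (Or.inr (Or.inr ?_))⟩
      rw [h, ← mul_assoc, hzp, mul_assoc, t10]
    · refine ⟨e + 1, Or.inl ?_⟩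
      rw [h, ← mul_assoc, hzp, mul_assoc, ← pow_two, h1, pow_succ]
    · refine ⟨e + 1, Or.inr (Or.inl ?_)⟩
      rw [h, ← mul_assoc, hzp, mul_assoc, t12, pow_succ, mul_assoc]
  have : Q d := by
    induction hd using Subgroup.closure_induction_left with
    | one => exact ⟨0, Or.inl (by simp)⟩
    | mul_left x hx y _ ih =>
      rcases hx with rfl | hx
      · exact hQ0 _ ih
      · rw [Set.mem_singleton_iff] at hx
        subst hx
        exact hQ1 _ ih
    | inv_mul_cancel x hx y _ ih =>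
      rcases hx with rfl | hx
      · rw [hr0i, mul_assoc]
        exact hQz _ (hQ0 _ ih)
      · rw [Set.mem_singleton_iff] at hx
        subst hx
        rw [hr1i, mul_assoc]
        exact hQz _ (hQ1 _ ih)
  exact this

/-- Powers of `z` are `1` or `z`. -/
theorem PT.zpow_cases (e : ℕ) : z ^ e = 1 ∨ z ^ e = z := by
  induction e with
  | zero => exact Or.inl (by simp)
  | succ n ih =>
    rcases ih with h | h
    · right; rw [pow_succ, h, one_mul]
    · left; rw [pow_succ, h, ← pow_two, T.zz]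

/-- The central elements of the subgroup generated by `r₀, r₁`. -/
theorem PT.closure_cen {r₀ r₁ r₂ : V} (h0 : r₀ ^ 2 = z) (h1 : r₁ ^ 2 = z) (h2 : r₂ ^ 2 = z)
    (hp : r₀ * r₁ * r₂ = 1) (ht : r₁ * r₀ * r₁⁻¹ * r₀⁻¹ = z) (hn0 : r₀ ∉ Subgroup.center V)
    (hn1 : r₁ ∉ Subgroup.center V) (hn2 : r₂ ∉ Subgroup.center V) {d : V}
    (hd : d ∈ Subgroup.closure ({r₀, r₁} : Set V)) (hdc : d ∈ Subgroup.center V) : d = 1 ∨ d = z := by
  obtain ⟨e, h | h | h | h⟩ := T.closure_elts h0 h1 h2 hp ht hd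
  · rw [h]; exact T.zpow_cases e
  · exfalso
    apply hn0
    have hzc : z ^ e ∈ Subgroup.center V := Subgroup.pow_mem _ T.zc e
    have : r₀ = (z ^ e)⁻¹ * d := by rw [h]; group
    rw [this]
    exact Subgroup.mul_mem _ (Subgroup.inv_mem _ hzc) hdc
  · exfalso
    apply hn1
    have hzc : z ^ e ∈ Subgroup.center V := Subgroup.pow_mem _ T.zc e
    have : r₁ = (z ^ e)⁻¹ * d := by rw [h]; group
    rw [this]
    exact Subgroup.mul_mem _ (Subgroup.inv_mem _ hzc) hdc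
  · exfalso
    apply hn2
    have hzc : z ^ e ∈ Subgroup.center V := Subgroup.pow_mem _ T.zc e
    have : r₂ = (z ^ e)⁻¹ * d := by rw [h]; group
    rw [this]
    exact Subgroup.mul_mem _ (Subgroup.inv_mem _ hzc) hdc

/-- An automorphism trivial on the centre and preserving `⟨r₀, r₁⟩` moves everything into it. -/
theorem PT.move_of_preserve {r₀ r₁ : V} (hn0 : r₀ ∉ Subgroup.center V) (hn1 : r₁ ∉ Subgroup.center V)
    (hd01 : r₀⁻¹ * r₁ ∉ Subgroup.center V) {τ : MulAut V} (hτ : ∀ c ∈ Subgroup.center V, τ c = c)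
    (h0 : τ r₀ ∈ Subgroup.closure ({r₀, r₁} : Set V)) (h1 : τ r₁ ∈ Subgroup.closure ({r₀, r₁} : Set V))
    (g : V) : g⁻¹ * τ g ∈ Subgroup.closure ({r₀, r₁} : Set V) := by
  have m0 : r₀ ∈ Subgroup.closure ({r₀, r₁} : Set V) := Subgroup.subset_closure (by simp)
  have m1 : r₁ ∈ Subgroup.closure ({r₀, r₁} : Set V) := Subgroup.subset_closure (by simp)
  have key : ∀ c ∈ Subgroup.center V, ∀ w ∈ Subgroup.closure ({r₀, r₁} : Set V),
      τ w ∈ Subgroup.closure ({r₀, r₁} : Set V) →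
      (c * w)⁻¹ * τ (c * w) ∈ Subgroup.closure ({r₀, r₁} : Set V) := by
    intro c hc w hw htw
    have e : (c * w)⁻¹ * τ (c * w) = w⁻¹ * τ w := by
      rw [map_mul, hτ c hc]
      group
    rw [e]
    exact Subgroup.mul_mem _ (Subgroup.inv_mem _ hw) htw
  obtain ⟨c, hc, e | e | e | e⟩ := T.cover2 hn0 hn1 hd01 g
  · rw [e]
    refine key c hc 1 (Subgroup.one_mem _) ?_
    rw [map_one]
    exact Subgroup.one_mem _
  · rw [e]; exact key c hc _ m0 h0
  · rw [e]; exact key c hc _ m1 h1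
  · rw [e]
    refine key c hc _ (Subgroup.mul_mem _ m0 m1) ?_
    rw [map_mul]
    exact Subgroup.mul_mem _ h0 h1

/-- The moving property for all automorphisms of odd order in a group `L` in which every normal
`2`-subgroup is inner, once some odd element of `L` acts nontrivially. -/
theorem PT.moves_in {L : Subgroup (MulAut V)}
    (hrad : ∀ K : Subgroup L, K.Normal → IsPGroup 2 K → ∀ γ ∈ K,
      (γ : MulAut V) ∈ (MulAut.conj : V →* MulAut V).range)
    {σ : MulAut V} {m : ℕ} (hm : Odd m) (hσ : σ ^ m = 1) (hσL : σ ∈ L) {r₀ r₁ r₂ : V}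
    (hn0 : r₀ ∉ Subgroup.center V) (hn1 : r₁ ∉ Subgroup.center V) (hn2 : r₂ ∉ Subgroup.center V)
    (hd01 : r₀⁻¹ * r₁ ∉ Subgroup.center V) (hd02 : r₀⁻¹ * r₂ ∉ Subgroup.center V)
    (hd12 : r₁⁻¹ * r₂ ∉ Subgroup.center V)
    (h0 : r₀ ^ 2 = z) (h1 : r₁ ^ 2 = z) (h2 : r₂ ^ 2 = z) (hp : r₀ * r₁ * r₂ = 1)
    (hs0 : σ r₀ = r₁) (hs1 : σ r₁ = r₂) (hs2 : σ r₂ = r₀) (ht : r₁ * r₀ * r₁⁻¹ * r₀⁻¹ = z)
    {β : MulAut V} (hβL : β ∈ L) {n : ℕ} (hn : Odd n) (hβ : β ^ n = 1) (g : V) :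
    g⁻¹ * β g ∈ Subgroup.closure ({r₀, r₁} : Set V) := by
  classical
  obtain ⟨t01, t10, t12, t02, t21, t20⟩ := T.table h0 h1 h2 hp ht
  have hzc : ∀ w, z * w = w * z := fun w => (Subgroup.mem_center_iff.1 T.zc w).symm
  have hzR : z ∈ Subgroup.closure ({r₀, r₁} : Set V) := by
    rw [← h0, pow_two]
    have m0 : r₀ ∈ Subgroup.closure ({r₀, r₁} : Set V) := Subgroup.subset_closure (by simp)
    exact Subgroup.mul_mem _ m0 m0
  have m0 : r₀ ∈ Subgroup.closure ({r₀, r₁} : Set V) := Subgroup.subset_closure (by simp)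
  have m1 : r₁ ∈ Subgroup.closure ({r₀, r₁} : Set V) := Subgroup.subset_closure (by simp)
  have m2 : r₂ ∈ Subgroup.closure ({r₀, r₁} : Set V) := by
    rw [← t10]; exact Subgroup.mul_mem _ m1 m0
  -- the quotient by the centre
  let N : Subgroup V := Subgroup.center V
  let q : V →* V ⧸ N := QuotientGroup.mk' N
  have hq1 : ∀ v, q v = 1 ↔ v ∈ N := fun v => QuotientGroup.eq_one_iff v
  have hqe : ∀ v w, q v = q w ↔ v⁻¹ * w ∈ N := fun v w => QuotientGroup.eq
  have hqz : q z = 1 := (hq1 _).2 T.zc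
  have p0 : q r₀ ≠ 1 := fun e => hn0 ((hq1 _).1 e)
  have p1 : q r₁ ≠ 1 := fun e => hn1 ((hq1 _).1 e)
  have p2 : q r₂ ≠ 1 := fun e => hn2 ((hq1 _).1 e)
  have p01 : q r₀ ≠ q r₁ := fun e => hd01 ((hqe _ _).1 e)
  have p02 : q r₀ ≠ q r₂ := fun e => hd02 ((hqe _ _).1 e)
  have p12 : q r₁ ≠ q r₂ := fun e => hd12 ((hqe _ _).1 e)
  have q01 : q r₀ * q r₁ = q r₂ := by rw [← map_mul, t01, map_mul, hqz, one_mul]
  have q10 : q r₁ * q r₀ = q r₂ := by rw [← map_mul, t10]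
  have q12 : q r₁ * q r₂ = q r₀ := by rw [← map_mul, t12, map_mul, hqz, one_mul]
  have q02 : q r₀ * q r₂ = q r₁ := by rw [← map_mul, t02]
  have q21 : q r₂ * q r₁ = q r₀ := by rw [← map_mul, t21]
  have q20 : q r₂ * q r₀ = q r₁ := by rw [← map_mul, t20, map_mul, hqz, one_mul]
  have hcls : ∀ h, q h = 1 ∨ q h = q r₀ ∨ q h = q r₁ ∨ q h = q r₂ := by
    intro h
    obtain ⟨c, hc, e | e | e | e⟩ := T.cover2 hn0 hn1 hd01 h
    · left; rw [e, mul_one]; exact (hq1 _).2 hc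
    · right; left; rw [e, map_mul, (hq1 c).2 hc, one_mul]
    · right; right; left; rw [e, map_mul, (hq1 c).2 hc, one_mul]
    · right; right; right; rw [e, map_mul, (hq1 c).2 hc, one_mul, map_mul, q01]
  have hτq : ∀ (τ : MulAut V) u w, q u = q w → q (τ u) = q (τ w) := by
    intro τ u w e
    have h3 := (hqe _ _).1 e
    have h4 := cen_map h3 τ
    rw [map_mul, map_inv] at h4
    exact (hqe _ _).2 h4
  have hτq' : ∀ (τ : MulAut V) u w, q (τ u) = q (τ w) → q u = q w := by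
    intro τ u w e
    have := hτq τ⁻¹ _ _ e
    simpa using this
  have hτ1 : ∀ (τ : MulAut V) u, q (τ u) = 1 ↔ q u = 1 := by
    intro τ u
    constructor
    · intro e
      have := hτq' τ u 1 (by rw [map_one, map_one]; exact e)
      rw [map_one] at this
      exact this
    · intro e
      have := hτq τ u 1 (by rw [map_one]; exact e)
      rw [map_one, map_one] at this
      exact this
  -- trivial on the quotient from two generators
  have htriv : ∀ (τ : MulAut V), q (τ r₀) = q r₀ → q (τ r₁) = q r₁ → ∀ g, g⁻¹ * τ g ∈ N := by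
    intro τ e0 e1 g
    rw [← hqe]
    symm
    obtain ⟨c, hc, e | e | e | e⟩ := T.cover2 hn0 hn1 hd01 g
    · have hg : q g = 1 := by rw [e, mul_one]; exact (hq1 _).2 hc
      rw [hg]
      exact (hτ1 τ g).2 hg
    · rw [e, map_mul, map_mul, map_mul, (hq1 c).2 hc, one_mul, e0, (hq1 _).2 (cen_map hc τ), one_mul]
    · rw [e, map_mul, map_mul, map_mul, (hq1 c).2 hc, one_mul, e1, (hq1 _).2 (cen_map hc τ), one_mul]
    · rw [e]
      have e2 : q (τ (c * (r₀ * r₁))) = q (τ c) * (q (τ r₀) * q (τ r₁)) := by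
        simp only [map_mul]
      rw [e2, e0, e1, (hq1 _).2 (cen_map hc τ), one_mul, map_mul q c, (hq1 c).2 hc, one_mul, map_mul]
  -- the normal subgroup of elements trivial on the centre and on the quotient
  let K : Subgroup L :=
    { carrier := {γ | (∀ g, g⁻¹ * (γ : MulAut V) g ∈ N) ∧ ∀ c ∈ N, (γ : MulAut V) c = c}
      mul_mem' := by
        rintro ⟨γ₁, _⟩ ⟨γ₂, _⟩ ⟨h₁, h₁'⟩ ⟨h₂, h₂'⟩
        refine ⟨fun g => ?_, fun c hc => ?_⟩
        · change g⁻¹ * γ₁ (γ₂ g) ∈ N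
          have e : g⁻¹ * γ₁ (γ₂ g) = (g⁻¹ * γ₂ g) * ((γ₂ g)⁻¹ * γ₁ (γ₂ g)) := by group
          rw [e]
          exact Subgroup.mul_mem _ (h₂ g) (h₁ _)
        · change γ₁ (γ₂ c) = c
          rw [h₂' c hc, h₁' c hc]
      one_mem' := by
        refine ⟨fun g => ?_, fun c _ => rfl⟩
        change g⁻¹ * g ∈ N
        rw [inv_mul_cancel]
        exact Subgroup.one_mem _
      inv_mem' := by
        rintro ⟨γ, hγ⟩ ⟨h₁, h₁'⟩
        refine ⟨fun g => ?_, fun c hc => ?_⟩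
        · change g⁻¹ * γ⁻¹ g ∈ N
          have h3 := h₁ (γ⁻¹ g)
          have e : γ (γ⁻¹ g) = g := by simp
          change (γ⁻¹ g)⁻¹ * γ (γ⁻¹ g) ∈ N at h3
          rw [e] at h3
          have h4 := Subgroup.inv_mem _ h3
          have e' : ((γ⁻¹ g)⁻¹ * g)⁻¹ = g⁻¹ * γ⁻¹ g := by group
          rwa [e'] at h4
        · change γ⁻¹ c = c
          have h3 := h₁' c hc
          change γ c = c at h3
          have h5 : γ⁻¹ (γ c) = c := by simp
          rw [h3] at h5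
          exact h5 }
  have hKmem : ∀ γ : L, γ ∈ K ↔ ((∀ g, g⁻¹ * (γ : MulAut V) g ∈ N) ∧ ∀ c ∈ N, (γ : MulAut V) c = c) :=
    fun _ => Iff.rfl
  have hKn : K.Normal := by
    constructor
    rintro ⟨γ, hγ⟩ hK ⟨τ, hτ⟩
    obtain ⟨hm1, hm2⟩ := (hKmem _).1 hK
    refine (hKmem _).2 ⟨fun g => ?_, fun c hc => ?_⟩
    · change g⁻¹ * τ (γ (τ⁻¹ g)) ∈ N
      have h3 := hm1 (τ⁻¹ g)
      change (τ⁻¹ g)⁻¹ * γ (τ⁻¹ g) ∈ N at h3
      have h4 := cen_map h3 τ
      rw [map_mul, map_inv] at h4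
      have e : τ (τ⁻¹ g) = g := by simp
      rwa [e] at h4
    · change τ (γ (τ⁻¹ c)) = c
      rw [hm2 _ (cen_map hc τ⁻¹)]
      simp
  have hKp : IsPGroup 2 K := by
    rintro ⟨⟨γ, hγ⟩, hK⟩
    have ho : orderOf γ ≠ 0 := (orderOf_pos γ).ne'
    obtain ⟨k, l, hl, hkl⟩ := Nat.exists_eq_two_pow_mul_odd ho
    refine ⟨k, ?_⟩
    have hmem : ((⟨γ, hγ⟩ : L) ^ (2 ^ k)) ∈ K := Subgroup.pow_mem _ hK _
    have hmv := ((hKmem _).1 hmem).1
    have hpow : ((γ ^ (2 ^ k)) : MulAut V) ^ l = 1 := by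
      rw [← pow_mul, ← hkl]
      exact pow_orderOf_eq_one γ
    have h1 : γ ^ (2 ^ k) = 1 := by
      ext g
      exact T.stepZ hl hpow (hmv g)
    apply Subtype.ext
    apply Subtype.ext
    change γ ^ (2 ^ k) = 1
    exact h1
  -- inner automorphisms
  have hinn : ∀ γ ∈ (MulAut.conj : V →* MulAut V).range, ∀ g, g⁻¹ * γ g = 1 ∨ g⁻¹ * γ g = z := by
    rintro γ ⟨y, rfl⟩ g
    have := T.comm g⁻¹ y
    simp only [inv_inv] at this
    rw [MulAut.conj_apply]
    have e : g⁻¹ * (y * g * y⁻¹) = g⁻¹ * y * g * y⁻¹ := by group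
    rw [e]
    exact this
  -- `σ` and its inverse
  have hσc : ∀ c ∈ N, σ c = c := fun c hc => T.oddfix hm hσ hc
  have hσi : (σ⁻¹) ^ m = 1 := by rw [inv_pow, hσ, inv_one]
  have hσ'c : ∀ c ∈ N, σ⁻¹ c = c := fun c hc => T.oddfix hm hσi hc
  have hs'0 : σ⁻¹ r₀ = r₂ := by rw [← hs2]; simp
  have hs'1 : σ⁻¹ r₁ = r₀ := by rw [← hs0]; simp
  have mvσ : ∀ g, g⁻¹ * σ g ∈ Subgroup.closure ({r₀, r₁} : Set V) :=
    T.move_of_preserve hn0 hn1 hd01 hσc (by rw [hs0]; exact m1) (by rw [hs1]; exact m2)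
  have mvσ' : ∀ g, g⁻¹ * σ⁻¹ g ∈ Subgroup.closure ({r₀, r₁} : Set V) :=
    T.move_of_preserve hn0 hn1 hd01 hσ'c (by rw [hs'0]; exact m2) (by rw [hs'1]; exact m0)
  have hβc : ∀ c ∈ N, β c = c := fun c hc => T.oddfix hn hβ hc
  -- the composite
  have hfin : ∀ τ ∈ L, (∀ c ∈ N, τ c = c) → (∀ g, g⁻¹ * τ g ∈ Subgroup.closure ({r₀, r₁} : Set V)) →
      q ((τ⁻¹ * β) r₀) = q r₀ → q ((τ⁻¹ * β) r₁) = q r₁ →
      g⁻¹ * β g ∈ Subgroup.closure ({r₀, r₁} : Set V) := by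
    intro τ hτL hτc hτm e0 e1
    have hτ'c : ∀ c ∈ N, τ⁻¹ c = c := by
      intro c hc
      have h3 := hτc c hc
      have h5 : τ⁻¹ (τ c) = c := by simp
      rwa [h3] at h5
    have hγL : τ⁻¹ * β ∈ L := Subgroup.mul_mem _ (Subgroup.inv_mem _ hτL) hβL
    have hK : (⟨τ⁻¹ * β, hγL⟩ : L) ∈ K := by
      refine (hKmem _).2 ⟨fun g' => htriv _ e0 e1 g', fun c hc => ?_⟩
      change τ⁻¹ (β c) = c
      rw [hβc c hc, hτ'c c hc]
    have hin := hrad K hKn hKp _ hK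
    have h3 := hinn _ hin g
    have e : g⁻¹ * β g = (g⁻¹ * τ g) * τ (g⁻¹ * (τ⁻¹ * β) g) := by
      have : τ ((τ⁻¹ * β) g) = β g := by simp
      rw [map_mul, map_inv, this]
      group
    rw [e]
    refine Subgroup.mul_mem _ (hτm g) ?_
    rcases h3 with h3 | h3
    · rw [h3, map_one]; exact Subgroup.one_mem _
    · rw [h3, hτc z T.zc]; exact hzR
  -- the case analysis
  have hb0 : q (β r₀) ≠ 1 := fun e => p0 ((hτ1 β _).1 e)
  have hb1 : q (β r₁) ≠ 1 := fun e => p1 ((hτ1 β _).1 e)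
  have hb01 : q (β r₀) ≠ q (β r₁) := fun e => p01 (hτq' β _ _ e)
  have hbr2 : q (β r₂) = q (β r₁) * q (β r₀) := by
    rw [← t10, map_mul β, map_mul q]
  have fixq : ∀ g', q (β (β g')) = q g' → β g' = g' := by
    intro g' e
    apply T.sqfix hn hβ
    exact (hqe _ _).1 e.symm
  rcases hcls (β r₀) with c0 | c0 | c0 | c0
  · exact absurd c0 hb0
  · rcases hcls (β r₁) with c1 | c1 | c1 | c1
    · exact absurd c1 hb1
    · exact absurd (c0.trans c1.symm) hb01
    · -- trivial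
      have := T.stepZ hn hβ (htriv β c0 c1 g)
      rw [this, inv_mul_cancel]
      exact Subgroup.one_mem _
    · -- transposition
      exfalso
      have e : q (β (β r₁)) = q r₁ := by
        rw [hτq β _ _ c1, hbr2, c1, c0, q20]
      have := fixq _ e
      rw [this] at c1
      exact p12 c1
  · rcases hcls (β r₁) with c1 | c1 | c1 | c1
    · exact absurd c1 hb1
    · exfalso
      have e : q (β (β r₀)) = q r₀ := by rw [hτq β _ _ c0, c1]
      have := fixq _ e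
      rw [this] at c0
      exact p01 c0
    · exact absurd (c0.trans c1.symm) hb01
    · -- the element `σ`
      refine hfin σ hσL hσc mvσ ?_ ?_
      · rw [MulAut.mul_apply, hτq σ⁻¹ _ _ c0, hs'1]
      · rw [MulAut.mul_apply, hτq σ⁻¹ _ _ c1]
        have : σ⁻¹ r₂ = r₁ := by rw [← hs1]; simp
        rw [this]
  · rcases hcls (β r₁) with c1 | c1 | c1 | c1
    · exact absurd c1 hb1
    · -- the element `σ⁻¹`
      have hL' : σ⁻¹ ∈ L := Subgroup.inv_mem _ hσL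
      refine hfin σ⁻¹ hL' hσ'c mvσ' ?_ ?_
      · rw [inv_inv, MulAut.mul_apply, hτq σ _ _ c0, hs2]
      · rw [inv_inv, MulAut.mul_apply, hτq σ _ _ c1, hs0]
    · exfalso
      have e : q (β (β r₀)) = q r₀ := by
        rw [hτq β _ _ c0, hbr2, c1, c0, q12]
      have := fixq _ e
      rw [this] at c0
      exact p02 c0
    · exact absurd (c0.trans c1.symm) hb01

end Cfsg.Agent.Lib.Components.GL3C
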