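/-
Fusion systems on `2`-groups `S` as in `GL3B`: nonabelian essential subgroups and transport of
moving properties under conjugation.
-/
import Mathlib
import Cfsg.Agent.Lib.Components.GL3B
import Cfsg.Agent.Lib.Components.GL3C
import Cfsg.Agent.Lib.Fusion.Focal

set_option autoImplicit false
set_option linter.style.haveILetI false

namespace Cfsg.Agent.Lib.Components.GL3D1

open Cfsg Cfsg.FusionSystem Cfsg.Agent.Lib.Fusion.Basic Cfsg.Agent.Lib.Fusion.Saturated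
  Cfsg.Agent.Lib.Fusion.Saturated2 Cfsg.Agent.Lib.Fusion.Essential
  Cfsg.Agent.Lib.Fusion.EssentialPair Cfsg.Agent.Lib.Fusion.AbelianMax
  Cfsg.Agent.Lib.Components.GL3A Cfsg.Agent.Lib.Components.GL3B Cfsg.Agent.Lib.Components.GL3C
open scoped commutatorElement

variable {Ω : Type*} [Group Ω] {S A P : Subgroup Ω} {a z : Ω}

section Basic

variable [Finite S]

/-- The covering of `P` by four cosets of the centre of `S`. -/
theorem coverOf (U : Setup S A a z) {P : Subgroup Ω} (hPS : P ≤ S)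
    {x : Ω} (hx : x ∈ P) (hxA : x ∉ A)
    (hcomm : ∀ s ∈ P, ∀ t ∈ P, s * t * s⁻¹ * t⁻¹ ∈ cen S) :
    ∃ b₁ ∈ P, ∃ b₂ ∈ P, ∀ h ∈ P, ∃ c ∈ cen S,
      h = c ∨ h = c * b₁ ∨ h = c * b₂ ∨ h = c * (b₁ * b₂) := by
  have hxS := hPS hx
  have hzc := (mem_cen.1 U.zcen).2
  have hκ : ∀ b ∈ P, x * b * x⁻¹ * b⁻¹ = 1 ∨ x * b * x⁻¹ * b⁻¹ = z := by
    intro b hb
    refine U.central_comm ?_ (hcomm x hx b hb)
    have : x * b * x⁻¹ * b⁻¹ = ⁅x, b⁆ := by rw [commutatorElement_def]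
    rw [this]
    exact Subgroup.commutator_mem_commutator hxS (hPS hb)
  have hκ1 : ∀ b ∈ P, b ∈ A → x * b * x⁻¹ * b⁻¹ = 1 → b ∈ cen S := by
    intro b _ hbA e
    refine U.cen_of_comm hxS hxA hbA ?_
    have : x * b * x⁻¹ = (x * b * x⁻¹ * b⁻¹) * b := by group
    rw [this, e, one_mul]
  -- the elements outside `A`
  have hout : ∀ h ∈ P, h ∉ A → h * x⁻¹ ∈ P ∧ h * x⁻¹ ∈ A := by
    intro h hh hhA
    obtain ⟨b, hb, e⟩ := U.exists_mul_of_not_mem hxS hxA (hPS hh) hhA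
    have e2 : h * x⁻¹ = b := by rw [e]; group
    exact ⟨P.mul_mem hh (P.inv_mem hx), by rw [e2]; exact hb⟩
  by_cases hex : ∃ b ∈ P, b ∈ A ∧ x * b * x⁻¹ * b⁻¹ ≠ 1
  · obtain ⟨b₀, hb₀, hb₀A, hne⟩ := hex
    have h0 : x * b₀ * x⁻¹ * b₀⁻¹ = z := (hκ b₀ hb₀).resolve_left hne
    have hin : ∀ h ∈ P, h ∈ A → h ∈ cen S ∨ h * b₀⁻¹ ∈ cen S := by
      intro h hh hhA
      rcases hκ h hh with e | e
      · exact Or.inl (hκ1 h hh hhA e)
      · right
        have hmemP : h * b₀⁻¹ ∈ P := P.mul_mem hh (P.inv_mem hb₀)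
        have hmemA : h * b₀⁻¹ ∈ A := A.mul_mem hhA (A.inv_mem hb₀A)
        refine U.cen_of_comm hxS hxA hmemA ?_
        have e1 : x * h * x⁻¹ = z * h := by rw [← e]; group
        have e2 : x * b₀ * x⁻¹ = z * b₀ := by rw [← h0]; group
        calc x * (h * b₀⁻¹) * x⁻¹ = (x * h * x⁻¹) * (x * b₀ * x⁻¹)⁻¹ := by group
          _ = (z * h) * (z * b₀)⁻¹ := by rw [e1, e2]
          _ = z * (h * b₀⁻¹) * z⁻¹ := by group
          _ = h * b₀⁻¹ * z * z⁻¹ := by rw [hzc (h * b₀⁻¹) (S.mul_mem (hPS hh) (S.inv_mem (hPS hb₀)))]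
          _ = h * b₀⁻¹ := by group
    refine ⟨b₀, hb₀, x, hx, fun h hh => ?_⟩
    by_cases hhA : h ∈ A
    · rcases hin h hh hhA with e | e
      · exact ⟨h, e, Or.inl rfl⟩
      · exact ⟨h * b₀⁻¹, e, Or.inr (Or.inl (by group))⟩
    · obtain ⟨h1, h2⟩ := hout h hh hhA
      rcases hin _ h1 h2 with e | e
      · exact ⟨h * x⁻¹, e, Or.inr (Or.inr (Or.inl (by group)))⟩
      · exact ⟨h * x⁻¹ * b₀⁻¹, e, Or.inr (Or.inr (Or.inr (by group)))⟩
  · push Not at hex
    refine ⟨1, P.one_mem, x, hx, fun h hh => ?_⟩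
    by_cases hhA : h ∈ A
    · exact ⟨h, hκ1 h hh hhA (hex h hh hhA), Or.inl rfl⟩
    · obtain ⟨h1, h2⟩ := hout h hh hhA
      exact ⟨h * x⁻¹, hκ1 _ h1 h2 (hex _ h1 h2), Or.inr (Or.inr (Or.inl (by group)))⟩

/-- The group `P` as a group of the shape `PT`. -/
theorem ptOf (U : Setup S A a z) (hS : IsPGroup 2 S) {P : Subgroup Ω} (hPS : P ≤ S) (hZP : cen S ≤ P)
    {x : Ω} (hx : x ∈ P) (hxA : x ∉ A) (hnab : ¬ ∀ s ∈ P, ∀ t ∈ P, s * t = t * s)
    (hcomm : ∀ s ∈ P, ∀ t ∈ P, s * t * s⁻¹ * t⁻¹ ∈ cen S) :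
    PT (⟨z, hZP U.zcen⟩ : P) ⟨a, hZP U.ac⟩ := by
  have hcen : ∀ c ∈ cen S, ∀ hc : c ∈ P, (⟨c, hc⟩ : P) ∈ Subgroup.center P := by
    intro c hc hcP
    rw [Subgroup.mem_center_iff]
    intro g
    exact Subtype.ext ((mem_cen.1 hc).2 g (hPS g.2))
  have hcomm' : ∀ g h : P, g * h * g⁻¹ * h⁻¹ = 1 ∨ g * h * g⁻¹ * h⁻¹ = ⟨z, hZP U.zcen⟩ := by
    intro g h
    have h1 : (g : Ω) * h * (g : Ω)⁻¹ * (h : Ω)⁻¹ = ⁅(g : Ω), (h : Ω)⁆ := by
      rw [commutatorElement_def]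
    have h2 := U.central_comm (by rw [h1]; exact Subgroup.commutator_mem_commutator (hPS g.2) (hPS h.2))
      (hcomm _ g.2 _ h.2)
    rcases h2 with h2 | h2
    · exact Or.inl (Subtype.ext h2)
    · exact Or.inr (Subtype.ext h2)
  have hzz : (⟨z, hZP U.zcen⟩ : P) ^ 2 = 1 := Subtype.ext U.zz
  have hzcen := hcen z U.zcen (hZP U.zcen)
  refine ⟨isPGroup_of_le hS hPS, hzcen, hzz, fun e => U.z1 (congrArg Subtype.val e), ?_, hcomm', ?_, ?_, ?_⟩
  · intro v hv hvv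
    have h1 : (v : Ω) ∈ cen S := U.D.center_P_le hPS hx hxA hnab v.2 fun s hs =>
      congrArg Subtype.val (Subgroup.mem_center_iff.1 hv ⟨s, hs⟩)
    have h2 : (v : Ω) ^ 2 = 1 := congrArg Subtype.val hvv
    rcases U.om _ h1 h2 with h3 | h3 | h3 | h3
    · exact Or.inl (Subtype.ext h3)
    · exact Or.inr (Or.inl (Subtype.ext h3))
    · exact Or.inr (Or.inr (Or.inl (Subtype.ext h3)))
    · exact Or.inr (Or.inr (Or.inr (Subtype.ext h3)))
  · intro g
    rw [Subgroup.mem_center_iff]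
    intro h
    have hzc := Subgroup.mem_center_iff.1 hzcen
    have hz2 : (⟨z, hZP U.zcen⟩ : P) * ⟨z, hZP U.zcen⟩ = 1 := by rw [← pow_two, hzz]
    have key : ∃ c : P, (∀ w, w * c = c * w) ∧ c * c = 1 ∧ g * h * g⁻¹ = c * h := by
      rcases hcomm' g h with h1 | h1
      · refine ⟨1, by simp, by simp, ?_⟩
        have : g * h * g⁻¹ = (g * h * g⁻¹ * h⁻¹) * h := by group
        rw [this, h1]
      · refine ⟨⟨z, hZP U.zcen⟩, hzc, hz2, ?_⟩
        have : g * h * g⁻¹ = (g * h * g⁻¹ * h⁻¹) * h := by group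
        rw [this, h1]
    obtain ⟨c, hc, hc2, e⟩ := key
    have e2 : g * h = c * h * g := by
      have : g * h = (g * h * g⁻¹) * g := by group
      rw [this, e]
    rw [pow_two]
    calc h * (g * g) = c * c * (h * (g * g)) := by rw [hc2, one_mul]
      _ = c * (c * h * g) * g := by group
      _ = c * (g * h) * g := by rw [e2]
      _ = (c * g) * (h * g) := by group
      _ = (g * c) * (h * g) := by rw [hc g]
      _ = g * (c * h * g) := by group
      _ = g * (g * h) := by rw [e2]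
      _ = g * g * h := by group
  · obtain ⟨b₁, hb₁, b₂, hb₂, hb⟩ := coverOf U hPS hx hxA hcomm
    refine ⟨⟨b₁, hb₁⟩, ⟨b₂, hb₂⟩, fun h => ?_⟩
    obtain ⟨c, hc, e | e | e | e⟩ := hb h h.2
    · exact ⟨⟨c, hZP hc⟩, hcen c hc _, Or.inl (Subtype.ext e)⟩
    · exact ⟨⟨c, hZP hc⟩, hcen c hc _, Or.inr (Or.inl (Subtype.ext e))⟩
    · exact ⟨⟨c, hZP hc⟩, hcen c hc _, Or.inr (Or.inr (Or.inl (Subtype.ext e)))⟩
    · exact ⟨⟨c, hZP hc⟩, hcen c hc _, Or.inr (Or.inr (Or.inr (Subtype.ext e)))⟩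
  · by_contra hcon
    push Not at hcon
    apply hnab
    intro s hs t ht
    exact congrArg Subtype.val (hcon ⟨s, hs⟩ ⟨t, ht⟩)

end Basic

/-- An element of odd order in a finite group that is not a `2`-group. -/
theorem exists_odd_of_not_pgroup {G : Type*} [Group G] [Finite G] (h : ¬ IsPGroup 2 G) :
    ∃ σ : G, σ ≠ 1 ∧ ∃ m : ℕ, Odd m ∧ σ ^ m = 1 := by
  by_contra hcon
  push Not at hcon
  apply h
  intro g
  obtain ⟨k, l, hl, hkl⟩ := Nat.exists_eq_two_pow_mul_odd (orderOf_pos g).ne'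
  refine ⟨k, ?_⟩
  by_contra hne
  refine hcon _ hne l hl ?_
  rw [← pow_mul, ← hkl]
  exact pow_orderOf_eq_one g

section Fusion

variable [Finite S] {F : FusionSystem S}

/-- All elements of `Aut_F(P)` move elements into `D` once those of odd order do. -/
theorem moves_of_odd (hFA : F.IsFullyAutomized 2 P) {D : Subgroup Ω} (hSD : ⁅S, S⁆ ≤ D)
    (hodd : ∀ β ∈ F.autGroup P, ∀ n : ℕ, Odd n → β ^ n = 1 → ∀ w : P, (w : Ω)⁻¹ * (β w : P) ∈ D) :
    ∀ β ∈ F.autGroup P, ∀ w : P, (w : Ω)⁻¹ * (β w : P) ∈ D := by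
  classical
  have hPS : P ≤ S := hFA.1
  haveI : Finite P := finite_of_le hPS
  haveI : Finite (MulAut P) := Finite.of_injective (fun α : MulAut P => (α : P → P))
    (fun a b h => MulEquiv.ext (congrFun h))
  intro β hβ w
  obtain ⟨T, hT⟩ := hFA.2
  obtain ⟨τ, hτ, r, hr, he⟩ := Cfsg.Agent.Lib.Fusion.Focal.exists_sylow_mul_residual T ⟨β, hβ⟩
  have hτS : (τ : MulAut P) ∈ autInducedBy S P := by
    rw [hT] at hτ
    exact hτ
  obtain ⟨g, hg, hgc⟩ := mem_autInducedBy_iff.1 hτS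
  have hrmv : ∀ w : P, (w : Ω)⁻¹ * ((r : MulAut P) w : P) ∈ D := by
    have key : ∀ r' ∈ pResidual 2 (F.autGroup P), ∀ w : P,
        (w : Ω)⁻¹ * (((r' : F.autGroup P) : MulAut P) w : P) ∈ D := by
      intro r' hr'
      induction hr' using Subgroup.closure_induction with
      | mem y hy =>
        have hy' : Nat.Coprime (orderOf y) 2 := hy
        have hodd' : Odd (orderOf y) := by
          rw [Nat.odd_iff]
          have := Nat.Coprime.symm hy'
          rcases Nat.mod_two_eq_zero_or_one (orderOf y) with h | h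
          · exfalso
            have h2 : 2 ∣ orderOf y := Nat.dvd_of_mod_eq_zero h
            have := Nat.Coprime.eq_one_of_dvd this h2
            omega
          · exact h
        intro w
        refine hodd _ y.2 _ hodd' ?_ w
        have := pow_orderOf_eq_one y
        exact congrArg Subtype.val this
      | one =>
        intro w
        simp
      | mul b c _ _ hb hc =>
        intro w
        have h1 := hc w
        have h2 := hb ((c : MulAut P) w)
        have e : (w : Ω)⁻¹ * (((b * c : F.autGroup P) : MulAut P) w : P) =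
            ((w : Ω)⁻¹ * ((c : MulAut P) w : P)) *
              ((((c : MulAut P) w : P) : Ω)⁻¹ * ((b : MulAut P) ((c : MulAut P) w) : P)) := by
          have : (((b * c : F.autGroup P) : MulAut P) w) = (b : MulAut P) ((c : MulAut P) w) := rfl
          rw [this]
          group
        rw [e]
        exact D.mul_mem h1 h2
      | inv b _ hb =>
        intro w
        have h1 := hb ((b : MulAut P)⁻¹ w)
        rw [MulAut.apply_inv_self] at h1
        have e : (w : Ω)⁻¹ * (((b⁻¹ : F.autGroup P) : MulAut P) w : P) =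
            ((((b : MulAut P)⁻¹ w : P) : Ω)⁻¹ * (w : Ω))⁻¹ := by
          have : (((b⁻¹ : F.autGroup P) : MulAut P) w) = (b : MulAut P)⁻¹ w := rfl
          rw [this]
          group
        rw [e]
        exact D.inv_mem h1
    exact key r hr
  obtain ⟨c, hc⟩ : ∃ c : P, c = (r : MulAut P) w := ⟨_, rfl⟩
  have hαx : (β w : P) = (τ : MulAut P) c := by
    have h1 : β = (τ : MulAut P) * (r : MulAut P) := congrArg Subtype.val he
    rw [h1, hc]
    rfl
  have e : (w : Ω)⁻¹ * (β w : P) = ((w : Ω)⁻¹ * c) * ⁅(c : Ω)⁻¹, g⁆ := by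
    rw [hαx, hgc c, commutatorElement_def]
    group
  rw [e]
  refine D.mul_mem ?_ (hSD (Subgroup.commutator_mem_commutator (S.inv_mem (hPS c.2)) hg))
  rw [hc]
  exact hrmv w

/-- **Moving properties transport along conjugation.** -/
theorem moves_conj {P P' D : Subgroup Ω} (hPS : P ≤ S) (hP'S : P' ≤ S) {g : Ω} (hg : g ∈ S)
    (h1 : ∀ w ∈ P, g * w * g⁻¹ ∈ P') (h2 : ∀ w ∈ P', g⁻¹ * w * g ∈ P)
    (hDn : ∀ d ∈ D, g * d * g⁻¹ ∈ D)
    (hmv : ∀ β ∈ F.autGroup P, ∀ w : P, (w : Ω)⁻¹ * (β w : P) ∈ D) :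
    ∀ β ∈ F.autGroup P', ∀ w : P', (w : Ω)⁻¹ * (β w : P') ∈ D := by
  intro β' hβ' w'
  let e : P ≃* P' :=
    { toFun := fun w => ⟨g * w * g⁻¹, h1 w w.2⟩
      invFun := fun v => ⟨g⁻¹ * v * g, h2 v v.2⟩
      left_inv := fun w => Subtype.ext (by
        change g⁻¹ * (g * (w : Ω) * g⁻¹) * g = w
        group)
      right_inv := fun v => Subtype.ext (by
        change g * (g⁻¹ * (v : Ω) * g) * g⁻¹ = v
        group)
      map_mul' := fun u v => Subtype.ext (by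
        change g * ((u : Ω) * v) * g⁻¹ = (g * (u : Ω) * g⁻¹) * (g * (v : Ω) * g⁻¹)
        group) }
  have heval : ∀ w : P, ((e w : P') : Ω) = g * w * g⁻¹ := fun _ => rfl
  have heval' : ∀ v : P', ((e.symm v : P) : Ω) = g⁻¹ * v * g := fun _ => rfl
  let β : MulAut P := (e.trans β').trans e.symm
  have hβe : ∀ w : P, ((β w : P) : Ω) = g⁻¹ * (β' (e w) : P') * g := fun _ => rfl
  have hβmem : β ∈ F.autGroup P := by
    apply mem_autGroup_of_mem
    have hφ₁ : conjHom P g ∈ F.Hom P := F.conj_mem hPS hg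
    have hψ₁ : P'.subtype.comp β'.toMonoidHom ∈ F.Hom P' := autGroup_mem_hom hP'S hβ'
    have hφ₂ := F.comp_mem hφ₁ hψ₁ (fun x => h1 x x.2)
    have hψ₂ : conjHom P' g⁻¹ ∈ F.Hom P' := F.conj_mem hP'S (S.inv_mem hg)
    have hφ₃ := F.comp_mem hφ₂ hψ₂ (fun x => (β' _).2)
    convert hφ₃ using 1
    ext w
    rw [MonoidHom.comp_apply]
    change ((β w : P) : Ω) = _
    rw [hβe]
    simp [conjHom]
    rfl
  let w : P := e.symm w'
  have h3 := hDn _ (hmv β hβmem w)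
  have hw : ((w : P) : Ω) = g⁻¹ * w' * g := rfl
  have hew : e w = w' := e.apply_symm_apply w'
  have e4 : g * ((w : Ω)⁻¹ * (β w : P)) * g⁻¹ = (w' : Ω)⁻¹ * (β' w' : P') := by
    rw [hβe, hew, hw]
    group
  rwa [e4] at h3

end Fusion

end Cfsg.Agent.Lib.Components.GL3D1
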