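/-
Nonabelian essential subgroups; the contribution of a class of elements outside `A`.
-/
import Mathlib
import Cfsg.Agent.Lib.Components.GL3D1

set_option autoImplicit false
set_option linter.style.haveILetI false

namespace Cfsg.Agent.Lib.Components.GL3D2

open Cfsg Cfsg.FusionSystem Cfsg.Agent.Lib.Fusion.Basic Cfsg.Agent.Lib.Fusion.Saturated
  Cfsg.Agent.Lib.Fusion.Saturated2 Cfsg.Agent.Lib.Fusion.Essential
  Cfsg.Agent.Lib.Fusion.EssentialPair Cfsg.Agent.Lib.Fusion.AbelianMax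
  Cfsg.Agent.Lib.Components.GL3A Cfsg.Agent.Lib.Components.GL3B Cfsg.Agent.Lib.Components.GL3C
  Cfsg.Agent.Lib.Components.GL3D1
open scoped commutatorElement

variable {Ω : Type*} [Group Ω] {S A P P' : Subgroup Ω} {a z : Ω}

variable [Finite S] {F : FusionSystem S}

/-- **Nonabelian essential subgroups.** -/
theorem nonabMain (U : Setup S A a z) (hS : IsPGroup 2 S) (hF : F.IsSaturated 2)
    (hE : F.IsEssential 2 P) {x : Ω} (hx : x ∈ P) (hxA : x ∉ A)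
    (hnab : ¬ ∀ s ∈ P, ∀ t ∈ P, s * t = t * s) :
    ∃ r ∈ P, r ∉ A ∧ r ^ 2 = z ∧ (∃ u ∈ ⁅S, S⁆, u ^ 2 ≠ 1) ∧
      ∀ β ∈ F.autGroup P, ∀ w : P, (w : Ω)⁻¹ * (β w : P) ∈ ⁅S, S⁆ ⊔ Subgroup.zpowers r := by
  classical
  have hPS : P ≤ S := hE.1.1
  haveI : Finite P := finite_of_le hPS
  haveI : Finite (MulAut P) := Finite.of_injective (fun α : MulAut P => (α : P → P))
    (fun a b h => MulEquiv.ext (congrFun h))
  have hC : centralizerIn S P ≤ P := hE.1.2 P (Cfsg.Agent.Lib.Fusion.Basic.IsConj.refl hPS)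
  have hZP : cen S ≤ P := cen_le_of_centric hE.1
  obtain ⟨a₀, ha₀, ha₀N, ha₀P⟩ := U.D.exists_normalizing hF hE hx hxA
  have ha₀S := U.D.le ha₀
  have hcomm : ∀ s ∈ P, ∀ t ∈ P, s * t * s⁻¹ * t⁻¹ ∈ cen S := fun s hs t ht =>
    U.D.comm_le_cen hF hE hx hxA hnab hs ht
  have T := ptOf U hS hPS hZP hx hxA hnab hcomm
  have hrad : ∀ K : Subgroup (F.autGroup P), K.Normal → IsPGroup 2 K → ∀ γ ∈ K,
      (γ : MulAut P) ∈ (MulAut.conj : P →* MulAut P).range := by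
    intro K hKn hKp γ hγ
    have hR := isRadical_of_essential hS hE
    have h1 : γ ∈ pCore 2 (F.autGroup P) := Cfsg.Agent.Lib.Basic.PCore.le_pCore hKn hKp hγ
    have h2 : (γ : MulAut P) ∈ Inn P := by
      rw [← hR.2]
      exact ⟨γ, h1, rfl⟩
    exact h2
  -- an element of odd order
  have hind := normConj_mem_autInducedBy ha₀S ha₀N
  obtain ⟨t, ht⟩ : ∃ t : MulAut P, t = normConj a₀ ha₀N := ⟨_, rfl⟩
  rw [← ht] at hind
  have htL : t ∈ F.autGroup P := autInducedBy_le_autGroup hPS hind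
  have htI : t ∉ Inn P := by
    rw [ht]
    exact normConj_not_mem_inn hPS hC ha₀S ha₀N ha₀P
  have hteval : ∀ w : P, ((t w : P) : Ω) = a₀ * w * a₀⁻¹ := by
    intro w
    rw [ht]
    rfl
  obtain ⟨α, hαL, hα⟩ := exists_pair hS hF hE
  have h1 := hα t hind t hind htI htI
  have hnp : ¬ IsPGroup 2 (F.autGroup P) := by
    intro hp
    apply h1
    refine hp.to_le ((Subgroup.closure_le _).2 ?_)
    rintro _ (rfl | rfl)
    · exact htL
    · exact mul_mem (mul_mem hαL htL) (inv_mem hαL)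
  haveI : Finite (F.autGroup P) := finite_autGroup hPS
  obtain ⟨⟨σ, hσL⟩, hσ'1, m, hm, hσ'm⟩ := exists_odd_of_not_pgroup hnp
  have hσ1 : σ ≠ 1 := fun e => hσ'1 (Subtype.ext e)
  have hσm : σ ^ m = 1 := congrArg Subtype.val hσ'm
  obtain ⟨r₀, r₁, r₂, hn0, hn1, hn2, hd01, hd02, hd12, h0, h1, h2, hp, hs0, hs1, hs2, hcm⟩ :=
    T.exists_r hm hσm hσ1
  obtain ⟨t01, t10, t12, t02, t21, t20⟩ := T.table h0 h1 h2 hp hcm
  have hmv : ∀ β ∈ F.autGroup P, ∀ n : ℕ, Odd n → β ^ n = 1 → ∀ g : P,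
      g⁻¹ * β g ∈ Subgroup.closure ({r₀, r₁} : Set P) := fun β hβ n hn hβn g =>
    T.moves_in hrad hm hσm hσL hn0 hn1 hn2 hd01 hd02 hd12 h0 h1 h2 hp hs0 hs1 hs2 hcm hβ hn hβn g
  have m0 : r₀ ∈ Subgroup.closure ({r₀, r₁} : Set P) := Subgroup.subset_closure (by simp)
  have m1 : r₁ ∈ Subgroup.closure ({r₀, r₁} : Set P) := Subgroup.subset_closure (by simp)
  have m2 : r₂ ∈ Subgroup.closure ({r₀, r₁} : Set P) := by
    rw [← t10]; exact Subgroup.mul_mem _ m1 m0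
  have hconj : ∀ g : P, g⁻¹ * (t * σ * t⁻¹) g ∈ Subgroup.closure ({r₀, r₁} : Set P) := by
    refine hmv _ (mul_mem (mul_mem htL hσL) (inv_mem htL)) m hm ?_
    rw [conj_pow, hσm, mul_one, mul_inv_cancel]
  have hkey : ∀ w : P, t (w⁻¹ * σ w) ∈ Subgroup.closure ({r₀, r₁} : Set P) := by
    intro w
    have h3 := hconj (t w)
    have e : (t * σ * t⁻¹) (t w) = t (σ w) := by simp
    rw [e, ← map_inv, ← map_mul] at h3
    exact h3
  have hzz : (⟨z, hZP U.zcen⟩ : P) * ⟨z, hZP U.zcen⟩ = 1 := Subtype.ext (by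
    change z * z = 1
    rw [← pow_two, U.zz])
  have ht2 : t r₂ ∈ Subgroup.closure ({r₀, r₁} : Set P) := by
    have h3 := hkey r₀
    have e : r₀⁻¹ * σ r₀ = r₂ := by
      rw [hs0, T.inv_eq h0, mul_assoc, t01, ← mul_assoc, hzz, one_mul]
    rwa [e] at h3
  have ht0 : t r₀ ∈ Subgroup.closure ({r₀, r₁} : Set P) := by
    have h3 := hkey r₁
    have e : r₁⁻¹ * σ r₁ = r₀ := by
      rw [hs1, T.inv_eq h1, mul_assoc, t12, ← mul_assoc, hzz, one_mul]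
    rwa [e] at h3
  have ht1 : t r₁ ∈ Subgroup.closure ({r₀, r₁} : Set P) := by
    have h3 := hkey r₂
    have e : r₂⁻¹ * σ r₂ = r₁ := by
      rw [hs2, T.inv_eq h2, mul_assoc, t20, ← mul_assoc, hzz, one_mul]
    rwa [e] at h3
  -- the commutators with `a₀`
  have hzS' : z ∈ ⁅S, S⁆ := U.zc
  have hSA : ∀ {u : Ω}, u ∈ ⁅S, S⁆ → u ∈ A := fun hu => U.comm_le_A hu
  have hstep : ∀ w : P, (w : Ω) ∉ A → w ∈ Subgroup.closure ({r₀, r₁} : Set P) →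
      t w ∈ Subgroup.closure ({r₀, r₁} : Set P) →
      (r₀ : Ω) ∈ ⁅S, S⁆ ∨ (r₁ : Ω) ∈ ⁅S, S⁆ ∨ (r₂ : Ω) ∈ ⁅S, S⁆ := by
    intro w hwA hwR htw
    have hu : t w * w⁻¹ ∈ Subgroup.closure ({r₀, r₁} : Set P) :=
      Subgroup.mul_mem _ htw (Subgroup.inv_mem _ hwR)
    have hval : ((t w * w⁻¹ : P) : Ω) = ⁅a₀, (w : Ω)⁆ := by
      rw [commutatorElement_def, Subgroup.coe_mul, hteval, Subgroup.coe_inv]
    have huS : ((t w * w⁻¹ : P) : Ω) ∈ ⁅S, S⁆ := by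
      rw [hval]
      exact Subgroup.commutator_mem_commutator ha₀S (hPS w.2)
    have hnc : ((t w * w⁻¹ : P) : Ω) ∉ cen S := by
      rw [hval, commutatorElement_def]
      exact U.D.kappa_not_mem hF hE w.2 hwA hnab ha₀ ha₀N ha₀P
    obtain ⟨e, he⟩ := T.closure_elts h0 h1 h2 hp hcm hu
    have hzpow : ∀ e : ℕ, ((⟨z, hZP U.zcen⟩ : P) ^ e : P).1 ∈ ⁅S, S⁆ := by
      intro e
      rw [Subgroup.coe_pow]
      exact Subgroup.pow_mem _ hzS' e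
    have hzpowc : ∀ e : ℕ, ((⟨z, hZP U.zcen⟩ : P) ^ e : P).1 ∈ cen S := by
      intro e
      rw [Subgroup.coe_pow]
      exact Subgroup.pow_mem _ U.zcen e
    have hsol : ∀ ρ : P, t w * w⁻¹ = (⟨z, hZP U.zcen⟩ : P) ^ e * ρ → (ρ : Ω) ∈ ⁅S, S⁆ := by
      intro ρ h
      have h3 : (ρ : Ω) = (((⟨z, hZP U.zcen⟩ : P) ^ e : P) : Ω)⁻¹ * ((t w * w⁻¹ : P) : Ω) := by
        rw [h, Subgroup.coe_mul]
        group
      rw [h3]
      exact Subgroup.mul_mem _ (Subgroup.inv_mem _ (hzpow e)) huS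
    rcases he with he | he | he | he
    · exfalso
      apply hnc
      rw [he]
      exact hzpowc e
    · exact Or.inl (hsol _ he)
    · exact Or.inr (Or.inl (hsol _ he))
    · exact Or.inr (Or.inr (hsol _ he))
  -- the generator outside `A`
  have hout : (r₀ : Ω) ∉ A ∨ (r₁ : Ω) ∉ A := by
    by_contra hcon
    push Not at hcon
    obtain ⟨h3, h4⟩ := hcon
    have h5 : (r₁ : Ω) * r₀ = r₀ * r₁ := U.D.comm _ h4 _ h3
    have h6 : ((r₁ * r₀ * r₁⁻¹ * r₀⁻¹ : P) : Ω) = (r₁ : Ω) * r₀ * (r₁ : Ω)⁻¹ * (r₀ : Ω)⁻¹ := rfl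
    rw [hcm] at h6
    apply U.z1
    have h7 : z = (r₁ : Ω) * r₀ * (r₁ : Ω)⁻¹ * (r₀ : Ω)⁻¹ := h6
    rw [h7, h5]
    group
  have hex : ∃ r : P, (r : Ω) ∉ A ∧ r ^ 2 = ⟨z, hZP U.zcen⟩ ∧
      (r₀ : Ω) ∈ ⁅S, S⁆ ⊔ Subgroup.zpowers (r : Ω) ∧ (r₁ : Ω) ∈ ⁅S, S⁆ ⊔ Subgroup.zpowers (r : Ω) := by
    rcases hout with hr | hr
    · refine ⟨r₀, hr, h0, Subgroup.mem_sup_right (Subgroup.mem_zpowers _), ?_⟩
      have hmem0 : (r₀ : Ω) ∈ ⁅S, S⁆ ⊔ Subgroup.zpowers (r₀ : Ω) :=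
        Subgroup.mem_sup_right (Subgroup.mem_zpowers _)
      rcases hstep r₀ hr m0 ht0 with h3 | h3 | h3
      · exact absurd (hSA h3) hr
      · exact Subgroup.mem_sup_left h3
      · have e : (r₁ : Ω) = (r₀ : Ω) * r₂ := by rw [← t02]; rfl
        rw [e]
        exact Subgroup.mul_mem _ hmem0 (Subgroup.mem_sup_left h3)
    · refine ⟨r₁, hr, h1, ?_, Subgroup.mem_sup_right (Subgroup.mem_zpowers _)⟩
      have hmem1 : (r₁ : Ω) ∈ ⁅S, S⁆ ⊔ Subgroup.zpowers (r₁ : Ω) :=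
        Subgroup.mem_sup_right (Subgroup.mem_zpowers _)
      rcases hstep r₁ hr m1 ht1 with h3 | h3 | h3
      · exact Subgroup.mem_sup_left h3
      · exact absurd (hSA h3) hr
      · have e : (r₀ : Ω) = (r₂ : Ω) * r₁ := by rw [← t21]; rfl
        rw [e]
        exact Subgroup.mul_mem _ (Subgroup.mem_sup_left h3) hmem1
  obtain ⟨r, hrA, hrz, hr0, hr1⟩ := hex
  have hRD : Subgroup.closure ({r₀, r₁} : Set P) ≤
      (⁅S, S⁆ ⊔ Subgroup.zpowers (r : Ω)).comap P.subtype := by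
    rw [Subgroup.closure_le]
    rintro _ (rfl | rfl)
    · exact hr0
    · exact hr1
  refine ⟨r, r.2, hrA, congrArg Subtype.val hrz, ?_, ?_⟩
  · refine ⟨⁅a₀, x⁆, Subgroup.commutator_mem_commutator ha₀S (hPS hx), fun e => ?_⟩
    have h3 := U.uniq _ (Subgroup.commutator_mem_commutator ha₀S (hPS hx)) e
    apply U.D.kappa_not_mem hF hE hx hxA hnab ha₀ ha₀N ha₀P
    rw [← commutatorElement_def]
    rcases h3 with h3 | h3
    · rw [h3]; exact Subgroup.one_mem _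
    · rw [h3]; exact U.zcen
  · refine moves_of_odd (fullyNormalized_props hS hF hE.2.1).2 le_sup_left ?_
    intro β hβ n hn hβn w
    exact hRD (hmv β hβ n hn hβn w)

/-- Two elements are in the same class modulo `Z(S) S'`. -/
def Cl (S : Subgroup Ω) (x y : Ω) : Prop := ∃ u ∈ ⁅S, S⁆, ∃ v ∈ cen S, y = x * u * v

omit [Finite S] in
theorem Cl.refl (x : Ω) : Cl S x x := ⟨1, Subgroup.one_mem _, 1, Subgroup.one_mem _, by simp⟩

theorem Cl.symm (U : Setup S A a z) {x y : Ω} (h : Cl S x y) : Cl S y x := by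
  obtain ⟨u, hu, v, hv, rfl⟩ := h
  refine ⟨u⁻¹, Subgroup.inv_mem _ hu, v⁻¹, Subgroup.inv_mem _ hv, ?_⟩
  have h1 : u⁻¹ * v = v * u⁻¹ := (mem_cen.1 hv).2 _ (S.inv_mem (U.comm_le_S hu))
  calc x = x * u * (u⁻¹ * v) * v⁻¹ := by group
    _ = x * u * (v * u⁻¹) * v⁻¹ := by rw [h1]
    _ = x * u * v * u⁻¹ * v⁻¹ := by group

theorem Cl.trans (U : Setup S A a z) {x y w : Ω} (h : Cl S x y) (h' : Cl S y w) : Cl S x w := by
  obtain ⟨u, hu, v, hv, rfl⟩ := h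
  obtain ⟨u', hu', v', hv', rfl⟩ := h'
  refine ⟨u * u', Subgroup.mul_mem _ hu hu', v * v', Subgroup.mul_mem _ hv hv', ?_⟩
  have h1 : u' * v = v * u' := (mem_cen.1 hv).2 _ (U.comm_le_S hu')
  calc x * u * v * u' * v' = x * u * (v * u') * v' := by group
    _ = x * u * (u' * v) * v' := by rw [h1]
    _ = x * (u * u') * (v * v') := by group

/-- Elements of the second centre in `A` lie in `S' Z(S)`, if `S'` has an element of order four. -/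
theorem cen2_cl (U : Setup S A a z) (hS : IsPGroup 2 S) {b x : Ω} (hx : x ∈ S) (hxA : x ∉ A)
    (hb : b ∈ cen2 S) (hbA : b ∈ A) (hu : ∃ u ∈ ⁅S, S⁆, u ^ 2 ≠ 1) :
    ∃ u ∈ ⁅S, S⁆, ∃ v ∈ cen S, b = u * v := by
  have hbS := U.D.le hbA
  have hκ : x * b * x⁻¹ * b⁻¹ ∈ cen S := by
    have h1 := (mem_cen2.1 hb).2 x hx
    have h2 := (cen S).inv_mem h1
    have e : (b * x * b⁻¹ * x⁻¹)⁻¹ = x * b * x⁻¹ * b⁻¹ := by group
    rwa [e] at h2
  have hκ' : x * b * x⁻¹ * b⁻¹ ∈ ⁅S, S⁆ := by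
    have : x * b * x⁻¹ * b⁻¹ = ⁅x, b⁆ := by rw [commutatorElement_def]
    rw [this]
    exact Subgroup.commutator_mem_commutator hx hbS
  rcases U.central_comm hκ' hκ with e | e
  · refine ⟨1, Subgroup.one_mem _, b, ?_, by simp⟩
    refine U.cen_of_comm hx hxA hbA ?_
    have : x * b * x⁻¹ = (x * b * x⁻¹ * b⁻¹) * b := by group
    rw [this, e, one_mul]
  · obtain ⟨u, hu, hne⟩ := hu
    have hcard : ∃ k : ℕ, u ^ 2 ^ k = 1 := by
      obtain ⟨k, hk⟩ := hS ⟨u, U.comm_le_S hu⟩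
      exact ⟨k, by simpa using congrArg Subtype.val hk⟩
    obtain ⟨k, hk⟩ := hcard
    obtain ⟨u₁, hu₁, hu₁z⟩ := exists_sq_eq_z U k u hu hk hne
    have hu₁A := U.comm_le_A hu₁
    have hzc := (mem_cen.1 U.zcen).2
    refine ⟨u₁, hu₁, b * u₁⁻¹, ?_, ?_⟩
    · refine U.cen_of_comm hx hxA (A.mul_mem hbA (A.inv_mem hu₁A)) ?_
      have e1 : x * b * x⁻¹ = z * b := by rw [← e]; group
      have e2 := U.invert hx hxA hu₁
      have hzu : z * u₁ = u₁⁻¹ := by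
        have hz1 : z = u₁⁻¹ * u₁⁻¹ := by
          have h5 : u₁ * u₁ = z := by rw [← pow_two, hu₁z]
          have h6 : z * z = 1 := by rw [← pow_two, U.zz]
          calc z = (u₁ * u₁)⁻¹ * (z * z) := by rw [h5]; group
            _ = u₁⁻¹ * u₁⁻¹ := by rw [h6]; group
        rw [hz1]
        group
      calc x * (b * u₁⁻¹) * x⁻¹ = (x * b * x⁻¹) * (x * u₁ * x⁻¹)⁻¹ := by group
        _ = (z * b) * u₁ := by rw [e1, e2, inv_inv]
        _ = (b * z) * u₁ := by rw [hzc b hbS]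
        _ = b * (z * u₁) := by group
        _ = b * u₁⁻¹ := by rw [hzu]
    · have h3 : u₁ * b = b * u₁ := U.D.comm _ hu₁A _ hbA
      calc b = b * u₁ * u₁⁻¹ := by group
        _ = u₁ * b * u₁⁻¹ := by rw [h3]
        _ = u₁ * (b * u₁⁻¹) := by group

/-- The square of an element in the class of an involution. -/
theorem sq_of_cl (U : Setup S A a z) {y r : Ω} (hy : y ∈ S) (hyA : y ∉ A) (hyy : y ^ 2 = 1) (h : Cl S y r) :
    ∃ v ∈ cen S, r ^ 2 = v ^ 2 := by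
  obtain ⟨u, hu, v, hv, rfl⟩ := h
  refine ⟨v, hv, ?_⟩
  have h1 := U.invert hy hyA hu
  have h2 : y * y = 1 := by rw [← pow_two, hyy]
  have h3 : y⁻¹ = y := inv_eq_of_mul_eq_one_left h2
  have h4 : y * u * y = u⁻¹ := by
    rw [h3] at h1
    exact h1
  have hvc : ∀ s ∈ S, s * v = v * s := (mem_cen.1 hv).2
  rw [pow_two, pow_two]
  have hS1 : y * u ∈ S := S.mul_mem hy (U.comm_le_S hu)
  calc y * u * v * (y * u * v) = (y * u) * (v * (y * u)) * v := by group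
    _ = (y * u) * ((y * u) * v) * v := by rw [hvc _ hS1]
    _ = (y * u * y) * u * (v * v) := by group
    _ = v * v := by rw [h4]; group

/-- The contribution of an essential subgroup not contained in `A`. -/
theorem contrib (U : Setup S A a z) (hS : IsPGroup 2 S) (hF : F.IsSaturated 2)
    (hE : F.IsEssential 2 P) {x : Ω} (hx : x ∈ P) (hxA : x ∉ A) :
    ∃ y ∈ P, y ∉ A ∧ Cl S x y ∧
      (∀ β ∈ F.autGroup P, ∀ w : P, (w : Ω)⁻¹ * (β w : P) ∈ ⁅S, S⁆ ⊔ Subgroup.zpowers y) ∧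
      (((∀ s ∈ P, ∀ t ∈ P, s * t = t * s) ∧ y ^ 2 = 1 ∧ ∀ v ∈ cen S, v ^ 2 ≠ z) ∨
        (¬ (∀ s ∈ P, ∀ t ∈ P, s * t = t * s) ∧ y ^ 2 = z ∧ ∃ u ∈ ⁅S, S⁆, u ^ 2 ≠ 1)) := by
  have hPS : P ≤ S := hE.1.1
  by_cases hab : ∀ s ∈ P, ∀ t ∈ P, s * t = t * s
  · obtain ⟨y, hy, hyA, hyy, hv, ⟨c, hc, e⟩, hmv⟩ := abX U hS hF hE hab hx hxA
    refine ⟨y, hy, hyA, ⟨1, Subgroup.one_mem _, c, hc, ?_⟩, hmv, Or.inl ⟨hab, hyy, hv⟩⟩
    rw [e, mul_one]
    exact ((mem_cen.1 hc).2 x (hPS hx)).symm ▸ rfl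
  · obtain ⟨r, hr, hrA, hrz, hu, hmv⟩ := nonabMain U hS hF hE hx hxA hab
    refine ⟨r, hr, hrA, ?_, hmv, Or.inr ⟨hab, hrz, hu⟩⟩
    obtain ⟨b, hb, e⟩ := U.exists_mul_of_not_mem (hPS hx) hxA (hPS hr) hrA
    have hbP : b ∈ P := by
      have : b = r * x⁻¹ := by rw [e]; group
      rw [this]
      exact P.mul_mem hr (P.inv_mem hx)
    have hb2 : b ∈ cen2 S := by
      rw [(U.D.eq_of_nonabelian hF hE hx hxA hab).2.2]
      exact ⟨hbP, hb⟩
    obtain ⟨u, hu', v, hv, e2⟩ := cen2_cl U hS (hPS hx) hxA hb2 hb hu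
    have hxi : x⁻¹ ∈ S := S.inv_mem (hPS hx)
    have hxiA : x⁻¹ ∉ A := fun h => hxA (by simpa using A.inv_mem h)
    have h3 := U.invert hxi hxiA hu'
    rw [inv_inv] at h3
    refine ⟨u⁻¹, Subgroup.inv_mem _ hu', v, hv, ?_⟩
    have hvc := (mem_cen.1 hv).2
    rw [e, e2, ← h3]
    calc u * v * x = u * (v * x) := by group
      _ = u * (x * v) := by rw [hvc x (hPS hx)]
      _ = x * (x⁻¹ * u * x) * v := by group

/-- The shape of an essential subgroup. -/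
theorem shape (U : Setup S A a z) (hF : F.IsSaturated 2) (hE : F.IsEssential 2 P)
    {x : Ω} (hx : x ∈ P) (hxA : x ∉ A) (hab : ∀ s ∈ P, ∀ t ∈ P, s * t = t * s) :
    P = cen S ⊔ Subgroup.zpowers x :=
  U.D.eq_of_abelian hE.1 hx hxA hab

/-- The transport between two essential subgroups of the same shape. -/
theorem moves_of_shape (U : Setup S A a z) (hPS : P ≤ S) (hP'S : P' ≤ S) {W : Subgroup Ω}
    (hWA : W ≤ A) (hZW : cen S ≤ W) {x x' y : Ω} (hx : x ∈ S) (hxA : x ∉ A)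
    (hP : P = W ⊔ Subgroup.zpowers x) (hP' : P' = W ⊔ Subgroup.zpowers x') (hy : y ∈ S)
    (hcl : Cl S x x')
    (hmv : ∀ β ∈ F.autGroup P, ∀ w : P, (w : Ω)⁻¹ * (β w : P) ∈ ⁅S, S⁆ ⊔ Subgroup.zpowers y) :
    ∀ β ∈ F.autGroup P', ∀ w : P', (w : Ω)⁻¹ * (β w : P') ∈ ⁅S, S⁆ ⊔ Subgroup.zpowers y := by
  obtain ⟨u, hu, v, hv, e⟩ := hcl
  have hxi : x⁻¹ ∈ S := S.inv_mem hx
  have hxiA : x⁻¹ ∉ A := fun h => hxA (by simpa using A.inv_mem h)
  obtain ⟨g, hg, hgu⟩ := U.exists_kappa hxi hxiA hu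
  rw [inv_inv] at hgu
  have hgS := U.D.le hg
  have hgx : g * x * g⁻¹ = x * u := by
    rw [hgu]; group
  have hgW : ∀ w ∈ W, g * w * g⁻¹ = w := by
    intro w hw
    rw [U.D.comm g hg w (hWA hw)]
    group
  have hgW' : ∀ w ∈ W, g⁻¹ * w * g = w := by
    intro w hw
    have h1 := hgW w hw
    calc g⁻¹ * w * g = g⁻¹ * (g * w * g⁻¹) * g := by rw [h1]
      _ = w := by group
  have hWP' : W ≤ P' := by rw [hP']; exact le_sup_left
  have hWP : W ≤ P := by rw [hP]; exact le_sup_left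
  have hxP : x ∈ P := by
    rw [hP]; exact Subgroup.mem_sup_right (Subgroup.mem_zpowers x)
  have hx'P' : x' ∈ P' := by
    rw [hP']; exact Subgroup.mem_sup_right (Subgroup.mem_zpowers x')
  have h1 : ∀ w ∈ P, g * w * g⁻¹ ∈ P' := by
    have hle : P ≤ P'.comap (MulAut.conj g).toMonoidHom := by
      conv_lhs => rw [hP]
      refine sup_le (fun w hw => ?_) (Subgroup.zpowers_le.2 ?_)
      · change g * w * g⁻¹ ∈ P'
        rw [hgW w hw]
        exact hWP' hw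
      · change g * x * g⁻¹ ∈ P'
        rw [hgx]
        have : x * u = x' * v⁻¹ := by rw [e]; group
        rw [this]
        exact P'.mul_mem hx'P' (P'.inv_mem (hWP' (hZW hv)))
    exact fun w hw => hle hw
  have h2 : ∀ w ∈ P', g⁻¹ * w * g ∈ P := by
    have hle : P' ≤ P.comap (MulAut.conj g⁻¹).toMonoidHom := by
      conv_lhs => rw [hP']
      refine sup_le (fun w hw => ?_) (Subgroup.zpowers_le.2 ?_)
      · change g⁻¹ * w * g⁻¹⁻¹ ∈ P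
        rw [inv_inv, hgW' w hw]
        exact hWP hw
      · change g⁻¹ * x' * g⁻¹⁻¹ ∈ P
        rw [inv_inv, e]
        have hvc := (mem_cen.1 hv).2 g⁻¹ (S.inv_mem hgS)
        have e3 : g⁻¹ * (x * u * v) * g = x * v := by
          have : x * u = g * x * g⁻¹ := hgx.symm
          rw [this]
          calc g⁻¹ * (g * x * g⁻¹ * v) * g = x * (g⁻¹ * v) * g := by group
            _ = x * (v * g⁻¹) * g := by rw [hvc]
            _ = x * v := by group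
        rw [e3]
        exact P.mul_mem hxP (hWP (hZW hv))
    intro w hw
    have := hle hw
    rw [Subgroup.mem_comap] at this
    simpa using this
  refine moves_conj hPS hP'S hgS h1 h2 ?_ hmv
  intro d hd
  have hle : ⁅S, S⁆ ⊔ Subgroup.zpowers y ≤ S :=
    sup_le U.comm_le_S (Subgroup.zpowers_le.2 hy)
  have e2 : g * d * g⁻¹ = ⁅g, d⁆ * d := by
    rw [commutatorElement_def]
    group
  rw [e2]
  exact Subgroup.mul_mem _ (Subgroup.mem_sup_left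
    (Subgroup.commutator_mem_commutator hgS (hle hd))) hd

/-- The transport between essential subgroups in the same class. -/
theorem moves_of_cl (U : Setup S A a z) (hS : IsPGroup 2 S) (hF : F.IsSaturated 2)
    (hE : F.IsEssential 2 P) (hE' : F.IsEssential 2 P') {x x' y : Ω} (hx : x ∈ P) (hxA : x ∉ A)
    (hx' : x' ∈ P') (hx'A : x' ∉ A) (hy : y ∈ S) (hcl : Cl S x x')
    (hmv : ∀ β ∈ F.autGroup P, ∀ w : P, (w : Ω)⁻¹ * (β w : P) ∈ ⁅S, S⁆ ⊔ Subgroup.zpowers y) :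
    ∀ β ∈ F.autGroup P', ∀ w : P', (w : Ω)⁻¹ * (β w : P') ∈ ⁅S, S⁆ ⊔ Subgroup.zpowers y := by
  have hPS : P ≤ S := hE.1.1
  have hP'S : P' ≤ S := hE'.1.1
  obtain ⟨y₁, hy₁, hy₁A, hc₁, -, ht₁⟩ := contrib U hS hF hE hx hxA
  obtain ⟨y₂, hy₂, hy₂A, hc₂, -, ht₂⟩ := contrib U hS hF hE' hx' hx'A
  have hcl12 : Cl S y₁ y₂ := (hc₁.symm U).trans U (hcl.trans U hc₂)
  rcases ht₁ with ⟨hab, h1, h1'⟩ | ⟨hab, h1, h1'⟩
  · rcases ht₂ with ⟨hab', h2, h2'⟩ | ⟨hab', h2, h2'⟩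
    · exact moves_of_shape U hPS hP'S U.cen_le_A le_rfl (hPS hx) hxA
        (U.D.eq_of_abelian hE.1 hx hxA hab) (U.D.eq_of_abelian hE'.1 hx' hx'A hab') hy hcl hmv
    · exfalso
      obtain ⟨v, hv, e⟩ := sq_of_cl U (hPS hy₁) hy₁A h1 hcl12
      rw [h2] at e
      exact h1' v hv e.symm
  · rcases ht₂ with ⟨hab', h2, h2'⟩ | ⟨hab', h2, h2'⟩
    · exfalso
      obtain ⟨v, hv, e⟩ := sq_of_cl U (hP'S hy₂) hy₂A h2 (hcl12.symm U)
      rw [h1] at e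
      exact h2' v hv e.symm
    · have hN := U.D.eq_of_nonabelian hF hE hx hxA hab
      have hN' := U.D.eq_of_nonabelian hF hE' hx' hx'A hab'
      refine moves_of_shape U hPS hP'S hN.1 ?_ (hPS hx) hxA hN.2.1 hN'.2.1 hy hcl hmv
      intro c hc
      refine mem_cen2.2 ⟨(mem_cen.1 hc).1, fun s hs => ?_⟩
      have : c * s * c⁻¹ * s⁻¹ = 1 := by
        rw [← (mem_cen.1 hc).2 s hs]
        group
      rw [this]
      exact Subgroup.one_mem _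

/-- **The contribution of a class.** -/
theorem classLemma (U : Setup S A a z) (hS : IsPGroup 2 S) (hF : F.IsSaturated 2) (x₀ : Ω) :
    ∃ y : Ω, (y = 1 ∨ (y ∈ S ∧ y ∉ A ∧ Cl S x₀ y ∧
        ((y ^ 2 = 1 ∧ ∀ v ∈ cen S, v ^ 2 ≠ z) ∨ (y ^ 2 = z ∧ ∃ u ∈ ⁅S, S⁆, u ^ 2 ≠ 1)))) ∧
      ∀ P : Subgroup Ω, F.IsEssential 2 P → ∀ x ∈ P, x ∉ A → Cl S x₀ x →
        ∀ β ∈ F.autGroup P, ∀ w : P, (w : Ω)⁻¹ * (β w : P) ∈ ⁅S, S⁆ ⊔ Subgroup.zpowers y := by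
  by_cases h : ∃ P : Subgroup Ω, F.IsEssential 2 P ∧ ∃ x ∈ P, x ∉ A ∧ Cl S x₀ x
  · obtain ⟨P₀, hE₀, x₁, hx₁, hx₁A, hcl⟩ := h
    obtain ⟨y, hy, hyA, hc, hmv, ht⟩ := contrib U hS hF hE₀ hx₁ hx₁A
    refine ⟨y, Or.inr ⟨hE₀.1.1 hy, hyA, hcl.trans U hc, ?_⟩, ?_⟩
    · rcases ht with ⟨-, h1, h2⟩ | ⟨-, h1, h2⟩
      · exact Or.inl ⟨h1, h2⟩
      · exact Or.inr ⟨h1, h2⟩
    · intro P hE x hx hxA hcl'
      exact moves_of_cl U hS hF hE₀ hE hx₁ hx₁A hx hxA (hE₀.1.1 hy) ((hcl.symm U).trans U hcl') hmv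
  · refine ⟨1, Or.inl rfl, ?_⟩
    intro P hE x hx hxA hcl'
    exact absurd ⟨P, hE, x, hx, hxA, hcl'⟩ h

end Cfsg.Agent.Lib.Components.GL3D2
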