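/-
Automorphisms of odd order of `S` itself; the case `S/Z(S)` a four-group with `S' = ⟨z⟩`.
-/
import Mathlib
import Cfsg.Agent.Lib.Components.GL3D2
import Cfsg.Agent.Lib.Fusion.PearlCore

set_option autoImplicit false
set_option linter.style.haveILetI false

namespace Cfsg.Agent.Lib.Components.GL3D3

open Cfsg Cfsg.FusionSystem Cfsg.Agent.Lib.Fusion.Basic Cfsg.Agent.Lib.Fusion.Saturated
  Cfsg.Agent.Lib.Fusion.Saturated2 Cfsg.Agent.Lib.Fusion.Essential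
  Cfsg.Agent.Lib.Fusion.EssentialPair Cfsg.Agent.Lib.Fusion.AbelianMax
  Cfsg.Agent.Lib.Components.GL3A Cfsg.Agent.Lib.Components.GL3B Cfsg.Agent.Lib.Components.GL3C
  Cfsg.Agent.Lib.Components.GL3D1 Cfsg.Agent.Lib.Components.GL3D2
open scoped commutatorElement

variable {Ω : Type*} [Group Ω] {S A P P' : Subgroup Ω} {a z : Ω}

section Gen

variable {V : Type*} [Group V]

/-- Right steps: an odd automorphism moving `w` by a fixed `2`-element. -/
theorem eq_one_of_right {ρ : MulAut V} {m : ℕ} (hm : Odd m) (hρ : ρ ^ m = 1) {w c : V}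
    (hw : ρ w = w * c) (hc : ρ c = c) {k : ℕ} (hck : c ^ 2 ^ k = 1) : c = 1 := by
  have hpow : ∀ n : ℕ, (ρ ^ n) w = w * c ^ n := by
    intro n
    induction n with
    | zero => simp
    | succ n ih =>
      rw [pow_succ', MulAut.mul_apply, ih, map_mul, map_pow, hc, hw]
      rw [pow_succ', mul_assoc]
  have h4 := hpow m
  rw [hρ] at h4
  have h5 : c ^ m = 1 := by
    have h6 : w = w * c ^ m := h4
    simpa using h6.symm
  have hd := Nat.dvd_gcd (orderOf_dvd_of_pow_eq_one h5) (orderOf_dvd_of_pow_eq_one hck)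
  have hg : Nat.gcd m (2 ^ k) = 1 := Nat.Coprime.pow_right k (Nat.coprime_two_right.2 hm)
  rw [hg, Nat.dvd_one, orderOf_eq_one_iff] at hd
  exact hd

/-- Left steps: an odd automorphism moving `w` by a fixed `2`-element. -/
theorem eq_one_of_left {ρ : MulAut V} {m : ℕ} (hm : Odd m) (hρ : ρ ^ m = 1) {w c : V}
    (hw : ρ w = c * w) (hc : ρ c = c) {k : ℕ} (hck : c ^ 2 ^ k = 1) : c = 1 := by
  have hpow : ∀ n : ℕ, (ρ ^ n) w = c ^ n * w := by
    intro n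
    induction n with
    | zero => simp
    | succ n ih =>
      rw [pow_succ', MulAut.mul_apply, ih, map_mul, map_pow, hc, hw]
      rw [pow_succ, mul_assoc]
  have h4 := hpow m
  rw [hρ] at h4
  have h5 : c ^ m = 1 := by
    have h6 : w = c ^ m * w := h4
    simpa using h6.symm
  have hd := Nat.dvd_gcd (orderOf_dvd_of_pow_eq_one h5) (orderOf_dvd_of_pow_eq_one hck)
  have hg : Nat.gcd m (2 ^ k) = 1 := Nat.Coprime.pow_right k (Nat.coprime_two_right.2 hm)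
  rw [hg, Nat.dvd_one, orderOf_eq_one_iff] at hd
  exact hd

end Gen

section AutS

variable [Finite S]

/-- `S` has no automorphisms of odd order when `S'` has an element of order `4`. -/
theorem autS_trivial (U : Setup S A a z) (hS : IsPGroup 2 S) (hu : ∃ u ∈ ⁅S, S⁆, u ^ 2 ≠ 1)
    {σ : MulAut S} {m : ℕ} (hm : Odd m) (hσ : σ ^ m = 1) : σ = 1 := by
  classical
  have hA := U.D.le
  have hS' : ∀ {g : Ω}, g ∈ ⁅S, S⁆ → g ∈ S := fun hg => U.comm_le_S hg
  -- the commutator subgroup is invariant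
  have hσS' : ∀ g : S, (g : Ω) ∈ ⁅S, S⁆ → ((σ g : S) : Ω) ∈ ⁅S, S⁆ := by
    intro g hg
    let K : Subgroup Ω := ((⁅S, S⁆.comap S.subtype).comap σ.toMonoidHom).map S.subtype
    have hle : ⁅S, S⁆ ≤ K := by
      rw [Subgroup.commutator_le]
      intro g₁ hg₁ g₂ hg₂
      refine ⟨⁅(⟨g₁, hg₁⟩ : S), ⟨g₂, hg₂⟩⁆, ?_, ?_⟩
      · change (((σ ⁅(⟨g₁, hg₁⟩ : S), ⟨g₂, hg₂⟩⁆ : S) : Ω)) ∈ ⁅S, S⁆
        have e : σ ⁅(⟨g₁, hg₁⟩ : S), ⟨g₂, hg₂⟩⁆ = ⁅σ ⟨g₁, hg₁⟩, σ ⟨g₂, hg₂⟩⁆ := map_commutatorElement σ.toMonoidHom _ _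
        rw [e]
        exact Subgroup.commutator_mem_commutator (σ _).2 (σ _).2
      · rfl
    obtain ⟨s, hs, e⟩ := hle hg
    have : s = g := Subtype.ext e
    rw [← this]
    exact hs
  have hσZ : ∀ g : S, (g : Ω) ∈ cen S ↔ ((σ g : S) : Ω) ∈ cen S := by
    intro g
    constructor
    · intro h
      refine mem_cen.2 ⟨(σ g).2, fun s hs => ?_⟩
      have h1 : σ⁻¹ ⟨s, hs⟩ * g = g * σ⁻¹ ⟨s, hs⟩ := Subtype.ext ((mem_cen.1 h).2 _ (σ⁻¹ ⟨s, hs⟩).2)
      have h2 := congrArg σ h1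
      simp only [map_mul, MulAut.apply_inv_self] at h2
      exact congrArg Subtype.val h2
    · intro h
      refine mem_cen.2 ⟨g.2, fun s hs => ?_⟩
      have h1 : σ ⟨s, hs⟩ * σ g = σ g * σ ⟨s, hs⟩ := Subtype.ext ((mem_cen.1 h).2 _ (σ _).2)
      rw [← map_mul, ← map_mul] at h1
      exact congrArg Subtype.val (σ.injective h1)
  -- `z`
  let zs : S := ⟨z, hS' U.zc⟩
  have hzfix : σ zs = zs := by
    have h1 := hσS' zs U.zc
    have h2 : ((σ zs : S) : Ω) ^ 2 = 1 := by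
      have : (σ zs) ^ 2 = 1 := by
        rw [← map_pow]
        have : zs ^ 2 = 1 := Subtype.ext U.zz
        rw [this, map_one]
      exact congrArg Subtype.val this
    rcases U.uniq _ h1 h2 with h3 | h3
    · exfalso
      have h4 : σ zs = 1 := Subtype.ext h3
      have h5 : zs = 1 := σ.injective (by rw [h4, map_one])
      exact U.z1 (congrArg Subtype.val h5)
    · exact Subtype.ext h3
  have hcard : ∀ g : S, ∃ k : ℕ, g ^ 2 ^ k = 1 := fun g => hS g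
  -- `S'` is fixed
  have hfixS' : ∀ g : S, (g : Ω) ∈ ⁅S, S⁆ → σ g = g := by
    intro g hg
    obtain ⟨k, hk⟩ := hcard g
    refine fix_of_fix_sq (⁅S, S⁆.comap S.subtype) ?_ σ hm hσ (fun v hv => hσS' v hv) ?_ k g hg hk
    · intro x hx y hy
      exact Subtype.ext (U.D.comm _ (U.comm_le_A hx) _ (U.comm_le_A hy))
    · intro v hv hvv
      have hvv' : (v : Ω) ^ 2 = 1 := congrArg Subtype.val hvv
      rcases U.uniq _ hv hvv' with h3 | h3
      · have : v = 1 := Subtype.ext h3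
        rw [this, map_one]
      · have : v = zs := Subtype.ext h3
        rw [this, hzfix]
  -- the centre is fixed
  have hfixZ : ∀ g : S, (g : Ω) ∈ cen S → σ g = g := by
    intro g hg
    obtain ⟨k, hk⟩ := hcard g
    refine fix_of_fix_sq ((cen S).comap S.subtype) ?_ σ hm hσ (fun v hv => (hσZ v).1 hv) ?_ k g hg hk
    · intro x hx y _
      exact Subtype.ext ((mem_cen.1 hx).2 _ y.2).symm
    · intro v hv hvv
      have hvv' : (v : Ω) ^ 2 = 1 := congrArg Subtype.val hvv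
      have hw : (σ v) ^ 2 = 1 := by rw [← map_pow, hvv, map_one]
      have hwc : ((σ v : S) : Ω) ∈ cen S := (hσZ v).1 hv
      have hw' : ((σ v : S) : Ω) ^ 2 = 1 := congrArg Subtype.val hw
      have inj : ∀ u u' : S, σ u = σ u' → u = u' := fun u u' h => σ.injective h
      have hzz : zs ^ 2 = 1 := Subtype.ext U.zz
      have hom1 : ∀ {u : S}, (u : Ω) ∈ cen S → (u : Ω) ^ 2 = 1 → u = 1 ∨ (u : Ω) = a ∨ u = zs ∨ (u : Ω) = a * z := by
        intro u hu hu2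
        rcases U.om _ hu hu2 with h | h | h | h
        · exact Or.inl (Subtype.ext h)
        · exact Or.inr (Or.inl h)
        · exact Or.inr (Or.inr (Or.inl (Subtype.ext h)))
        · exact Or.inr (Or.inr (Or.inr h))
      have key : σ v = v ∨ σ v = v * zs := by
        rcases hom1 hv hvv' with h1 | h1 | h1 | h1
        · left; rw [h1, map_one]
        · rcases hom1 hwc hw' with h2 | h2 | h2 | h2
          · left; rw [inj v 1 (by rw [h2, map_one])]; exact map_one _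
          · left; exact Subtype.ext (h2.trans h1.symm)
          · left; rw [inj v zs (by rw [h2, hzfix])]; exact hzfix
          · right; exact Subtype.ext (by rw [h2]; change a * z = (v : Ω) * z; rw [h1])
        · left; rw [h1]; exact hzfix
        · rcases hom1 hwc hw' with h2 | h2 | h2 | h2
          · left; rw [inj v 1 (by rw [h2, map_one])]; exact map_one _
          · right
            apply Subtype.ext
            change ((σ v : S) : Ω) = (v : Ω) * z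
            rw [h2, h1, mul_assoc, ← pow_two, U.zz, mul_one]
          · left; rw [inj v zs (by rw [h2, hzfix])]; exact hzfix
          · left; exact Subtype.ext (h2.trans h1.symm)
      rcases key with h | h
      · exact h
      · exfalso
        have := eq_one_of_step σ hm hσ h hzfix hzz
        exact U.z1 (congrArg Subtype.val this)
  -- the element `b₀`
  obtain ⟨x, hx, hxA⟩ : ∃ x ∈ S, x ∉ A := by
    by_contra hcon
    push Not at hcon
    have hi := U.D.index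
    have : A.subgroupOf S = ⊤ := by
      rw [eq_top_iff]
      rintro ⟨g, hg⟩ -
      exact hcon g hg
    rw [this] at hi
    simp at hi
  obtain ⟨u₀, hu₀⟩ := U.cyc
  have hu₀S : u₀ ∈ ⁅S, S⁆ := by rw [hu₀]; exact Subgroup.mem_zpowers u₀
  have hu₀2 : u₀ ^ 2 ≠ 1 := by
    intro e
    obtain ⟨u, hu, hne⟩ := hu
    apply hne
    rw [hu₀] at hu
    obtain ⟨j, rfl⟩ := hu
    simp only
    rw [← zpow_natCast, ← zpow_mul, mul_comm, zpow_mul]
    have : u₀ ^ ((2 : ℕ) : ℤ) = 1 := by rw [zpow_natCast]; exact e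
    rw [this, one_zpow]
  obtain ⟨b₀, hb₀, hb₀e⟩ := U.exists_kappa hx hxA hu₀S
  have hsqZ : ∀ b ∈ A, b * b ∈ cen S → x * b * x⁻¹ * b⁻¹ * (x * b * x⁻¹ * b⁻¹) = 1 := by
    intro b hb hbb
    have h1 : x * (b * b) * x⁻¹ = b * b := by
      rw [(mem_cen.1 hbb).2 x hx]
      group
    have hc : x * b * x⁻¹ ∈ A := U.D.conj_mem hx hb
    have h2 : (x * b * x⁻¹) * b⁻¹ = b⁻¹ * (x * b * x⁻¹) := U.D.comm _ hc _ (A.inv_mem hb) |>.trans rfl
    calc x * b * x⁻¹ * b⁻¹ * (x * b * x⁻¹ * b⁻¹) = x * b * x⁻¹ * (b⁻¹ * (x * b * x⁻¹)) * b⁻¹ := by group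
      _ = x * b * x⁻¹ * ((x * b * x⁻¹) * b⁻¹) * b⁻¹ := by rw [h2]
      _ = (x * (b * b) * x⁻¹) * (b * b)⁻¹ := by group
      _ = 1 := by rw [h1]; group
  have hb₀sq : b₀ * b₀ ∉ cen S := by
    intro h
    apply hu₀2
    rw [pow_two, hb₀e]
    exact hsqZ b₀ hb₀ h
  -- invariance of `A`
  have hσA1 : ∀ g : S, (g : Ω) * g ∉ cen S → ((σ g : S) : Ω) ∈ A := by
    intro g hg
    by_contra hn
    have h1 := U.sq_central (σ g).2 hn
    have h2 : ((σ (g * g) : S) : Ω) ∈ cen S := by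
      rw [map_mul]
      exact h1
    exact hg ((hσZ _).2 h2)
  have hσA : ∀ g : S, (g : Ω) ∈ A → ((σ g : S) : Ω) ∈ A := by
    intro g hg
    by_cases hgg : (g : Ω) * g ∈ cen S
    · let b₀s : S := ⟨b₀, hA hb₀⟩
      have h1 : (((g * b₀s : S) : Ω)) * ((g * b₀s : S) : Ω) ∉ cen S := by
        intro h
        apply hb₀sq
        have e : b₀ * b₀ = ((g : Ω) * g)⁻¹ * (((g * b₀s : S) : Ω) * ((g * b₀s : S) : Ω)) := by
          have h5 : b₀ * g = g * b₀ := U.D.comm _ hb₀ _ hg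
          change b₀ * b₀ = ((g : Ω) * g)⁻¹ * (((g : Ω) * b₀) * ((g : Ω) * b₀))
          calc b₀ * b₀ = ((g : Ω) * g)⁻¹ * ((g : Ω) * (g * b₀) * b₀) := by group
            _ = ((g : Ω) * g)⁻¹ * ((g : Ω) * (b₀ * g) * b₀) := by rw [h5]
            _ = _ := by group
        rw [e]
        exact (cen S).mul_mem ((cen S).inv_mem hgg) h
      have h2 := hσA1 _ h1
      have h3 := hσA1 b₀s hb₀sq
      rw [map_mul] at h2
      have e : ((σ g : S) : Ω) = ((σ g * σ b₀s : S) : Ω) * ((σ b₀s : S) : Ω)⁻¹ := by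
        change ((σ g : S) : Ω) = ((σ g : S) : Ω) * ((σ b₀s : S) : Ω) * ((σ b₀s : S) : Ω)⁻¹
        group
      rw [e]
      exact A.mul_mem h2 (A.inv_mem h3)
    · exact hσA1 g hgg
  have hσpowA : ∀ n : ℕ, ∀ g : S, (g : Ω) ∈ A → (((σ ^ n) g : S) : Ω) ∈ A := by
    intro n
    induction n with
    | zero => intro g hg; simpa using hg
    | succ n ih =>
      intro g hg
      rw [pow_succ]
      exact ih _ (hσA g hg)
  have hm0 : 0 < m := hm.pos
  have hσxA : ((σ ⟨x, hx⟩ : S) : Ω) ∉ A := by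
    intro h
    have h1 := hσpowA (m - 1) _ h
    have h2 : (σ ^ (m - 1)) (σ ⟨x, hx⟩) = ⟨x, hx⟩ := by
      have h3 : (σ ^ (m - 1)) * σ = 1 := by
        rw [← pow_succ, Nat.sub_add_cancel hm0, hσ]
      have := congrArg (fun τ : MulAut S => τ ⟨x, hx⟩) h3
      simpa using this
    rw [h2] at h1
    exact hxA h1
  obtain ⟨a', ha', hσx⟩ := U.exists_mul_of_not_mem hx hxA (σ ⟨x, hx⟩).2 hσxA
  -- the action on `A`
  have hfixA : ∀ g : S, (g : Ω) ∈ A → σ g = g := by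
    intro g hg
    have hκ : x * g * x⁻¹ * (g : Ω)⁻¹ ∈ ⁅S, S⁆ := U.kappa_mem hx hg
    have hκS := hS' hκ
    have h1 := hfixS' ⟨_, hκS⟩ hκ
    have h2 : ((σ ⟨_, hκS⟩ : S) : Ω) = (a' * x) * ((σ g : S) : Ω) * (a' * x)⁻¹ * ((σ g : S) : Ω)⁻¹ := by
      have e : (⟨_, hκS⟩ : S) = ⟨x, hx⟩ * g * (⟨x, hx⟩ : S)⁻¹ * g⁻¹ := rfl
      rw [e, map_mul, map_mul, map_mul, map_inv, map_inv]
      change ((σ ⟨x, hx⟩ : S) : Ω) * ((σ g : S) : Ω) * ((σ ⟨x, hx⟩ : S) : Ω)⁻¹ * ((σ g : S) : Ω)⁻¹ = _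
      rw [hσx]
    have h3 : (a' * x) * ((σ g : S) : Ω) * (a' * x)⁻¹ * ((σ g : S) : Ω)⁻¹ = x * g * x⁻¹ * (g : Ω)⁻¹ := by
      rw [← h2, h1]
    have hσg := hσA g hg
    have hc₁ : x * ((σ g : S) : Ω) * x⁻¹ ∈ A := U.D.conj_mem hx hσg
    have hc₂ : x * (g : Ω) * x⁻¹ ∈ A := U.D.conj_mem hx hg
    have h4 : x * ((σ g : S) : Ω) * x⁻¹ * ((σ g : S) : Ω)⁻¹ = x * g * x⁻¹ * (g : Ω)⁻¹ := by
      rw [← h3]
      have e : a' * (x * ((σ g : S) : Ω) * x⁻¹) = (x * ((σ g : S) : Ω) * x⁻¹) * a' := U.D.comm _ ha' _ hc₁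
      calc x * ((σ g : S) : Ω) * x⁻¹ * ((σ g : S) : Ω)⁻¹
          = (x * ((σ g : S) : Ω) * x⁻¹) * a' * a'⁻¹ * ((σ g : S) : Ω)⁻¹ := by group
        _ = a' * (x * ((σ g : S) : Ω) * x⁻¹) * a'⁻¹ * ((σ g : S) : Ω)⁻¹ := by rw [e]
        _ = _ := by group
    -- `g⁻¹ σ g` is central
    have hc : (g : Ω)⁻¹ * ((σ g : S) : Ω) ∈ cen S := by
      refine U.cen_of_comm hx hxA (A.mul_mem (A.inv_mem hg) hσg) ?_
      have e1 : x * ((σ g : S) : Ω) * x⁻¹ = (x * g * x⁻¹ * (g : Ω)⁻¹) * ((σ g : S) : Ω) := by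
        rw [← h4]; group
      have e2 : (x * g * x⁻¹ * (g : Ω)⁻¹) * ((σ g : S) : Ω) = (x * g * x⁻¹) * ((g : Ω)⁻¹ * ((σ g : S) : Ω)) := by
        group
      calc x * ((g : Ω)⁻¹ * ((σ g : S) : Ω)) * x⁻¹
          = (x * (g : Ω) * x⁻¹)⁻¹ * (x * ((σ g : S) : Ω) * x⁻¹) := by group
        _ = (g : Ω)⁻¹ * ((σ g : S) : Ω) := by rw [e1, e2]; group
    let c : S := g⁻¹ * σ g
    have hcZ : (c : Ω) ∈ cen S := hc
    obtain ⟨k, hk⟩ := hcard c
    have hc1 : c = 1 := eq_one_of_right hm hσ (w := g) (c := c) (by simp [c]) (hfixZ c hcZ) hk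
    have : g⁻¹ * σ g = 1 := hc1
    exact (inv_mul_eq_one.1 this).symm
  -- the action on `x`
  have hfixx : σ ⟨x, hx⟩ = ⟨x, hx⟩ := by
    let c : S := ⟨a', hA ha'⟩
    have hc : σ c = c := hfixA c ha'
    obtain ⟨k, hk⟩ := hcard c
    have h1 : σ ⟨x, hx⟩ = c * ⟨x, hx⟩ := Subtype.ext hσx
    have h2 := eq_one_of_left hm hσ h1 hc hk
    rw [h1, h2, one_mul]
  ext g
  by_cases hg : (g : Ω) ∈ A
  · rw [hfixA g hg]; rfl
  · obtain ⟨b, hb, e⟩ := U.exists_mul_of_not_mem hx hxA g.2 hg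
    have e' : g = ⟨b, hA hb⟩ * ⟨x, hx⟩ := Subtype.ext e
    rw [e', map_mul, hfixA _ hb, hfixx]
    rfl

end AutS

section PTsq

variable {V : Type*} [Group V] [Finite V] {z a : V}

/-- A noncentral involution in `PT` produces a central square root of `z`. -/
theorem sq_noncentral (T : PT z a) {r₀ r₁ r₂ : V} (hn0 : r₀ ∉ Subgroup.center V)
    (hn1 : r₁ ∉ Subgroup.center V) (hd01 : r₀⁻¹ * r₁ ∉ Subgroup.center V)
    (h0 : r₀ ^ 2 = z) (h1 : r₁ ^ 2 = z) (h2 : r₂ ^ 2 = z) (hp : r₀ * r₁ * r₂ = 1)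
    (ht : r₁ * r₀ * r₁⁻¹ * r₀⁻¹ = z) {g : V} (hg : g ∉ Subgroup.center V) (hgg : g ^ 2 = 1) :
    ∃ c ∈ Subgroup.center V, c ^ 2 = z := by
  obtain ⟨t01, -, -, -, -, -⟩ := T.table h0 h1 h2 hp ht
  have key : ∀ c ∈ Subgroup.center V, ∀ ρ : V, ρ ^ 2 = z → g = c * ρ → c ^ 2 = z := by
    intro c hc ρ hρ e
    have hcm := Subgroup.mem_center_iff.1 hc ρ
    have h3 : (c * ρ) ^ 2 = c ^ 2 * ρ ^ 2 := by
      rw [pow_two, pow_two, pow_two]
      calc c * ρ * (c * ρ) = c * (ρ * c) * ρ := by group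
        _ = c * (c * ρ) * ρ := by rw [hcm]
        _ = c * c * (ρ * ρ) := by group
    rw [e, h3, hρ] at hgg
    have hzi : z⁻¹ = z := inv_eq_of_mul_eq_one_left (by rw [← pow_two, T.zz])
    rw [← hzi]
    exact eq_inv_of_mul_eq_one_left hgg
  obtain ⟨c, hc, e | e | e | e⟩ := T.cover2 hn0 hn1 hd01 g
  · exact absurd (by rw [e, mul_one]; exact hc) hg
  · exact ⟨c, hc, key c hc r₀ h0 e⟩
  · exact ⟨c, hc, key c hc r₁ h1 e⟩
  · have hmem : c * z ∈ Subgroup.center V := Subgroup.mul_mem _ hc T.zc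
    refine ⟨c * z, hmem, key _ hmem r₂ h2 ?_⟩
    rw [e, t01, mul_assoc]

end PTsq

section Branch

variable [Finite S] {F : FusionSystem S}

/-- The case of an odd automorphism of `S` when `S'` has order two. -/
theorem branch1 (U : Setup S A a z) (hS : IsPGroup 2 S) (hF : F.IsSaturated 2)
    (hs : ∀ u ∈ ⁅S, S⁆, u ^ 2 = 1) {σ : MulAut S} (hσL : σ ∈ F.autGroup S) {m : ℕ} (hm : Odd m)
    (hσm : σ ^ m = 1) (hσ1 : σ ≠ 1) :
    ∃ D : Subgroup Ω, ⁅S, S⁆ ≤ D ∧ ¬ S ≤ D ∧ ∀ P : Subgroup Ω, (P = S ∨ F.IsEssential 2 P) →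
      ∀ β ∈ F.autGroup P, ∀ w : P, (w : Ω)⁻¹ * (β w : P) ∈ D := by
  classical
  obtain ⟨x, hx, hxA⟩ : ∃ x ∈ S, x ∉ A := by
    by_contra hcon
    push Not at hcon
    have hi := U.D.index
    have : A.subgroupOf S = ⊤ := by
      rw [eq_top_iff]
      rintro ⟨g, hg⟩ -
      exact hcon g hg
    rw [this] at hi
    simp at hi
  have hnab : ¬ ∀ s ∈ S, ∀ t ∈ S, s * t = t * s := fun h =>
    U.nonab ⟨⟨fun s t => Subtype.ext (h s s.2 t t.2)⟩⟩
  have hcomm : ∀ s ∈ S, ∀ t ∈ S, s * t * s⁻¹ * t⁻¹ ∈ cen S := by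
    intro s hs' t ht
    have h1 : s * t * s⁻¹ * t⁻¹ = ⁅s, t⁆ := by rw [commutatorElement_def]
    have h2 : s * t * s⁻¹ * t⁻¹ ∈ ⁅S, S⁆ := by
      rw [h1]
      exact Subgroup.commutator_mem_commutator hs' ht
    rcases U.uniq _ h2 (hs _ h2) with h3 | h3
    · rw [h3]; exact Subgroup.one_mem _
    · rw [h3]; exact U.zcen
  have T := ptOf U hS le_rfl inf_le_left hx hxA hnab hcomm
  have hrad : ∀ K : Subgroup (F.autGroup S), K.Normal → IsPGroup 2 K → ∀ γ ∈ K,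
      (γ : MulAut S) ∈ (MulAut.conj : S →* MulAut S).range := by
    intro K _ hKp γ hγ
    obtain ⟨k, hk⟩ := hKp ⟨γ, hγ⟩
    have h1 : (γ : MulAut S) ^ 2 ^ k = 1 := by
      have := congrArg (fun y : K => ((y : F.autGroup S) : MulAut S)) hk
      simpa using this
    obtain ⟨s, hs', hsγ⟩ := Cfsg.Agent.Lib.Fusion.PearlCore.inner_of_pow hS hF γ.2 h1
    refine ⟨⟨s, hs'⟩, ?_⟩
    ext y
    rw [hsγ]
    rfl
  obtain ⟨r₀, r₁, r₂, hn0, hn1, hn2, hd01, hd02, hd12, h0, h1, h2, hp, hs0, hs1, hs2, hcm⟩ :=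
    T.exists_r hm hσm hσ1
  obtain ⟨t01, t10, t12, t02, t21, t20⟩ := T.table h0 h1 h2 hp hcm
  have hmv : ∀ β ∈ F.autGroup S, ∀ n : ℕ, Odd n → β ^ n = 1 → ∀ g : S,
      g⁻¹ * β g ∈ Subgroup.closure ({r₀, r₁} : Set S) := fun β hβ n hn hβn g =>
    T.moves_in hrad hm hσm hσL hn0 hn1 hn2 hd01 hd02 hd12 h0 h1 h2 hp hs0 hs1 hs2 hcm hβ hn hβn g
  have m0 : r₀ ∈ Subgroup.closure ({r₀, r₁} : Set S) := Subgroup.subset_closure (by simp)
  let D : Subgroup Ω := (Subgroup.closure ({r₀, r₁} : Set S)).map S.subtype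
  have hzD : z ∈ D := by
    refine ⟨r₀ * r₀, Subgroup.mul_mem _ m0 m0, ?_⟩
    have : r₀ * r₀ = ⟨z, (mem_cen.1 U.zcen).1⟩ := by rw [← pow_two, h0]
    rw [this]
    rfl
  have hSD : ⁅S, S⁆ ≤ D := by
    intro u hu
    rcases U.uniq u hu (hs u hu) with h3 | h3
    · rw [h3]; exact Subgroup.one_mem _
    · rw [h3]; exact hzD
  have hcenmem : ∀ c : S, c ∈ Subgroup.center S → (c : Ω) ∈ cen S := by
    intro c hc
    refine mem_cen.2 ⟨c.2, fun s hs' => ?_⟩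
    exact congrArg Subtype.val (Subgroup.mem_center_iff.1 hc ⟨s, hs'⟩)
  have hmemcen : ∀ c : S, (c : Ω) ∈ cen S → c ∈ Subgroup.center S := by
    intro c hc
    rw [Subgroup.mem_center_iff]
    intro g
    exact Subtype.ext ((mem_cen.1 hc).2 g g.2)
  refine ⟨D, hSD, ?_, ?_⟩
  · intro hle
    obtain ⟨d, hd, e⟩ := hle (mem_cen.1 U.ac).1
    have hdc : d ∈ Subgroup.center S := by
      apply hmemcen
      have : (d : Ω) = a := e
      rw [this]
      exact U.ac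
    rcases T.closure_cen h0 h1 h2 hp hcm hn0 hn1 hn2 hd hdc with h3 | h3
    · apply U.an
      have : a = 1 := by
        rw [← e, h3]
        rfl
      rw [this]
      exact Subgroup.one_mem _
    · apply U.an
      have : a = z := by
        rw [← e, h3]
        rfl
      rw [this]
      exact U.zc
  · rintro P (rfl | hE) β hβ w
    · refine moves_of_odd (fullyNormalized_props hS hF
        (Cfsg.Agent.Lib.Fusion.PearlCore.fullyNormalized_top (F := F))).2 hSD ?_ β hβ w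
      intro β' hβ' n hn hβn w'
      exact ⟨_, hmv β' hβ' n hn hβn w', rfl⟩
    · exfalso
      have hno : ∀ g : S, g ∉ Subgroup.center S → g ^ 2 = 1 → (∀ v ∈ cen S, v ^ 2 ≠ z) → False := by
        intro g hg hgg hv
        obtain ⟨c, hc, e⟩ := sq_noncentral T hn0 hn1 hd01 h0 h1 h2 hp hcm hg hgg
        exact hv _ (hcenmem c hc) (congrArg Subtype.val e)
      by_cases hPA : P = A
      · subst hPA
        obtain ⟨ω, hω, -, -, h3⟩ := abA U hS hF hE
        obtain ⟨h4, h5, h6⟩ := h3 hs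
        refine hno ⟨ω, U.D.le hω⟩ (fun h => h5 (hcenmem _ h)) (Subtype.ext h4) h6
      · obtain ⟨x', hx', hx'A⟩ := U.D.exists_x hE.1 hPA
        obtain ⟨y, hy, hyA, -, -, ht⟩ := contrib U hS hF hE hx' hx'A
        rcases ht with ⟨-, h3, h4⟩ | ⟨-, -, u, hu, hne⟩
        · refine hno ⟨y, hE.1.1 hy⟩ (fun h => hyA (U.cen_le_A (hcenmem _ h))) (Subtype.ext h3) h4
        · exact hne (hs u hu)

end Branch

end Cfsg.Agent.Lib.Components.GL3D3
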