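/-
The final count: the focal subgroup of a saturated fusion system on `S` is proper.
-/
import Mathlib
import Cfsg.Agent.Lib.Components.GL3D3

set_option autoImplicit false
set_option linter.style.haveILetI false

namespace Cfsg.Agent.Lib.Components.GL3D4

open Cfsg Cfsg.FusionSystem Cfsg.Agent.Lib.Fusion.Basic Cfsg.Agent.Lib.Fusion.Saturated
  Cfsg.Agent.Lib.Fusion.Saturated2 Cfsg.Agent.Lib.Fusion.Essential
  Cfsg.Agent.Lib.Fusion.EssentialPair Cfsg.Agent.Lib.Fusion.AbelianMax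
  Cfsg.Agent.Lib.Components.GL3A Cfsg.Agent.Lib.Components.GL3B Cfsg.Agent.Lib.Components.GL3C
  Cfsg.Agent.Lib.Components.GL3D1 Cfsg.Agent.Lib.Components.GL3D2 Cfsg.Agent.Lib.Components.GL3D3
open scoped commutatorElement

variable {Ω : Type*} [Group Ω] {S A : Subgroup Ω} {a z : Ω} [Finite S] {F : FusionSystem S}

/-- The subgroup `S' Z(S)`. -/
def Zone (U : Setup S A a z) : Subgroup Ω where
  carrier := {d | ∃ u ∈ ⁅S, S⁆, ∃ v ∈ cen S, d = u * v}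
  mul_mem' := by
    rintro _ _ ⟨u, hu, v, hv, rfl⟩ ⟨u', hu', v', hv', rfl⟩
    refine ⟨u * u', Subgroup.mul_mem _ hu hu', v * v', Subgroup.mul_mem _ hv hv', ?_⟩
    have h1 : u' * v = v * u' := (mem_cen.1 hv).2 _ (U.comm_le_S hu')
    calc u * v * (u' * v') = u * (v * u') * v' := by group
      _ = u * (u' * v) * v' := by rw [h1]
      _ = _ := by group
  one_mem' := ⟨1, Subgroup.one_mem _, 1, Subgroup.one_mem _, by simp⟩
  inv_mem' := by
    rintro _ ⟨u, hu, v, hv, rfl⟩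
    refine ⟨u⁻¹, Subgroup.inv_mem _ hu, v⁻¹, Subgroup.inv_mem _ hv, ?_⟩
    have h1 : u⁻¹ * v = v * u⁻¹ := (mem_cen.1 hv).2 _ (S.inv_mem (U.comm_le_S hu))
    have h2 : v⁻¹ * u⁻¹ = u⁻¹ * v⁻¹ := by
      calc v⁻¹ * u⁻¹ = v⁻¹ * (u⁻¹ * v) * v⁻¹ := by group
        _ = v⁻¹ * (v * u⁻¹) * v⁻¹ := by rw [h1]
        _ = _ := by group
    rw [mul_inv_rev]
    exact h2

theorem comm_le_zone (U : Setup S A a z) : ⁅S, S⁆ ≤ Zone U := fun u hu =>
  ⟨u, hu, 1, Subgroup.one_mem _, by simp⟩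

theorem cen_le_zone (U : Setup S A a z) : cen S ≤ Zone U := fun v hv =>
  ⟨1, Subgroup.one_mem _, v, hv, by simp⟩

theorem zone_le_A (U : Setup S A a z) : Zone U ≤ A := by
  rintro _ ⟨u, hu, v, hv, rfl⟩
  exact A.mul_mem (U.comm_le_A hu) (U.cen_le_A hv)

theorem zone_conj (U : Setup S A a z) {g d : Ω} (hg : g ∈ S) (hd : d ∈ Zone U) : g * d * g⁻¹ ∈ Zone U := by
  obtain ⟨u, hu, v, hv, rfl⟩ := hd
  have h1 : g * u * g⁻¹ ∈ ⁅S, S⁆ := by
    have e : g * u * g⁻¹ = ⁅g, u⁆ * u := by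
      rw [commutatorElement_def]
      group
    rw [e]
    exact Subgroup.mul_mem _ (Subgroup.commutator_mem_commutator hg (U.comm_le_S hu)) hu
  refine ⟨_, h1, v, hv, ?_⟩
  have h2 := (mem_cen.1 hv).2 g⁻¹ (S.inv_mem hg)
  calc g * (u * v) * g⁻¹ = g * u * (v * g⁻¹) := by group
    _ = g * u * (g⁻¹ * v) := by rw [h2]
    _ = _ := by group

theorem cl_iff (U : Setup S A a z) {x y : Ω} : Cl S x y ↔ x⁻¹ * y ∈ Zone U := by
  constructor
  · rintro ⟨u, hu, v, hv, rfl⟩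
    refine ⟨u, hu, v, hv, by group⟩
  · rintro ⟨u, hu, v, hv, e⟩
    refine ⟨u, hu, v, hv, ?_⟩
    calc y = x * (x⁻¹ * y) := by group
      _ = x * u * v := by rw [e]; group

/-- The basic facts about `A / S' Z(S)`. -/
theorem base_facts (U : Setup S A a z) (hS : IsPGroup 2 S) :
    ∃ x₁ ∈ S, x₁ ∉ A ∧ ∃ b₀ ∈ A, b₀ ∉ Zone U ∧ ∀ b ∈ A, b ∈ Zone U ∨ b * b₀⁻¹ ∈ Zone U := by
  obtain ⟨x, hx, hxA⟩ : ∃ x ∈ S, x ∉ A := by
    by_contra hcon
    push Not at hcon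
    have hi := U.D.index
    have : A.subgroupOf S = ⊤ := by
      rw [eq_top_iff]
      rintro ⟨g, hg⟩ -
      exact hcon g hg
    rw [this] at hi
    simp at hi
  obtain ⟨u₀, hu₀⟩ := U.cyc
  have hu₀S : u₀ ∈ ⁅S, S⁆ := by rw [hu₀]; exact Subgroup.mem_zpowers u₀
  obtain ⟨b₀, hb₀, hb₀e⟩ := U.exists_kappa hx hxA hu₀S
  have key : ∀ b ∈ A, ∀ j : ℤ, x * b * x⁻¹ * b⁻¹ = u₀ ^ (2 * j) → b ∈ Zone U := by
    intro b hb j e
    have ht : u₀ ^ j ∈ ⁅S, S⁆ := by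
      rw [hu₀]; exact Subgroup.zpow_mem _ (Subgroup.mem_zpowers u₀) j
    obtain ⟨t, htd⟩ : ∃ t, t = u₀ ^ j := ⟨_, rfl⟩
    rw [← htd] at ht
    have e1 : u₀ ^ (2 * j) = t * t := by
      rw [htd, two_mul, zpow_add]
    refine ⟨t⁻¹, Subgroup.inv_mem _ ht, t * b, ?_, by group⟩
    refine U.cen_of_comm hx hxA (A.mul_mem (U.comm_le_A ht) hb) ?_
    have h2 := U.invert hx hxA ht
    have h3 : x * b * x⁻¹ = t * t * b := by
      rw [← e1, ← e]
      group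
    calc x * (t * b) * x⁻¹ = (x * t * x⁻¹) * (x * b * x⁻¹) := by group
      _ = t⁻¹ * (t * t * b) := by rw [h2, h3]
      _ = t * b := by group
  refine ⟨x, hx, hxA, b₀, hb₀, ?_, ?_⟩
  · rintro ⟨u, hu, v, hv, e⟩
    have h1 := U.invert hx hxA hu
    have h2 : u₀ = u⁻¹ * u⁻¹ := by
      have hvc := (mem_cen.1 hv).2 x hx
      rw [hb₀e, e]
      calc x * (u * v) * x⁻¹ * (u * v)⁻¹ = x * u * (v * x⁻¹) * v⁻¹ * u⁻¹ := by group
        _ = x * u * (x⁻¹ * v) * v⁻¹ * u⁻¹ := by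
            rw [(mem_cen.1 hv).2 x⁻¹ (S.inv_mem hx)]
        _ = (x * u * x⁻¹) * u⁻¹ := by group
        _ = u⁻¹ * u⁻¹ := by rw [h1]
    rw [hu₀] at hu
    obtain ⟨j, rfl⟩ := hu
    simp only at h2
    have h3 : u₀ ^ (2 * j + 1) = 1 := by
      have h4 : u₀ = u₀ ^ (-(2 * j)) := by
        conv_lhs => rw [h2]
        rw [← zpow_neg, ← zpow_add]
        congr 1
        ring
      calc u₀ ^ (2 * j + 1) = u₀ ^ (2 * j) * u₀ := by rw [zpow_add, zpow_one]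
        _ = u₀ ^ (2 * j) * u₀ ^ (-(2 * j)) := by rw [← h4]
        _ = 1 := by rw [← zpow_add]; simp
    have hodd : Odd (2 * j + 1).natAbs := Int.natAbs_odd.2 ⟨j, rfl⟩
    have h5 : orderOf u₀ ∣ (2 * j + 1).natAbs := Int.natCast_dvd.1 (orderOf_dvd_iff_zpow_eq_one.2 h3)
    obtain ⟨k, hk⟩ := hS ⟨u₀, U.comm_le_S hu₀S⟩
    have hk' : u₀ ^ 2 ^ k = 1 := by simpa using congrArg Subtype.val hk
    have hd := Nat.dvd_gcd h5 (orderOf_dvd_of_pow_eq_one hk')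
    have hg : Nat.gcd (2 * j + 1).natAbs (2 ^ k) = 1 :=
      Nat.Coprime.pow_right k (Nat.coprime_two_right.2 hodd)
    rw [hg, Nat.dvd_one, orderOf_eq_one_iff] at hd
    have hz := U.zc
    rw [hu₀, hd] at hz
    apply U.z1
    simpa using hz
  · intro b hb
    have hκ : x * b * x⁻¹ * b⁻¹ ∈ ⁅S, S⁆ := U.kappa_mem hx hb
    rw [hu₀] at hκ
    obtain ⟨k, hk⟩ := hκ
    simp only at hk
    rcases Int.even_or_odd' k with ⟨j, rfl | rfl⟩
    · exact Or.inl (key b hb j hk.symm)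
    · right
      refine key _ (A.mul_mem hb (A.inv_mem hb₀)) j ?_
      have hR : x * b₀ * x⁻¹ ∈ A := U.D.conj_mem hx hb₀
      have h1 : (x * b₀ * x⁻¹)⁻¹ * b₀ = b₀ * (x * b₀ * x⁻¹)⁻¹ := U.D.comm _ (A.inv_mem hR) _ hb₀
      have h2 : (x * b₀ * x⁻¹)⁻¹ * b⁻¹ = b⁻¹ * (x * b₀ * x⁻¹)⁻¹ :=
        U.D.comm _ (A.inv_mem hR) _ (A.inv_mem hb)
      have h3 : b₀ * b⁻¹ = b⁻¹ * b₀ := U.D.comm _ hb₀ _ (A.inv_mem hb)
      have h4 : (x * b₀ * x⁻¹)⁻¹ * b₀ * b⁻¹ = b⁻¹ * b₀ * (x * b₀ * x⁻¹)⁻¹ := by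
        rw [h1, mul_assoc, h2, ← mul_assoc, h3]
      calc x * (b * b₀⁻¹) * x⁻¹ * (b * b₀⁻¹)⁻¹
          = (x * b * x⁻¹) * ((x * b₀ * x⁻¹)⁻¹ * b₀ * b⁻¹) := by group
        _ = (x * b * x⁻¹) * (b⁻¹ * b₀ * (x * b₀ * x⁻¹)⁻¹) := by rw [h4]
        _ = (x * b * x⁻¹ * b⁻¹) * (x * b₀ * x⁻¹ * b₀⁻¹)⁻¹ := by group
        _ = u₀ ^ (2 * j + 1) * u₀⁻¹ := by rw [← hk, ← hb₀e]
        _ = u₀ ^ (2 * j) := by rw [zpow_add, zpow_one]; group

/-- Adjoining an element `y` with `y² ∈ T`. -/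
theorem sup_step (U : Setup S A a z) {T : Subgroup Ω} (hT1 : ⁅S, S⁆ ≤ T) (hT2 : T ≤ S) {y : Ω} (hy : y ∈ S)
    (hy2 : y * y ∈ T) {d : Ω} (hd : d ∈ T ⊔ Subgroup.zpowers y) : d ∈ T ∨ d * y⁻¹ ∈ T := by
  have hconj : ∀ g ∈ S, ∀ t ∈ T, g * t * g⁻¹ ∈ T := by
    intro g hg t ht
    have e : g * t * g⁻¹ = ⁅g, t⁆ * t := by
      rw [commutatorElement_def]
      group
    rw [e]
    exact T.mul_mem (hT1 (Subgroup.commutator_mem_commutator hg (hT2 ht))) ht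
  let H : Subgroup Ω :=
    { carrier := {d | d ∈ T ∨ d * y⁻¹ ∈ T}
      mul_mem' := by
        rintro d d' (h | h) (h' | h')
        · exact Or.inl (T.mul_mem h h')
        · right
          have e : d * d' * y⁻¹ = d * (d' * y⁻¹) := by group
          rw [e]
          exact T.mul_mem h h'
        · right
          have e : d * d' * y⁻¹ = (d * y⁻¹) * (y * d' * y⁻¹) := by group
          rw [e]
          exact T.mul_mem h (hconj y hy d' h')
        · left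
          have e : d * d' = (d * y⁻¹) * (y * (d' * y⁻¹) * y⁻¹) * (y * y) := by group
          rw [e]
          exact T.mul_mem (T.mul_mem h (hconj y hy _ h')) hy2
      one_mem' := Or.inl T.one_mem
      inv_mem' := by
        rintro d (h | h)
        · exact Or.inl (T.inv_mem h)
        · right
          have e : d⁻¹ * y⁻¹ = (y⁻¹ * (d * y⁻¹)⁻¹ * y⁻¹⁻¹) * (y * y)⁻¹ := by group
          rw [e]
          exact T.mul_mem (hconj _ (S.inv_mem hy) _ (T.inv_mem h)) (T.inv_mem hy2) }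
  have hle : T ⊔ Subgroup.zpowers y ≤ H := by
    refine sup_le (fun t ht => Or.inl ht) (Subgroup.zpowers_le.2 (Or.inr ?_))
    rw [mul_inv_cancel]
    exact T.one_mem
  exact hle hd

/-- Independence of two elements modulo `S'`. -/
theorem pairD (U : Setup S A a z) {p₁ p₂ : Ω} (hp₁ : p₁ ∈ S) (hp₂ : p₂ ∈ S) (hs₁ : p₁ * p₁ ∈ ⁅S, S⁆)
    (hs₂ : p₂ * p₂ ∈ ⁅S, S⁆) (hi₁ : p₁ ∈ Zone U → p₁ ∈ ⁅S, S⁆) (hi₂ : p₂ ∈ Zone U → p₂ ∈ ⁅S, S⁆)
    (hi₁₂ : p₁ * p₂ ∈ Zone U → p₁ * p₂ ∈ ⁅S, S⁆) {d : Ω}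
    (hd : d ∈ ⁅S, S⁆ ⊔ Subgroup.zpowers p₁ ⊔ Subgroup.zpowers p₂) (hZ : d ∈ Zone U) : d ∈ ⁅S, S⁆ := by
  have hCS := U.comm_le_S
  have hCZ := comm_le_zone U
  have hT : ⁅S, S⁆ ⊔ Subgroup.zpowers p₁ ≤ S := sup_le hCS (Subgroup.zpowers_le.2 hp₁)
  have hfirst : ∀ {e : Ω}, e ∈ ⁅S, S⁆ ⊔ Subgroup.zpowers p₁ → e ∈ ⁅S, S⁆ ∨ e * p₁⁻¹ ∈ ⁅S, S⁆ :=
    fun he => sup_step U le_rfl hCS hp₁ hs₁ he
  rcases sup_step U le_sup_left hT hp₂ (Subgroup.mem_sup_left hs₂) hd with h | h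
  · rcases hfirst h with h1 | h1
    · exact h1
    · have e : p₁ = (d * p₁⁻¹)⁻¹ * d := by group
      have hp : p₁ ∈ ⁅S, S⁆ := hi₁ (by
        rw [e]
        exact Subgroup.mul_mem _ (Subgroup.inv_mem _ (hCZ h1)) hZ)
      have e2 : d = (d * p₁⁻¹) * p₁ := by group
      rw [e2]
      exact Subgroup.mul_mem _ h1 hp
  · rcases hfirst h with h1 | h1
    · have e : p₂ = (d * p₂⁻¹)⁻¹ * d := by group
      have hp : p₂ ∈ ⁅S, S⁆ := hi₂ (by
        rw [e]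
        exact Subgroup.mul_mem _ (Subgroup.inv_mem _ (hCZ h1)) hZ)
      have e2 : d = (d * p₂⁻¹) * p₂ := by group
      rw [e2]
      exact Subgroup.mul_mem _ h1 hp
    · have e : p₁ * p₂ = (d * p₂⁻¹ * p₁⁻¹)⁻¹ * d := by group
      have hp : p₁ * p₂ ∈ ⁅S, S⁆ := hi₁₂ (by
        rw [e]
        exact Subgroup.mul_mem _ (Subgroup.inv_mem _ (hCZ h1)) hZ)
      have e2 : d = (d * p₂⁻¹ * p₁⁻¹) * (p₁ * p₂) := by group
      rw [e2]
      exact Subgroup.mul_mem _ h1 hp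

/-- Elements in different classes have product outside `S' Z(S)`. -/
theorem prod_not (U : Setup S A a z) {x₁ b₀ y₁ y₂ : Ω} (hx₁ : x₁ ∈ S) (hx₁A : x₁ ∉ A) (hb₀ : b₀ ∉ Zone U)
    (h1 : Cl S x₁ y₁) (h2 : Cl S (x₁ * b₀) y₂) : y₁ * y₂ ∉ Zone U := by
  intro h
  apply hb₀
  have c1 := (cl_iff U).1 h1
  have c2 := (cl_iff U).1 h2
  have hxx : x₁ * x₁ ∈ Zone U := cen_le_zone U (U.sq_central hx₁ hx₁A)
  have e : b₀ = (x₁ * x₁)⁻¹ * (x₁ * (x₁⁻¹ * y₁) * x₁⁻¹)⁻¹ * (y₁ * y₂) * ((x₁ * b₀)⁻¹ * y₂)⁻¹ := by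
    group
  rw [e]
  exact Subgroup.mul_mem _ (Subgroup.mul_mem _ (Subgroup.mul_mem _ (Subgroup.inv_mem _ hxx)
    (Subgroup.inv_mem _ (zone_conj U hx₁ c1))) h) (Subgroup.inv_mem _ c2)

/-- **The main theorem on the focal subgroup.** -/
theorem focal_proper (U : Setup S A a z) (hS : IsPGroup 2 S) (hF : F.IsSaturated 2) :
    ∃ D : Subgroup Ω, ⁅S, S⁆ ≤ D ∧ ¬ S ≤ D ∧ ∀ P : Subgroup Ω, (P = S ∨ F.IsEssential 2 P) →
      ∀ β ∈ F.autGroup P, ∀ w : P, (w : Ω)⁻¹ * (β w : P) ∈ D := by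
  classical
  by_cases hB : (∀ u ∈ ⁅S, S⁆, u ^ 2 = 1) ∧ ∃ σ ∈ F.autGroup S, ∃ m : ℕ, Odd m ∧ σ ^ m = 1 ∧ σ ≠ 1
  · obtain ⟨hs, σ, hσL, m, hm, hσm, hσ1⟩ := hB
    exact branch1 U hS hF hs hσL hm hσm hσ1
  have hSmv : ∀ β ∈ F.autGroup S, ∀ w : S, (w : Ω)⁻¹ * (β w : S) ∈ ⁅S, S⁆ := by
    refine moves_of_odd (fullyNormalized_props hS hF
      (Cfsg.Agent.Lib.Fusion.PearlCore.fullyNormalized_top (F := F))).2 le_rfl ?_
    intro β hβ n hn hβn w
    have : β = 1 := by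
      by_cases hs : ∀ u ∈ ⁅S, S⁆, u ^ 2 = 1
      · by_contra hne
        exact hB ⟨hs, β, hβ, n, hn, hβn, hne⟩
      · push Not at hs
        exact autS_trivial U hS hs hn hβn
    rw [this]
    simp [Subgroup.one_mem]
  obtain ⟨x₁, hx₁, hx₁A, b₀, hb₀, hb₀Z, hcover⟩ := base_facts U hS
  have hCS := U.comm_le_S
  have hzS : z ∈ S := (mem_cen.1 U.zcen).1
  have hx₁b : x₁ * b₀ ∉ A := fun h => hx₁A (by
    have e : x₁ = (x₁ * b₀) * b₀⁻¹ := by group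
    rw [e]
    exact A.mul_mem h (A.inv_mem hb₀))
  have hcl : ∀ g ∈ S, g ∉ A → Cl S x₁ g ∨ Cl S (x₁ * b₀) g := by
    intro g hg hgA
    obtain ⟨b, hb, e⟩ := U.exists_mul_of_not_mem hx₁ hx₁A hg hgA
    have hc : x₁⁻¹ * g ∈ A := by
      have h1 := U.D.conj_mem (S.inv_mem hx₁) hb
      have e2 : x₁⁻¹ * g = x₁⁻¹ * b * x₁⁻¹⁻¹ := by rw [e]; group
      rw [e2]
      exact h1
    rcases hcover _ hc with h | h
    · exact Or.inl ((cl_iff U).2 h)
    · right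
      rw [cl_iff U]
      have h1 : b₀⁻¹ * (x₁⁻¹ * g) = (x₁⁻¹ * g) * b₀⁻¹ := U.D.comm _ (A.inv_mem hb₀) _ hc
      have e2 : (x₁ * b₀)⁻¹ * g = b₀⁻¹ * (x₁⁻¹ * g) := by group
      rw [e2, h1]
      exact h
  obtain ⟨y₁, hy₁, h₁⟩ := classLemma U hS hF x₁
  obtain ⟨y₂, hy₂, h₂⟩ := classLemma U hS hF (x₁ * b₀)
  have hyS : ∀ {x₀ y : Ω}, (y = 1 ∨ (y ∈ S ∧ y ∉ A ∧ Cl S x₀ y ∧
      ((y ^ 2 = 1 ∧ ∀ v ∈ cen S, v ^ 2 ≠ z) ∨ (y ^ 2 = z ∧ ∃ u ∈ ⁅S, S⁆, u ^ 2 ≠ 1)))) → y ∈ S := by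
    rintro x₀ y (rfl | ⟨h, -⟩)
    · exact S.one_mem
    · exact h
  have hy2 : ∀ {x₀ y : Ω}, (y = 1 ∨ (y ∈ S ∧ y ∉ A ∧ Cl S x₀ y ∧
      ((y ^ 2 = 1 ∧ ∀ v ∈ cen S, v ^ 2 ≠ z) ∨ (y ^ 2 = z ∧ ∃ u ∈ ⁅S, S⁆, u ^ 2 ≠ 1)))) →
      y * y ∈ ⁅S, S⁆ := by
    rintro x₀ y (rfl | ⟨-, -, -, ⟨h, -⟩ | ⟨h, -⟩⟩)
    · simp [Subgroup.one_mem]
    · rw [← pow_two, h]; exact Subgroup.one_mem _
    · rw [← pow_two, h]; exact U.zc
  have hyi : ∀ {x₀ y : Ω}, (y = 1 ∨ (y ∈ S ∧ y ∉ A ∧ Cl S x₀ y ∧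
      ((y ^ 2 = 1 ∧ ∀ v ∈ cen S, v ^ 2 ≠ z) ∨ (y ^ 2 = z ∧ ∃ u ∈ ⁅S, S⁆, u ^ 2 ≠ 1)))) →
      y ∈ Zone U → y ∈ ⁅S, S⁆ := by
    rintro x₀ y (rfl | ⟨-, h, -⟩) hz
    · exact Subgroup.one_mem _
    · exact absurd (zone_le_A U hz) h
  have hi12 : y₁ * y₂ ∈ Zone U → y₁ * y₂ ∈ ⁅S, S⁆ := by
    have hy₁c := hy₁
    rcases hy₁ with rfl | ⟨-, -, c1, -⟩
    · rw [one_mul]; exact hyi hy₂
    · rcases hy₂ with rfl | ⟨-, -, c2, -⟩
      · rw [mul_one]; exact hyi hy₁c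
      · intro h
        exact absurd h (prod_not U hx₁ hx₁A hb₀Z c1 c2)
  have hyS₁ := hyS hy₁
  have hyS₂ := hyS hy₂
  have hs₁ := hy2 hy₁
  have hs₂ := hy2 hy₂
  have hi₁ := hyi hy₁
  have hi₂ := hyi hy₂
  have hYmv : ∀ D : Subgroup Ω, ⁅S, S⁆ ⊔ Subgroup.zpowers y₁ ≤ D → ⁅S, S⁆ ⊔ Subgroup.zpowers y₂ ≤ D →
      ∀ P : Subgroup Ω, F.IsEssential 2 P → P ≠ A → ∀ β ∈ F.autGroup P, ∀ w : P,
        (w : Ω)⁻¹ * (β w : P) ∈ D := by
    intro D h1 h2 P hE hPA β hβ w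
    obtain ⟨x, hx, hxA⟩ := U.D.exists_x hE.1 hPA
    rcases hcl x (hE.1.1 hx) hxA with c | c
    · exact h1 (h₁ P hE x hx hxA c β hβ w)
    · exact h2 (h₂ P hE x hx hxA c β hβ w)
  have hSmvD : ∀ D : Subgroup Ω, ⁅S, S⁆ ≤ D → ∀ β ∈ F.autGroup S, ∀ w : S,
      (w : Ω)⁻¹ * (β w : S) ∈ D := fun D h β hβ w => h (hSmv β hβ w)
  have haS : a ∈ S := (mem_cen.1 U.ac).1
  have haZ : a ∈ Zone U := cen_le_zone U U.ac
  by_cases hEA : F.IsEssential 2 A
  · obtain ⟨ω, hω, hωmv, h3, h4⟩ := abA U hS hF hEA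
    have hωS := U.D.le hω
    by_cases hs : ∀ u ∈ ⁅S, S⁆, u ^ 2 = 1
    · obtain ⟨hωω, hωZ, hnv⟩ := h4 hs
      have hZZ : Zone U ≤ cen S := by
        rintro _ ⟨u, hu, v, hv, rfl⟩
        rcases U.uniq u hu (hs u hu) with rfl | rfl
        · rw [one_mul]; exact hv
        · exact Subgroup.mul_mem _ U.zcen hv
      have hinv : ∀ {x₀ y : Ω}, (y = 1 ∨ (y ∈ S ∧ y ∉ A ∧ Cl S x₀ y ∧
          ((y ^ 2 = 1 ∧ ∀ v ∈ cen S, v ^ 2 ≠ z) ∨ (y ^ 2 = z ∧ ∃ u ∈ ⁅S, S⁆, u ^ 2 ≠ 1)))) →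
          y = 1 ∨ (y ∈ S ∧ y ∉ A ∧ Cl S x₀ y ∧ y ^ 2 = 1) := by
        rintro x₀ y (h | ⟨h1, h2, h5, ⟨h6, -⟩ | ⟨-, u, hu, hne⟩⟩)
        · exact Or.inl h
        · exact Or.inr ⟨h1, h2, h5, h6⟩
        · exact absurd (hs u hu) hne
      have hone : y₁ = 1 ∨ y₂ = 1 := by
        by_contra hcon
        push Not at hcon
        obtain ⟨hn1, hn2⟩ := hcon
        obtain ⟨hy₁S, hy₁A, c1, hy₁y⟩ := (hinv hy₁).resolve_left hn1
        obtain ⟨hy₂S, hy₂A, c2, hy₂y⟩ := (hinv hy₂).resolve_left hn2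
        have hy₁1 : y₁ * y₁ = 1 := by rw [← pow_two, hy₁y]
        have hy₂1 : y₂ * y₂ = 1 := by rw [← pow_two, hy₂y]
        have hy₁i : y₁⁻¹ = y₁ := inv_eq_of_mul_eq_one_left hy₁1
        have hy₂i : y₂⁻¹ = y₂ := inv_eq_of_mul_eq_one_left hy₂1
        obtain ⟨b, hb, eb⟩ := U.exists_mul_of_not_mem hy₁S hy₁A hy₂S hy₂A
        have hwA : y₁ * y₂ ∈ A := by
          have h5 := U.D.conj_mem hy₁S hb
          have e : y₁ * y₂ = y₁ * b * y₁⁻¹ := by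
            rw [eb, hy₁i]
            group
          rw [e]
          exact h5
        have hwZ := prod_not U hx₁ hx₁A hb₀Z c1 c2
        have hcw := (hcover _ hwA).resolve_left hwZ
        have hcω := (hcover _ hω).resolve_left (fun h => hωZ (hZZ h))
        have hv' : y₁ * y₂ * ω⁻¹ ∈ cen S := by
          have e : y₁ * y₂ * ω⁻¹ = (y₁ * y₂ * b₀⁻¹) * (ω * b₀⁻¹)⁻¹ := by group
          rw [e]
          exact hZZ (Subgroup.mul_mem _ hcw (Subgroup.inv_mem _ hcω))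
        have hw2 : (y₁ * y₂) * (y₁ * y₂) = (y₁ * y₂ * ω⁻¹) ^ 2 := by
          have hvc := (mem_cen.1 hv').2 ω hωS
          have hω1 : ω * ω = 1 := by rw [← pow_two, hωω]
          obtain ⟨v', hv'd⟩ : ∃ v', v' = y₁ * y₂ * ω⁻¹ := ⟨_, rfl⟩
          rw [← hv'd] at hvc ⊢
          have e : y₁ * y₂ = v' * ω := by rw [hv'd]; group
          rw [e, pow_two]
          calc v' * ω * (v' * ω) = v' * (ω * v') * ω := by group
            _ = v' * (v' * ω) * ω := by rw [hvc]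
            _ = v' * v' * (ω * ω) := by group
            _ = v' * v' := by rw [hω1, mul_one]
        have hcomm : (y₁ * y₂) * (y₁ * y₂) ∈ ⁅S, S⁆ := by
          have e : (y₁ * y₂) * (y₁ * y₂) = ⁅y₁, y₂⁆ := by
            rw [commutatorElement_def, hy₁i, hy₂i]
            group
          rw [e]
          exact Subgroup.commutator_mem_commutator hy₁S hy₂S
        rcases U.uniq _ hcomm (hs _ hcomm) with h5 | h5
        · apply hwZ
          apply cen_le_zone U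
          refine U.cen_of_comm hy₁S hy₁A hwA ?_
          have e1 : (y₁ * y₂)⁻¹ = y₁ * y₂ := inv_eq_of_mul_eq_one_left h5
          have e2 : (y₁ * y₂)⁻¹ = y₂ * y₁ := by
            rw [mul_inv_rev, hy₁i, hy₂i]
          calc y₁ * (y₁ * y₂) * y₁⁻¹ = (y₁ * y₁) * y₂ * y₁ := by rw [hy₁i]; group
            _ = y₂ * y₁ := by rw [hy₁1, one_mul]
            _ = y₁ * y₂ := by rw [← e2, e1]
        · exact hnv _ hv' (by rw [← hw2, h5])
      have hpex : ∃ p : Ω, (p = 1 ∨ p ∉ A) ∧ p ∈ S ∧ p * p ∈ ⁅S, S⁆ ∧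
          ⁅S, S⁆ ⊔ Subgroup.zpowers y₁ ≤ ⁅S, S⁆ ⊔ Subgroup.zpowers p ∧
          ⁅S, S⁆ ⊔ Subgroup.zpowers y₂ ≤ ⁅S, S⁆ ⊔ Subgroup.zpowers p := by
        have h1mem : ∀ p : Ω, ⁅S, S⁆ ⊔ Subgroup.zpowers (1 : Ω) ≤ ⁅S, S⁆ ⊔ Subgroup.zpowers p := by
          intro p
          exact sup_le le_sup_left (Subgroup.zpowers_le.2 (Subgroup.one_mem _))
        rcases hone with h | h
        · refine ⟨y₂, ?_, hyS₂, hs₂, ?_, le_rfl⟩
          · rcases hy₂ with h' | ⟨-, h', -⟩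
            · exact Or.inl h'
            · exact Or.inr h'
          · rw [h]; exact h1mem _
        · refine ⟨y₁, ?_, hyS₁, hs₁, le_rfl, ?_⟩
          · rcases hy₁ with h' | ⟨-, h', -⟩
            · exact Or.inl h'
            · exact Or.inr h'
          · rw [h]; exact h1mem _
      obtain ⟨p, hp, hpS, hpp, hle₁, hle₂⟩ := hpex
      have hωω' : ω * ω ∈ ⁅S, S⁆ := by
        rw [← pow_two, hωω]; exact Subgroup.one_mem _
      have hiω : ω ∈ Zone U → ω ∈ ⁅S, S⁆ := fun h => absurd (hZZ h) hωZ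
      have hip : p ∈ Zone U → p ∈ ⁅S, S⁆ := by
        intro h
        rcases hp with rfl | h'
        · exact Subgroup.one_mem _
        · exact absurd (zone_le_A U h) h'
      have hipω : p * ω ∈ Zone U → p * ω ∈ ⁅S, S⁆ := by
        intro h
        rcases hp with rfl | h'
        · rw [one_mul] at h ⊢
          exact hiω h
        · exfalso
          apply h'
          have e : p = (p * ω) * ω⁻¹ := by group
          rw [e]
          exact A.mul_mem (zone_le_A U h) (A.inv_mem hω)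
      refine ⟨⁅S, S⁆ ⊔ Subgroup.zpowers p ⊔ Subgroup.zpowers ω, le_sup_left.trans le_sup_left, ?_, ?_⟩
      · intro hle
        exact U.an (pairD U hpS hωS hpp hωω' hip hiω hipω (hle haS) haZ)
      · rintro P (rfl | hE) β hβ w
        · exact hSmvD _ (le_sup_left.trans le_sup_left) β hβ w
        · by_cases hPA : P = A
          · subst hPA
            have hle : ⁅S, S⁆ ⊔ Subgroup.zpowers ω ≤
                ⁅S, S⁆ ⊔ Subgroup.zpowers p ⊔ Subgroup.zpowers ω :=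
              sup_le (le_sup_left.trans le_sup_left) le_sup_right
            exact hle (hωmv β hβ w)
          · exact hYmv _ (hle₁.trans le_sup_left) (hle₂.trans le_sup_left) P hE hPA β hβ w
    · push Not at hs
      obtain ⟨w₀, hw₀, hw₀z⟩ := h3 hs
      obtain ⟨T, hTd⟩ : ∃ T, T = ⁅S, S⁆ ⊔ Subgroup.zpowers y₁ ⊔ Subgroup.zpowers y₂ := ⟨_, rfl⟩
      have hST : ⁅S, S⁆ ≤ T := by rw [hTd]; exact le_sup_left.trans le_sup_left
      have hTS : T ≤ S := by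
        rw [hTd]
        exact sup_le (sup_le hCS (Subgroup.zpowers_le.2 hyS₁)) (Subgroup.zpowers_le.2 hyS₂)
      have hinT : ∀ {d : Ω}, d ∈ T → d ∈ Zone U → d ∈ ⁅S, S⁆ := by
        intro d hd hdz
        rw [hTd] at hd
        exact pairD U hyS₁ hyS₂ hs₁ hs₂ hi₁ hi₂ hi12 hd hdz
      have hw₀S : w₀ ∈ S := (mem_cen.1 hw₀).1
      have hinv' : ∀ {u : Ω}, u ∈ ⁅S, S⁆ → u ∈ cen S → u ^ 2 = 1 := by
        intro u hu huc
        rcases U.central_comm hu huc with rfl | rfl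
        · simp
        · exact U.zz
      have hcomma : a * w₀ = w₀ * a := (mem_cen.1 U.ac).2 w₀ hw₀S |>.symm
      have hnw : w₀ ∉ T := by
        intro h
        have := hinv' (hinT h (cen_le_zone U hw₀)) hw₀
        rw [hw₀z] at this
        exact U.z1 this
      have hna : a ∉ T := fun h => U.an (hinT h haZ)
      have hnaw : a⁻¹ * w₀ ∉ T := by
        intro h
        have hc : a⁻¹ * w₀ ∈ cen S := Subgroup.mul_mem _ (Subgroup.inv_mem _ U.ac) hw₀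
        have h5 := hinv' (hinT h (cen_le_zone U hc)) hc
        have ha1 : a * a = 1 := by rw [← pow_two, U.aa]
        have hai : a⁻¹ = a := inv_eq_of_mul_eq_one_left ha1
        have e : (a⁻¹ * w₀) ^ 2 = w₀ ^ 2 := by
          rw [hai, pow_two, pow_two]
          calc a * w₀ * (a * w₀) = a * (w₀ * a) * w₀ := by group
            _ = a * (a * w₀) * w₀ := by rw [hcomma]
            _ = (a * a) * (w₀ * w₀) := by group
            _ = w₀ * w₀ := by rw [ha1, one_mul]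
        rw [e, hw₀z] at h5
        exact U.z1 h5
      refine ⟨T ⊔ Subgroup.zpowers ω, hST.trans le_sup_left, ?_, ?_⟩
      · intro hle
        let T' : Subgroup S := T.subgroupOf S
        haveI hT'n : T'.Normal := ⟨fun n hn g => by
          have h1 : (g : Ω) * n * (g : Ω)⁻¹ = ⁅(g : Ω), (n : Ω)⁆ * n := by
            rw [commutatorElement_def]
            group
          change (g : Ω) * n * (g : Ω)⁻¹ ∈ T
          rw [h1]
          exact T.mul_mem (hST (Subgroup.commutator_mem_commutator g.2 n.2)) hn⟩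
        let q : S →* S ⧸ T' := QuotientGroup.mk' T'
        have hq1 : ∀ v : S, q v = 1 ↔ (v : Ω) ∈ T := fun v => QuotientGroup.eq_one_iff v
        have hqe : ∀ v v' : S, q v = q v' ↔ (v : Ω)⁻¹ * v' ∈ T := fun v v' => QuotientGroup.eq
        have hqs : Function.Surjective q := QuotientGroup.mk'_surjective T'
        have hcyc : IsCyclic (S ⧸ T') := by
          refine ⟨⟨q ⟨ω, hωS⟩, fun y => ?_⟩⟩
          obtain ⟨s, rfl⟩ := hqs y
          let H : Subgroup Ω := ((Subgroup.zpowers (q ⟨ω, hωS⟩)).comap q).map S.subtype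
          have hleH : T ⊔ Subgroup.zpowers ω ≤ H := by
            refine sup_le (fun t ht => ?_) (Subgroup.zpowers_le.2 ?_)
            · refine ⟨⟨t, hTS ht⟩, ?_, rfl⟩
              change q ⟨t, hTS ht⟩ ∈ Subgroup.zpowers (q ⟨ω, hωS⟩)
              rw [(hq1 ⟨t, hTS ht⟩).2 ht]
              exact Subgroup.one_mem _
            · exact ⟨⟨ω, hωS⟩, Subgroup.mem_zpowers _, rfl⟩
          obtain ⟨s', hs', e⟩ := hleH (hle s.2)
          have : s' = s := Subtype.ext e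
          rw [this] at hs'
          exact hs'
        haveI : Fintype (S ⧸ T') := Fintype.ofFinite _
        have hcard := IsCyclic.card_pow_eq_one_le (α := S ⧸ T') (n := 2) (by norm_num)
        let a' : S := ⟨a, haS⟩
        let w' : S := ⟨w₀, hw₀S⟩
        have h1 : q a' ≠ 1 := fun e => hna ((hq1 _).1 e)
        have h2 : q w' ≠ 1 := fun e => hnw ((hq1 _).1 e)
        have h5 : q a' ≠ q w' := fun e => hnaw ((hqe _ _).1 e)
        have hsub : ({1, q a', q w'} : Finset (S ⧸ T')) ⊆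
            Finset.univ.filter (fun y : S ⧸ T' => y ^ 2 = 1) := by
          intro y hy
          simp only [Finset.mem_insert, Finset.mem_singleton] at hy
          simp only [Finset.mem_filter, Finset.mem_univ, true_and]
          rcases hy with rfl | rfl | rfl
          · simp
          · rw [← map_pow, hq1]
            have : ((a' ^ 2 : S) : Ω) = a ^ 2 := rfl
            rw [this, U.aa]
            exact T.one_mem
          · rw [← map_pow, hq1]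
            have : ((w' ^ 2 : S) : Ω) = w₀ ^ 2 := rfl
            rw [this, hw₀z]
            exact hST U.zc
        have hc3 := Finset.card_le_card hsub
        have hc4 : ({1, q a', q w'} : Finset (S ⧸ T')).card = 3 := by
          rw [Finset.card_insert_of_notMem, Finset.card_insert_of_notMem, Finset.card_singleton]
          · simpa using h5
          · simp only [Finset.mem_insert, Finset.mem_singleton, not_or]
            exact ⟨h1.symm, h2.symm⟩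
        rw [hc4] at hc3
        omega
      · rintro P (rfl | hE) β hβ w
        · exact hSmvD _ (hST.trans le_sup_left) β hβ w
        · by_cases hPA : P = A
          · subst hPA
            have hle : ⁅S, S⁆ ⊔ Subgroup.zpowers ω ≤ T ⊔ Subgroup.zpowers ω :=
              sup_le (hST.trans le_sup_left) le_sup_right
            exact hle (hωmv β hβ w)
          · have h1 : ⁅S, S⁆ ⊔ Subgroup.zpowers y₁ ≤ T := by rw [hTd]; exact le_sup_left
            have h2 : ⁅S, S⁆ ⊔ Subgroup.zpowers y₂ ≤ T := by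
              rw [hTd]
              exact sup_le (le_sup_left.trans le_sup_left) le_sup_right
            exact hYmv _ (h1.trans le_sup_left) (h2.trans le_sup_left) P hE hPA β hβ w
  · refine ⟨⁅S, S⁆ ⊔ Subgroup.zpowers y₁ ⊔ Subgroup.zpowers y₂, le_sup_left.trans le_sup_left, ?_, ?_⟩
    · intro hle
      exact U.an (pairD U hyS₁ hyS₂ hs₁ hs₂ hi₁ hi₂ hi12 (hle haS) haZ)
    · rintro P (rfl | hE) β hβ w
      · exact hSmvD _ (le_sup_left.trans le_sup_left) β hβ w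
      · have hPA : P ≠ A := fun h => hEA (h ▸ hE)
        exact hYmv _ le_sup_left (sup_le (le_sup_left.trans le_sup_left) le_sup_right) P hE hPA β hβ w

end Cfsg.Agent.Lib.Components.GL3D4
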