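/-
A `2`-subgroup of `GL₃(F)`, `F` a finite field of odd order, embeds in `Fˣ × GL₂(F)`.
-/
import Mathlib

set_option autoImplicit false
set_option linter.style.haveILetI false

namespace Cfsg.Agent.Lib.Components.GL3E1

open Module

variable {X : Type*} [Group X] [Finite X] {F : Type*} [Field F] [Fintype F]

theorem two_ne_zero_of_odd (hF : Odd (Fintype.card F)) : (2 : F) ≠ 0 := by
  intro h
  have h1 : ringChar F = 2 := by
    have h3 : ((2 : ℕ) : F) = 0 := by exact_mod_cast h
    have h4 := (CharP.cast_eq_zero_iff F (ringChar F) 2).1 h3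
    rcases (Nat.dvd_prime Nat.prime_two).1 h4 with h5 | h5
    · exact absurd (CharP.ringChar_ne_one) (by simpa using h5)
    · exact h5
  have := (FiniteField.even_card_iff_char_two (F := F)).1 h1
  obtain ⟨k, hk⟩ := hF
  omega

/-- **The decomposition.** -/
theorem exists_decomp (hX : IsPGroup 2 X) (hF : Odd (Fintype.card F)) (f : X →* GL (Fin 3) F)
    (hf : Function.Injective f) :
    ∃ (α : X →* Fˣ) (ρ : X →* GL (Fin 2) F), ∀ g, α g = 1 → ρ g = 1 → g = 1 := by
  classical
  haveI : Fintype X := Fintype.ofFinite X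
  have h2 : (2 : F) ≠ 0 := two_ne_zero_of_odd hF
  let V := Fin 3 → F
  let T : X → (V →ₗ[F] V) := fun g => Matrix.toLin' (f g : Matrix (Fin 3) (Fin 3) F)
  have hTmul : ∀ g h, T (g * h) = T g ∘ₗ T h := by
    intro g h
    simp only [T, map_mul, Units.val_mul, Matrix.toLin'_mul]
  have hTmul' : ∀ g h v, T (g * h) v = T g (T h v) := fun g h v => by rw [hTmul]; rfl
  have hT1 : T 1 = LinearMap.id := by
    simp only [T, map_one, Units.val_one, Matrix.toLin'_one]
  -- the eigenvector
  obtain ⟨v₀, hv₀, hc⟩ : ∃ v₀ : V, v₀ ≠ 0 ∧ ∀ g, ∃ c : F, T g v₀ = c • v₀ := by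
    let τ : X →* LinearMap.GeneralLinearGroup F V :=
      (Matrix.GeneralLinearGroup.toLin : GL (Fin 3) F ≃* LinearMap.GeneralLinearGroup F V).toMonoidHom.comp f
    letI act : MulAction X (Projectivization F V) := MulAction.compHom _ τ
    have hcard : Nat.card (Projectivization F V) = ∑ i ∈ Finset.range 3, Nat.card F ^ i :=
      Projectivization.card_of_finrank F V (n := 3) (by simp [V])
    have hnd : ¬ 2 ∣ Nat.card (Projectivization F V) := by
      rw [hcard, Nat.card_eq_fintype_card]
      obtain ⟨k, hk⟩ := hF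
      rw [hk]
      simp only [Finset.sum_range_succ, Finset.sum_range_zero, pow_zero, pow_one, zero_add]
      have e : (2 * k + 1) ^ 2 = 4 * k ^ 2 + 4 * k + 1 := by ring
      rw [e]
      omega
    obtain ⟨p, hp⟩ := hX.nonempty_fixed_point_of_prime_not_dvd_card (Projectivization F V) hnd
    refine ⟨p.rep, p.rep_nonzero, fun g => ?_⟩
    have h1 : g • p = p := hp g
    have h3 : (τ g) • p = p := h1
    rw [← p.mk_rep, Projectivization.smul_mk] at h3
    rw [Projectivization.mk_eq_mk_iff'] at h3
    obtain ⟨a, ha⟩ := h3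
    exact ⟨a, ha.symm⟩
  choose c hcv using hc
  have hcmul : ∀ g h, c (g * h) = c g * c h := by
    intro g h
    have h3 := hcv (g * h)
    rw [hTmul', hcv h, map_smul, hcv g, smul_smul] at h3
    exact (smul_left_injective F hv₀ h3).symm.trans (mul_comm _ _)
  have hc1 : c 1 = 1 := by
    have h3 := hcv 1
    rw [hT1] at h3
    have : (1 : F) • v₀ = c 1 • v₀ := by
      rw [one_smul]
      exact h3
    exact (smul_left_injective F hv₀ this).symm
  have hcne : ∀ g, c g ≠ 0 := by
    intro g h
    have h3 := hcmul g g⁻¹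
    rw [mul_inv_cancel, hc1, h, zero_mul] at h3
    exact one_ne_zero h3
  let c₀ : X →* F := { toFun := c, map_one' := hc1, map_mul' := hcmul }
  -- the invariant functional
  obtain ⟨i, hi⟩ : ∃ i, v₀ i ≠ 0 := by
    by_contra hcon
    push Not at hcon
    exact hv₀ (funext hcon)
  let φ₀ : V →ₗ[F] F := (v₀ i)⁻¹ • LinearMap.proj i
  have hφ₀ : φ₀ v₀ = 1 := by
    simp only [φ₀, LinearMap.smul_apply, LinearMap.proj_apply, smul_eq_mul]
    exact inv_mul_cancel₀ hi
  have hn : (Fintype.card X : F) ≠ 0 := by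
    obtain ⟨k, hk⟩ := IsPGroup.iff_card.1 hX
    rw [Nat.card_eq_fintype_card] at hk
    rw [hk]
    push_cast
    exact pow_ne_zero k h2
  let φ : V →ₗ[F] F := (Fintype.card X : F)⁻¹ • ∑ x : X, (c x)⁻¹ • (φ₀ ∘ₗ T x)
  have hφv : ∀ v, φ v = (Fintype.card X : F)⁻¹ * ∑ x : X, (c x)⁻¹ * φ₀ (T x v) := by
    intro v
    simp only [φ, LinearMap.smul_apply, LinearMap.sum_apply, smul_eq_mul, LinearMap.comp_apply]
  have hφT : ∀ g v, φ (T g v) = c g * φ v := by
    intro g v
    rw [hφv, hφv]
    have h3 : ∀ x : X, (c x)⁻¹ * φ₀ (T x (T g v)) = c g * ((c (x * g))⁻¹ * φ₀ (T (x * g) v)) := by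
      intro x
      rw [hTmul', hcmul]
      have := hcne x
      have := hcne g
      field_simp
    simp_rw [h3]
    rw [← Finset.mul_sum]
    have h4 := Equiv.sum_comp (Equiv.mulRight g) (fun y : X => (c y)⁻¹ * φ₀ (T y v))
    simp only [Equiv.coe_mulRight] at h4
    rw [h4]
    ring
  have hφ1 : φ v₀ = 1 := by
    rw [hφv]
    have h3 : ∀ x : X, (c x)⁻¹ * φ₀ (T x v₀) = 1 := by
      intro x
      rw [hcv x, map_smul, hφ₀, smul_eq_mul, mul_one]
      exact inv_mul_cancel₀ (hcne x)
    simp_rw [h3]
    rw [Finset.sum_const, Finset.card_univ, nsmul_eq_mul, mul_one]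
    exact inv_mul_cancel₀ hn
  -- the plane
  let W : Submodule F V := LinearMap.ker φ
  have hW : ∀ g, ∀ w ∈ W, T g w ∈ W := by
    intro g w hw
    have h3 : φ w = 0 := hw
    change φ (T g w) = 0
    rw [hφT, h3, mul_zero]
  have hfr : finrank F W = 2 := by
    have h3 := LinearMap.finrank_range_add_finrank_ker φ
    have h4 : LinearMap.range φ = ⊤ := by
      rw [LinearMap.range_eq_top]
      intro y
      exact ⟨y • v₀, by rw [map_smul, hφ1, smul_eq_mul, mul_one]⟩
    rw [h4, finrank_top, finrank_self] at h3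
    have h5 : finrank F V = 3 := by simp [V]
    change 1 + finrank F W = finrank F V at h3
    omega
  let b : Basis (Fin 2) F W := Module.finBasisOfFinrankEq F W hfr
  let R : X → (W →ₗ[F] W) := fun g => (T g).restrict (hW g)
  have hR1 : R 1 = LinearMap.id := by
    ext w
    simp only [R, LinearMap.restrict_apply, hT1, LinearMap.id_apply]
  have hRmul : ∀ g h, R (g * h) = R g * R h := by
    intro g h
    ext w
    simp only [R, LinearMap.restrict_apply, Module.End.mul_apply, hTmul']
  let ρ₀ : X →* Matrix (Fin 2) (Fin 2) F :=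
    { toFun := fun g => LinearMap.toMatrixAlgEquiv b (R g)
      map_one' := by
        rw [hR1]
        exact map_one (LinearMap.toMatrixAlgEquiv b)
      map_mul' := by
        intro g h
        rw [hRmul, map_mul] }
  refine ⟨c₀.toHomUnits, ρ₀.toHomUnits, fun g h1 h3 => ?_⟩
  have hcg : c g = 1 := by
    have := congrArg Units.val h1
    simpa [c₀] using this
  have hρ : LinearMap.toMatrixAlgEquiv b (R g) = 1 := by
    have := congrArg Units.val h3
    simpa [ρ₀] using this
  have hRg : R g = LinearMap.id := by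
    apply (LinearMap.toMatrixAlgEquiv b).injective
    rw [hρ]
    exact (map_one (LinearMap.toMatrixAlgEquiv b)).symm
  have hTW : ∀ w ∈ W, T g w = w := by
    intro w hw
    have h4 := LinearMap.congr_fun hRg ⟨w, hw⟩
    exact congrArg Subtype.val h4
  have hTg : T g = LinearMap.id := by
    refine LinearMap.ext fun v => ?_
    have hmem : v - φ v • v₀ ∈ W := by
      change φ (v - φ v • v₀) = 0
      rw [map_sub, map_smul, hφ1, smul_eq_mul, mul_one, sub_self]
    have e : v = φ v • v₀ + (v - φ v • v₀) := by abel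
    have h5 := hTW _ hmem
    calc T g v = T g (φ v • v₀ + (v - φ v • v₀)) := by rw [← e]
      _ = φ v • T g v₀ + T g (v - φ v • v₀) := by rw [map_add, map_smul]
      _ = φ v • v₀ + (v - φ v • v₀) := by rw [h5, hcv g, hcg, one_smul]
      _ = v := by rw [← e]
      _ = LinearMap.id v := rfl
  have hfg : f g = 1 := by
    apply Units.ext
    apply Matrix.toLin'.injective
    rw [Units.val_one, Matrix.toLin'_one]
    exact hTg
  exact hf (by rw [hfg, map_one])

end Cfsg.Agent.Lib.Components.GL3E1
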