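/-
`2 × 2` matrices over a field of characteristic not `2`; subgroups of `Fˣ × GL₂(F)`.
-/
import Mathlib
import Cfsg.Agent.Lib.Components.GL3B
import Cfsg.Agent.Lib.PGroup.CyclicMax2

set_option autoImplicit false
set_option linter.style.haveILetI false

namespace Cfsg.Agent.Lib.Components.GL3E2

open Cfsg.Agent.Lib.Fusion.AbelianMax Cfsg.Agent.Lib.Components.GL3B
open scoped commutatorElement

variable {F : Type*} [Field F]

/-- Scalar matrices. -/
def IsScal (M : Matrix (Fin 2) (Fin 2) F) : Prop := ∃ c : F, M = c • 1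

theorem not_scal_cases {B : Matrix (Fin 2) (Fin 2) F} (hB : ¬ IsScal B) :
    B 0 1 ≠ 0 ∨ B 1 0 ≠ 0 ∨ B 0 0 - B 1 1 ≠ 0 := by
  by_contra hcon
  push Not at hcon
  obtain ⟨h1, h2, h3⟩ := hcon
  apply hB
  refine ⟨B 0 0, ?_⟩
  have h4 : B 1 1 = B 0 0 := (sub_eq_zero.1 h3).symm
  ext i j
  fin_cases i <;> fin_cases j <;> simp [h1, h2, h4]

theorem ext2 {C B : Matrix (Fin 2) (Fin 2) F} {p r : F} (h1 : C 0 0 = p + r * B 0 0) (h2 : C 0 1 = r * B 0 1)
    (h3 : C 1 0 = r * B 1 0) (h4 : C 1 1 = p + r * B 1 1) : C = p • 1 + r • B := by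
  ext i j
  fin_cases i <;> fin_cases j <;> simp [h1, h2, h3, h4]

/-- Matrices commuting with a nonscalar matrix. -/
theorem comm_cases {B C : Matrix (Fin 2) (Fin 2) F} (hB : ¬ IsScal B) (h : B * C = C * B) :
    ∃ p r : F, C = p • 1 + r • B := by
  have h00 := congrFun (congrFun h 0) 0
  have h01 := congrFun (congrFun h 0) 1
  have h10 := congrFun (congrFun h 1) 0
  have h11 := congrFun (congrFun h 1) 1
  simp only [Matrix.mul_apply, Fin.sum_univ_two] at h00 h01 h10 h11
  rcases not_scal_cases hB with hb | hc | hd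
  · obtain ⟨r, hr⟩ : ∃ r, r * B 0 1 = C 0 1 := ⟨C 0 1 / B 0 1, div_mul_cancel₀ _ hb⟩
    refine ⟨C 0 0 - r * B 0 0, r, ext2 (by ring) hr.symm ?_ ?_⟩
    · apply mul_left_cancel₀ hb
      linear_combination h00 - B 1 0 * hr
    · apply mul_left_cancel₀ hb
      linear_combination h01 + (B 0 0 - B 1 1) * hr
  · obtain ⟨r, hr⟩ : ∃ r, r * B 1 0 = C 1 0 := ⟨C 1 0 / B 1 0, div_mul_cancel₀ _ hc⟩
    refine ⟨C 0 0 - r * B 0 0, r, ext2 (by ring) ?_ hr.symm ?_⟩
    · apply mul_left_cancel₀ hc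
      linear_combination h11 - B 0 1 * hr
    · apply mul_left_cancel₀ hc
      linear_combination -h10 + (B 0 0 - B 1 1) * hr
  · obtain ⟨r, hr⟩ : ∃ r, r * (B 0 0 - B 1 1) = C 0 0 - C 1 1 :=
      ⟨(C 0 0 - C 1 1) / (B 0 0 - B 1 1), div_mul_cancel₀ _ hd⟩
    refine ⟨C 0 0 - r * B 0 0, r, ext2 (by ring) ?_ ?_ ?_⟩
    · apply mul_left_cancel₀ hd
      linear_combination h01 - B 0 1 * hr
    · apply mul_left_cancel₀ hd
      linear_combination -h10 - B 1 0 * hr
    · linear_combination hr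

/-- Two matrices in `F[B]` commute. -/
theorem comm_of_poly {B : Matrix (Fin 2) (Fin 2) F} (p r p' r' : F) :
    (p • 1 + r • B) * (p' • 1 + r' • B) = (p' • 1 + r' • B) * (p • 1 + r • B) := by
  simp only [mul_add, add_mul, smul_mul_assoc, mul_smul_comm, one_mul, mul_one]
  module

/-- Two matrices commuting with a nonscalar matrix commute. -/
theorem comm_of_comm {B C C' : Matrix (Fin 2) (Fin 2) F} (hB : ¬ IsScal B) (h : B * C = C * B)
    (h' : B * C' = C' * B) : C * C' = C' * C := by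
  obtain ⟨p, r, rfl⟩ := comm_cases hB h
  obtain ⟨p', r', rfl⟩ := comm_cases hB h'
  exact comm_of_poly p r p' r'

/-- Involutions of determinant one. -/
theorem sq_one_det_one (h2 : (2 : F) ≠ 0) {M : Matrix (Fin 2) (Fin 2) F} (hM : M * M = 1) (hd : M.det = 1) :
    M = 1 ∨ M = -1 := by
  have h00 := congrFun (congrFun hM 0) 0
  have h01 := congrFun (congrFun hM 0) 1
  have h10 := congrFun (congrFun hM 1) 0
  have h11 := congrFun (congrFun hM 1) 1
  simp only [Matrix.mul_apply, Fin.sum_univ_two] at h00 h01 h10 h11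
  simp only [Matrix.one_apply_eq, Matrix.one_apply_ne (show (0 : Fin 2) ≠ 1 by decide),
    Matrix.one_apply_ne (show (1 : Fin 2) ≠ 0 by decide)] at h00 h01 h10 h11
  rw [Matrix.det_fin_two] at hd
  have h5 : (M 0 0 + M 1 1) * (M 0 0 + M 1 1) = 2 * 2 := by
    linear_combination h00 + h11 + 2 * hd
  have h6 : M 0 0 + M 1 1 ≠ 0 := by
    intro e
    rw [e, zero_mul] at h5
    exact mul_ne_zero h2 h2 h5.symm
  have hb : M 0 1 = 0 := by
    apply mul_left_cancel₀ h6
    linear_combination h01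
  have hc : M 1 0 = 0 := by
    apply mul_left_cancel₀ h6
    linear_combination h10
  rw [hb, hc] at hd
  rw [hb] at h00
  have h7 : M 0 0 * M 0 0 = 1 := by linear_combination h00
  rcases mul_self_eq_one_iff.1 h7 with h8 | h8
  · left
    have h9 : M 1 1 = 1 := by
      rw [h8] at hd
      linear_combination hd
    ext i j
    fin_cases i <;> fin_cases j <;> simp [h8, h9, hb, hc]
  · right
    have h9 : M 1 1 = -1 := by
      rw [h8] at hd
      linear_combination -hd
    ext i j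
    fin_cases i <;> fin_cases j <;> simp [h8, h9, hb, hc]

/-- A matrix of trace zero has scalar square. -/
theorem sq_of_trace_zero {B : Matrix (Fin 2) (Fin 2) F} (h : B 0 0 + B 1 1 = 0) : IsScal (B * B) := by
  refine ⟨B 0 0 * B 0 0 + B 0 1 * B 1 0, ?_⟩
  have h1 : B 1 1 = -B 0 0 := by linear_combination h
  ext i j
  fin_cases i <;> fin_cases j <;> simp [Matrix.mul_apply, Fin.sum_univ_two, h1] <;> ring

/-- A matrix conjugate to its negative has trace zero. -/
theorem trace_zero_of_conj (h2 : (2 : F) ≠ 0) {B G G' : Matrix (Fin 2) (Fin 2) F} (hG : G' * G = 1)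
    (h : G * B * G' = -B) : B 0 0 + B 1 1 = 0 := by
  have h1 : Matrix.trace (G * B * G') = Matrix.trace B := by
    rw [Matrix.trace_mul_comm, ← mul_assoc, hG, one_mul]
  rw [h, Matrix.trace_neg] at h1
  have h3 : Matrix.trace B = B 0 0 + B 1 1 := by
    simp [Matrix.trace, Fin.sum_univ_two]
  rw [h3] at h1
  have h4 : 2 * (B 0 0 + B 1 1) = 0 := by linear_combination -h1
  exact (mul_eq_zero.1 h4).resolve_left h2

/-- The determinant of a scalar matrix. -/
theorem det_scal (c : F) : (c • (1 : Matrix (Fin 2) (Fin 2) F)).det = c * c := by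
  rw [Matrix.det_smul, Matrix.det_one, Fintype.card_fin, mul_one, pow_two]

/-- Two scalars with squares one. -/
theorem sq_cases {c : F} (h : c * c = 1) : c = 1 ∨ c = -1 := mul_self_eq_one_iff.1 h

section Group

variable {Ω : Type*} [Group Ω] {S : Subgroup Ω} [Finite S]

/-- **Sylow subgroups in `Fˣ × GL₂(F)`.** -/
theorem exists_setup (hS : IsPGroup 2 S) (h2 : (2 : F) ≠ 0) (α : S →* Fˣ) (ρ : S →* GL (Fin 2) F)
    (hinj : ∀ g, α g = 1 → ρ g = 1 → g = 1) (hna : ¬ IsMulCommutative S) {E : Subgroup Ω} (hE : E ≤ S)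
    (hEa : Cfsg.IsElementaryAbelian 2 E) (hE8 : Nat.card E = 8) :
    ∃ (A : Subgroup Ω) (a z : Ω), Setup S A a z := by
  classical
  let R : S →* Matrix (Fin 2) (Fin 2) F := (Units.coeHom _).comp ρ
  have hRρ : ∀ g, R g = (ρ g : Matrix (Fin 2) (Fin 2) F) := fun _ => rfl
  have hRinv : ∀ g, R g⁻¹ * R g = 1 := fun g => by rw [← map_mul, inv_mul_cancel, map_one]
  have hRinv' : ∀ g, R g * R g⁻¹ = 1 := fun g => by rw [← map_mul, mul_inv_cancel, map_one]
  have hext : ∀ g h : S, α g = α h → R g = R h → g = h := by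
    intro g h h1 h3
    have h4 : g * h⁻¹ = 1 := by
      apply hinj
      · rw [map_mul, map_inv, h1, mul_inv_cancel]
      · apply Units.ext
        change R (g * h⁻¹) = 1
        rw [map_mul, h3, hRinv']
    exact mul_inv_eq_one.1 h4
  have hcomm_of : ∀ g h : S, R g * R h = R h * R g → g * h = h * g := by
    intro g h e
    apply hext
    · rw [map_mul, map_mul, mul_comm]
    · rw [map_mul, map_mul, e]
  -- scalar elements are central
  have hscal : ∀ v : S, IsScal (R v) → ∀ g : S, g * v = v * g := by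
    rintro v ⟨c, hc⟩ g
    apply hcomm_of
    rw [hc]
    simp
  have hcentral : ∀ v : S, (∀ g : S, g * v = v * g) → IsScal (R v) := by
    intro v hv
    by_contra hn
    apply hna
    refine ⟨⟨fun g h => hcomm_of g h ?_⟩⟩
    have hg : ∀ g : S, R v * R g = R g * R v := fun g => by
      rw [← map_mul, ← map_mul, hv g]
    exact comm_of_comm hn (hg g) (hg h)
  have hcenS : ∀ v : S, (v : Ω) ∈ cen S ↔ IsScal (R v) := by
    intro v
    constructor
    · intro h
      exact hcentral v fun g => Subtype.ext ((mem_cen.1 h).2 g g.2)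
    · intro h
      exact mem_cen.2 ⟨v.2, fun s hs => congrArg Subtype.val (hscal v h ⟨s, hs⟩)⟩
  -- the element `x₀`
  obtain ⟨x₀, hx₀, hx₀2⟩ : ∃ x₀ : S, x₀ ∉ Subgroup.center S ∧
      ∀ g : S, g * x₀ * g⁻¹ * x₀⁻¹ ∈ Subgroup.center S := by
    let Q := S ⧸ Subgroup.center S
    have hQ : IsPGroup 2 Q := hS.to_quotient _
    haveI : Nontrivial Q := by
      by_contra hn
      rw [not_nontrivial_iff_subsingleton] at hn
      apply hna
      refine ⟨⟨fun g h => ?_⟩⟩
      have h1 : h ∈ Subgroup.center S := (QuotientGroup.eq_one_iff h).1 (Subsingleton.elim _ _)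
      exact (Subgroup.mem_center_iff.1 h1 g)
    haveI := hQ.center_nontrivial
    obtain ⟨⟨q, hq⟩, hq1⟩ := exists_ne (1 : Subgroup.center Q)
    obtain ⟨x₀, rfl⟩ := QuotientGroup.mk_surjective q
    refine ⟨x₀, ?_, fun g => ?_⟩
    · intro h
      apply hq1
      apply Subtype.ext
      exact (QuotientGroup.eq_one_iff x₀).2 h
    · rw [← QuotientGroup.eq_one_iff]
      have h1 := Subgroup.mem_center_iff.1 hq (g : Q)
      have e : ((g * x₀ * g⁻¹ * x₀⁻¹ : S) : Q) =
          (g : Q) * (x₀ : Q) * (g : Q)⁻¹ * (x₀ : Q)⁻¹ := rfl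
      rw [e, h1]
      group
  have hBn : ¬ IsScal (R x₀) := by
    intro h
    apply hx₀
    rw [Subgroup.mem_center_iff]
    exact fun g => hscal x₀ h g
  let c : S → S := fun g => g * x₀ * g⁻¹ * x₀⁻¹
  have hcdef : ∀ g, c g = g * x₀ * g⁻¹ * x₀⁻¹ := fun _ => rfl
  have hcα : ∀ g, α (c g) = 1 := by
    intro g
    simp only [hcdef, map_mul, map_inv]
    rw [mul_comm (α g) (α x₀)]
    group
  have hcdet : ∀ g, (R (c g)).det = 1 := by
    intro g
    simp only [hcdef, map_mul, Matrix.det_mul]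
    have h3 : ∀ h : S, (R h).det * (R h⁻¹).det = 1 := by
      intro h
      rw [← Matrix.det_mul, hRinv', Matrix.det_one]
    have h4 := h3 g
    have h5 := h3 x₀
    linear_combination (R x₀).det * (R x₀⁻¹).det * h4 + h5
  have hcs : ∀ g, IsScal (R (c g)) := by
    intro g
    apply hcentral
    intro h
    exact (Subgroup.mem_center_iff.1 (hx₀2 g) h)
  have hcases : ∀ g, c g = 1 ∨ R (c g) = -1 := by
    intro g
    obtain ⟨l, hl⟩ := hcs g
    have h3 := hcdet g
    rw [hl, det_scal] at h3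
    rcases sq_cases h3 with h4 | h4
    · left
      apply hext
      · rw [hcα, map_one]
      · rw [hl, h4, map_one, one_smul]
    · right
      rw [hl, h4, neg_smul, one_smul]
  obtain ⟨y, hy⟩ : ∃ y : S, c y ≠ 1 := by
    by_contra hcon
    push Not at hcon
    apply hx₀
    rw [Subgroup.mem_center_iff]
    intro g
    have h3 := hcon g
    have e : g * x₀ = (g * x₀ * g⁻¹ * x₀⁻¹) * (x₀ * g) := by group
    rw [e]
    rw [show g * x₀ * g⁻¹ * x₀⁻¹ = 1 from h3, one_mul]
  obtain ⟨z₀, hz₀⟩ : ∃ z₀, z₀ = c y := ⟨_, rfl⟩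
  have hz₀R : R z₀ = -1 := by
    rw [hz₀]
    exact (hcases y).resolve_left hy
  have hz₀α : α z₀ = 1 := by rw [hz₀]; exact hcα y
  have hz₀1 : z₀ ≠ 1 := by rw [hz₀]; exact hy
  have hcz : ∀ g, c g = 1 ∨ c g = z₀ := by
    intro g
    rcases hcases g with h3 | h3
    · exact Or.inl h3
    · right
      apply hext
      · rw [hcα, hz₀α]
      · rw [h3, hz₀R]
  have hz₀2 : z₀ * z₀ = 1 := by
    apply hext
    · rw [map_mul, hz₀α, map_one, mul_one]
    · rw [map_mul, hz₀R, map_one]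
      simp
  have hz₀c : ∀ g, g * z₀ = z₀ * g := by
    rw [hz₀]
    exact fun g => Subgroup.mem_center_iff.1 (hx₀2 y) g
  -- the subgroup `A`
  let A : Subgroup Ω := S ⊓ Subgroup.centralizer {(x₀ : Ω)}
  have hAS : A ≤ S := inf_le_left
  have hAmem : ∀ g : S, (g : Ω) ∈ A ↔ c g = 1 := by
    intro g
    constructor
    · rintro ⟨-, h⟩
      have h1 : (x₀ : Ω) * g = g * x₀ := Subgroup.mem_centralizer_iff.1 h x₀ (Set.mem_singleton _)
      have h3 : g * x₀ = x₀ * g := Subtype.ext h1.symm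
      rw [hcdef, h3]
      group
    · intro h
      refine ⟨g.2, Subgroup.mem_centralizer_iff.2 ?_⟩
      rintro _ rfl
      have e : g * x₀ = (g * x₀ * g⁻¹ * x₀⁻¹) * (x₀ * g) := by group
      rw [show g * x₀ * g⁻¹ * x₀⁻¹ = 1 from h, one_mul] at e
      exact congrArg Subtype.val e.symm
  have hcomm₀ : ∀ g : S, c g = 1 → R x₀ * R g = R g * R x₀ := by
    intro g h
    have e : g * x₀ = (g * x₀ * g⁻¹ * x₀⁻¹) * (x₀ * g) := by group
    rw [show g * x₀ * g⁻¹ * x₀⁻¹ = 1 from h, one_mul] at e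
    rw [← map_mul, ← map_mul, e]
  have hAcomm : ∀ a ∈ A, ∀ b ∈ A, a * b = b * a := by
    intro a ha b hb
    have h1 := hcomm₀ ⟨a, ha.1⟩ ((hAmem ⟨a, ha.1⟩).1 ha)
    have h3 := hcomm₀ ⟨b, hb.1⟩ ((hAmem ⟨b, hb.1⟩).1 hb)
    exact congrArg Subtype.val (hcomm_of ⟨a, ha.1⟩ ⟨b, hb.1⟩ (comm_of_comm hBn h1 h3))
  have hcy : ∀ g : S, c (g * y) = z₀ * c g := by
    intro g
    have e1 : y * x₀ * y⁻¹ = z₀ * x₀ := by
      rw [hz₀, hcdef]
      group
    calc c (g * y) = g * (y * x₀ * y⁻¹) * g⁻¹ * x₀⁻¹ := by rw [hcdef]; group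
      _ = g * (z₀ * x₀) * g⁻¹ * x₀⁻¹ := by rw [e1]
      _ = (g * z₀) * x₀ * g⁻¹ * x₀⁻¹ := by group
      _ = (z₀ * g) * x₀ * g⁻¹ * x₀⁻¹ := by rw [hz₀c]
      _ = z₀ * c g := by rw [hcdef]; group
  have hindex : (A.subgroupOf S).index = 2 := by
    rw [Subgroup.index_eq_two_iff]
    refine ⟨y, fun g => ?_⟩
    have m : ∀ h : S, h ∈ A.subgroupOf S ↔ c h = 1 := fun h => hAmem h
    rw [m, m, hcy]
    rcases hcz g with h | h
    · rw [h, mul_one]
      simp [hz₀1]
    · rw [h, hz₀2]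
      simp [hz₀1]
  have hD : Data S A 2 := ⟨hS, hAS, hAcomm, hindex⟩
  -- the norm condition
  have hnorm : ∀ y' ∈ S, y' ∉ A → ∀ b ∈ A, y' * b * y'⁻¹ * b ∈ cen S := by
    intro y' hy' hy'A b hb
    obtain ⟨y₁, hy₁⟩ : ∃ y₁ : S, (y₁ : Ω) = y' := ⟨⟨y', hy'⟩, rfl⟩
    obtain ⟨b₁, hb₁⟩ : ∃ b₁ : S, (b₁ : Ω) = b := ⟨⟨b, hb.1⟩, rfl⟩
    subst hy₁
    subst hb₁
    have hcy₁ : c y₁ = z₀ := (hcz y₁).resolve_left (fun h => hy'A ((hAmem y₁).2 h))
    have e1 : y₁ * x₀ * y₁⁻¹ = z₀ * x₀ := by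
      rw [← hcy₁, hcdef]
      group
    have e2 : R y₁ * R x₀ * R y₁⁻¹ = -R x₀ := by
      rw [← map_mul, ← map_mul, e1, map_mul, hz₀R]
      simp
    have htr := trace_zero_of_conj h2 (hRinv y₁) e2
    obtain ⟨s, hs⟩ := sq_of_trace_zero htr
    obtain ⟨p, r, hpr⟩ := comm_cases hBn (hcomm₀ b₁ ((hAmem b₁).1 hb))
    have e3 : R y₁ * R b₁ * R y₁⁻¹ = p • 1 + (-r) • R x₀ := by
      rw [hpr]
      calc R y₁ * (p • 1 + r • R x₀) * R y₁⁻¹
          = p • (R y₁ * R y₁⁻¹) + r • (R y₁ * R x₀ * R y₁⁻¹) := by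
            simp only [mul_add, add_mul, smul_mul_assoc, mul_smul_comm, mul_one]
        _ = p • 1 + (-r) • R x₀ := by
            rw [hRinv', e2]
            simp
    have e4 : R (y₁ * b₁ * y₁⁻¹ * b₁) = (p * p - r * r * s) • 1 := by
      rw [map_mul, map_mul, map_mul, e3, hpr]
      simp only [mul_add, add_mul, smul_mul_assoc, mul_smul_comm, one_mul, mul_one, hs]
      module
    have e5 : ((y₁ : Ω) * b₁ * (y₁ : Ω)⁻¹ * b₁) = ((y₁ * b₁ * y₁⁻¹ * b₁ : S) : Ω) := rfl
    rw [e5, hcenS]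
    exact ⟨_, e4⟩
  -- the derived subgroup
  let δ : S →* Fˣ := Matrix.GeneralLinearGroup.det.comp ρ
  have hδ : ∀ g, (δ g : F) = (R g).det := fun _ => rfl
  let K : Subgroup S := α.ker ⊓ δ.ker
  have hSK : ⁅S, S⁆ ≤ K.map S.subtype := by
    rw [Subgroup.commutator_le]
    intro g₁ hg₁ g₂ hg₂
    refine ⟨⁅(⟨g₁, hg₁⟩ : S), ⟨g₂, hg₂⟩⁆, ⟨?_, ?_⟩, rfl⟩
    · change α _ = 1
      rw [map_commutatorElement, commutatorElement_eq_one_iff_mul_comm]
      exact mul_comm _ _
    · change δ _ = 1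
      rw [map_commutatorElement, commutatorElement_eq_one_iff_mul_comm]
      exact mul_comm _ _
  have hSp : ∀ u ∈ ⁅S, S⁆, ∃ u' : S, (u' : Ω) = u ∧ α u' = 1 ∧ (R u').det = 1 := by
    intro u hu
    obtain ⟨u', ⟨h1, h3⟩, e⟩ := hSK hu
    refine ⟨u', e, h1, ?_⟩
    rw [← hδ, show δ u' = 1 from h3, Units.val_one]
  have hzc : ((z₀ : S) : Ω) ∈ ⁅S, S⁆ := by
    rw [hz₀]
    have e : ((c y : S) : Ω) = ⁅(y : Ω), (x₀ : Ω)⁆ := by
      rw [commutatorElement_def]
      rfl
    rw [e]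
    exact Subgroup.commutator_mem_commutator y.2 x₀.2
  have hz1 : ((z₀ : S) : Ω) ≠ 1 := fun e => hz₀1 (Subtype.ext e)
  have hzz : ((z₀ : S) : Ω) ^ 2 = 1 := by
    rw [pow_two]
    exact congrArg Subtype.val hz₀2
  have huniq : ∀ u ∈ ⁅S, S⁆, u ^ 2 = 1 → u = 1 ∨ u = (z₀ : Ω) := by
    intro u hu huu
    obtain ⟨u', rfl, h1, h3⟩ := hSp u hu
    have h4 : u' * u' = 1 := by
      apply Subtype.ext
      have : ((u' : Ω)) * u' = 1 := by rw [← pow_two, huu]
      exact this
    have h5 : R u' * R u' = 1 := by rw [← map_mul, h4, map_one]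
    rcases sq_one_det_one h2 h5 h3 with h6 | h6
    · left
      have : u' = 1 := hext _ _ (by rw [h1, map_one]) (by rw [h6, map_one])
      rw [this]
      rfl
    · right
      have : u' = z₀ := hext _ _ (by rw [h1, hz₀α]) (by rw [h6, hz₀R])
      rw [this]
  have hSA : ⁅S, S⁆ ≤ A := by
    rw [Subgroup.commutator_le]
    intro g₁ hg₁ g₂ hg₂
    rw [commutatorElement_def]
    exact hD.comm_mem hg₁ hg₂
  have hcyc : ∃ u₀ : Ω, ⁅S, S⁆ = Subgroup.zpowers u₀ := by
    haveI : Finite ↥(⁅S, S⁆ : Subgroup Ω) :=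
      Finite.of_injective (Subgroup.inclusion (hSA.trans hAS)) (Subgroup.inclusion_injective _)
    have hp : IsPGroup 2 ↥(⁅S, S⁆ : Subgroup Ω) :=
      hS.of_injective (Subgroup.inclusion (hSA.trans hAS)) (Subgroup.inclusion_injective _)
    have hcm : ∀ x y : ↥(⁅S, S⁆ : Subgroup Ω), x * y = y * x := fun x y =>
      Subtype.ext (hAcomm _ (hSA x.2) _ (hSA y.2))
    have hU : Cfsg.Agent.Lib.PGroup.CyclicMax2.UniqueP 2 ↥(⁅S, S⁆ : Subgroup Ω) := by
      intro x y hx hy hx1 hy1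
      have h1 := (huniq _ x.2 (congrArg Subtype.val hx)).resolve_left
        (fun e => hx1 (Subtype.ext e))
      have h3 := (huniq _ y.2 (congrArg Subtype.val hy)).resolve_left
        (fun e => hy1 (Subtype.ext e))
      have : x = y := Subtype.ext (h1.trans h3.symm)
      rw [this]
      exact Subgroup.mem_zpowers y
    obtain ⟨u₀, hu₀⟩ := Cfsg.Agent.Lib.PGroup.CyclicMax.exists_zpowers_eq_of_isCyclic _
      (Cfsg.Agent.Lib.PGroup.CyclicMax2.isCyclic_of_comm_uniqueP hcm hp hU)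
    exact ⟨u₀, hu₀.symm⟩
  -- the involution `a`
  have hneg' : (-1 : F) ≠ 1 := by
    intro e
    apply h2
    linear_combination -e
  have hneg : (-1 : Fˣ) ≠ 1 := by
    intro e
    have h1 := congrArg Units.val e
    rw [Units.val_neg, Units.val_one] at h1
    exact hneg' h1
  let ι : E →* S := Subgroup.inclusion hE
  have hι : Function.Injective ι := Subgroup.inclusion_injective hE
  haveI : Finite E := Finite.of_injective ι hι
  have hEsq : ∀ e : E, e ^ 2 = 1 := fun e => Subtype.ext (hEa.2 e e.2)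
  let d : E →* Fˣ := δ.comp ι
  have hdsq : ∀ e : E, d e = 1 ∨ d e = -1 := by
    intro e
    have h1 : (d e) * (d e) = 1 := by rw [← map_mul, ← pow_two, hEsq, map_one]
    have h3 : (d e : F) * (d e : F) = 1 := by
      have := congrArg Units.val h1
      simpa using this
    rcases sq_cases h3 with h4 | h4
    · left; exact Units.ext h4
    · right; exact Units.ext (by rw [h4]; simp)
  have hidx : d.ker.index ≤ 2 := by
    rw [Subgroup.index_ker]
    let f : d.range → Bool := fun r => decide ((r : Fˣ) = 1)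
    have hf : Function.Injective f := by
      rintro ⟨_, e, rfl⟩ ⟨_, e', rfl⟩ h
      apply Subtype.ext
      change d e = d e'
      have h' : d e = 1 ↔ d e' = 1 := by
        simpa only [f, decide_eq_decide] using h
      rcases hdsq e with h1 | h1
      · rw [h1]
        exact (h'.1 h1).symm
      · rcases hdsq e' with h3 | h3
        · exfalso
          have := h'.2 h3
          rw [h1] at this
          exact hneg this
        · rw [h1, h3]
    have := Nat.card_le_card_of_injective f hf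
    simpa using this
  have hcardK : 4 ≤ Nat.card d.ker := by
    by_contra hlt
    have h1 := Subgroup.card_mul_index d.ker
    rw [hE8] at h1
    have h3 : Nat.card d.ker ≤ 3 := by omega
    have h4 := Nat.mul_le_mul h3 hidx
    omega
  have hvals : ∀ k : d.ker, R (ι k) = 1 ∨ R (ι k) = -1 := by
    intro k
    have h1 : R (ι k) * R (ι k) = 1 := by
      have hk : (k : E) * (k : E) = 1 := by rw [← pow_two]; exact hEsq k
      rw [← map_mul, ← map_mul, hk, map_one, map_one]
    have h3 : (R (ι k)).det = 1 := by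
      rw [← hδ]
      have : δ (ι k) = 1 := k.2
      rw [this, Units.val_one]
    exact sq_one_det_one h2 h1 h3
  obtain ⟨k, k', hkk, hRk⟩ : ∃ k k' : d.ker, k ≠ k' ∧ R (ι k) = R (ι k') := by
    by_contra hcon
    push Not at hcon
    let f : d.ker → Bool := fun k => decide (R (ι k) = 1)
    have hf : Function.Injective f := by
      intro k k' h
      by_contra hne
      apply hcon k k' hne
      simp only [f, decide_eq_decide] at h
      rcases hvals k with h1 | h1
      · rw [h1]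
        exact (h.1 h1).symm
      · rcases hvals k' with h3 | h3
        · exfalso
          have := h.2 h3
          rw [h1] at this
          have h5 := congrFun (congrFun this 0) 0
          simp only [Matrix.neg_apply, Matrix.one_apply_eq] at h5
          exact hneg' h5
        · rw [h1, h3]
    have h9 := Nat.card_le_card_of_injective f hf
    rw [Nat.card_eq_fintype_card (α := Bool), Fintype.card_bool] at h9
    omega
  obtain ⟨a₁, ha₁⟩ : ∃ a₁ : S, a₁ = ι ((k : E)⁻¹ * k') := ⟨_, rfl⟩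
  have ha₁R : R a₁ = 1 := by
    rw [ha₁, map_mul, map_mul, map_inv, ← hRk]
    exact hRinv _
  have ha₁1 : a₁ ≠ 1 := by
    intro e
    rw [ha₁] at e
    have h1 : (k : E)⁻¹ * k' = 1 := hι (by rw [e, map_one])
    apply hkk
    apply Subtype.ext
    exact (inv_mul_eq_one.1 h1)
  have ha₁2 : a₁ * a₁ = 1 := by
    rw [ha₁, ← map_mul, ← pow_two, hEsq, map_one]
  have hsqα : ∀ g : S, g * g = 1 → α g = 1 ∨ α g = -1 := by
    intro g hg
    have h1 : (α g) * (α g) = 1 := by rw [← map_mul, hg, map_one]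
    have h3 : (α g : F) * (α g : F) = 1 := by
      have := congrArg Units.val h1
      simpa using this
    rcases sq_cases h3 with h4 | h4
    · left; exact Units.ext h4
    · right; exact Units.ext (by rw [h4]; simp)
  have ha₁α : α a₁ = -1 := by
    rcases hsqα a₁ ha₁2 with h1 | h1
    · exfalso
      apply ha₁1
      apply hinj a₁ h1
      apply Units.ext
      exact ha₁R
    · exact h1
  have hac : ((a₁ : S) : Ω) ∈ cen S := (hcenS a₁).2 ⟨1, by rw [ha₁R, one_smul]⟩
  have haa : ((a₁ : S) : Ω) ^ 2 = 1 := by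
    rw [pow_two]
    exact congrArg Subtype.val ha₁2
  have han : ((a₁ : S) : Ω) ∉ ⁅S, S⁆ := by
    intro h
    obtain ⟨u', e, h1, -⟩ := hSp _ h
    have : u' = a₁ := Subtype.ext e
    rw [this, ha₁α] at h1
    exact hneg h1
  have hom : ∀ v ∈ cen S, v ^ 2 = 1 → v = 1 ∨ v = (a₁ : Ω) ∨ v = (z₀ : Ω) ∨ v = (a₁ : Ω) * (z₀ : Ω) := by
    intro v hv hvv
    obtain ⟨v₁, rfl⟩ : ∃ v₁ : S, (v₁ : Ω) = v := ⟨⟨v, (mem_cen.1 hv).1⟩, rfl⟩
    obtain ⟨μ, hμ⟩ := (hcenS v₁).1 hv
    have hv2 : v₁ * v₁ = 1 := by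
      apply Subtype.ext
      have : ((v₁ : Ω)) * v₁ = 1 := by rw [← pow_two, hvv]
      exact this
    have hμ2 : μ * μ = 1 := by
      have h1 : R v₁ * R v₁ = 1 := by rw [← map_mul, hv2, map_one]
      rw [hμ] at h1
      have h3 := congrFun (congrFun h1 0) 0
      simpa using h3
    rcases hsqα v₁ hv2 with h3 | h3 <;> rcases sq_cases hμ2 with h4 | h4
    · left
      have : v₁ = 1 := hext _ _ (by rw [h3, map_one]) (by rw [hμ, h4, map_one, one_smul])
      rw [this]
      rfl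
    · right; right; left
      have : v₁ = z₀ := hext _ _ (by rw [h3, hz₀α]) (by rw [hμ, h4, hz₀R, neg_smul, one_smul])
      rw [this]
    · right; left
      have : v₁ = a₁ := hext _ _ (by rw [h3, ha₁α]) (by rw [hμ, h4, ha₁R, one_smul])
      rw [this]
    · right; right; right
      have : v₁ = a₁ * z₀ := hext _ _ (by rw [h3, map_mul, ha₁α, hz₀α, mul_one])
        (by rw [hμ, h4, map_mul, ha₁R, hz₀R, neg_smul, one_smul, one_mul])
      rw [this]
      rfl
  exact ⟨A, a₁, z₀, ⟨hD, hna, hnorm, hzc, hz1, hzz, huniq, hcyc, hac, haa, han, hom⟩⟩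

end Group

end Cfsg.Agent.Lib.Components.GL3E2
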