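/-
If `G` has no subgroup of index two, a Sylow `2`-subgroup of `G` is not of the type of `GL3B`.
-/
import Mathlib
import Cfsg.Agent.Lib.Components.GL3D4
import Cfsg.Agent.Lib.Fusion.GroupSylow

set_option autoImplicit false
set_option linter.style.haveILetI false

namespace Cfsg.Agent.Lib.Components.GL3F

open Cfsg Cfsg.FusionSystem Cfsg.Agent.Lib.Fusion.Basic Cfsg.Agent.Lib.Fusion.Saturated
  Cfsg.Agent.Lib.Fusion.Saturated2 Cfsg.Agent.Lib.Fusion.Essential
  Cfsg.Agent.Lib.Fusion.EssentialPair Cfsg.Agent.Lib.Fusion.AbelianMax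
  Cfsg.Agent.Lib.Components.GL3A Cfsg.Agent.Lib.Components.GL3B Cfsg.Agent.Lib.Components.GL3D4
open scoped commutatorElement

variable {G : Type*} [Group G] [Finite G]

/-- **No Sylow `2`-subgroup of the given type in a group without subgroups of index two.** -/
theorem no_setup (hG : ∀ H : Subgroup G, H.index ≠ 2) (X : Sylow 2 G) {A : Subgroup G} {a z : G}
    (U : Setup (X : Subgroup G) A a z) : False := by
  classical
  have hS : IsPGroup 2 (X : Subgroup G) := X.isPGroup'
  let F := groupFusionSystem (X : Subgroup G)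
  have hF : F.IsSaturated 2 := Cfsg.Agent.Lib.Fusion.GroupSylow.isSaturated_groupFusionSystem X
  obtain ⟨D, hSD, hnot, hmv⟩ := focal_proper U hS hF
  have hle : F ≤ Cfsg.Agent.Lib.Fusion.Focal.movingSystem F D hSD := by
    refine Cfsg.Agent.Lib.Fusion.Alperin.le_of_essential hS hF ?_
    intro P hP α hα
    have hPS : P ≤ (X : Subgroup G) := by
      rcases hP with rfl | h
      · exact le_rfl
      · exact h.1.1
    apply mem_autGroup_of_mem
    exact ⟨autGroup_mem_hom hPS hα, fun x => hmv P hP α hα x⟩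
  have hfoc : (X : Subgroup G).focalSubgroupOf ≤ D.subgroupOf (X : Subgroup G) := by
    rw [Subgroup.focalSubgroupOf_eq_closure, Subgroup.closure_le]
    rintro g ⟨x, hx, u, hgx⟩
    change (g : G) ∈ D
    have hg2 := g.2
    rw [hgx] at hg2 ⊢
    let y : G := x⁻¹
    have hy : y ∈ (X : Subgroup G) := Subgroup.inv_mem _ hx
    have huy : u * y * u⁻¹ ∈ (X : Subgroup G) := by
      have e : u * y * u⁻¹ = x⁻¹ * ⁅x, u⁆ := by
        rw [commutatorElement_def]
        simp only [y]
        group
      rw [e]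
      exact Subgroup.mul_mem _ (Subgroup.inv_mem _ hx) hg2
    have hφ : conjHom (Subgroup.zpowers y) u ∈ F.Hom (Subgroup.zpowers y) := by
      refine ⟨Subgroup.zpowers_le.2 hy, ?_, u, fun w => rfl⟩
      rintro ⟨w, j, rfl⟩
      change u * y ^ j * u⁻¹ ∈ (X : Subgroup G)
      have e : u * y ^ j * u⁻¹ = (u * y * u⁻¹) ^ j := (conj_zpow).symm
      rw [e]
      exact Subgroup.zpow_mem _ huy j
    have h1 := (hle _ hφ).2 ⟨y, Subgroup.mem_zpowers y⟩
    have e : (y : G)⁻¹ * (u * y * u⁻¹) = ⁅x, u⁆ := by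
      rw [commutatorElement_def]
      simp only [y]
      group
    rw [← e]
    exact h1
  have hne : (X : Subgroup G).focalSubgroupOf ≠ ⊤ := by
    intro h
    apply hnot
    intro s hs
    have h1 : (⟨s, hs⟩ : (X : Subgroup G)) ∈ (X : Subgroup G).focalSubgroupOf := by
      rw [h]
      exact Subgroup.mem_top _
    exact hfoc h1
  have hQp : IsPGroup 2 ((X : Subgroup G) ⧸ (X : Subgroup G).focalSubgroupOf) :=
    hS.to_quotient _
  obtain ⟨n, hn⟩ := IsPGroup.iff_card.1 hQp
  have hn0 : n ≠ 0 := by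
    rintro rfl
    apply hne
    rw [pow_zero] at hn
    rw [eq_top_iff]
    intro s _
    have hQ : Subsingleton ((X : Subgroup G) ⧸ (X : Subgroup G).focalSubgroupOf) :=
      (Nat.card_eq_one_iff_unique.1 hn).1
    exact (QuotientGroup.eq_one_iff s).1 (Subsingleton.elim _ _)
  obtain ⟨K, hK⟩ := Sylow.exists_subgroup_card_pow_prime
    (G := (X : Subgroup G) ⧸ (X : Subgroup G).focalSubgroupOf) 2 (n := n - 1)
    (by rw [hn]; exact pow_dvd_pow 2 (by omega))
  have hidx : K.index = 2 := by
    have h1 := Subgroup.card_mul_index K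
    rw [hK, hn] at h1
    have h2 : (2 : ℕ) ^ n = 2 ^ (n - 1) * 2 := by
      rw [← pow_succ, Nat.sub_add_cancel (by omega)]
    rw [h2] at h1
    exact Nat.eq_of_mul_eq_mul_left (by positivity) h1
  apply hG (K.comap (X : Subgroup G).transferFocal)
  rw [Subgroup.index_comap_of_surjective _ (Subgroup.transferFocal_surjective X)]
  exact hidx

end Cfsg.Agent.Lib.Components.GL3F
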