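import Mathlib
import Cfsg.Agent.Lib.Coprime.InvSylow

/-!
# An involution acting on an odd-order group all of whose inverted elements are `p`-elements

Let `d` be an involution normalizing the odd-order subgroup `M`, and suppose that every element of
`M` inverted by `d` has `p`-power order. Then all these inverted elements lie in one Sylow
`p`-subgroup of `M`. No solvability of `M` is used.
-/

set_option autoImplicit false

namespace Cfsg.Agent.Lib.Components.InvolutionP

open Subgroup

variable {G : Type*} [Group G] [Finite G]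

/-- A Sylow `p`-subgroup is transitive on the cosets of a subgroup of `p`-power index. -/
theorem exists_mul_of_index_prime_pow {p : ℕ} [hp : Fact p.Prime] (P : Sylow p G) (C : Subgroup G)
    (a : ℕ) (hC : C.index = p ^ a) (g : G) : ∃ u ∈ (P : Subgroup G), u⁻¹ * g ∈ C := by
  classical
  let H : Subgroup ↥(P : Subgroup G) := C.subgroupOf (P : Subgroup G)
  let f : (↥(P : Subgroup G) ⧸ H) → (G ⧸ C) :=
    Quotient.map' (fun x => (x : G)) (by
      intro x y h
      rw [QuotientGroup.leftRel_apply] at h ⊢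
      exact h)
  have hf : Function.Injective f := by
    intro x y
    induction x using QuotientGroup.induction_on with
    | H x =>
      induction y using QuotientGroup.induction_on with
      | H y =>
        intro h
        have h' : ((x : G) : G ⧸ C) = ((y : G) : G ⧸ C) := h
        rw [QuotientGroup.eq] at h'
        rw [QuotientGroup.eq]
        exact h'
  have hP : IsPGroup p (P : Subgroup G) := P.isPGroup'
  obtain ⟨k, hk⟩ := IsPGroup.iff_card.mp hP
  have hHp : IsPGroup p H := hP.to_subgroup H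
  obtain ⟨b, hb⟩ := IsPGroup.iff_card.mp hHp
  have hHC : Nat.card H ∣ Nat.card C := by
    have hinj : Function.Injective (fun x : H => (⟨((x : ↥(P : Subgroup G)) : G), x.2⟩ : C)) := by
      intro x y h
      apply Subtype.ext
      apply Subtype.ext
      have h' : ((x : ↥(P : Subgroup G)) : G) = y := congrArg (fun w : C => (w : G)) h
      exact h'
    let φ : H →* C :=
      { toFun := fun x => ⟨((x : ↥(P : Subgroup G)) : G), x.2⟩
        map_one' := rfl
        map_mul' := fun _ _ => rfl }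
    exact Subgroup.card_dvd_of_injective φ hinj
  have h1 : Nat.card C * p ^ a = Nat.card G := by rw [← hC]; exact C.card_mul_index
  have h2 : p ^ k * (P : Subgroup G).index = Nat.card G := by rw [← hk]; exact (P : Subgroup G).card_mul_index
  have h3 : ¬ p ∣ (P : Subgroup G).index := P.not_dvd_index
  have h4 : p ^ (b + a) ∣ p ^ k * (P : Subgroup G).index := by
    rw [h2, ← h1, pow_add, ← hb]
    exact Nat.mul_dvd_mul_right hHC _
  have h5 : p ^ (b + a) ∣ p ^ k :=
    (Nat.Coprime.pow_left _ ((Nat.Prime.coprime_iff_not_dvd hp.out).mpr h3)).dvd_of_dvd_mul_right h4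
  have hle : b + a ≤ k := (Nat.pow_dvd_pow_iff_le_right hp.out.one_lt).mp h5
  have h6 : p ^ b * H.index = p ^ k := by rw [← hb, ← hk]; exact H.card_mul_index
  have h7 : H.index = p ^ (k - b) := by
    have : p ^ k = p ^ b * p ^ (k - b) := by
      rw [← pow_add]
      congr 1
      omega
    rw [this] at h6
    exact Nat.eq_of_mul_eq_mul_left (pow_pos hp.out.pos b) h6
  have hcard : Nat.card (G ⧸ C) ≤ Nat.card (↥(P : Subgroup G) ⧸ H) := by
    change C.index ≤ H.index
    rw [hC, h7]
    exact Nat.pow_le_pow_right hp.out.pos (by omega)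
  have hbij := hf.bijective_of_nat_card_le hcard
  obtain ⟨x, hx⟩ := hbij.2 (g : G ⧸ C)
  induction x using QuotientGroup.induction_on with
  | H x =>
    have h' : ((x : G) : G ⧸ C) = (g : G ⧸ C) := hx
    rw [QuotientGroup.eq] at h'
    exact ⟨x, x.2, h'⟩

/-- **Inverted elements in one Sylow subgroup.** `d` an element with `d * d = 1` normalizing the
odd-order subgroup `M`, such that every element of `M` inverted by `d` is a `p`-element. Then all
elements of `M` inverted by `d` lie in a `p`-subgroup of `G`. -/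
theorem exists_pgroup_of_inverted {p : ℕ} [hp : Fact p.Prime] (d : G) (hd : d * d = 1)
    (M : Subgroup G) (hdM : ∀ m ∈ M, d * m * d⁻¹ ∈ M) (hM : Odd (Nat.card M))
    (hinv : ∀ m ∈ M, d * m * d⁻¹ = m⁻¹ → ∃ k : ℕ, m ^ (p ^ k) = 1) :
    ∃ P : Subgroup G, IsPGroup p P ∧ P ≤ M ∧ ∀ m ∈ M, d * m * d⁻¹ = m⁻¹ → m ∈ P := by
  classical
  have hdi : d⁻¹ = d := inv_eq_of_mul_eq_one_left hd
  -- the subgroup generated by `d`
  let A : Subgroup G := zpowers d
  have hAcard : Nat.card A ∣ 2 := by
    rw [Nat.card_zpowers]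
    exact orderOf_dvd_of_pow_eq_one (by rw [sq]; exact hd)
  have hAM : A ≤ normalizer (M : Set G) := by
    refine Cfsg.Agent.Lib.Coprime.InvSylow.le_normalizer_of_forall_conj_mem ?_
    intro a ha x hx
    obtain ⟨k, rfl⟩ := mem_zpowers_iff.mp ha
    -- `d ^ k` is `1` or `d`
    rcases Int.even_or_odd k with hk | hk
    · obtain ⟨r, rfl⟩ := hk
      have : d ^ (r + r) = 1 := by
        rw [← two_mul, zpow_mul, zpow_two, hd, one_zpow]
      simpa [this] using hx
    · obtain ⟨r, rfl⟩ := hk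
      have : d ^ (2 * r + 1) = d := by
        rw [zpow_add, zpow_mul, zpow_two, hd, one_zpow, one_mul, zpow_one]
      rw [this]
      exact hdM x hx
  have hcop : (Nat.card A).Coprime (Nat.card M) := by
    have h2 : (2 : ℕ).Coprime (Nat.card M) := Nat.coprime_two_left.mpr hM
    exact Nat.Coprime.coprime_dvd_left hAcard h2
  have hsolvA : Group.IsSolvable A := by
    have : IsCyclic A := inferInstance
    exact Group.isSolvable_of_comm (fun a b => by
      have := IsCyclic.commGroup (α := A)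
      exact mul_comm' a b)
  have hdA : d ∈ A := mem_zpowers d
  -- conjugation by `d`, centralizer
  let C : Subgroup ↥M := (centralizer ({d} : Set G)).subgroupOf M
  have hmemC : ∀ x : ↥M, x ∈ C ↔ d * (x : G) * d⁻¹ = x := by
    intro x
    rw [mem_subgroupOf, mem_centralizer_singleton_iff]
    constructor
    · intro h
      rw [← h, mul_inv_cancel_right]
    · intro h
      exact (mul_inv_eq_iff_eq_mul.mp h).symm
  -- the index of `C` is a power of `p`
  have hCidx : ∀ q : ℕ, q.Prime → q ∣ C.index → q = p := by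
    intro q hq hdvd
    by_contra hqp
    haveI : Fact q.Prime := ⟨hq⟩
    obtain ⟨Q, hQ⟩ := Cfsg.Agent.Lib.Coprime.InvSylow.exists_invariant_sylow hAM hcop (Or.inl hsolvA) q
    have hQC : (Q : Subgroup ↥M) ≤ C := by
      intro x hx
      rw [hmemC]
      have hxm : (x : G) ∈ (Q : Subgroup ↥M).map M.subtype := ⟨x, hx, rfl⟩
      have hdx : d * (x : G) * d⁻¹ ∈ (Q : Subgroup ↥M).map M.subtype :=
        (mem_normalizer_iff.mp (hQ hdA) x).mp hxm
      set w : G := (d * (x : G) * d⁻¹)⁻¹ * x with hw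
      have hwQ : w ∈ (Q : Subgroup ↥M).map M.subtype := mul_mem (inv_mem hdx) hxm
      have hwM : w ∈ M := by
        obtain ⟨y, -, hy⟩ := hwQ
        rw [← hy]
        exact y.2
      have hwinv : d * w * d⁻¹ = w⁻¹ := by
        rw [hw]
        simp only [mul_inv_rev, inv_inv, hdi]
        calc d * (d * ((x : G)⁻¹ * d) * x) * d = (d * d) * ((x : G)⁻¹ * (d * x * d)) := by group
          _ = (x : G)⁻¹ * (d * x * d) := by rw [hd, one_mul]
      obtain ⟨k, hk⟩ := hinv w hwM hwinv
      have hQq : IsPGroup q ((Q : Subgroup ↥M).map M.subtype) := Q.isPGroup'.map _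
      obtain ⟨l, hl⟩ := hQq ⟨w, hwQ⟩
      have hl' : w ^ (q ^ l) = 1 := congrArg Subtype.val hl
      have hw1 : w = 1 := by
        have h1 : orderOf w ∣ p ^ k := orderOf_dvd_of_pow_eq_one hk
        have h2 : orderOf w ∣ q ^ l := orderOf_dvd_of_pow_eq_one hl'
        have h3 : (p ^ k).Coprime (q ^ l) :=
          Nat.Coprime.pow _ _ ((Nat.coprime_primes hp.out hq).mpr (Ne.symm hqp))
        have h4 : orderOf w ∣ 1 := by
          have := Nat.dvd_gcd h1 h2
          rwa [h3] at this
        exact orderOf_eq_one_iff.mp (Nat.dvd_one.mp h4)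
      rw [hw] at hw1
      exact (inv_mul_eq_one.mp hw1).symm ▸ rfl
    have h1 : C.index ∣ (Q : Subgroup ↥M).index := index_dvd_of_le hQC
    exact Q.not_dvd_index (hdvd.trans h1)
  have hCne : C.index ≠ 0 := index_ne_zero_of_finite
  have hCpow : C.index = p ^ C.index.primeFactorsList.length :=
    Nat.eq_prime_pow_of_unique_prime_dvd hCne (fun {q} hq h => hCidx q hq h)
  obtain ⟨P, hP⟩ := Cfsg.Agent.Lib.Coprime.InvSylow.exists_invariant_sylow hAM hcop (Or.inl hsolvA) p
  refine ⟨(P : Subgroup ↥M).map M.subtype, P.isPGroup'.map _, map_subtype_le _, ?_⟩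
  intro m hm hminv
  -- a square root of `m`
  have hodd : Odd (orderOf (⟨m, hm⟩ : ↥M)) := by
    exact Odd.of_dvd_nat hM (orderOf_dvd_natCard _)
  obtain ⟨r, hr⟩ := hodd
  have hmo : m ^ (2 * r + 1) = 1 := by
    have h1 : (⟨m, hm⟩ : ↥M) ^ (2 * r + 1) = 1 := by
      rw [← hr]; exact pow_orderOf_eq_one _
    exact congrArg Subtype.val h1
  set b : G := m ^ (r + 1) with hb
  have hbM : b ∈ M := pow_mem hm _
  have hbb : b * b = m := by
    rw [hb, ← pow_add]
    have : r + 1 + (r + 1) = (2 * r + 1) + 1 := by ring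
    rw [this, pow_succ, hmo, one_mul]
  have hbinv : d * b * d⁻¹ = b⁻¹ := by
    rw [hb]
    have h1 : d * m ^ (r + 1) * d⁻¹ = (d * m * d⁻¹) ^ (r + 1) := by
      exact (conj_pow).symm
    rw [h1, hminv, inv_pow]
  obtain ⟨u, hu, hucoset⟩ := exists_mul_of_index_prime_pow P C _ hCpow (⟨b, hbM⟩⁻¹ : ↥M)
  -- `b⁻¹ = u * c`, so `b = c⁻¹ * u⁻¹`
  set c : ↥M := u⁻¹ * (⟨b, hbM⟩⁻¹ : ↥M) with hc
  have hc1 : d * (c : G) * d⁻¹ = c := (hmemC c).mp hucoset
  have hbeq : b = (c : G)⁻¹ * (u : G)⁻¹ := by
    have : (c : G) = (u : G)⁻¹ * b⁻¹ := rfl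
    rw [this]
    group
  have hvP : ((u : G))⁻¹ ∈ (P : Subgroup ↥M).map M.subtype := inv_mem ⟨u, hu, rfl⟩
  have hdv : d * ((u : G))⁻¹ * d⁻¹ ∈ (P : Subgroup ↥M).map M.subtype :=
    (mem_normalizer_iff.mp (hP hdA) _).mp hvP
  have hm2 : m = (d * ((u : G))⁻¹ * d⁻¹)⁻¹ * (u : G)⁻¹ := by
    have h1 : (d * b * d⁻¹)⁻¹ * b = b * b := by rw [hbinv, inv_inv]
    rw [← hbb, ← h1]
    have h2 : d * b * d⁻¹ = (c : G)⁻¹ * (d * ((u : G))⁻¹ * d⁻¹) := by
      have h3 : d * (c : G)⁻¹ * d⁻¹ = (c : G)⁻¹ := by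
        have h4 : d * (c : G)⁻¹ * d⁻¹ = (d * (c : G) * d⁻¹)⁻¹ := by group
        rw [h4, hc1]
      rw [hbeq]
      calc d * ((c : G)⁻¹ * (u : G)⁻¹) * d⁻¹ = (d * (c : G)⁻¹ * d⁻¹) * (d * (u : G)⁻¹ * d⁻¹) := by group
        _ = _ := by rw [h3]
    rw [h2, hbeq]
    group
  rw [hm2]
  exact mul_mem (inv_mem hdv) hvP

end Cfsg.Agent.Lib.Components.InvolutionP
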