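import Mathlib
import Cfsg.Agent.Lib.Components.IsolatedMin2
import Cfsg.Agent.Lib.Nilpotent.Subnormal
import Cfsg.Agent.Lib.PGroup.Timmesfeld

/-!
# Structure of `p`-minimal groups
-/

set_option autoImplicit false
set_option linter.unusedSectionVars false
set_option linter.style.haveILetI false
open Cfsg

namespace Cfsg.Agent.Lib.Components.PMinStruct

open Subgroup Cfsg.Agent.Lib.Components.PMinimal Cfsg.Agent.Lib.Components.IsolatedMin
  Cfsg.Agent.Lib.Components.IsolatedMin2
open scoped commutatorElement Pointwise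

variable {P : Type*} [Group P] [Finite P] {p : ℕ} [Fact p.Prime]

theorem hmax_of (hP : IsPMinimal p P) (S : Sylow p P) {M : Subgroup P} (hM : IsCoatom M)
    (hSM : (S : Subgroup P) ≤ M) : ∀ L : Subgroup P, (S : Subgroup P) ≤ L → L ≠ ⊤ → L ≤ M := by
  obtain ⟨M', hM', hSM', hmax'⟩ := exists_unique_max hP S
  have h1 : M ≤ M' := hmax' M hSM hM.1
  have h2 : M = M' := by
    rcases h1.eq_or_lt with h | h
    · exact h
    · exact absurd (hM.2 M' h) hM'
  intro L h3 h4
  rw [h2]
  exact hmax' L h3 h4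

theorem residual_not_le (S : Sylow p P) {M : Subgroup P} (hM : IsCoatom M)
    (hSM : (S : Subgroup P) ≤ M) : ¬ pResidual p P ≤ M := by
  intro hc
  apply hM.1
  rw [eq_top_iff, ← pResidual_sup_sylow S]
  exact sup_le hSM hc

/-- Normal subgroups contain `O^p` or lie in the core. -/
theorem residual_le_or_le_core (hP : IsPMinimal p P) (S : Sylow p P) {M : Subgroup P}
    (hM : IsCoatom M) (hSM : (S : Subgroup P) ≤ M) (N : Subgroup P) (hN : N.Normal) :
    pResidual p P ≤ N ∨ N ≤ M.normalCore := by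
  by_cases h : N ≤ M
  · right
    exact (Subgroup.normal_le_normalCore).mpr h
  · left
    have h1 : (S : Subgroup P) ⊔ N = ⊤ := by
      by_contra hc
      exact h (le_sup_right.trans (hmax_of hP S hM hSM _ le_sup_left hc))
    exact Cfsg.Agent.Lib.Transfer.Basic.pResidual_le_of_isPGroup_quotient N
      (isPGroup_quotient_of_sup S h1)

/-- The subgroup generated by `A`-conjugates of `J`. -/
abbrev conjSup (A J : Subgroup P) : Subgroup P := sSup {K | ∃ a ∈ A, K = cj a J}

theorem cj_mul'' (a b : P) (K : Subgroup P) : cj (a * b) K = cj a (cj b K) := cj_mul' a b K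

theorem normal_key (hP : IsPMinimal p P) (S : Sylow p P) {M : Subgroup P} (hM : IsCoatom M)
    (hSM : (S : Subgroup P) ≤ M) {B : Subgroup P} (hB : B.Normal) (hBM : B ≤ M) :
    (S : Subgroup P) ⊓ B ≤ pCore p P := by
  by_contra hc
  exact residual_not_le S hM hSM ((pResidual_le_of_normal hP S B hc).trans hBM)

/-- Induction on the overgroups of `J`. -/
theorem sub_key (hP : IsPMinimal p P) (S : Sylow p P) {M : Subgroup P} (hM : IsCoatom M)
    (hSM : (S : Subgroup P) ≤ M) {J : Subgroup P} (hJ : J.IsSubnormal) (hJM : J ≤ M)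
    (hSJ : (S : Subgroup P) ≤ normalizer (J : Set P)) :
    ∀ A : Subgroup P, A.IsSubnormal → (S : Subgroup P) ≤ normalizer (A : Set P) → J ≤ A → ¬ A ≤ M →
      (S : Subgroup P) ⊓ J ≤ pCore p P := by
  intro A
  induction A using WellFoundedLT.induction with
  | ind A ih =>
  intro hA hSA hJA hAM
  set B := conjSup A J with hB
  have hBA : B ≤ A := by
    refine sSup_le ?_
    rintro _ ⟨a, ha, rfl⟩
    rintro _ ⟨j, hj, rfl⟩
    exact A.mul_mem (A.mul_mem ha (hJA hj)) (A.inv_mem ha)
  have hJB : J ≤ B := by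
    refine (le_of_eq ?_).trans (le_sSup (⟨1, A.one_mem, rfl⟩ : cj 1 J ∈ {K | ∃ a ∈ A, K = cj a J}))
    ext x
    simp [mem_cj]
  have hAB : A ≤ normalizer (B : Set P) := by
    intro a ha
    apply Cfsg.Agent.Lib.Coprime.Three.mem_normalizer_of_conj_mem
    have h1 : B ≤ B.comap (MulAut.conj a).toMonoidHom := by
      refine sSup_le ?_
      rintro _ ⟨a', ha', rfl⟩
      intro x hx
      refine (le_sSup (⟨a * a', A.mul_mem ha ha', rfl⟩ : cj (a * a') J ∈ {K | ∃ a ∈ A, K = cj a J}) : _ ≤ B) ?_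
      rw [cj_mul'']
      exact ⟨x, hx, rfl⟩
    intro v hv
    exact h1 hv
  have hSB : (S : Subgroup P) ≤ normalizer (B : Set P) := by
    intro s hs
    apply Cfsg.Agent.Lib.Coprime.Three.mem_normalizer_of_conj_mem
    have h1 : B ≤ B.comap (MulAut.conj s).toMonoidHom := by
      refine sSup_le ?_
      rintro _ ⟨a', ha', rfl⟩
      intro x hx
      have ha2 : s * a' * s⁻¹ ∈ A := (mem_normalizer_iff.mp (hSA hs) a').mp ha'
      refine (le_sSup (⟨s * a' * s⁻¹, ha2, rfl⟩ : cj (s * a' * s⁻¹) J ∈ {K | ∃ a ∈ A, K = cj a J}) : _ ≤ B) ?_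
      rw [mem_cj]
      show (s * a' * s⁻¹)⁻¹ * (s * x * s⁻¹) * (s * a' * s⁻¹) ∈ J
      obtain ⟨j, hj, rfl⟩ := hx
      have h2 : s * j * s⁻¹ ∈ J := (mem_normalizer_iff.mp (hSJ hs) j).mp hj
      have e : (s * a' * s⁻¹)⁻¹ * (s * ((MulAut.conj a').toMonoidHom j) * s⁻¹) * (s * a' * s⁻¹) = s * j * s⁻¹ := by
        simp only [MulEquiv.coe_toMonoidHom, MulAut.conj_apply]
        group
      rw [e]
      exact h2
    intro v hv
    exact h1 hv
  have hBsn : B.IsSubnormal := by
    refine IsSubnormal.step B A hBA hA ?_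
    constructor
    intro x hx g
    rw [mem_subgroupOf] at hx ⊢
    exact (mem_normalizer_iff.mp (hAB g.2) _).mp hx
  by_cases hBM : B ≤ M
  · have hsup : A ⊔ (S : Subgroup P) = ⊤ := by
      by_contra hc
      exact hAM (le_sup_left.trans (hmax_of hP S hM hSM _ le_sup_right hc))
    have hBn : B.Normal := by
      rw [← normalizer_eq_top_iff, eq_top_iff, ← hsup]
      exact sup_le hAB hSB
    exact (inf_le_inf_left _ hJB).trans (normal_key hP S hM hSM hBn hBM)
  · -- `B < A`
    have hlt : B < A := by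
      refine lt_of_le_of_ne hBA ?_
      intro hBeq
      have hsn : (J.subgroupOf A).IsSubnormal := hJ.subgroupOf
      rcases hsn.lt_normal with h1 | ⟨K, hKn, hJK, hKt⟩
      · apply hAM
        have : A ≤ J := by
          intro a ha
          have h2 : (⟨a, ha⟩ : ↥A) ∈ J.subgroupOf A := by rw [h1]; trivial
          exact mem_subgroupOf.mp h2
        exact this.trans hJM
      · have hBK : B ≤ K.map A.subtype := by
          refine sSup_le ?_
          rintro _ ⟨a, ha, rfl⟩
          rintro _ ⟨j, hj, rfl⟩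
          have h3 : (⟨j, hJA hj⟩ : ↥A) ∈ K := hJK (mem_subgroupOf.mpr hj)
          exact ⟨⟨a, ha⟩ * ⟨j, hJA hj⟩ * (⟨a, ha⟩ : ↥A)⁻¹, hKn.conj_mem _ h3 _, by simp⟩
        apply hKt.ne
        rw [eq_top_iff]
        intro x _
        have h4 : (x : P) ∈ B := by rw [hBeq]; exact x.2
        obtain ⟨y, hy, hyx⟩ := hBK h4
        have : y = x := Subtype.ext hyx
        exact this ▸ hy
    exact ih B hlt hBsn hSB hJB hBM

/-- Part (1). -/
theorem part1 (hP : IsPMinimal p P) (S : Sylow p P) {M : Subgroup P} (hM : IsCoatom M)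
    (hSM : (S : Subgroup P) ≤ M) (N : Subgroup P) (hN : N.IsSubnormal) (hNM : N ≤ M) :
    N ⊓ (S : Subgroup P) ≤ pCore p P := by
  classical
  set J := conjSup (S : Subgroup P) N with hJ
  have hNJ : N ≤ J := by
    refine (le_of_eq ?_).trans (le_sSup (⟨1, (S : Subgroup P).one_mem, rfl⟩ :
      cj 1 N ∈ {K | ∃ a ∈ (S : Subgroup P), K = cj a N}))
    ext x
    simp [mem_cj]
  have hJM : J ≤ M := by
    refine sSup_le ?_
    rintro _ ⟨a, ha, rfl⟩
    rintro _ ⟨j, hj, rfl⟩
    exact M.mul_mem (M.mul_mem (hSM ha) (hNM hj)) (M.inv_mem (hSM ha))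
  have hSJ : (S : Subgroup P) ≤ normalizer (J : Set P) := by
    intro a ha
    apply Cfsg.Agent.Lib.Coprime.Three.mem_normalizer_of_conj_mem
    have h1 : J ≤ J.comap (MulAut.conj a).toMonoidHom := by
      refine sSup_le ?_
      rintro _ ⟨a', ha', rfl⟩
      intro x hx
      refine (le_sSup (⟨a * a', (S : Subgroup P).mul_mem ha ha', rfl⟩ :
        cj (a * a') N ∈ {K | ∃ a ∈ (S : Subgroup P), K = cj a N}) : _ ≤ J) ?_
      rw [cj_mul'']
      exact ⟨x, hx, rfl⟩
    intro v hv
    exact h1 hv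
  have hJsn : J.IsSubnormal := by
    have key : ∀ F : Finset (Subgroup P), (∀ K ∈ F, K.IsSubnormal) → (F.sup id : Subgroup P).IsSubnormal := by
      intro F
      induction F using Finset.induction_on with
      | empty =>
        intro _
        simpa using (IsSubnormal.bot : (⊥ : Subgroup P).IsSubnormal)
      | insert a s ha ih =>
        intro h
        rw [Finset.sup_insert]
        exact Cfsg.Agent.Lib.Nilpotent.Subnormal.isSubnormal_sup (h a (Finset.mem_insert_self _ _))
          (ih (fun K hK => h K (Finset.mem_insert_of_mem hK)))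
    have hfin : ({K | ∃ a ∈ (S : Subgroup P), K = cj a N} : Set (Subgroup P)).Finite := Set.toFinite _
    have := key hfin.toFinset (by
      intro K hK
      obtain ⟨a, -, rfl⟩ := hfin.mem_toFinset.mp hK
      exact hN.smul (MulAut.conj a))
    have e : hfin.toFinset.sup id = J :=
      (Finset.sup_id_eq_sSup _).trans (by rw [hfin.coe_toFinset])
    rwa [e] at this
  have := sub_key hP S hM hSM hJsn hJM hSJ ⊤ (by simp) (by
    rw [normalizer_eq_top_iff.mpr (inferInstance : (⊤ : Subgroup P).Normal)]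
    exact le_top) le_top (fun h => hM.1 (top_le_iff.mp h))
  rw [inf_comm]
  exact (inf_le_inf_left _ hNJ).trans this

/-- Part (2). -/
theorem part2 (hP : IsPMinimal p P) (S : Sylow p P) {M : Subgroup P} (hM : IsCoatom M)
    (hSM : (S : Subgroup P) ≤ M)
    (hT : ∀ T : Sylow p ↥(pResidual p P), (T : Subgroup ↥(pResidual p P)).Normal) :
    (Nat.card P).primeFactors.card ≤ 2 := by
  classical
  haveI hRn := Cfsg.Agent.Lib.Transfer.Basic.pResidual_normal p P
  set R := pResidual p P with hR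
  obtain ⟨T⟩ : Nonempty (Sylow p ↥R) := inferInstance
  haveI hTn := hT T
  haveI hTc : (T : Subgroup ↥R).Characteristic := T.characteristic_of_normal hTn
  set Tt := (T : Subgroup ↥R).map R.subtype with hTt
  haveI hTtn : Tt.Normal := Cfsg.Agent.Lib.Basic.PCore.map_subtype_normal_of_characteristic _
  have hTtp : IsPGroup p ↥Tt := T.2.map R.subtype
  have hTtS : Tt ≤ (S : Subgroup P) :=
    (Cfsg.Agent.Lib.Basic.PCore.le_pCore hTtn hTtp).trans (Cfsg.Agent.Lib.Basic.PCore.pCore_le_sylow S)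
  let π := QuotientGroup.mk' Tt
  have hsurj : Function.Surjective π := QuotientGroup.mk'_surjective _
  have hker : ∀ x, π x = 1 ↔ x ∈ Tt := fun x => QuotientGroup.eq_one_iff x
  set Rb := R.map π with hRb
  set Sb := (S : Subgroup P).map π with hSb
  have hRbn : Rb.Normal := hRn.map π hsurj
  have hSbp : IsPGroup p ↥Sb := S.2.map π
  -- the order of `Rb` is prime to `p`
  have hcopR : ¬ p ∣ Nat.card Rb := by
    intro hd
    let f := π.subgroupMap R
    have h1 : (T : Subgroup ↥R) ≤ f.ker := by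
      intro t ht
      rw [MonoidHom.mem_ker]
      apply Subtype.ext
      exact (hker _).mpr ⟨t, ht, rfl⟩
    have h2 : f.ker.index = Nat.card f.range := Subgroup.index_ker f
    have h3 : f.range = ⊤ := MonoidHom.range_eq_top.mpr (π.subgroupMap_surjective R)
    rw [h3, Subgroup.card_top] at h2
    apply T.not_dvd_index
    have h4 : f.ker.index ∣ (T : Subgroup ↥R).index := Subgroup.index_dvd_of_le h1
    rw [h2] at h4
    exact hd.trans h4
  have hcop : (Nat.card Sb).Coprime (Nat.card Rb) := by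
    obtain ⟨k, hk⟩ := IsPGroup.iff_card.mp hSbp
    rw [hk]
    exact Nat.Coprime.pow_left k ((Nat.Prime.coprime_iff_not_dvd Fact.out).mpr hcopR)
  have hSbR : Sb ≤ normalizer (Rb : Set (P ⧸ Tt)) := Ab.normal_le_normalizer hRbn Sb
  have hSbsolv : Group.IsSolvable Sb := by
    haveI := hSbp.isNilpotent
    infer_instance
  have hmax := hmax_of hP S hM hSM
  have hTM : Tt ≤ M := hTtS.trans hSM
  -- a good prime
  have hex : ∃ t : ℕ, t.Prime ∧ ∃ Q : Sylow t ↥Rb,
      Sb ≤ normalizer (((Q : Subgroup ↥Rb).map Rb.subtype : Subgroup (P ⧸ Tt)) : Set (P ⧸ Tt)) ∧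
      ¬ ((Q : Subgroup ↥Rb).map Rb.subtype ⊔ Sb).comap π ≤ M := by
    by_contra hc
    push Not at hc
    apply residual_not_le S hM hSM
    have h1 : (M.map π).subgroupOf Rb = ⊤ := by
      apply eq_top_of_forall_sylow
      intro q hq
      haveI : Fact q.Prime := ⟨hq⟩
      obtain ⟨Q, hQ⟩ := Cfsg.Agent.Lib.Coprime.InvSylow.exists_invariant_sylow hSbR hcop
        (Or.inl hSbsolv) q
      refine ⟨inferInstance, Q, ?_⟩
      intro y hy
      rw [mem_subgroupOf]
      obtain ⟨g, hg⟩ := hsurj (y : P ⧸ Tt)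
      have h2 : g ∈ ((Q : Subgroup ↥Rb).map Rb.subtype ⊔ Sb).comap π := by
        rw [mem_comap, hg]
        exact (le_sup_left : (Q : Subgroup ↥Rb).map Rb.subtype ≤ _) ⟨y, hy, rfl⟩
      exact ⟨g, hc q hq Q hQ h2, hg⟩
    intro r hr
    have h2 : (⟨π r, ⟨r, hr, rfl⟩⟩ : ↥Rb) ∈ (M.map π).subgroupOf Rb := by rw [h1]; trivial
    obtain ⟨m, hm, hmr⟩ := mem_subgroupOf.mp h2
    have hmr' : π m = π r := hmr
    have h3 : π (m⁻¹ * r) = 1 := by
      rw [map_mul, map_inv, hmr']
      simp
    have h4 := M.mul_mem hm (hTM ((hker _).mp h3))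
    simpa using h4
  obtain ⟨t, ht, Q, hQS, hQM⟩ := hex
  have hSle : (S : Subgroup P) ≤ ((Q : Subgroup ↥Rb).map Rb.subtype ⊔ Sb).comap π := by
    intro s hs
    exact (le_sup_right : Sb ≤ (Q : Subgroup ↥Rb).map Rb.subtype ⊔ Sb) ⟨s, hs, rfl⟩
  have htop : ((Q : Subgroup ↥Rb).map Rb.subtype ⊔ Sb).comap π = ⊤ := by
    by_contra hc
    exact hQM (hmax _ hSle hc)
  have htop2 : (Q : Subgroup ↥Rb).map Rb.subtype ⊔ Sb = ⊤ := by
    rw [eq_top_iff]
    intro x _
    obtain ⟨g, rfl⟩ := hsurj x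
    have : g ∈ ((Q : Subgroup ↥Rb).map Rb.subtype ⊔ Sb).comap π := by rw [htop]; trivial
    exact this
  have hcard1 := Cfsg.Agent.Lib.PGroup.Timmesfeld.card_sup_mul_card_inf_of_le_normalizer Sb
    ((Q : Subgroup ↥Rb).map Rb.subtype) hQS
  rw [sup_comm, htop2, Subgroup.card_top] at hcard1
  have hcard2 : Nat.card P = Nat.card (P ⧸ Tt) * Nat.card Tt :=
    Subgroup.card_eq_card_quotient_mul_card_subgroup Tt
  have hQp : IsPGroup t ↥((Q : Subgroup ↥Rb).map Rb.subtype) := Q.2.map Rb.subtype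
  have hsub : (Nat.card P).primeFactors ⊆ ({p, t} : Finset ℕ) := by
    intro q hq
    have hqp := Nat.prime_of_mem_primeFactors hq
    have hqd := Nat.dvd_of_mem_primeFactors hq
    rw [hcard2] at hqd
    have hpg : ∀ {r : ℕ} {X : Subgroup (P ⧸ Tt)}, r.Prime → IsPGroup r ↥X → q ∣ Nat.card X → q = r := by
      intro r X hr hX hd
      haveI : Fact r.Prime := ⟨hr⟩
      obtain ⟨k, hk⟩ := IsPGroup.iff_card.mp hX
      rw [hk] at hd
      exact (Nat.prime_dvd_prime_iff_eq hqp hr).mp (hqp.dvd_of_dvd_pow hd)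
    rcases (Nat.Prime.dvd_mul hqp).mp hqd with h1 | h1
    · have h2 : q ∣ Nat.card Sb * Nat.card ↥((Q : Subgroup ↥Rb).map Rb.subtype) := by
        rw [← hcard1]
        exact h1.trans (Dvd.intro _ rfl)
      rcases (Nat.Prime.dvd_mul hqp).mp h2 with h3 | h3
      · have := hpg Fact.out hSbp h3
        simp [this]
      · have := hpg ht hQp h3
        simp [this]
    · obtain ⟨k, hk⟩ := IsPGroup.iff_card.mp hTtp
      rw [hk] at h1
      have := (Nat.prime_dvd_prime_iff_eq hqp Fact.out).mp (hqp.dvd_of_dvd_pow h1)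
      simp [this]
  exact (Finset.card_le_card hsub).trans Finset.card_le_two

/-- The whole statement. -/
theorem main (hP : IsPMinimal p P) (S : Sylow p P) (M : Subgroup P) (hM : IsCoatom M)
    (hSM : (S : Subgroup P) ≤ M) [hF : M.normalCore.Normal] :
    (∀ N : Subgroup P, N.IsSubnormal → N ≤ M → N ⊓ (S : Subgroup P) ≤ pCore p P) ∧
    ((∀ T : Sylow p ↥(pResidual p P), (T : Subgroup ↥(pResidual p P)).Normal) →
      (Nat.card P).primeFactors.card ≤ 2) ∧
    (∀ N : Subgroup P, N.Normal → pResidual p P ≤ N ∨ N ≤ M.normalCore) ∧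
    (∀ N : Subgroup P, N.Normal → M.normalCore ≤ N → N ≤ pResidual p P ⊔ M.normalCore →
      N = M.normalCore ∨ N = pResidual p P ⊔ M.normalCore) ∧
    M.normalCore < pResidual p P ⊔ M.normalCore := by
  refine ⟨fun N h1 h2 => part1 hP S hM hSM N h1 h2, fun h => part2 hP S hM hSM h,
    fun N hN => residual_le_or_le_core hP S hM hSM N hN, ?_, ?_⟩
  · intro N hN h1 h2
    rcases residual_le_or_le_core hP S hM hSM N hN with h3 | h3
    · right
      exact le_antisymm h2 (sup_le h3 h1)
    · left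
      exact le_antisymm h3 h1
  · refine lt_of_le_of_ne le_sup_right ?_
    intro h
    apply residual_not_le S hM hSM
    have h1 : pResidual p P ≤ M.normalCore := by
      rw [h]
      exact le_sup_left
    exact h1.trans (Subgroup.normalCore_le M)

end Cfsg.Agent.Lib.Components.PMinStruct
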