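import Mathlib

set_option autoImplicit false

namespace Cfsg.Agent.Lib.Components.PiClosed

variable {G : Type*} [Group G] [Finite G]

/-- π-elements. -/
def PiEl (π : Set ℕ) (x : G) : Prop := ∀ p : ℕ, p.Prime → p ∣ orderOf x → p ∈ π

/-- π-numbers. -/
def PiNum (π : Set ℕ) (n : ℕ) : Prop := ∀ p : ℕ, p.Prime → p ∣ n → p ∈ π

theorem exists_decomp (u : G) (p : ℕ) (hp : p.Prime) :
    ∃ a b : G, u = a * b ∧ a ∈ Subgroup.zpowers u ∧ b ∈ Subgroup.zpowers u ∧ (∃ k : ℕ, a ^ (p ^ k) = 1) ∧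
      (orderOf b).Coprime p := by
  have hn : orderOf u ≠ 0 := (orderOf_pos u).ne'
  obtain ⟨k, m, hm, hnm⟩ := Nat.exists_eq_pow_mul_and_not_dvd hn p hp.ne_one
  have hcop : Nat.Coprime (p ^ k) m := Nat.Coprime.pow_left k ((Nat.Prime.coprime_iff_not_dvd hp).mpr hm)
  have hcopz : IsCoprime ((p ^ k : ℕ) : ℤ) (m : ℤ) := Nat.isCoprime_iff_coprime.mpr hcop
  obtain ⟨s, t, hst⟩ := hcopz
  refine ⟨u ^ (t * m), u ^ (s * ((p ^ k : ℕ) : ℤ)), ?_, Subgroup.zpow_mem_zpowers _ _, Subgroup.zpow_mem_zpowers _ _,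
    ⟨k, ?_⟩, ?_⟩
  · rw [← zpow_add]
    have : t * (m : ℤ) + s * ((p ^ k : ℕ) : ℤ) = 1 := by linarith
    rw [this, zpow_one]
  · rw [← zpow_natCast, ← zpow_mul]
    have : t * (m : ℤ) * ((p ^ k : ℕ) : ℤ) = (orderOf u : ℤ) * t := by
      rw [hnm]; push_cast; ring
    rw [this, zpow_mul, zpow_natCast, pow_orderOf_eq_one, one_zpow]
  · have h1 : orderOf (u ^ (s * ((p ^ k : ℕ) : ℤ))) ∣ m := by
      apply orderOf_dvd_of_pow_eq_one
      rw [← zpow_natCast, ← zpow_mul]
      have : s * ((p ^ k : ℕ) : ℤ) * (m : ℤ) = (orderOf u : ℤ) * s := by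
        rw [hnm]; push_cast; ring
      rw [this, zpow_mul, zpow_natCast, pow_orderOf_eq_one, one_zpow]
    have h2 : m.Coprime p := ((Nat.Prime.coprime_iff_not_dvd hp).mpr hm).symm
    exact Nat.Coprime.coprime_dvd_left h1 h2

/-- An element lies in a subgroup as soon as its powers of prime power order do. -/
theorem mem_of_primary_powers (L : Subgroup G) (w : G)
    (h : ∀ a ∈ Subgroup.zpowers w, ∀ r : ℕ, r.Prime → (∃ k : ℕ, a ^ (r ^ k) = 1) → a ∈ L) :
    w ∈ L := by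
  induction hn : orderOf w using Nat.strong_induction_on generalizing w with
  | _ n ih =>
  by_cases h1 : w = 1
  · rw [h1]; exact L.one_mem
  have hne : orderOf w ≠ 1 := by rwa [Ne, orderOf_eq_one_iff]
  have hq : (orderOf w).minFac.Prime := Nat.minFac_prime hne
  obtain ⟨a, b, hab, ha, hb, hak, hbc⟩ := exists_decomp w (orderOf w).minFac hq
  have haL : a ∈ L := h a ha _ hq hak
  have hbL : b ∈ L := by
    have hdvd : orderOf b ∣ orderOf w := orderOf_dvd_of_mem_zpowers hb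
    have hlt : orderOf b < n := by
      rw [← hn]
      refine lt_of_le_of_ne (Nat.le_of_dvd (orderOf_pos w) hdvd) ?_
      intro heq
      rw [heq] at hbc
      exact hq.ne_one (hbc.symm.eq_one_of_dvd (Nat.minFac_dvd _))
    exact ih _ hlt b (fun c hc r hr hk => h c ((Subgroup.zpowers_le.mpr hb) hc) r hr hk) rfl
  rw [hab]
  exact L.mul_mem haL hbL

theorem mem_of_pow_mem_of_coprime (H : Subgroup G) {u : G} {n : ℕ} (hcop : n.Coprime (orderOf u))
    (h : u ^ n ∈ H) : u ∈ H := by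
  by_cases h1 : orderOf u = 1
  · rw [orderOf_eq_one_iff.mp h1]; exact H.one_mem
  obtain ⟨k, -, hk⟩ := Nat.exists_mul_mod_eq_one_of_coprime hcop (by
    have := orderOf_pos u
    omega)
  have : u = (u ^ n) ^ k := by
    rw [← pow_mul]
    conv_lhs => rw [← pow_one u, ← hk]
    rw [pow_mod_orderOf]
  rw [this]
  exact H.pow_mem h k

/-- Central Hall subgroups of a group generated by elements of coprime order are trivial. -/
theorem eq_bot_of_central {X : Type*} [Group X] [Finite X] (Z : Subgroup X)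
    (hZ : ∀ z ∈ Z, ∀ x : X, z * x = x * z)
    (hcop : Nat.Coprime (Nat.card Z) Z.index) (S : Set X)
    (hgen : Subgroup.closure S = ⊤) (hS : ∀ x ∈ S, (orderOf x).Coprime (Nat.card Z)) : Z = ⊥ := by
  have hnorm : Z.Normal := by
    refine ⟨fun z hz g => ?_⟩
    rw [← hZ z hz g]; simpa using hz
  obtain ⟨P, hP⟩ := Subgroup.exists_right_complement'_of_coprime hcop
  have hcard : Nat.card Z * Nat.card P = Nat.card X := hP.card_mul_card
  have hPidx : Nat.card P = Z.index := by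
    have := Z.card_mul_index
    have hpos : 0 < Nat.card Z := Nat.card_pos
    exact Nat.eq_of_mul_eq_mul_left hpos (hcard.trans this.symm)
  have hmem : ∀ x ∈ S, x ∈ P := by
    intro x hx
    obtain ⟨⟨z, p⟩, hzp⟩ := (hP.existsUnique x).exists
    simp only at hzp
    have hpx : (p : X) * x = x * p := by
      rw [← hzp, ← mul_assoc, ← hZ z z.2 p]
    have hz : (z : X) = x * (p : X)⁻¹ := by rw [← hzp]; group
    have hcomm : Commute x ((p : X)⁻¹) := by
      have : Commute x (p : X) := hpx.symm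
      exact this.inv_right
    set k := orderOf x * orderOf (p : X) with hk
    have hzk : (z : X) ^ k = 1 := by
      rw [hz, hcomm.mul_pow, hk, pow_mul, pow_orderOf_eq_one, one_pow, one_mul, inv_pow, mul_comm,
        pow_mul, pow_orderOf_eq_one, one_pow, inv_one]
    have hdvd1 : orderOf (z : X) ∣ k := orderOf_dvd_of_pow_eq_one hzk
    have hdvd2 : orderOf (z : X) ∣ Nat.card Z := by
      have := orderOf_dvd_natCard (⟨(z : X), z.2⟩ : Z)
      rwa [Subgroup.orderOf_mk] at this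
    have hpdvd : orderOf (p : X) ∣ Z.index := by
      rw [← hPidx]
      have := orderOf_dvd_natCard (⟨(p : X), p.2⟩ : P)
      rwa [Subgroup.orderOf_mk] at this
    have hcopk : k.Coprime (Nat.card Z) := by
      rw [hk]
      refine Nat.Coprime.mul_left (hS x hx) ?_
      exact Nat.Coprime.coprime_dvd_left hpdvd hcop.symm
    have hz1 : orderOf (z : X) = 1 := Nat.eq_one_of_dvd_coprimes hcopk hdvd1 hdvd2
    rw [orderOf_eq_one_iff] at hz1
    rw [← hzp, hz1, one_mul]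
    exact p.2
  have htop : P = ⊤ := by
    rw [eq_top_iff, ← hgen, Subgroup.closure_le]
    exact hmem
  have hXc : Nat.card P = Nat.card X := by rw [htop]; exact Subgroup.card_top
  have hpos : 0 < Nat.card X := Nat.card_pos
  have h1 : Nat.card Z = 1 := by
    rw [hXc] at hcard
    exact Nat.eq_of_mul_eq_mul_right hpos (by rw [hcard, one_mul])
  exact Subgroup.eq_bot_of_card_eq Z h1


theorem piEl_of_pow_prime {π : Set ℕ} {r : ℕ} (hr : r.Prime) (hrπ : r ∈ π) {a : G} {k : ℕ}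
    (h : a ^ (r ^ k) = 1) : PiEl π a := by
  intro p hp hpd
  have h1 : orderOf a ∣ r ^ k := orderOf_dvd_of_pow_eq_one h
  have h2 : p ∣ r := hp.dvd_of_dvd_pow (hpd.trans h1)
  rwa [(Nat.prime_dvd_prime_iff_eq hp hr).mp h2]

/-- An element of prime power order normalizing `Q`, with `N/C` of coprime index, centralizes `Q`. -/
theorem mem_centralizer_of_index {Q : Subgroup G} {u : G} (hu : u ∈ Subgroup.normalizer (Q : Set G))
    (hcop : ((Subgroup.centralizer (Q : Set G)).relIndex (Subgroup.normalizer (Q : Set G))).Coprime (orderOf u)) :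
    u ∈ Subgroup.centralizer (Q : Set G) := by
  set C := Subgroup.centralizer (Q : Set G)
  set N := Subgroup.normalizer (Q : Set G)
  have hn : (C.subgroupOf N).Normal := by
    refine ⟨fun c hc n => ?_⟩
    rw [Subgroup.mem_subgroupOf] at hc ⊢
    rw [Subgroup.mem_centralizer_iff] at hc ⊢
    intro q hq
    have hn := n.2
    have h1 : (n : G)⁻¹ * q * n ∈ (Q : Set G) := by
      have := (Subgroup.mem_normalizer_iff.mp (N.inv_mem n.2) q).mp hq
      simpa using this
    have h2 := hc _ h1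
    simp only [Subgroup.coe_mul, Subgroup.coe_inv, InvMemClass.coe_inv, MulMemClass.coe_mul]
    have h3 : (n : G) * c * (n : G)⁻¹ * q = n * ((c : G) * ((n : G)⁻¹ * q * n)) * (n : G)⁻¹ := by group
    have h4 : q * ((n : G) * c * (n : G)⁻¹) = n * (((n : G)⁻¹ * q * n) * (c : G)) * (n : G)⁻¹ := by group
    rw [h3, h4, h2]
  have hu' : (⟨u, hu⟩ : N) ^ (C.subgroupOf N).index ∈ C.subgroupOf N := Subgroup.pow_index_mem _ _
  rw [Subgroup.mem_subgroupOf] at hu'
  simp only [SubgroupClass.coe_pow] at hu'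
  exact mem_of_pow_mem_of_coprime C hcop hu'


/-- Hypothesis on normalizers of `π'`-subgroups. -/
def Homog (π : Set ℕ) (G : Type*) [Group G] : Prop :=
  ∀ H : Subgroup G, H ≠ ⊥ → (∀ p : ℕ, p.Prime → p ∣ Nat.card ↥H → p ∉ π) →
    ∀ p : ℕ, p.Prime → p ∣ (Subgroup.centralizer (H : Set G)).relIndex (Subgroup.normalizer (H : Set G)) → p ∉ π

theorem core {π : Set ℕ} (hHom : Homog π G) (M T : Subgroup G) [hMn : M.Normal] [hTn : T.Normal]
    (hT : ∀ y ∈ M, PiEl π y → y ∈ T) {x : G} {r : ℕ} (hr : r.Prime) (hrπ : r ∈ π)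
    (hx : ∃ k : ℕ, x ^ (r ^ k) = 1) :
    ∀ m ∈ M, x * m * x⁻¹ * m⁻¹ ∈ T := by
  classical
  haveI : Fact r.Prime := ⟨hr⟩
  set f := QuotientGroup.mk' T with hf
  have hfT : ∀ t ∈ T, f t = 1 := fun t ht => (QuotientGroup.eq_one_iff t).mpr ht
  let D : Subgroup G := (Subgroup.centralizer ({f x} : Set (G ⧸ T))).comap f
  have hD : ∀ g, g ∈ D ↔ f g * f x = f x * f g := by
    intro g
    show f g ∈ Subgroup.centralizer ({f x} : Set (G ⧸ T)) ↔ _
    exact Subgroup.mem_centralizer_singleton_iff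
  obtain ⟨k, hk⟩ := hx
  suffices hsyl : ∀ q : ℕ, q.Prime → ∃ (_ : Fact q.Prime) (P : Sylow q ↥M), ∀ y ∈ (P : Subgroup ↥M), (y : G) ∈ D by
    have hidx : (D.subgroupOf M).index = 1 := by
      by_contra hne
      obtain ⟨q, hq, hqd⟩ := Nat.exists_prime_and_dvd hne
      obtain ⟨_, P, hP⟩ := hsyl q hq
      have hle : (P : Subgroup ↥M) ≤ D.subgroupOf M := fun y hy => hP y hy
      exact P.not_dvd_index (hqd.trans (Subgroup.index_dvd_of_le hle))
    intro m hm
    have hmD : m ∈ D := by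
      have : (⟨m, hm⟩ : ↥M) ∈ D.subgroupOf M := by
        rw [Subgroup.index_eq_one] at hidx
        rw [hidx]; trivial
      exact this
    rw [hD] at hmD
    rw [← QuotientGroup.eq_one_iff]
    show f _ = 1
    simp only [map_mul, map_inv]
    rw [← hmD]; group
  intro q hq
  haveI : Fact q.Prime := ⟨hq⟩
  refine ⟨inferInstance, ?_⟩
  obtain P0 : Sylow q ↥M := default
  by_cases hqπ : q ∈ π
  · refine ⟨P0, fun y hy => ?_⟩
    obtain ⟨n, hn⟩ := P0.isPGroup' ⟨y, hy⟩
    have hy1 : (y : G) ^ (q ^ n) = 1 := by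
      have := congrArg (fun w : (P0 : Subgroup ↥M) => ((w : ↥M) : G)) hn
      simpa using this
    have := hT y y.2 (piEl_of_pow_prime hq hqπ hy1)
    rw [hD, hfT _ this]; simp
  set Q : Subgroup G := (P0 : Subgroup ↥M).map M.subtype with hQ
  by_cases hQ1 : Q = ⊥
  · refine ⟨P0, fun y hy => ?_⟩
    have : (y : G) ∈ Q := ⟨y, hy, rfl⟩
    rw [hQ1, Subgroup.mem_bot] at this
    rw [this]; exact D.one_mem
  -- Frattini
  have hF := Sylow.normalizer_sup_eq_top (p := q) (N := M) P0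
  have hxsup : x ∈ Subgroup.normalizer (Q : Set G) ⊔ M := by
    have : x ∈ (⊤ : Subgroup G) := trivial
    rw [← hF] at this
    exact this
  have hxsup' : x ∈ ((Subgroup.normalizer (Q : Set G) ⊔ M : Subgroup G) : Set G) := hxsup
  rw [Subgroup.mul_normal, Set.mem_mul] at hxsup'
  obtain ⟨y, hy, m, hm, hym⟩ := hxsup'
  obtain ⟨u, v, huv, hu, hv, ⟨a, ha⟩, hvc⟩ := exists_decomp y r hr
  -- `v ∈ M`
  have hvM : v ∈ M := by
    obtain ⟨e, rfl⟩ := Subgroup.mem_zpowers_iff.mp hv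
    set g := QuotientGroup.mk' M with hg
    have hgy : g y = g x := by
      have hmg : g m = 1 := (QuotientGroup.eq_one_iff m).mpr hm
      rw [← hym, map_mul, hmg, mul_one]
    have h1 : g (y ^ e) ^ (r ^ k) = 1 := by
      rw [map_zpow, hgy, ← zpow_natCast, ← zpow_mul, mul_comm, zpow_mul, zpow_natCast, ← map_pow, hk, map_one, one_zpow]
    have h2 : orderOf (g (y ^ e)) ∣ r ^ k := orderOf_dvd_of_pow_eq_one h1
    have h3 : orderOf (g (y ^ e)) ∣ orderOf (y ^ e) := orderOf_map_dvd _ _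
    have h4 : orderOf (g (y ^ e)) = 1 :=
      Nat.eq_one_of_dvd_coprimes (Nat.Coprime.pow_right k hvc) h3 h2
    rw [orderOf_eq_one_iff] at h4
    exact (QuotientGroup.eq_one_iff _).mp h4
  -- `u` normalizes and hence centralizes `Q`
  have huN : u ∈ Subgroup.normalizer (Q : Set G) := (Subgroup.zpowers_le.mpr hy) hu
  have hQp : ∀ p : ℕ, p.Prime → p ∣ Nat.card Q → p ∉ π := by
    intro p hp hpd
    have hc : Nat.card Q = Nat.card (P0 : Subgroup ↥M) :=
      Subgroup.card_map_of_injective M.subtype_injective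
    rw [hc] at hpd
    obtain ⟨n, hn⟩ := IsPGroup.iff_card.mp P0.isPGroup'
    rw [hn] at hpd
    have := hp.dvd_of_dvd_pow hpd
    rwa [(Nat.prime_dvd_prime_iff_eq hp hq).mp this]
  have huC : u ∈ Subgroup.centralizer (Q : Set G) := by
    apply mem_centralizer_of_index huN
    apply Nat.coprime_of_dvd
    intro p hp hp1 hp2
    have h1 : orderOf u ∣ r ^ a := orderOf_dvd_of_pow_eq_one ha
    have h2 : p = r := (Nat.prime_dvd_prime_iff_eq hp hr).mp (hp.dvd_of_dvd_pow (hp2.trans h1))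
    exact hHom Q hQ1 hQp p hp hp1 (h2 ▸ hrπ)
  -- the Sylow step
  have hm1 : u = x * (m⁻¹ * v⁻¹) := by
    have : u = y * v⁻¹ := by rw [huv]; group
    rw [this, ← hym]; group
  set m₁ := m⁻¹ * v⁻¹ with hm₁
  have hm₁M : m₁ ∈ M := M.mul_mem (M.inv_mem hm) (M.inv_mem hvM)
  set A : Subgroup G := Subgroup.zpowers x ⊔ M with hA
  have hxA : x ∈ A := Subgroup.mem_sup_left (Subgroup.mem_zpowers x)
  have huA : u ∈ A := by
    rw [hm1]
    exact A.mul_mem hxA (Subgroup.mem_sup_right hm₁M)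
  have hpx : IsPGroup r (Subgroup.zpowers (⟨x, hxA⟩ : A)) := by
    rw [IsPGroup.iff_card, Nat.card_zpowers]
    have : orderOf (⟨x, hxA⟩ : A) = orderOf x := Subgroup.orderOf_mk _ _
    rw [this]
    obtain ⟨n, -, hn⟩ := (Nat.dvd_prime_pow hr).mp (orderOf_dvd_of_pow_eq_one hk)
    exact ⟨n, hn⟩
  have hpu : IsPGroup r (Subgroup.zpowers (⟨u, huA⟩ : A)) := by
    rw [IsPGroup.iff_card, Nat.card_zpowers]
    have : orderOf (⟨u, huA⟩ : A) = orderOf u := Subgroup.orderOf_mk _ _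
    rw [this]
    obtain ⟨n, -, hn⟩ := (Nat.dvd_prime_pow hr).mp (orderOf_dvd_of_pow_eq_one ha)
    exact ⟨n, hn⟩
  obtain ⟨S, hS⟩ := hpx.exists_le_sylow
  obtain ⟨S', hS'⟩ := hpu.exists_le_sylow
  obtain ⟨g, hg⟩ := MulAction.exists_smul_eq A S S'
  have huS : (⟨u, huA⟩ : A) ∈ (S' : Subgroup A) := hS' (Subgroup.mem_zpowers _)
  rw [← hg, Sylow.coe_subgroup_smul, Subgroup.mem_pointwise_smul_iff_inv_smul_mem] at huS
  have hxS : (⟨x, hxA⟩ : A) ∈ (S : Subgroup A) := hS (Subgroup.mem_zpowers _)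
  have hgA : (g : G) ∈ ((Subgroup.zpowers x ⊔ M : Subgroup G) : Set G) := g.2
  rw [Subgroup.mul_normal, Set.mem_mul] at hgA
  obtain ⟨c, hc, m₂, hm₂, hcm⟩ := hgA
  set m₃ := c * m₂ * c⁻¹ with hm₃
  have hm₃M : m₃ ∈ M := hMn.conj_mem _ hm₂ _
  have hgm : (g : G) = m₃ * c := by rw [← hcm, hm₃]; group
  have hcA : c ∈ A := Subgroup.mem_sup_left hc
  have hcS : (⟨c, hcA⟩ : A) ∈ (S : Subgroup A) := by
    obtain ⟨e, he⟩ := Subgroup.mem_zpowers_iff.mp hc
    have : (⟨c, hcA⟩ : A) = (⟨x, hxA⟩ : A) ^ e := by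
      apply Subtype.ext
      simp [he]
    rw [this]
    exact Subgroup.zpow_mem _ hxS e
  -- the conjugate of `u`
  have hs0 : (MulAut.conj g)⁻¹ • (⟨u, huA⟩ : A) ∈ (S : Subgroup A) := huS
  have hs1 : (⟨c, hcA⟩ : A) * ((MulAut.conj g)⁻¹ • (⟨u, huA⟩ : A)) * (⟨c, hcA⟩ : A)⁻¹ ∈ (S : Subgroup A) :=
    Subgroup.mul_mem _ (Subgroup.mul_mem _ hcS hs0) (Subgroup.inv_mem _ hcS)
  have hs2 : (⟨x, hxA⟩ : A)⁻¹ * ((⟨c, hcA⟩ : A) * ((MulAut.conj g)⁻¹ • (⟨u, huA⟩ : A)) * (⟨c, hcA⟩ : A)⁻¹) ∈ (S : Subgroup A) :=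
    Subgroup.mul_mem _ (Subgroup.inv_mem _ hxS) hs1
  set t : (S : Subgroup A) := ⟨_, hs2⟩ with ht
  have htc : (((t : A) : G)) = x⁻¹ * (m₃⁻¹ * u * m₃) := by
    rw [ht]
    simp only [MulAut.smul_def, MulAut.conj_inv_apply, Subgroup.coe_mul, Subgroup.coe_inv, MulMemClass.coe_mul, InvMemClass.coe_inv, hgm]
    group
  have htM : ((t : A) : G) ∈ M := by
    rw [htc]
    have : x⁻¹ * (m₃⁻¹ * u * m₃) = (x⁻¹ * m₃⁻¹ * x) * m₁ * m₃ := by rw [hm1]; group
    rw [this]
    refine M.mul_mem (M.mul_mem ?_ hm₁M) hm₃M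
    have := hMn.conj_mem _ (M.inv_mem hm₃M) x⁻¹
    simpa using this
  have htT : ((t : A) : G) ∈ T := by
    apply hT _ htM
    obtain ⟨n, hn⟩ := S.isPGroup' t
    refine piEl_of_pow_prime (k := n) hr hrπ ?_
    have := congrArg (fun w : (S : Subgroup A) => ((w : A) : G)) hn
    simpa using this
  have hfs : f (m₃⁻¹ * u * m₃) = f x := by
    have h1 : m₃⁻¹ * u * m₃ = x * ((t : A) : G) := by rw [htc]; group
    rw [h1, map_mul, hfT _ htT, mul_one]
  -- a Sylow subgroup of `M` commuting with `x` modulo `T`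
  let g₁ : ↥M := ⟨m₃, hm₃M⟩
  refine ⟨g₁⁻¹ • P0, fun y' hy' => ?_⟩
  rw [Sylow.coe_subgroup_smul, Subgroup.mem_pointwise_smul_iff_inv_smul_mem] at hy'
  have hw : g₁ * y' * g₁⁻¹ ∈ (P0 : Subgroup ↥M) := by
    have : (MulAut.conj g₁⁻¹)⁻¹ • y' = g₁ * y' * g₁⁻¹ := by
      simp [MulAut.smul_def]
    rwa [this] at hy'
  have hwQ : m₃ * y' * m₃⁻¹ ∈ Q := ⟨_, hw, by simp [g₁]⟩
  have hcomm := (Subgroup.mem_centralizer_iff.mp huC) _ hwQ
  have hs3 : (m₃⁻¹ * u * m₃) * y' = y' * (m₃⁻¹ * u * m₃) := by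
    have h1 : (m₃⁻¹ * u * m₃) * y' = m₃⁻¹ * (u * (m₃ * y' * m₃⁻¹)) * m₃ := by group
    have h2 : y' * (m₃⁻¹ * u * m₃) = m₃⁻¹ * ((m₃ * y' * m₃⁻¹) * u) * m₃ := by group
    rw [h1, h2, hcomm]
  rw [hD]
  have := congrArg f hs3
  rw [map_mul f (m₃⁻¹ * u * m₃) (y' : G), map_mul f (y' : G) (m₃⁻¹ * u * m₃), hfs] at this
  exact this.symm

/-- The step for a factor that is a `π`-number. -/
theorem step_pi {π : Set ℕ} (hHom : Homog π G) (M T L : Subgroup G) [hMn : M.Normal] [hTn : T.Normal]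
    [hLn : L.Normal] (hT : ∀ y ∈ M, PiEl π y → y ∈ T) (hTM : T ≤ M) (hML : M ≤ L)
    (hTnum : PiNum π (Nat.card T)) (hidx : PiNum π (M.relIndex L))
    (hTel : ∀ t ∈ T, PiEl π t) :
    ∃ K : Subgroup G, K.Normal ∧ K ≤ L ∧ PiNum π (Nat.card K) ∧ ∀ x ∈ L, PiEl π x → x ∈ K := by
  classical
  set S : Set G := {x | x ∈ L ∧ PiEl π x} with hS
  set K : Subgroup G := Subgroup.closure S with hK
  have hSK : ∀ x ∈ L, PiEl π x → x ∈ K := fun x hx hp => Subgroup.subset_closure ⟨hx, hp⟩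
  have hKL : K ≤ L := (Subgroup.closure_le _).mpr fun x hx => hx.1
  have hTK : T ≤ K := fun t ht => hSK t (hML (hTM ht)) (hTel t ht)
  have hKn : K.Normal := by
    refine ⟨fun n hn g => ?_⟩
    induction hn using Subgroup.closure_induction with
    | mem x hx =>
      apply Subgroup.subset_closure
      refine ⟨hLn.conj_mem _ hx.1 _, ?_⟩
      intro p hp hpd
      apply hx.2 p hp
      have : orderOf (g * x * g⁻¹) = orderOf x := by
        rw [← MulAut.conj_apply, MulEquiv.orderOf_eq]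
      rwa [this] at hpd
    | one => simp [K.one_mem]
    | mul a b _ _ ha hb =>
      have : g * (a * b) * g⁻¹ = (g * a * g⁻¹) * (g * b * g⁻¹) := by group
      rw [this]; exact K.mul_mem ha hb
    | inv a _ ha =>
      have : g * a⁻¹ * g⁻¹ = (g * a * g⁻¹)⁻¹ := by group
      rw [this]; exact K.inv_mem ha
  -- elements of `K` centralize `M` modulo `T`
  set f := QuotientGroup.mk' T with hf
  let C : Subgroup G := (Subgroup.centralizer (f '' (M : Set G))).comap f
  have hC : ∀ g, g ∈ C ↔ ∀ m ∈ M, f m * f g = f g * f m := by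
    intro g
    show f g ∈ Subgroup.centralizer (f '' (M : Set G)) ↔ _
    rw [Subgroup.mem_centralizer_iff]
    constructor
    · intro h m hm
      exact h (f m) ⟨m, hm, rfl⟩
    · rintro h _ ⟨m, hm, rfl⟩
      exact h m hm
  have hKC : K ≤ C := by
    rw [hK, Subgroup.closure_le]
    rintro x ⟨-, hxp⟩
    refine mem_of_primary_powers C x fun a ha r hr ⟨k, hk⟩ => ?_
    by_cases h1 : a = 1
    · rw [h1]; exact C.one_mem
    have hrd : r ∣ orderOf a := by
      obtain ⟨n, -, hn⟩ := (Nat.dvd_prime_pow hr).mp (orderOf_dvd_of_pow_eq_one hk)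
      rw [hn]
      have : n ≠ 0 := by
        rintro rfl
        apply h1
        simpa [orderOf_eq_one_iff] using hn
      exact dvd_pow_self r this
    have hrπ : r ∈ π := hxp r hr (hrd.trans (orderOf_dvd_of_mem_zpowers ha))
    rw [hC]
    intro m hm
    have h2 := core hHom M T hT hr hrπ ⟨k, hk⟩ m hm
    have h3 : f (a * m * a⁻¹ * m⁻¹) = 1 := (QuotientGroup.eq_one_iff _).mpr h2
    simp only [map_mul, map_inv] at h3
    have h4 : f a * f m = f m * f a := by
      calc f a * f m = (f a * f m * (f a)⁻¹ * (f m)⁻¹) * (f m * f a) := by group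
        _ = f m * f a := by rw [h3, one_mul]
    exact h4.symm
  -- the quotient
  set N : Subgroup ↥K := M.subgroupOf K with hN
  let T' : Subgroup ↥K := T.subgroupOf K
  haveI hT'n : T'.Normal := Subgroup.normal_subgroupOf
  let φ : ↥K →* (↥K ⧸ T') := QuotientGroup.mk' T'
  have hφs : Function.Surjective φ := QuotientGroup.mk'_surjective T'
  let Z : Subgroup (↥K ⧸ T') := N.map φ
  have hφT : ∀ w : ↥K, φ w = 1 ↔ (w : G) ∈ T := fun w => by
    show ((w : ↥K ⧸ T') = 1) ↔ _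
    rw [QuotientGroup.eq_one_iff]
    rfl
  have hidx' : PiNum π (M.relIndex K) := by
    intro p hp hpd
    apply hidx p hp
    have h1 : M.relIndex K = M.relIndex (K ⊔ M) := (Subgroup.relIndex_sup_right K M).symm
    have h2 := Subgroup.relIndex_mul_relIndex M (K ⊔ M) L le_sup_right (sup_le hKL hML)
    rw [← h2, ← h1]
    exact hpd.trans (dvd_mul_right _ _)
  have hZidx : Z.index = M.relIndex K := by
    have := Subgroup.index_map (H := N) φ
    rw [show φ.range = ⊤ from MonoidHom.range_eq_top.mpr hφs, Subgroup.index_top, mul_one] at this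
    have hker : φ.ker ≤ N := by
      intro w hw
      have : φ w = 1 := hw
      rw [hφT] at this
      exact hTM this
    rw [sup_eq_left.mpr hker] at this
    exact this
  have hZp : ∀ p : ℕ, p.Prime → p ∣ Nat.card Z → p ∉ π := by
    intro p hp hpd hpπ
    haveI : Fact p.Prime := ⟨hp⟩
    obtain ⟨z, hz⟩ := exists_prime_orderOf_dvd_card' p hpd
    obtain ⟨n, hn, hnz⟩ := z.2
    obtain ⟨a, b, hab, ha, hb, ⟨k, hk⟩, hbc⟩ := exists_decomp n p hp
    have haN : a ∈ N := (Subgroup.zpowers_le.mpr hn) ha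
    have hak : ((a : ↥K) : G) ^ (p ^ k) = 1 := by
      have := congrArg (fun w : ↥K => (w : G)) hk
      simpa using this
    have haT : ((a : ↥K) : G) ∈ T := hT _ haN (piEl_of_pow_prime hp hpπ hak)
    have hφa : φ a = 1 := (hφT a).mpr haT
    have h1 : φ n = φ b := by rw [hab, map_mul, hφa, one_mul]
    have h2 : orderOf (z : ↥K ⧸ T') = p := by
      rw [Subgroup.orderOf_coe, hz]
    have h3 : p ∣ orderOf (φ b) := by
      rw [← h1, hnz, h2]
    have h4 : orderOf (φ b) ∣ orderOf b := orderOf_map_dvd _ _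
    have h5 := h3.trans h4
    exact hp.ne_one (hbc.symm.eq_one_of_dvd h5)
  have hZbot : Z = ⊥ := by
    refine eq_bot_of_central Z ?_ ?_ (φ '' (((↑) : ↥K → G) ⁻¹' S)) ?_ ?_
    · rintro _ ⟨n, hn, rfl⟩ x
      obtain ⟨w, rfl⟩ := hφs x
      rw [← map_mul, ← map_mul]
      have hw := (hC _).mp (hKC w.2) n hn
      have hw' : f ((n : G) * w) = f ((w : G) * n) := by rw [map_mul, map_mul, hw]
      have hw2 : ((n : G) * w)⁻¹ * ((w : G) * n) ∈ T := QuotientGroup.eq.mp hw'
      show ((n * w : ↥K) : ↥K ⧸ T') = ((w * n : ↥K) : ↥K ⧸ T')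
      rw [QuotientGroup.eq]
      show (((n * w : ↥K)⁻¹ * (w * n) : ↥K) : G) ∈ T
      simpa using hw2
    · apply Nat.coprime_of_dvd
      intro p hp h1 h2
      rw [hZidx] at h2
      exact hZp p hp h1 (hidx' p hp h2)
    · have hcl : Subgroup.closure (((↑) : ↥K → G) ⁻¹' S) = ⊤ := Subgroup.closure_closure_coe_preimage
      rw [← MonoidHom.map_closure, hcl, ← MonoidHom.range_eq_map]
      exact MonoidHom.range_eq_top.mpr hφs
    · rintro _ ⟨w, hw, rfl⟩
      apply Nat.coprime_of_dvd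
      intro p hp h1 h2
      have h3 : orderOf (φ w) ∣ orderOf w := orderOf_map_dvd _ _
      have h4 : p ∣ orderOf (w : G) := by
        rw [Subgroup.orderOf_coe]
        exact h1.trans h3
      exact hZp p hp h2 (hw.2 p hp h4)
  have hNT : ∀ w : ↥K, (w : G) ∈ M → (w : G) ∈ T := by
    intro w hw
    have : φ w ∈ Z := ⟨w, hw, rfl⟩
    rw [hZbot, Subgroup.mem_bot, hφT] at this
    exact this
  refine ⟨K, hKn, hKL, ?_, hSK⟩
  intro p hp hpd
  have hcard : Nat.card N * N.index = Nat.card K := N.card_mul_index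
  rw [← hcard] at hpd
  rcases hp.dvd_mul.mp hpd with h | h
  · apply hTnum p hp
    refine h.trans ?_
    have h1 : N.map K.subtype ≤ T := by
      rintro _ ⟨w, hw, rfl⟩
      exact hNT w hw
    have h2 : Nat.card (N.map K.subtype) = Nat.card N :=
      Subgroup.card_map_of_injective K.subtype_injective
    rw [← h2]
    exact Subgroup.card_dvd_of_le h1
  · exact hidx' p hp h

/-- Elements of a subgroup of `π`-order are `π`-elements. -/
theorem piEl_of_mem {π : Set ℕ} {K : Subgroup G} (hK : PiNum π (Nat.card K)) {x : G} (hx : x ∈ K) :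
    PiEl π x := by
  intro p hp hpd
  apply hK p hp
  refine hpd.trans ?_
  have := orderOf_dvd_natCard (⟨x, hx⟩ : K)
  rwa [Subgroup.orderOf_mk] at this

theorem backward_aux {π : Set ℕ} (hHom : Homog π G) (n : ℕ) (H : Fin (n + 1) → Subgroup G)
    (h0 : H 0 = ⊥) (hmono : Monotone H) (hnorm : ∀ i, (H i).Normal)
    (hfac : ∀ i : Fin n, (∀ q : ℕ, q.Prime → q ∣ (H i.castSucc).relIndex (H i.succ) → q ∈ π) ∨
        (∀ q : ℕ, q.Prime → q ∣ (H i.castSucc).relIndex (H i.succ) → q ∉ π)) (i : Fin (n + 1)) :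
    ∃ K : Subgroup G, K.Normal ∧ K ≤ H i ∧ PiNum π (Nat.card K) ∧ ∀ x ∈ H i, PiEl π x → x ∈ K := by
  induction i using Fin.induction with
  | zero =>
    refine ⟨⊥, inferInstance, bot_le, ?_, ?_⟩
    · intro p hp hpd
      rw [Subgroup.card_bot] at hpd
      exact absurd (Nat.dvd_one.mp hpd) hp.ne_one
    · intro x hx _
      rwa [h0] at hx
  | succ i ih =>
    obtain ⟨T, hTn, hTle, hTnum, hT⟩ := ih
    have hML : H i.castSucc ≤ H i.succ := hmono (Fin.castSucc_lt_succ).le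
    haveI := hnorm i.castSucc
    haveI := hnorm i.succ
    rcases hfac i with hq | hq
    · exact step_pi hHom (H i.castSucc) T (H i.succ) hT hTle hML hTnum hq (fun t ht => piEl_of_mem hTnum ht)
    · refine ⟨T, hTn, hTle.trans hML, hTnum, fun x hx hxp => hT x ?_ hxp⟩
      have h1 : (⟨x, hx⟩ : H i.succ) ^ ((H i.castSucc).subgroupOf (H i.succ)).index ∈
          (H i.castSucc).subgroupOf (H i.succ) := by
        haveI : ((H i.castSucc).subgroupOf (H i.succ)).Normal := Subgroup.normal_subgroupOf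
        exact Subgroup.pow_index_mem _ _
      rw [Subgroup.mem_subgroupOf] at h1
      simp only [SubgroupClass.coe_pow] at h1
      refine mem_of_pow_mem_of_coprime _ ?_ h1
      apply Nat.coprime_of_dvd
      intro p hp hp1 hp2
      exact hq p hp hp1 (hxp p hp hp2)

theorem backward {π : Set ℕ} (hHom : Homog π G) (n : ℕ) (H : Fin (n + 1) → Subgroup G)
    (h0 : H 0 = ⊥) (hlast : H (Fin.last n) = ⊤) (hmono : Monotone H) (hnorm : ∀ i, (H i).Normal)
    (hfac : ∀ i : Fin n, (∀ q : ℕ, q.Prime → q ∣ (H i.castSucc).relIndex (H i.succ) → q ∈ π) ∨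
        (∀ q : ℕ, q.Prime → q ∣ (H i.castSucc).relIndex (H i.succ) → q ∉ π)) :
    ∃ K : Subgroup G, ∀ x : G, x ∈ K ↔ PiEl π x := by
  obtain ⟨K, -, -, hnum, hK⟩ := backward_aux hHom n H h0 hmono hnorm hfac (Fin.last n)
  refine ⟨K, fun x => ⟨fun hx => piEl_of_mem hnum hx, fun hx => hK x ?_ hx⟩⟩
  rw [hlast]; trivial

theorem forward_normal {π : Set ℕ} (K : Subgroup G) (hK : ∀ x : G, x ∈ K ↔ PiEl π x) : K.Normal := by
  refine ⟨fun n hn g => ?_⟩
  rw [hK] at hn ⊢
  intro p hp hpd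
  apply hn p hp
  have : orderOf (g * n * g⁻¹) = orderOf n := by
    rw [← MulAut.conj_apply, MulEquiv.orderOf_eq]
  rwa [this] at hpd

theorem sylow_le {π : Set ℕ} (K : Subgroup G) (hK : ∀ x : G, x ∈ K ↔ PiEl π x) {q : ℕ} (hq : q.Prime)
    (hqπ : q ∈ π) {A : Subgroup G} (hA : IsPGroup q A) (hle : True) : A ≤ K := by
  intro x hx
  obtain ⟨n, hn⟩ := hA ⟨x, hx⟩
  have : x ^ (q ^ n) = 1 := by
    have := congrArg (fun w : A => (w : G)) hn
    simpa using this
  rw [hK]
  exact piEl_of_pow_prime hq hqπ this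

theorem forward_homog {π : Set ℕ} (K : Subgroup G) (hK : ∀ x : G, x ∈ K ↔ PiEl π x) : Homog π G := by
  intro H _ hH p hp hpd hpπ
  haveI : Fact p.Prime := ⟨hp⟩
  haveI hKn : K.Normal := forward_normal K hK
  set N := Subgroup.normalizer (H : Set G) with hN
  set C := Subgroup.centralizer (H : Set G) with hC
  obtain P : Sylow p ↥N := default
  have hle : (P : Subgroup ↥N) ≤ C.subgroupOf N := by
    intro u hu
    rw [Subgroup.mem_subgroupOf, hC, Subgroup.mem_centralizer_iff]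
    intro h hh
    have hu1 : (u : G) ∈ K := by
      obtain ⟨n, hn⟩ := P.isPGroup' ⟨u, hu⟩
      have : (u : G) ^ (p ^ n) = 1 := by
        have := congrArg (fun w : (P : Subgroup ↥N) => ((w : ↥N) : G)) hn
        simpa using this
      rw [hK]
      exact piEl_of_pow_prime hp hpπ this
    have hw1 : (u : G) * h * (u : G)⁻¹ * h⁻¹ ∈ H := by
      refine H.mul_mem ?_ (H.inv_mem hh)
      exact (Subgroup.mem_normalizer_iff.mp u.2 h).mp hh
    have hw2 : (u : G) * h * (u : G)⁻¹ * h⁻¹ ∈ K := by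
      have e : (u : G) * h * (u : G)⁻¹ * h⁻¹ = (u : G) * (h * (u : G)⁻¹ * h⁻¹) := by group
      rw [e]
      exact K.mul_mem hu1 (hKn.conj_mem _ (K.inv_mem hu1) h)
    have hw3 : (u : G) * h * (u : G)⁻¹ * h⁻¹ = 1 := by
      set w := (u : G) * h * (u : G)⁻¹ * h⁻¹ with hw
      by_contra hne
      have hne1 : orderOf w ≠ 1 := by rwa [Ne, orderOf_eq_one_iff]
      obtain ⟨q, hq, hqd⟩ := Nat.exists_prime_and_dvd hne1
      have h1 := (hK w).mp hw2 q hq hqd
      have h2 : orderOf w ∣ Nat.card H := by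
        have := orderOf_dvd_natCard (⟨w, hw1⟩ : H)
        rwa [Subgroup.orderOf_mk] at this
      exact hH q hq (hqd.trans h2) h1
    have : (u : G) * h = h * u := by
      calc (u : G) * h = ((u : G) * h * (u : G)⁻¹ * h⁻¹) * (h * u) := by group
        _ = h * u := by rw [hw3, one_mul]
    exact this.symm
  have h1 : (C.subgroupOf N).index ∣ (P : Subgroup ↥N).index := Subgroup.index_dvd_of_le hle
  exact P.not_dvd_index (hpd.trans h1)

theorem forward_chain {π : Set ℕ} (K : Subgroup G) (hK : ∀ x : G, x ∈ K ↔ PiEl π x) :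
    ∃ (n : ℕ) (H : Fin (n + 1) → Subgroup G), H 0 = ⊥ ∧ H (Fin.last n) = ⊤ ∧ Monotone H ∧ (∀ i, (H i).Normal) ∧
      ∀ i : Fin n, (∀ q : ℕ, q.Prime → q ∣ (H i.castSucc).relIndex (H i.succ) → q ∈ π) ∨
        (∀ q : ℕ, q.Prime → q ∣ (H i.castSucc).relIndex (H i.succ) → q ∉ π) := by
  haveI hKn : K.Normal := forward_normal K hK
  refine ⟨2, ![⊥, K, ⊤], rfl, rfl, ?_, ?_, ?_⟩
  · intro i j hij
    fin_cases i <;> fin_cases j <;> first | (simp; done) | (exfalso; revert hij; decide)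
  · intro i
    fin_cases i <;> simp <;> infer_instance
  · intro i
    fin_cases i
    · left
      intro q hq hqd
      have h1 : (⊥ : Subgroup G).relIndex K = Nat.card K := Subgroup.relIndex_bot_left K
      change q ∣ (⊥ : Subgroup G).relIndex K at hqd
      rw [h1] at hqd
      haveI : Fact q.Prime := ⟨hq⟩
      obtain ⟨z, hz⟩ := exists_prime_orderOf_dvd_card' q hqd
      have h2 := (hK (z : G)).mp z.2 q hq (by rw [Subgroup.orderOf_coe, hz])
      exact h2
    · right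
      intro q hq hqd hqπ
      change q ∣ K.relIndex ⊤ at hqd
      rw [Subgroup.relIndex_top_right] at hqd
      haveI : Fact q.Prime := ⟨hq⟩
      obtain P : Sylow q G := default
      have hle : (P : Subgroup G) ≤ K := sylow_le K hK hq hqπ P.isPGroup' trivial
      exact P.not_dvd_index (hqd.trans (Subgroup.index_dvd_of_le hle))

theorem main_iff {G : Type*} [Group G] [Finite G] (π : Set ℕ) :
    (∃ K : Subgroup G, ∀ x : G, x ∈ K ↔ ∀ p : ℕ, p.Prime → p ∣ orderOf x → p ∈ π) ↔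
    ((∃ (n : ℕ) (H : Fin (n + 1) → Subgroup G), H 0 = ⊥ ∧ H (Fin.last n) = ⊤ ∧ Monotone H ∧ (∀ i, (H i).Normal) ∧
      ∀ i : Fin n, (∀ q : ℕ, q.Prime → q ∣ (H i.castSucc).relIndex (H i.succ) → q ∈ π) ∨
        (∀ q : ℕ, q.Prime → q ∣ (H i.castSucc).relIndex (H i.succ) → q ∉ π)) ∧
     (∀ H : Subgroup G, H ≠ ⊥ → (∀ p : ℕ, p.Prime → p ∣ Nat.card ↥H → p ∉ π) →
        ∀ p : ℕ, p.Prime → p ∣ (Subgroup.centralizer (H : Set G)).relIndex (Subgroup.normalizer (H : Set G)) → p ∉ π)) := by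
  constructor
  · rintro ⟨K, hK⟩
    exact ⟨forward_chain K hK, forward_homog K hK⟩
  · rintro ⟨⟨n, H, h0, hlast, hmono, hnorm, hfac⟩, hHom⟩
    exact backward hHom n H h0 hlast hmono hnorm hfac

end Cfsg.Agent.Lib.Components.PiClosed
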