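import Mathlib
import Cfsg.Prelude.Def_HallClasses
import Cfsg.Agent.Lib.Coprime.Coset
import Cfsg.Agent.Lib.Coprime.SZ
import Cfsg.Agent.S4309

/-!
# Hall subgroups and extensions, modulo the Odd Order Theorem

`C_π` is closed under extensions and π-separable groups satisfy `D_π`.  Everything here takes the
Odd Order Theorem as a hypothesis `hFT`; only the conjugacy part of Schur--Zassenhaus uses it.
-/

set_option autoImplicit false

namespace Cfsg.Agent.Lib.Components.PiExt

open Cfsg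
open scoped Pointwise

set_option linter.unusedSectionVars false
set_option linter.style.haveILetI false

universe u

variable {G : Type u} [Group G] [Finite G]

/-- Odd order hypothesis, written once. -/
def OddSolv : Prop := ∀ (K : Type u) [Group K] [Finite K], Odd (Nat.card K) → Group.IsSolvable K

omit [Finite G] in
theorem card_map_conj (g : G) (H : Subgroup G) :
    Nat.card (H.map (MulAut.conj g).toMonoidHom) = Nat.card H :=
  Nat.card_congr (H.equivMapOfInjective _ (MulAut.conj g).injective).symm.toEquiv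

omit [Finite G] in
theorem index_map_conj (g : G) (H : Subgroup G) :
    (H.map (MulAut.conj g).toMonoidHom).index = H.index :=
  Subgroup.index_map_equiv H (MulAut.conj g)

omit [Finite G] in
theorem isPiHall_map_conj {π : Set ℕ} (g : G) {H : Subgroup G} (h : IsPiHall π H) :
    IsPiHall π (H.map (MulAut.conj g).toMonoidHom) := by
  refine ⟨?_, ?_⟩
  · rw [card_map_conj]; exact h.1
  · rw [index_map_conj]; exact h.2

/-- In a coprime pair of finite groups one of them is solvable. -/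
theorem solvable_of_coprime (hFT : OddSolv.{u}) {X Y : Type u} [Group X] [Finite X] [Group Y] [Finite Y]
    (h : (Nat.card X).Coprime (Nat.card Y)) : Group.IsSolvable X ∨ Group.IsSolvable Y := by
  by_cases hX : Odd (Nat.card X)
  · exact Or.inl (hFT X hX)
  · right
    apply hFT Y
    rw [Nat.not_odd_iff_even] at hX
    by_contra hY
    rw [Nat.not_odd_iff_even] at hY
    have := Nat.dvd_gcd hX.two_dvd hY.two_dvd
    rw [h] at this
    omega

/-- The order of a subgroup containing the kernel. -/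
theorem card_eq_card_map_mul (D Y : Subgroup G) [D.Normal] (h : D ≤ Y) :
    Nat.card Y = Nat.card (Y.map (QuotientGroup.mk' D)) * Nat.card D := by
  have := Cfsg.Agent.Lib.Coprime.SZ.card_map_mul_card_inf_ker (QuotientGroup.mk' D) Y
  rw [QuotientGroup.ker_mk', inf_eq_right.mpr h] at this
  exact this.symm

theorem index_map_mk (D Y : Subgroup G) [D.Normal] (h : D ≤ Y) :
    (Y.map (QuotientGroup.mk' D)).index = Y.index := by
  rw [Subgroup.index_map, QuotientGroup.ker_mk', sup_eq_left.mpr h]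
  simp [QuotientGroup.range_mk']

theorem card_mk_map_eq_relIndex (D B : Subgroup G) [D.Normal] (hDB : D ≤ B) :
    Nat.card (B.map (QuotientGroup.mk' D)) = D.relIndex B := by
  have h1 := card_eq_card_map_mul D B hDB
  have h2 : Nat.card D * D.relIndex B = Nat.card B := by
    rw [Subgroup.relIndex, ← Nat.card_congr (Subgroup.subgroupOfEquivOfLe hDB).toEquiv,
      Subgroup.card_mul_index]
  have hpos : 0 < Nat.card D := Nat.card_pos
  apply Nat.eq_of_mul_eq_mul_left hpos
  rw [h2, h1, mul_comm]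

/-- Complements modulo a normal subgroup `D ≤ B`: existence. -/
theorem exists_rel_complement {D B : Subgroup G} [D.Normal] [B.Normal]
    (hDB : D ≤ B) (hcop : (D.relIndex B).Coprime B.index) :
    ∃ Y : Subgroup G, D ≤ Y ∧ Nat.card Y = Nat.card D * B.index := by
  set B' : Subgroup (G ⧸ D) := B.map (QuotientGroup.mk' D) with hB'
  have hcardB' : Nat.card B' = D.relIndex B := card_mk_map_eq_relIndex D B hDB
  have hidxB' : B'.index = B.index := index_map_mk D B hDB
  obtain ⟨H', hH'⟩ := Subgroup.exists_right_complement'_of_coprime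
    (N := B') (by rw [hcardB', hidxB']; exact hcop)
  have hc : Nat.card H' = B.index := by
    rw [← hidxB']; exact hH'.symm.index_eq_card.symm
  have hDY : D ≤ H'.comap (QuotientGroup.mk' D) := by
    intro x hx
    have : (QuotientGroup.mk' D x) = 1 := (QuotientGroup.eq_one_iff x).mpr hx
    simp [Subgroup.mem_comap, this]
  refine ⟨H'.comap (QuotientGroup.mk' D), hDY, ?_⟩
  rw [card_eq_card_map_mul D _ hDY, Subgroup.map_comap_eq_self_of_surjective
    (QuotientGroup.mk'_surjective D), hc, mul_comm]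

/-- Complements modulo a normal subgroup `D ≤ B`: conjugacy. -/
theorem conj_rel_complement (hFT : OddSolv.{u}) {D B : Subgroup G} [D.Normal] [B.Normal]
    (hDB : D ≤ B) (hcop : (D.relIndex B).Coprime B.index) {Y Y' : Subgroup G}
    (hY : D ≤ Y) (hY' : D ≤ Y') (hc : Nat.card Y = Nat.card D * B.index)
    (hc' : Nat.card Y' = Nat.card D * B.index) :
    ∃ g : G, Y.map (MulAut.conj g).toMonoidHom = Y' := by
  set B' : Subgroup (G ⧸ D) := B.map (QuotientGroup.mk' D) with hB'
  have hcardB' : Nat.card B' = D.relIndex B := card_mk_map_eq_relIndex D B hDB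
  have hidxB' : B'.index = B.index := index_map_mk D B hDB
  have hcop' : (Nat.card B').Coprime B'.index := by rw [hcardB', hidxB']; exact hcop
  haveI hB'n : B'.Normal := Subgroup.Normal.map ‹_› _ (QuotientGroup.mk'_surjective D)
  have hsolv : Group.IsSolvable B' ∨ Group.IsSolvable ((G ⧸ D) ⧸ B') := by
    apply solvable_of_coprime hFT
    rw [← Subgroup.index_eq_card]
    exact hcop'
  have hpos : 0 < Nat.card D := Nat.card_pos
  have e1 : Nat.card (Y.map (QuotientGroup.mk' D)) = B'.index := by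
    apply Nat.eq_of_mul_eq_mul_right hpos
    rw [← card_eq_card_map_mul D Y hY, hc, hidxB', mul_comm]
  have e2 : Nat.card (Y'.map (QuotientGroup.mk' D)) = B'.index := by
    apply Nat.eq_of_mul_eq_mul_right hpos
    rw [← card_eq_card_map_mul D Y' hY', hc', hidxB', mul_comm]
  obtain ⟨x, hx⟩ := Cfsg.Agent.Lib.Coprime.SZ.conj_of_solvable B' hcop' hsolv _ _ e1 e2
  obtain ⟨g, rfl⟩ := QuotientGroup.mk'_surjective D x
  refine ⟨g, ?_⟩
  apply le_antisymm
  · rintro _ ⟨y, hy, rfl⟩
    have h1 : QuotientGroup.mk' D ((MulAut.conj g).toMonoidHom y) ∈ Y'.map (QuotientGroup.mk' D) := by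
      rw [← hx]
      refine ⟨QuotientGroup.mk' D y, ⟨y, hy, rfl⟩, ?_⟩
      simp [MulAut.smul_def]
    obtain ⟨z, hz, hzz⟩ := h1
    have : z⁻¹ * ((MulAut.conj g).toMonoidHom y) ∈ D := by
      rw [← QuotientGroup.eq_one_iff, ← QuotientGroup.mk'_apply, map_mul, map_inv, hzz]
      exact inv_mul_cancel _
    have h3 := Y'.mul_mem hz (hY' this)
    simpa using h3
  · intro y hy
    have h1 : QuotientGroup.mk' D y ∈ (MulAut.conj (QuotientGroup.mk' D g)) • Y.map (QuotientGroup.mk' D) := by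
      rw [hx]; exact ⟨y, hy, rfl⟩
    obtain ⟨z, ⟨w, hw, rfl⟩, hzz⟩ := h1
    refine ⟨g⁻¹ * y * g, ?_, by simp [MulAut.conj_apply]; group⟩
    have : w⁻¹ * (g⁻¹ * y * g) ∈ D := by
      rw [← QuotientGroup.eq_one_iff, ← QuotientGroup.mk'_apply]
      simp only [map_mul, map_inv]
      have : QuotientGroup.mk' D y = QuotientGroup.mk' D g * QuotientGroup.mk' D w * (QuotientGroup.mk' D g)⁻¹ := by
        rw [← hzz]; rfl
      rw [this]; group
    have h3 := Y.mul_mem hw (hY this)
    simpa using h3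

omit [Finite G] in
theorem map_conj_map_conj (a b : G) (H : Subgroup G) :
    (H.map (MulAut.conj b).toMonoidHom).map (MulAut.conj a).toMonoidHom
      = H.map (MulAut.conj (a * b)).toMonoidHom := by
  rw [Subgroup.map_map]
  congr 1
  ext x
  simp [MulAut.conj_apply, mul_assoc]

theorem coprime_of_primes' {π : Set ℕ} {a b : ℕ} (ha : ∀ p : ℕ, p.Prime → p ∣ a → p ∉ π)
    (hb : ∀ p : ℕ, p.Prime → p ∣ b → p ∈ π) : a.Coprime b := by
  apply Nat.Coprime.symm
  apply Nat.coprime_of_dvd
  intro p hp h1 h2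
  exact ha p hp h2 (hb p hp h1)

/-- The relative index of `D'`, `B'` in a subgroup `N`. -/
theorem relIndex_subgroupOf_dvd {D A N : Subgroup G} (hDA : D ≤ A) (hDN : D ≤ N) :
    (D.subgroupOf N).relIndex (A.subgroupOf N) ∣ D.relIndex A := by
  have h1 : A.subgroupOf N = (A ⊓ N).subgroupOf N := by
    rw [Subgroup.inf_subgroupOf_right]
  rw [h1, Subgroup.relIndex_subgroupOf inf_le_right]
  exact ⟨(A ⊓ N).relIndex A, (Subgroup.relIndex_mul_relIndex D (A ⊓ N) A (le_inf hDA hDN) inf_le_left).symm⟩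

/-- Existence of Hall subgroups in extensions. -/
theorem exists_hall_ext {π : Set ℕ} (A : Subgroup G) [A.Normal]
    (hA : IsCPiGroup π ↥A) (hQ : IsEPiGroup π (G ⧸ A)) : ∃ K : Subgroup G, IsPiHall π K := by
  obtain ⟨⟨HA, hHA⟩, hconj⟩ := hA
  obtain ⟨Mb, hMb⟩ := hQ
  set D : Subgroup G := HA.map A.subtype with hD
  have hDA : D ≤ A := by
    rintro _ ⟨x, _, rfl⟩; exact x.2
  have hcD : Nat.card D = Nat.card HA :=
    (Nat.card_congr (HA.equivMapOfInjective _ A.subtype_injective).toEquiv).symm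
  have hsub : D.subgroupOf A = HA := Subgroup.comap_map_eq_self_of_injective A.subtype_injective HA
  set M : Subgroup G := Mb.comap (QuotientGroup.mk' A) with hM
  have hAM : A ≤ M := by
    intro x hx
    have : (QuotientGroup.mk' A x) = 1 := (QuotientGroup.eq_one_iff x).mpr hx
    simp [hM, Subgroup.mem_comap, this]
  have hMmap : M.map (QuotientGroup.mk' A) = Mb :=
    Subgroup.map_comap_eq_self_of_surjective (QuotientGroup.mk'_surjective A) _
  set N0 : Subgroup G := Subgroup.normalizer (D : Set G) ⊓ M with hN0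
  have hDN0 : D ≤ N0 := le_inf Subgroup.le_normalizer (hDA.trans hAM)
  -- Frattini
  have hfrat : A ⊔ N0 = M := by
    apply le_antisymm (sup_le hAM inf_le_right)
    intro m hm
    have hle : D.map (MulAut.conj m).toMonoidHom ≤ A := by
      rintro _ ⟨d, hd, rfl⟩
      exact ‹A.Normal›.conj_mem d (hDA hd) m
    have hcm : Nat.card (D.map (MulAut.conj m).toMonoidHom) = Nat.card HA := by
      rw [card_map_conj, hcD]
    set H' : Subgroup A := (D.map (MulAut.conj m).toMonoidHom).subgroupOf A with hH'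
    have hcH' : Nat.card H' = Nat.card HA := by
      rw [← hcm]
      exact Nat.card_congr (Subgroup.subgroupOfEquivOfLe hle).toEquiv
    have hiH' : H'.index = HA.index := by
      have h1 := Subgroup.card_mul_index H'
      have h2 := Subgroup.card_mul_index HA
      rw [hcH'] at h1
      have hpos : 0 < Nat.card HA := Nat.card_pos
      exact Nat.eq_of_mul_eq_mul_left hpos (h1.trans h2.symm)
    have hhall : IsPiHall π H' := ⟨by rw [hcH']; exact hHA.1, by rw [hiH']; exact hHA.2⟩
    obtain ⟨a, ha⟩ := hconj HA H' hHA hhall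
    have hmaps : D.map (MulAut.conj m).toMonoidHom = D.map (MulAut.conj a.1).toMonoidHom := by
      have h1 : (H'.map A.subtype) = D.map (MulAut.conj m).toMonoidHom := by
        rw [hH']
        exact Subgroup.map_subgroupOf_eq_of_le hle
      rw [← h1, ha, hD]
      ext x
      simp only [Subgroup.mem_map]
      constructor
      · rintro ⟨_, ⟨y, hy, rfl⟩, rfl⟩
        exact ⟨y.1, ⟨y, hy, rfl⟩, by simp [MulAut.conj_apply]⟩
      · rintro ⟨_, ⟨y, hy, rfl⟩, rfl⟩
        exact ⟨_, ⟨y, hy, rfl⟩, by simp [MulAut.conj_apply]⟩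
    have hnorm : a.1⁻¹ * m ∈ Subgroup.normalizer (D : Set G) := by
      rw [Subgroup.mem_normalizer_iff]
      intro y
      constructor
      · intro hy
        have h1 : m * y * m⁻¹ ∈ D.map (MulAut.conj a.1).toMonoidHom := by
          rw [← hmaps]; exact ⟨y, hy, by simp [MulAut.conj_apply]⟩
        obtain ⟨z, hz, hzz⟩ := h1
        have : a.1 * z * a.1⁻¹ = m * y * m⁻¹ := by simpa [MulAut.conj_apply] using hzz
        have h2 : a.1⁻¹ * m * y * (a.1⁻¹ * m)⁻¹ = z := by
          have : z = a.1⁻¹ * (m * y * m⁻¹) * a.1 := by rw [← this]; group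
          rw [this]; group
        show a.1⁻¹ * m * y * (a.1⁻¹ * m)⁻¹ ∈ D
        rw [h2]; exact hz
      · intro hy
        have hy' : a.1⁻¹ * m * y * (a.1⁻¹ * m)⁻¹ ∈ D := hy
        have h1 : a.1 * (a.1⁻¹ * m * y * (a.1⁻¹ * m)⁻¹) * a.1⁻¹ ∈ D.map (MulAut.conj m).toMonoidHom := by
          rw [hmaps]; exact ⟨_, hy', by simp [MulAut.conj_apply]⟩
        obtain ⟨z, hz, hzz⟩ := h1
        have h3 : m * z * m⁻¹ = m * y * m⁻¹ := by
          have : (MulAut.conj m).toMonoidHom z = m * z * m⁻¹ := by simp [MulAut.conj_apply]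
          rw [← this, hzz]; group
        have : z = y := by simpa using h3
        exact this ▸ hz
    have hm2 : a.1⁻¹ * m ∈ N0 := ⟨hnorm, M.mul_mem (M.inv_mem (hAM a.2)) hm⟩
    have : m = a.1 * (a.1⁻¹ * m) := by group
    rw [this]
    exact Subgroup.mul_mem _ ((le_sup_left : A ≤ A ⊔ N0) a.2) ((le_sup_right : N0 ≤ A ⊔ N0) hm2)
  -- work inside `N0`
  set D' : Subgroup N0 := D.subgroupOf N0 with hD'
  set B' : Subgroup N0 := A.subgroupOf N0 with hB'
  have hcD' : Nat.card D' = Nat.card HA := by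
    rw [← hcD]; exact Nat.card_congr (Subgroup.subgroupOfEquivOfLe hDN0).toEquiv
  haveI : D'.Normal := Subgroup.normal_subgroupOf_of_le_normalizer inf_le_left
  haveI : B'.Normal := inferInstance
  have hDB' : D' ≤ B' := fun x hx => hDA hx
  have hiB' : B'.index = Nat.card Mb := by
    have h1 : B'.index = A.relIndex N0 := rfl
    rw [h1, ← Subgroup.relIndex_sup_right, sup_comm, hfrat, ← hMmap, card_mk_map_eq_relIndex A M hAM]
  have hcop : (D'.relIndex B').Coprime B'.index := by
    apply coprime_of_primes' (π := π)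
    · intro p hp hd hpi
      have h1 := relIndex_subgroupOf_dvd hDA hDN0
      have h2 : D.relIndex A = HA.index := by rw [Subgroup.relIndex, hsub]
      rw [h2] at h1
      exact hHA.2 p hp hpi (hd.trans h1)
    · intro p hp hd
      rw [hiB'] at hd
      exact hMb.1 p hp hd
  obtain ⟨Y, hDY, hcY⟩ := exists_rel_complement hDB' hcop
  refine ⟨Y.map N0.subtype, ?_, ?_⟩
  all_goals
    have hcK : Nat.card (Y.map N0.subtype) = Nat.card HA * Nat.card Mb := by
      rw [← hcD', ← hiB', ← hcY]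
      exact (Nat.card_congr (Y.equivMapOfInjective _ N0.subtype_injective).toEquiv).symm
  · intro p hp hd
    rw [hcK] at hd
    rcases (Nat.Prime.dvd_mul hp).mp hd with h | h
    · exact hHA.1 p hp h
    · exact hMb.1 p hp h
  · intro p hp hpi hd
    have h1 := Subgroup.card_mul_index (Y.map N0.subtype)
    have h2 := Subgroup.card_mul_index A
    have h3 := Subgroup.card_mul_index HA
    have h4 := Subgroup.card_mul_index Mb
    have h5 : Nat.card (G ⧸ A) = A.index := rfl
    have h6 : Nat.card G = Nat.card A * A.index := (Subgroup.card_mul_index A).symm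
    rw [hcK] at h1
    have h7 : (Nat.card HA * Nat.card Mb) * (Y.map N0.subtype).index
        = (Nat.card HA * Nat.card Mb) * (HA.index * Mb.index) := by
      rw [h1, h6, ← h3, ← h5, ← h4]; ring
    have hpos : 0 < Nat.card HA * Nat.card Mb := Nat.mul_pos Nat.card_pos Nat.card_pos
    have h8 := Nat.eq_of_mul_eq_mul_left hpos h7
    rw [h8] at hd
    rcases (Nat.Prime.dvd_mul hp).mp hd with h | h
    · exact hHA.2 p hp hpi h
    · exact hMb.2 p hp hpi h

omit [Finite G] in
theorem map_mk_conj (A : Subgroup G) [A.Normal] (g : G) (H : Subgroup G) :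
    (H.map (MulAut.conj g).toMonoidHom).map (QuotientGroup.mk' A)
      = (H.map (QuotientGroup.mk' A)).map (MulAut.conj (QuotientGroup.mk' A g)).toMonoidHom := by
  rw [Subgroup.map_map, Subgroup.map_map]
  congr 1

/-- Conjugacy of Hall subgroups in extensions. -/
theorem conj_hall_ext (hFT : OddSolv.{u}) {π : Set ℕ} (A : Subgroup G) [A.Normal]
    (hA : IsCPiGroup π ↥A) (hQ : IsCPiGroup π (G ⧸ A)) (H K : Subgroup G)
    (hH : IsPiHall π H) (hK : IsPiHall π K) :
    ∃ g : G, K = H.map (MulAut.conj g).toMonoidHom := by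
  obtain ⟨_, hconjA⟩ := hA
  obtain ⟨_, hconjQ⟩ := hQ
  have hH0 := Cfsg.Agent.S4309.result π H A hH
  have hK0 := Cfsg.Agent.S4309.result π K A hK
  obtain ⟨x, hx⟩ := hconjQ _ _ hH0.2 hK0.2
  obtain ⟨g, rfl⟩ := QuotientGroup.mk'_surjective A x
  set H₁ : Subgroup G := H.map (MulAut.conj g).toMonoidHom with hH₁def
  have hH₁ : IsPiHall π H₁ := isPiHall_map_conj g hH
  have hH₁m : H₁.map (QuotientGroup.mk' A) = K.map (QuotientGroup.mk' A) := by
    rw [hx, hH₁def, map_mk_conj]
  have hH₁0 := Cfsg.Agent.S4309.result π H₁ A hH₁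
  obtain ⟨a, ha⟩ := hconjA _ _ hH₁0.1 hK0.1
  set H₂ : Subgroup G := H₁.map (MulAut.conj a.1).toMonoidHom with hH₂def
  have hH₂inf : H₂ ⊓ A = K ⊓ A := by
    ext y
    constructor
    · rintro ⟨⟨h, hh, rfl⟩, hyA⟩
      have hhA : h ∈ A := by
        have := ‹A.Normal›.conj_mem _ hyA a.1⁻¹
        simpa [MulAut.conj_apply, mul_assoc] using this
      have hmem : (⟨h, hhA⟩ : A) ∈ (H₁ ⊓ A).subgroupOf A := ⟨hh, hhA⟩
      have h2 : (MulAut.conj a).toMonoidHom ⟨h, hhA⟩ ∈ (K ⊓ A).subgroupOf A := by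
        rw [ha]; exact ⟨_, hmem, rfl⟩
      exact h2
    · intro hy
      have hmem : (⟨y, hy.2⟩ : A) ∈ (K ⊓ A).subgroupOf A := hy
      rw [ha] at hmem
      obtain ⟨z, hz, hzz⟩ := hmem
      have hzz' : a.1 * z.1 * a.1⁻¹ = y := by
        have := congrArg Subtype.val hzz
        simpa [MulAut.conj_apply] using this
      refine ⟨⟨z.1, hz.1, ?_⟩, hy.2⟩
      simpa [MulAut.conj_apply] using hzz'
  have hH₂m : H₂.map (QuotientGroup.mk' A) = K.map (QuotientGroup.mk' A) := by
    rw [hH₂def, map_mk_conj, ← hH₁m]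
    have h1 : QuotientGroup.mk' A a.1 = 1 := (QuotientGroup.eq_one_iff _).mpr a.2
    have h2 : (MulAut.conj (1 : G ⧸ A)).toMonoidHom = MonoidHom.id _ := by
      ext y; simp [MulAut.conj_apply]
    rw [h1, h2, Subgroup.map_id]
  set D : Subgroup G := K ⊓ A with hD
  set N0 : Subgroup G := Subgroup.normalizer (D : Set G) ⊓ (K ⊔ A) with hN0
  have hKnorm : K ≤ Subgroup.normalizer (D : Set G) :=
    Cfsg.Agent.Lib.Coprime.SZ.le_normalizer_inf_normal K A
  have hH₂norm : H₂ ≤ Subgroup.normalizer (D : Set G) := by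
    rw [← hH₂inf]
    exact Cfsg.Agent.Lib.Coprime.SZ.le_normalizer_inf_normal H₂ A
  have hKN0 : K ≤ N0 := le_inf hKnorm le_sup_left
  have hH₂N0 : H₂ ≤ N0 := by
    refine le_inf hH₂norm ?_
    intro y hy
    have h1 : QuotientGroup.mk' A y ∈ K.map (QuotientGroup.mk' A) := by
      rw [← hH₂m]; exact ⟨y, hy, rfl⟩
    obtain ⟨k, hk, hkk⟩ := h1
    have h2 : k⁻¹ * y ∈ A := by
      rw [← QuotientGroup.eq_one_iff, ← QuotientGroup.mk'_apply, map_mul, map_inv, ← hkk]
      exact inv_mul_cancel _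
    have : y = k * (k⁻¹ * y) := by group
    rw [this]
    exact Subgroup.mul_mem _ ((le_sup_left : K ≤ K ⊔ A) hk) ((le_sup_right : A ≤ K ⊔ A) h2)
  have hDK : D ≤ K := inf_le_left
  have hDA : D ≤ A := inf_le_right
  have hDN0 : D ≤ N0 := hDK.trans hKN0
  have hDH₂ : D ≤ H₂ := by
    rw [← hH₂inf]; exact inf_le_left
  set D' : Subgroup N0 := D.subgroupOf N0 with hD'
  set B' : Subgroup N0 := A.subgroupOf N0 with hB'
  haveI : D'.Normal := Subgroup.normal_subgroupOf_of_le_normalizer inf_le_left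
  haveI : B'.Normal := inferInstance
  have hDB' : D' ≤ B' := fun x hx => hDA hx
  have hcD' : Nat.card D' = Nat.card D :=
    Nat.card_congr (Subgroup.subgroupOfEquivOfLe hDN0).toEquiv
  have hsupN : N0 ⊔ A = K ⊔ A :=
    le_antisymm (sup_le inf_le_right le_sup_right) (sup_le_sup_right hKN0 A)
  have hmapsup : (K ⊔ A).map (QuotientGroup.mk' A) = K.map (QuotientGroup.mk' A) := by
    rw [Subgroup.map_sup]
    have : A.map (QuotientGroup.mk' A) = ⊥ := by
      rw [eq_bot_iff]
      rintro _ ⟨y, hy, rfl⟩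
      exact (Subgroup.mem_bot).mpr ((QuotientGroup.eq_one_iff _).mpr hy)
    rw [this, sup_bot_eq]
  have hiB' : B'.index = Nat.card (K.map (QuotientGroup.mk' A)) := by
    have h1 : B'.index = A.relIndex N0 := rfl
    rw [h1, ← Subgroup.relIndex_sup_right, hsupN, ← hmapsup,
      card_mk_map_eq_relIndex A (K ⊔ A) le_sup_right]
  have hcop : (D'.relIndex B').Coprime B'.index := by
    apply coprime_of_primes' (π := π)
    · intro p hp hd hpi
      have h1 := relIndex_subgroupOf_dvd hDA hDN0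
      exact hK0.1.2 p hp hpi (hd.trans h1)
    · intro p hp hd
      rw [hiB'] at hd
      exact hK0.2.1 p hp hd
  have hcK : Nat.card K = Nat.card D * Nat.card (K.map (QuotientGroup.mk' A)) := by
    have := Cfsg.Agent.Lib.Coprime.SZ.card_map_mul_card_inf_ker (QuotientGroup.mk' A) K
    rw [QuotientGroup.ker_mk'] at this
    rw [mul_comm, this]
  have hcH₂ : Nat.card H₂ = Nat.card D * Nat.card (K.map (QuotientGroup.mk' A)) := by
    have := Cfsg.Agent.Lib.Coprime.SZ.card_map_mul_card_inf_ker (QuotientGroup.mk' A) H₂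
    rw [QuotientGroup.ker_mk', hH₂inf, hH₂m] at this
    rw [mul_comm, this]
  obtain ⟨g', hg'⟩ := conj_rel_complement hFT hDB' hcop (Y := H₂.subgroupOf N0) (Y' := K.subgroupOf N0)
    (fun x hx => hDH₂ hx) (fun x hx => hDK hx)
    (by
      rw [hcD', hiB', ← hcH₂]
      exact Nat.card_congr (Subgroup.subgroupOfEquivOfLe hH₂N0).toEquiv)
    (by
      rw [hcD', hiB', ← hcK]
      exact Nat.card_congr (Subgroup.subgroupOfEquivOfLe hKN0).toEquiv)
  refine ⟨g'.1 * (a.1 * g), ?_⟩
  rw [← map_conj_map_conj, ← map_conj_map_conj]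
  apply le_antisymm
  · intro k hk
    have h1 : (⟨k, hKN0 hk⟩ : N0) ∈ K.subgroupOf N0 := hk
    rw [← hg'] at h1
    obtain ⟨z, hz, hzz⟩ := h1
    refine ⟨z.1, hz, ?_⟩
    have := congrArg Subtype.val hzz
    simpa [MulAut.conj_apply] using this
  · rintro _ ⟨y, hy, rfl⟩
    have h1 : (⟨y, hH₂N0 hy⟩ : N0) ∈ H₂.subgroupOf N0 := hy
    have h2 : (MulAut.conj g').toMonoidHom ⟨y, hH₂N0 hy⟩ ∈ K.subgroupOf N0 := by
      rw [← hg']; exact ⟨_, h1, rfl⟩
    exact h2

/-- `C_π` is closed under extensions. -/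
theorem isCPi_ext (hFT : OddSolv.{u}) {π : Set ℕ} (A : Subgroup G) [A.Normal]
    (hA : IsCPiGroup π ↥A) (hQ : IsCPiGroup π (G ⧸ A)) : IsCPiGroup π G :=
  ⟨exists_hall_ext A hA hQ.1, fun H K hH hK => conj_hall_ext hFT A hA hQ H K hH hK⟩

/-- Every π-subgroup lies in a Hall π-subgroup. -/
def HallCover (π : Set ℕ) (X : Type u) [Group X] : Prop :=
  ∀ U : Subgroup X, (∀ q : ℕ, q.Prime → q ∣ Nat.card U → q ∈ π) → ∃ K : Subgroup X, IsPiHall π K ∧ U ≤ K

omit [Finite G] in
theorem map_mk_sup_self (N U : Subgroup G) [N.Normal] :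
    (N ⊔ U).map (QuotientGroup.mk' N) = U.map (QuotientGroup.mk' N) := by
  rw [Subgroup.map_sup]
  have : N.map (QuotientGroup.mk' N) = ⊥ := by
    rw [eq_bot_iff]
    rintro _ ⟨y, hy, rfl⟩
    exact (Subgroup.mem_bot).mpr ((QuotientGroup.eq_one_iff _).mpr hy)
  rw [this, bot_sup_eq]

/-- A complement of a normal Hall subgroup containing a given subgroup of coprime order. -/
theorem exists_complement_containing (hFT : OddSolv.{u}) (N U : Subgroup G) [N.Normal]
    (hcop : (Nat.card N).Coprime N.index) (hU : (Nat.card U).Coprime (Nat.card N)) :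
    ∃ Y : Subgroup G, U ≤ Y ∧ Nat.card Y = N.index := by
  obtain ⟨Y₀, hY₀⟩ := Subgroup.exists_right_complement'_of_coprime hcop
  have hcY₀ : Nat.card Y₀ = N.index := hY₀.symm.index_eq_card.symm
  set Z : Subgroup G := Y₀ ⊓ (N ⊔ U) with hZ
  have hUZ : U ≤ N ⊔ Z := by
    intro u hu
    obtain ⟨⟨n, y⟩, hny⟩ := hY₀.2 u
    have hny' : n.1 * y.1 = u := hny
    have hyZ : y.1 ∈ Z := by
      refine ⟨y.2, ?_⟩
      have : y.1 = n.1⁻¹ * u := by rw [← hny']; group
      rw [this]
      exact Subgroup.mul_mem _ ((le_sup_left : N ≤ N ⊔ U) (N.inv_mem n.2)) ((le_sup_right : U ≤ N ⊔ U) hu)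
    rw [← hny']
    exact Subgroup.mul_mem _ ((le_sup_left : N ≤ N ⊔ Z) n.2) ((le_sup_right : Z ≤ N ⊔ Z) hyZ)
  have hZU : Z ≤ N ⊔ U := inf_le_right
  have hm1 : U.map (QuotientGroup.mk' N) = Z.map (QuotientGroup.mk' N) := by
    apply le_antisymm
    · rw [← map_mk_sup_self N Z]; exact Subgroup.map_mono hUZ
    · rw [← map_mk_sup_self N U]; exact Subgroup.map_mono hZU
  have hcZdvd : Nat.card Z ∣ N.index := by
    rw [← hcY₀]; exact Subgroup.card_dvd_of_le inf_le_left
  have hcopZ : (Nat.card Z).Coprime (Nat.card N) :=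
    Nat.Coprime.coprime_dvd_left hcZdvd hcop.symm
  have hcZ : Nat.card U = Nat.card Z := by
    have h1 := Cfsg.Agent.Lib.Coprime.SZ.card_map_of_disjoint_ker (QuotientGroup.mk' N) U
      (by
        rw [QuotientGroup.ker_mk']
        exact Cfsg.Agent.Lib.Coprime.SZ.inf_eq_bot_of_coprime_card hU)
    have h2 := Cfsg.Agent.Lib.Coprime.SZ.card_map_of_disjoint_ker (QuotientGroup.mk' N) Z
      (by
        rw [QuotientGroup.ker_mk']
        exact Cfsg.Agent.Lib.Coprime.SZ.inf_eq_bot_of_coprime_card hcopZ)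
    rw [← h1, ← h2, hm1]
  have hsolv : Group.IsSolvable Z ∨ Group.IsSolvable N := solvable_of_coprime hFT hcopZ
  have hnorm : Z ≤ Subgroup.normalizer (N : Set G) := by
    rw [Subgroup.normalizer_eq_top]; exact le_top
  obtain ⟨n, _, hn⟩ := Cfsg.Agent.Lib.Coprime.Coset.exists_conj_eq_of_card_eq hnorm hcopZ hsolv hUZ hcZ
  refine ⟨Y₀.map (MulAut.conj n).toMonoidHom, ?_, by rw [card_map_conj, hcY₀]⟩
  rw [← hn]
  exact Subgroup.map_mono inf_le_left

theorem hallCover_of_quotient (hFT : OddSolv.{u}) {π : Set ℕ} (N : Subgroup G) [N.Normal]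
    (hN : (∀ q : ℕ, q.Prime → q ∣ Nat.card N → q ∈ π) ∨ (∀ q : ℕ, q.Prime → q ∣ Nat.card N → q ∉ π))
    (hQ : HallCover π (G ⧸ N)) : HallCover π G := by
  intro U hU
  obtain ⟨Kb, hKb, hUKb⟩ := hQ (U.map (QuotientGroup.mk' N))
    (fun q hq hd => hU q hq (hd.trans (Subgroup.card_map_dvd _ _)))
  set X : Subgroup G := Kb.comap (QuotientGroup.mk' N) with hX
  have hNX : N ≤ X := by
    intro x hx
    have : (QuotientGroup.mk' N x) = 1 := (QuotientGroup.eq_one_iff x).mpr hx
    simp [hX, Subgroup.mem_comap, this]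
  have hUX : U ≤ X := Subgroup.map_le_iff_le_comap.mp hUKb
  have hXmap : X.map (QuotientGroup.mk' N) = Kb :=
    Subgroup.map_comap_eq_self_of_surjective (QuotientGroup.mk'_surjective N) _
  have hcX : Nat.card X = Nat.card Kb * Nat.card N := by
    rw [card_eq_card_map_mul N X hNX, hXmap]
  have hiX : X.index = Kb.index :=
    Subgroup.index_comap_of_surjective Kb (QuotientGroup.mk'_surjective N)
  rcases hN with hN | hN
  · refine ⟨X, ⟨?_, ?_⟩, hUX⟩
    · intro p hp hd
      rw [hcX] at hd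
      rcases (Nat.Prime.dvd_mul hp).mp hd with h | h
      · exact hKb.1 p hp h
      · exact hN p hp h
    · rw [hiX]; exact hKb.2
  · set N' : Subgroup X := N.subgroupOf X with hN'
    set U' : Subgroup X := U.subgroupOf X with hU'
    have hcN' : Nat.card N' = Nat.card N :=
      Nat.card_congr (Subgroup.subgroupOfEquivOfLe hNX).toEquiv
    have hcU' : Nat.card U' = Nat.card U :=
      Nat.card_congr (Subgroup.subgroupOfEquivOfLe hUX).toEquiv
    have hiN' : N'.index = Nat.card Kb := by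
      have h1 : N'.index = N.relIndex X := rfl
      rw [h1, ← hXmap, card_mk_map_eq_relIndex N X hNX]
    have hcop : (Nat.card N').Coprime N'.index := by
      rw [hcN', hiN']
      exact coprime_of_primes' (π := π) hN hKb.1
    have hcopU : (Nat.card U').Coprime (Nat.card N') := by
      rw [hcN', hcU']
      exact (coprime_of_primes' (π := π) hN hU).symm
    obtain ⟨Y, hUY, hcY⟩ := exists_complement_containing hFT N' U' hcop hcopU
    have hcK : Nat.card (Y.map X.subtype) = Nat.card Kb := by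
      rw [← hiN', ← hcY]
      exact (Nat.card_congr (Y.equivMapOfInjective _ X.subtype_injective).toEquiv).symm
    refine ⟨Y.map X.subtype, ⟨?_, ?_⟩, ?_⟩
    · rw [hcK]; exact hKb.1
    · intro p hp hpi hd
      have h1 := Subgroup.card_mul_index (Y.map X.subtype)
      have h4 := Subgroup.card_mul_index Kb
      have h5 : Nat.card (G ⧸ N) = N.index := rfl
      have h6 : Nat.card G = Nat.card N * N.index := (Subgroup.card_mul_index N).symm
      rw [hcK] at h1
      have h7 : Nat.card Kb * (Y.map X.subtype).index = Nat.card Kb * (Nat.card N * Kb.index) := by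
        rw [h1, h6, ← h5, ← h4]; ring
      have h8 := Nat.eq_of_mul_eq_mul_left Nat.card_pos h7
      rw [h8] at hd
      rcases (Nat.Prime.dvd_mul hp).mp hd with h | h
      · exact hN p hp h hpi
      · exact hKb.2 p hp hpi h
    · intro u hu
      exact ⟨⟨u, hUX hu⟩, hUY hu, rfl⟩

section congr

variable {X Y : Type u} [Group X] [Group Y]

theorem isPiHall_map_equiv {π : Set ℕ} (e : X ≃* Y) {K : Subgroup X} (h : IsPiHall π K) :
    IsPiHall π (K.map e.toMonoidHom) := by
  refine ⟨?_, ?_⟩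
  · rw [show Nat.card (K.map e.toMonoidHom) = Nat.card K from
      (Nat.card_congr (K.equivMapOfInjective _ e.injective).toEquiv).symm]
    exact h.1
  · have he : (K.map e.toMonoidHom).index = K.index := Subgroup.index_map_equiv K e
    rw [he]; exact h.2

theorem map_symm_map (e : X ≃* Y) (K : Subgroup Y) :
    (K.map e.symm.toMonoidHom).map e.toMonoidHom = K := by
  ext y; simp

theorem isCPi_congr {π : Set ℕ} (e : X ≃* Y) (h : IsCPiGroup π X) : IsCPiGroup π Y := by
  obtain ⟨⟨K, hK⟩, hc⟩ := h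
  refine ⟨⟨_, isPiHall_map_equiv e hK⟩, ?_⟩
  intro H L hH hL
  obtain ⟨x, hx⟩ := hc _ _ (isPiHall_map_equiv e.symm hH) (isPiHall_map_equiv e.symm hL)
  refine ⟨e x, ?_⟩
  conv_lhs => rw [← map_symm_map e L, hx]
  ext y
  simp only [Subgroup.mem_map]
  constructor
  · rintro ⟨_, ⟨_, ⟨z, hz, rfl⟩, rfl⟩, rfl⟩
    exact ⟨z, hz, by simp [MulAut.conj_apply]⟩
  · rintro ⟨z, hz, rfl⟩
    exact ⟨_, ⟨_, ⟨z, hz, rfl⟩, rfl⟩, by simp [MulAut.conj_apply]⟩

theorem hallCover_congr {π : Set ℕ} (e : X ≃* Y) (h : HallCover π X) : HallCover π Y := by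
  intro U hU
  obtain ⟨K, hK, hUK⟩ := h (U.map e.symm.toMonoidHom) (by
    intro q hq hd
    apply hU q hq
    rwa [show Nat.card (U.map e.symm.toMonoidHom) = Nat.card U from
      (Nat.card_congr (U.equivMapOfInjective _ e.symm.injective).toEquiv).symm] at hd)
  refine ⟨_, isPiHall_map_equiv e hK, ?_⟩
  rw [← map_symm_map e U]
  exact Subgroup.map_mono hUK

end congr

/-- A group all of whose primes are in `π` (or all outside) satisfies `C_π`. -/
theorem isCPi_of_primes {X : Type u} [Group X] [Finite X] {π : Set ℕ}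
    (hN : (∀ q : ℕ, q.Prime → q ∣ Nat.card X → q ∈ π) ∨ (∀ q : ℕ, q.Prime → q ∣ Nat.card X → q ∉ π)) :
    IsCPiGroup π X := by
  rcases hN with hN | hN
  · have key : ∀ K : Subgroup X, IsPiHall π K → K = ⊤ := by
      intro K hK
      rw [← Subgroup.index_eq_one]
      by_contra h1
      obtain ⟨p, hp, hd⟩ := Nat.exists_prime_and_dvd h1
      exact hK.2 p hp (hN p hp (hd.trans (Subgroup.index_dvd_card K))) hd
    have htop : IsPiHall π (⊤ : Subgroup X) := by
      refine ⟨?_, ?_⟩
      · intro p hp hd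
        rw [Subgroup.card_top] at hd
        exact hN p hp hd
      · intro p hp _ hd
        rw [Subgroup.index_top] at hd
        exact hp.one_lt.ne' (Nat.dvd_one.mp hd)
    refine ⟨⟨⊤, htop⟩, ?_⟩
    intro H K hH hK
    refine ⟨1, ?_⟩
    rw [key H hH, key K hK]
    ext y; simp
  · have key : ∀ K : Subgroup X, IsPiHall π K → K = ⊥ := by
      intro K hK
      apply Subgroup.eq_bot_of_card_eq
      by_contra h1
      obtain ⟨p, hp, hd⟩ := Nat.exists_prime_and_dvd h1
      exact hN p hp (hd.trans (Subgroup.card_subgroup_dvd_card K)) (hK.1 p hp hd)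
    have hbot : IsPiHall π (⊥ : Subgroup X) := by
      refine ⟨?_, ?_⟩
      · intro p hp hd
        rw [Subgroup.card_bot] at hd
        exact absurd (Nat.dvd_one.mp hd) hp.one_lt.ne'
      · intro p hp hpi hd
        rw [Subgroup.index_bot] at hd
        exact hN p hp hd hpi
    refine ⟨⟨⊥, hbot⟩, ?_⟩
    intro H K hH hK
    refine ⟨1, ?_⟩
    rw [key H hH, key K hK]
    simp

/-- `D_π`-type property of `G/A`. -/
def DQ (π : Set ℕ) (A : Subgroup G) : Prop :=
  ∀ [hN : A.Normal], IsCPiGroup π (G ⧸ A) ∧ HallCover π (G ⧸ A)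

theorem dq_top (π : Set ℕ) : DQ π (⊤ : Subgroup G) := by
  intro hN
  have hc : Nat.card (G ⧸ (⊤ : Subgroup G)) = 1 := by
    have : (⊤ : Subgroup G).index = 1 := Subgroup.index_top
    exact this
  have hp : (∀ q : ℕ, q.Prime → q ∣ Nat.card (G ⧸ (⊤ : Subgroup G)) → q ∈ π) := by
    intro q hq hd
    rw [hc] at hd
    exact absurd (Nat.dvd_one.mp hd) hq.one_lt.ne'
  refine ⟨isCPi_of_primes (Or.inl hp), ?_⟩
  intro U _
  obtain ⟨⟨K, hK⟩, _⟩ := isCPi_of_primes (π := π) (X := G ⧸ (⊤ : Subgroup G)) (Or.inl hp)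
  refine ⟨K, hK, ?_⟩
  haveI : Subsingleton (G ⧸ (⊤ : Subgroup G)) := (Nat.card_eq_one_iff_unique.mp hc).1
  intro x _
  rw [Subsingleton.elim x 1]
  exact K.one_mem

theorem dq_step (hFT : OddSolv.{u}) {π : Set ℕ} {A B : Subgroup G} (hAnorm : A.Normal) (hBnorm : B.Normal)
    (hAB : A ≤ B)
    (hpr : (∀ q : ℕ, q.Prime → q ∣ A.relIndex B → q ∈ π) ∨ (∀ q : ℕ, q.Prime → q ∣ A.relIndex B → q ∉ π))
    (hB : DQ π B) : DQ π A := by
  intro _
  obtain ⟨h1, h2⟩ := @hB hBnorm
  set N : Subgroup (G ⧸ A) := B.map (QuotientGroup.mk' A) with hN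
  haveI : N.Normal := Subgroup.Normal.map hBnorm _ (QuotientGroup.mk'_surjective A)
  have hcN : Nat.card N = A.relIndex B := card_mk_map_eq_relIndex A B hAB
  have hpr' : (∀ q : ℕ, q.Prime → q ∣ Nat.card N → q ∈ π) ∨ (∀ q : ℕ, q.Prime → q ∣ Nat.card N → q ∉ π) := by
    rw [hcN]; exact hpr
  let e : (G ⧸ A) ⧸ N ≃* G ⧸ B := QuotientGroup.quotientQuotientEquivQuotient A B hAB
  exact ⟨isCPi_ext hFT N (isCPi_of_primes hpr') (isCPi_congr e.symm h1),
    hallCover_of_quotient hFT N hpr' (hallCover_congr e.symm h2)⟩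

/-- **π-separable groups satisfy `D_π`** (modulo Odd Order). -/
theorem pi_separable (hFT : OddSolv.{u}) (π : Set ℕ)
    (hsep : ∃ (n : ℕ) (H : Fin (n + 1) → Subgroup G), H 0 = ⊥ ∧ H (Fin.last n) = ⊤ ∧ Monotone H ∧ (∀ i, (H i).Normal) ∧
      ∀ i : Fin n, (∀ q : ℕ, q.Prime → q ∣ (H i.castSucc).relIndex (H i.succ) → q ∈ π) ∨
        (∀ q : ℕ, q.Prime → q ∣ (H i.castSucc).relIndex (H i.succ) → q ∉ π)) :
    (∃ K : Subgroup G, Cfsg.IsPiHall π K) ∧
      (∀ K L : Subgroup G, Cfsg.IsPiHall π K → Cfsg.IsPiHall π L → ∃ g : G, L = K.map (MulAut.conj g).toMonoidHom) ∧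
      ∀ U : Subgroup G, (∀ q : ℕ, q.Prime → q ∣ Nat.card U → q ∈ π) → ∃ K : Subgroup G, Cfsg.IsPiHall π K ∧ U ≤ K := by
  obtain ⟨n, H, h0, hl, hm, hnorm, hst⟩ := hsep
  have hall : ∀ i : Fin (n + 1), DQ π (H i) := by
    intro i
    induction i using Fin.reverseInduction with
    | last => rw [hl]; exact dq_top π
    | cast i ih =>
      exact dq_step hFT (hnorm _) (hnorm _) (hm (Fin.castSucc_le_succ i)) (hst i) ih
  have h00 : DQ π (H 0) := hall 0
  rw [h0] at h00
  obtain ⟨h1, h2⟩ := @h00 (inferInstance)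
  let e : G ⧸ (⊥ : Subgroup G) ≃* G := QuotientGroup.quotientBot
  have h3 := isCPi_congr e h1
  have h4 := hallCover_congr e h2
  exact ⟨h3.1, h3.2, h4⟩

end Cfsg.Agent.Lib.Components.PiExt
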