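import Mathlib
import Cfsg.Prelude.Def_HallClasses
import Cfsg.Agent.Lib.Basic.JordanCover
import Cfsg.Agent.Lib.PGroup.Timmesfeld
import Cfsg.Agent.Lib.Char.HallHat
import Cfsg.Agent.S0877

/-!
# `π`-homogeneous groups with the full Sylow property: control of fusion

Let `H` be a subgroup into which every `π`-subgroup can be conjugated, and suppose that `N(Q)/C(Q)` is a
`π`-group for every nontrivial `π`-subgroup `Q`. Then `H` controls the fusion of its elements.
No Alperin theorem is needed: a downward induction on `|Q|`, together with Jordan's lemma applied to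
`N(Q)/C(Q)`, gives the `p`-fusion; the fusion of general elements follows by passing to centralizers.
-/

set_option autoImplicit false

namespace Cfsg.Agent.Lib.Components.PiHomog

open Cfsg Subgroup

universe u

section Basics

variable {G : Type u} [Group G]

/-- The conjugate `g Q g⁻¹`. -/
abbrev cj (g : G) (Q : Subgroup G) : Subgroup G := Q.map (MulAut.conj g).toMonoidHom

theorem mem_cj {g x : G} {Q : Subgroup G} : x ∈ cj g Q ↔ g⁻¹ * x * g ∈ Q := by
  constructor
  · rintro ⟨y, hy, rfl⟩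
    simpa [mul_assoc] using hy
  · intro h
    exact ⟨_, h, by simp [mul_assoc]⟩

theorem conj_mem_cj {g x : G} {Q : Subgroup G} (hx : x ∈ Q) : g * x * g⁻¹ ∈ cj g Q :=
  ⟨x, hx, by simp⟩

theorem card_cj (g : G) (Q : Subgroup G) : Nat.card (cj g Q) = Nat.card Q :=
  Nat.card_congr (Q.equivMapOfInjective _ (MulAut.conj g).injective).symm.toEquiv

theorem cj_mul (g g' : G) (Q : Subgroup G) : cj (g * g') Q = cj g (cj g' Q) := by
  ext x
  simp only [mem_cj, mul_inv_rev]
  constructor <;> intro h <;> simpa [mul_assoc] using h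

theorem cj_mono (g : G) {Q R : Subgroup G} (h : Q ≤ R) : cj g Q ≤ cj g R := Subgroup.map_mono h

theorem mem_normalizer_cj {w y : G} {Q : Subgroup G} :
    y ∈ normalizer (cj w Q : Set G) ↔ w⁻¹ * y * w ∈ normalizer (Q : Set G) := by
  rw [Subgroup.mem_normalizer_iff, Subgroup.mem_normalizer_iff]
  constructor
  · intro h z
    have h1 := h (w * z * w⁻¹)
    simp only [mem_cj] at h1
    have e1 : w⁻¹ * (w * z * w⁻¹) * w = z := by group
    have e2 : w⁻¹ * (y * (w * z * w⁻¹) * y⁻¹) * w = w⁻¹ * y * w * z * (w⁻¹ * y * w)⁻¹ := by group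
    rwa [e1, e2] at h1
  · intro h z
    have h1 := h (w⁻¹ * z * w)
    simp only [mem_cj]
    have e2 : w⁻¹ * (y * z * y⁻¹) * w = w⁻¹ * y * w * (w⁻¹ * z * w) * (w⁻¹ * y * w)⁻¹ := by group
    rw [e2]
    exact h1

theorem mem_normalizer_of_cj_eq {v : G} {Q : Subgroup G} [Finite G] (h : cj v Q ≤ Q) :
    v ∈ normalizer (Q : Set G) := by
  have h' : cj v Q = Q := Subgroup.eq_of_le_of_card_ge h (by rw [card_cj])
  rw [Subgroup.mem_normalizer_iff]
  intro z
  constructor
  · intro hz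
    exact h (conj_mem_cj hz)
  · intro hz
    have : v * z * v⁻¹ ∈ cj v Q := by rw [h']; exact hz
    rw [mem_cj] at this
    simpa [mul_assoc] using this

/-- `N(Q)/C(Q)` is a `π`-group for every nontrivial `π`-subgroup `Q`. -/
def PiHom (π : Set ℕ) (G : Type u) [Group G] : Prop :=
  ∀ H : Subgroup G, H ≠ ⊥ → (∀ p : ℕ, p.Prime → p ∣ Nat.card ↥H → p ∈ π) →
    ∀ p : ℕ, p.Prime →
      p ∣ (Subgroup.centralizer (H : Set G)).relIndex (Subgroup.normalizer (H : Set G)) → p ∈ π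

/-- The standing hypotheses. -/
structure Setup (π : Set ℕ) (H : Subgroup G) : Prop where
  hπ : IsPiSubgroup π H
  hT : ∀ L : Subgroup G, IsPiSubgroup π L → ∃ g : G, cj g L ≤ H
  hom : PiHom π G

end Basics

section Finite

variable {G : Type u} [Group G] [Finite G] {π : Set ℕ} {H : Subgroup G}

theorem isPi_of_isPGroup {p : ℕ} [Fact p.Prime] (hp : p ∈ π) {S : Subgroup G} (hS : IsPGroup p S) :
    IsPiSubgroup π S := by
  intro q hq hd
  obtain ⟨k, hk⟩ := IsPGroup.iff_card.1 hS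
  rw [hk] at hd
  have := (Nat.prime_dvd_prime_iff_eq hq Fact.out).1 (hq.dvd_of_dvd_pow hd)
  rwa [this]

theorem isPi_sup {A B : Subgroup G} (hA : IsPiSubgroup π A) (hB : IsPiSubgroup π B)
    (h : A ≤ normalizer (B : Set G)) : IsPiSubgroup π (A ⊔ B) := by
  intro q hq hd
  have h1 := Cfsg.Agent.Lib.PGroup.Timmesfeld.card_sup_mul_card_inf_of_le_normalizer A B h
  have h2 : q ∣ Nat.card A * Nat.card B := by
    rw [← h1]
    exact hd.mul_right _
  rcases (Nat.Prime.dvd_mul hq).1 h2 with h3 | h3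
  · exact hA q hq h3
  · exact hB q hq h3

theorem isPi_zpowers_of_mem_of_isPi {x : G} {L : Subgroup G} (hL : IsPiSubgroup π L) (hx : x ∈ L) :
    IsPiSubgroup π (zpowers x) := by
  intro q hq hd
  apply hL q hq
  exact hd.trans (Subgroup.card_dvd_of_le ((Subgroup.zpowers_le).2 hx))

theorem Setup.not_mem_of_dvd_index (hS : Setup π H) {q : ℕ} (hq : q.Prime) (hd : q ∣ H.index) :
    q ∉ π := by
  intro hqπ
  haveI : Fact q.Prime := ⟨hq⟩
  obtain ⟨S⟩ : Nonempty (Sylow q G) := inferInstance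
  obtain ⟨g, hg⟩ := hS.hT S (isPi_of_isPGroup hqπ S.2)
  have h1 : H.index ∣ (cj g (S : Subgroup G)).index := Subgroup.index_dvd_of_le hg
  have h2 : (cj g (S : Subgroup G)).index = (S : Subgroup G).index := by
    have h3 := Subgroup.card_mul_index (cj g (S : Subgroup G))
    have h4 := Subgroup.card_mul_index (S : Subgroup G)
    rw [card_cj] at h3
    exact Nat.eq_of_mul_eq_mul_left Nat.card_pos (h3.trans h4.symm)
  exact S.not_dvd_index (hd.trans (h2 ▸ h1))

theorem Setup.coprime (hS : Setup π H) : Nat.Coprime (Nat.card H) H.index := by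
  rw [Nat.coprime_iff_gcd_eq_one]
  by_contra hne
  obtain ⟨q, hq, hqd⟩ := Nat.exists_prime_and_dvd hne
  exact hS.not_mem_of_dvd_index hq (hqd.trans (Nat.gcd_dvd_right _ _))
    (hS.hπ q hq (hqd.trans (Nat.gcd_dvd_left _ _)))

theorem exists_cj_le_sylow {G : Type*} [Group G] [Finite G] {p : ℕ} [Fact p.Prime] (P : Sylow p G)
    {W : Subgroup G} (hW : IsPGroup p W) : ∃ g : G, W.map (MulAut.conj g).toMonoidHom ≤ P := by
  obtain ⟨S, hS⟩ := hW.exists_le_sylow
  obtain ⟨g, hg⟩ := MulAction.exists_smul_eq G S P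
  refine ⟨g, ?_⟩
  rw [← hg]
  rintro _ ⟨x, hx, rfl⟩
  rw [Sylow.coe_subgroup_smul]
  exact Subgroup.smul_mem_pointwise_smul _ _ _ (hS hx)

theorem exists_mem_cj_le {p : ℕ} [Fact p.Prime] (P : Sylow p G) (hPH : (P : Subgroup G) ≤ H)
    {W : Subgroup G} (hW : IsPGroup p W) (hWH : W ≤ H) : ∃ h ∈ H, cj h W ≤ P := by
  have hW' : IsPGroup p (W.subgroupOf H) := hW.comap_of_injective H.subtype H.subtype_injective
  obtain ⟨h, hh⟩ := exists_cj_le_sylow (P.subtype hPH) hW'
  refine ⟨h, h.2, ?_⟩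
  rintro _ ⟨x, hx, rfl⟩
  have h1 : (⟨x, hWH hx⟩ : H) ∈ W.subgroupOf H := hx
  have h2 := hh ⟨_, h1, rfl⟩
  rw [Sylow.coe_subtype, Subgroup.mem_subgroupOf] at h2
  simpa using h2

/-- The normalizer condition in a `p`-group. -/
theorem exists_mem_normalizer_not_mem {p : ℕ} [Fact p.Prime] {P Q : Subgroup G} (hP : IsPGroup p P)
    (hQ : Q < P) : ∃ g ∈ P, g ∈ normalizer (Q : Set G) ∧ g ∉ Q := by
  have hnil : Group.IsNilpotent P := hP.isNilpotent
  have hcond := Group.normalizerCondition_of_isNilpotent (G := P)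
  have hlt : Q.subgroupOf P < ⊤ := by
    rw [lt_top_iff_ne_top]
    intro h
    apply hQ.not_ge
    rwa [Subgroup.subgroupOf_eq_top] at h
  have h2 := hcond _ hlt
  obtain ⟨g, hg1, hg2⟩ := SetLike.exists_of_lt h2
  refine ⟨g, g.2, ?_, by simpa [Subgroup.mem_subgroupOf] using hg2⟩
  rw [← Subgroup.subgroupOf_normalizer_eq hQ.le] at hg1
  exact hg1

/-- `g` agrees on `Q` with an element of `H` whenever it moves `Q` into `P`. -/
def Ctl (H P Q : Subgroup G) : Prop :=
  ∀ g : G, cj g Q ≤ P → ∃ h ∈ H, ∀ x ∈ Q, g * x * g⁻¹ = h * x * h⁻¹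

/-- Every `p`-subgroup of `N(Q)` can be moved into `P` by an element of `N(Q)`. -/
def FN (p : ℕ) (P Q : Subgroup G) : Prop :=
  ∀ W : Subgroup G, IsPGroup p W → W ≤ normalizer (Q : Set G) →
    ∃ s ∈ normalizer (Q : Set G), cj s W ≤ P

theorem exists_fn {p : ℕ} [Fact p.Prime] (P : Sylow p G) {Q : Subgroup G} (hQ : Q ≤ P) :
    ∃ w : G, cj w Q ≤ P ∧ FN p P (cj w Q) := by
  set N : Subgroup G := normalizer (Q : Set G) with hN
  have hQ1 : IsPGroup p (Q.subgroupOf N) :=
    (P.2.to_le hQ).comap_of_injective N.subtype N.subtype_injective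
  obtain ⟨T, hT⟩ := hQ1.exists_le_sylow
  have hT' : IsPGroup p ((T : Subgroup N).map N.subtype) := T.2.map N.subtype
  obtain ⟨w, hw⟩ := exists_cj_le_sylow P hT'
  have hQT : Q ≤ (T : Subgroup N).map N.subtype := by
    intro x hx
    have h1 : (⟨x, Subgroup.le_normalizer hx⟩ : N) ∈ Q.subgroupOf N := hx
    exact ⟨_, hT h1, rfl⟩
  refine ⟨w, (cj_mono w hQT).trans hw, ?_⟩
  intro W hW hWN
  -- `W₀ = w⁻¹ W w` lies in `N`
  have hW0N : cj w⁻¹ W ≤ N := by
    rintro _ ⟨z, hz, rfl⟩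
    have := mem_normalizer_cj.1 (hWN hz)
    simpa using this
  have hW1 : IsPGroup p ((cj w⁻¹ W).subgroupOf N) := by
    have h1 : IsPGroup p (cj w⁻¹ W) := by
      have := hW.map (MulAut.conj w⁻¹).toMonoidHom
      exact this
    exact h1.comap_of_injective N.subtype N.subtype_injective
  obtain ⟨t, ht⟩ := exists_cj_le_sylow T hW1
  refine ⟨w * t * w⁻¹, ?_, ?_⟩
  · rw [mem_normalizer_cj]
    have : w⁻¹ * (w * t * w⁻¹) * w = t := by group
    rw [this]
    exact t.2
  · rintro _ ⟨z, hz, rfl⟩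
    have h1 : w⁻¹ * z * w ∈ N := by
      have := hW0N (conj_mem_cj (g := w⁻¹) hz)
      simpa using this
    have h2 : (⟨w⁻¹ * z * w, h1⟩ : N) ∈ (cj w⁻¹ W).subgroupOf N := by
      rw [Subgroup.mem_subgroupOf]
      have := conj_mem_cj (g := w⁻¹) hz
      simpa using this
    have h3 := ht ⟨_, h2, rfl⟩
    have h4 : (t : G) * (w⁻¹ * z * w) * (t : G)⁻¹ ∈ (T : Subgroup N).map N.subtype :=
      ⟨_, h3, by simp⟩
    have h5 := hw (conj_mem_cj (g := w) h4)
    have e : (MulAut.conj (w * t * w⁻¹)).toMonoidHom z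
        = w * ((t : G) * (w⁻¹ * z * w) * (t : G)⁻¹) * w⁻¹ := by
      simp only [MulEquiv.coe_toMonoidHom, MulAut.conj_apply]
      group
    rw [e]
    exact h5

section Step

variable {p : ℕ} [Fact p.Prime] (P : Sylow p G)

theorem step1 {k : ℕ} (IH : ∀ Q' : Subgroup G, Q' ≤ P → k < Nat.card Q' → Ctl H P Q')
    {Q₁ Q₂ : Subgroup G} (hQ₁ : Q₁ ≤ P) (hk : Nat.card Q₁ = k) (hQ₂ : Q₂ ≤ P) {v : G}
    (hv : cj v Q₁ = Q₂) (hFN : FN p P Q₂) :
    ∃ h ∈ H, ∃ s ∈ normalizer (Q₂ : Set G), ∀ x ∈ Q₁, (s * v) * x * (s * v)⁻¹ = h * x * h⁻¹ := by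
  by_cases hQP : Q₁ = P
  · -- `Q₁ = P`
    have hc : Nat.card Q₂ = Nat.card Q₁ := by rw [← hv, card_cj]
    have h2 : Q₂ = P := Subgroup.eq_of_le_of_card_ge hQ₂ (by rw [hc, hQP])
    have hvN : v ∈ normalizer ((P : Subgroup G) : Set G) := by
      apply mem_normalizer_of_cj_eq
      rw [← hQP, hv, hQP, h2]
    refine ⟨1, one_mem _, v⁻¹, ?_, ?_⟩
    · rw [h2]
      exact inv_mem hvN
    · intro x _
      group
  · have hlt : Q₁ < P := lt_of_le_of_ne hQ₁ hQP
    obtain ⟨g, hgP, hgN, hgQ⟩ := exists_mem_normalizer_not_mem P.2 hlt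
    set V : Subgroup G := (P : Subgroup G) ⊓ normalizer (Q₁ : Set G) with hV
    have hQV : Q₁ ≤ V := le_inf hQ₁ Subgroup.le_normalizer
    have hVlt : Q₁ < V := SetLike.lt_iff_le_and_exists.2 ⟨hQV, g, Subgroup.mem_inf.2 ⟨hgP, hgN⟩, hgQ⟩
    have hcard : k < Nat.card V := by
      rw [← hk]
      by_contra hcon
      exact hVlt.ne (Subgroup.eq_of_le_of_card_ge hVlt.le (not_lt.1 hcon))
    have hVp : IsPGroup p V := P.2.to_le inf_le_left
    have hWp : IsPGroup p (cj v V) := hVp.map (MulAut.conj v).toMonoidHom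
    have hWN : cj v V ≤ normalizer (Q₂ : Set G) := by
      rw [← hv]
      rintro _ ⟨z, hz, rfl⟩
      rw [mem_normalizer_cj]
      have e : v⁻¹ * ((MulAut.conj v).toMonoidHom z) * v = z := by
        simp only [MulEquiv.coe_toMonoidHom, MulAut.conj_apply]
        group
      rw [e]
      exact hz.2
    obtain ⟨s, hs, hsW⟩ := hFN _ hWp hWN
    have h3 : cj (s * v) V ≤ P := by
      rw [cj_mul]
      exact hsW
    obtain ⟨h, hh, hag⟩ := IH V inf_le_left hcard (s * v) h3
    exact ⟨h, hh, s, hs, fun x hx => hag x (hQV hx)⟩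

theorem cj_eq_of_step1 {Q₁ Q₂ : Subgroup G} {v s h : G} (hv : cj v Q₁ = Q₂)
    (hs : s ∈ normalizer (Q₂ : Set G))
    (hag : ∀ x ∈ Q₁, (s * v) * x * (s * v)⁻¹ = h * x * h⁻¹) : cj h Q₁ = Q₂ := by
  refine Subgroup.eq_of_le_of_card_ge ?_ (by rw [← hv, card_cj, card_cj])
  rintro _ ⟨x, hx, rfl⟩
  have h1 : v * x * v⁻¹ ∈ Q₂ := by
    rw [← hv]
    exact conj_mem_cj hx
  have h2 : s * (v * x * v⁻¹) * s⁻¹ ∈ Q₂ := ((Subgroup.mem_normalizer_iff).1 hs _).1 h1
  have e : (MulAut.conj h).toMonoidHom x = s * (v * x * v⁻¹) * s⁻¹ := by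
    simp only [MulEquiv.coe_toMonoidHom, MulAut.conj_apply]
    rw [← hag x hx]
    group
  rw [e]
  exact h2

/-- Moving a subgroup of `P` to one satisfying `FN`, by an element of `H`. -/
theorem lemmaA {k : ℕ} (IH : ∀ Q' : Subgroup G, Q' ≤ P → k < Nat.card Q' → Ctl H P Q')
    {Q₁ : Subgroup G} (hQ₁ : Q₁ ≤ P) (hk : Nat.card Q₁ = k) :
    ∃ y ∈ H, cj y Q₁ ≤ P ∧ FN p P (cj y Q₁) := by
  obtain ⟨w, hw, hFN⟩ := exists_fn P hQ₁
  obtain ⟨h, hh, s, hs, hag⟩ := step1 P IH hQ₁ hk hw rfl hFN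
  have e := cj_eq_of_step1 rfl hs hag
  exact ⟨h, hh, by rw [e]; exact hw, by rw [e]; exact hFN⟩

theorem normal_centralizer_subgroupOf (Q : Subgroup G) :
    ((centralizer (Q : Set G)).subgroupOf (normalizer (Q : Set G))).Normal := by
  constructor
  rintro ⟨n, hnN⟩ hn ⟨l, hl⟩
  rw [Subgroup.mem_subgroupOf] at hn ⊢
  show l * n * l⁻¹ ∈ centralizer (Q : Set G)
  rw [Subgroup.mem_centralizer_iff]
  intro w hw
  have h1 : l⁻¹ * w * l ∈ Q := by
    have := ((Subgroup.mem_normalizer_iff).1 (inv_mem hl) w).1 hw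
    simpa using this
  have h2 := (Subgroup.mem_centralizer_iff.1 hn) _ h1
  calc w * (l * n * l⁻¹) = l * ((l⁻¹ * w * l) * n) * l⁻¹ := by group
    _ = l * (n * (l⁻¹ * w * l)) * l⁻¹ := by rw [h2]
    _ = l * n * l⁻¹ * w := by group

theorem Setup.mem_centralizer (hS : Setup π H) {Q : Subgroup G} (hQ : Q ≠ ⊥)
    (hQπ : IsPiSubgroup π Q) {c : G} (hc : c ∈ normalizer (Q : Set G)) (hcm : c ^ H.index = 1) :
    c ∈ centralizer (Q : Set G) := by
  haveI hn := normal_centralizer_subgroupOf Q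
  have h1 : (⟨c, hc⟩ : normalizer (Q : Set G)) ^
      ((centralizer (Q : Set G)).subgroupOf (normalizer (Q : Set G))).index ∈
      (centralizer (Q : Set G)).subgroupOf (normalizer (Q : Set G)) := Subgroup.pow_index_mem _ _
  have h2 : c ^ (centralizer (Q : Set G)).relIndex (normalizer (Q : Set G)) ∈
      centralizer (Q : Set G) := by
    rw [Subgroup.mem_subgroupOf] at h1
    have h1' : c ^ ((centralizer (Q : Set G)).subgroupOf (normalizer (Q : Set G))).index ∈
        centralizer (Q : Set G) := by simpa using h1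
    exact h1'
  have hcop : Nat.Coprime ((centralizer (Q : Set G)).relIndex (normalizer (Q : Set G)))
      (orderOf c) := by
    rw [Nat.coprime_iff_gcd_eq_one]
    by_contra hne
    obtain ⟨q, hq, hqd⟩ := Nat.exists_prime_and_dvd hne
    have hqπ := hS.hom Q hQ hQπ q hq (hqd.trans (Nat.gcd_dvd_left _ _))
    have h3 : q ∣ H.index :=
      (hqd.trans (Nat.gcd_dvd_right _ _)).trans (orderOf_dvd_of_pow_eq_one hcm)
    exact hS.not_mem_of_dvd_index hq h3 hqπ
  obtain ⟨m, hm⟩ := exists_pow_eq_self_of_coprime hcop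
  rw [← hm]
  exact pow_mem h2 m

theorem lemmaB (hS : Setup π H) (hPH : (P : Subgroup G) ≤ H) (hp : p ∈ π) {k : ℕ}
    (IH : ∀ Q' : Subgroup G, Q' ≤ P → k < Nat.card Q' → Ctl H P Q')
    {Q : Subgroup G} (hQ : Q ≤ P) (hk : Nat.card Q = k) (hQ1 : Q ≠ ⊥) :
    ∀ u ∈ normalizer (Q : Set G), ∃ h ∈ H, h ∈ normalizer (Q : Set G) ∧
      ∃ c ∈ centralizer (Q : Set G), u = h * c := by
  classical
  set N : Subgroup G := normalizer (Q : Set G) with hN
  set C' : Subgroup N := (centralizer (Q : Set G)).subgroupOf N with hC'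
  haveI hC'n : C'.Normal := normal_centralizer_subgroupOf Q
  have hQπ : IsPiSubgroup π Q := isPi_of_isPGroup hp (P.2.to_le hQ)
  set B : Subgroup N := H.subgroupOf N ⊔ C' with hB
  have hcard : Nat.card G = Nat.card H * H.index := (Subgroup.card_mul_index H).symm
  have hexp : ∀ g : G, g ^ (Nat.card H * H.index) = 1 := by
    intro g
    rw [← hcard]
    exact pow_card_eq_one'
  obtain ⟨a, b, hab⟩ := Cfsg.Agent.Lib.Char.HallHat.exists_piPow G (Nat.card_pos.ne')
    (Subgroup.index_ne_zero_of_finite) hS.coprime hexp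
  have htop : B = ⊤ := by
    apply Cfsg.Agent.Lib.Basic.JordanCover.eq_top_of_forall_conj_mem
    rintro ⟨u, hu⟩
    have hpart : u ^ a * u ^ b = u := hab.pow_a_mul_pow_b u
    have hrN : u ^ a ∈ N := pow_mem hu a
    have hcN : u ^ b ∈ N := pow_mem hu b
    have hcC : u ^ b ∈ centralizer (Q : Set G) :=
      hS.mem_centralizer hQ1 hQπ hcN (hab.pow_b_pow u)
    have hrπ : IsPiSubgroup π (zpowers (u ^ a)) := by
      intro q hq hd
      rw [Nat.card_zpowers] at hd
      exact hS.hπ q hq (hd.trans (orderOf_dvd_of_pow_eq_one (hab.pow_a_pow u)))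
    have hRπ : IsPiSubgroup π (zpowers (u ^ a) ⊔ Q) :=
      isPi_sup hrπ hQπ ((Subgroup.zpowers_le).2 hrN)
    obtain ⟨g, hg⟩ := hS.hT _ hRπ
    have hQg : cj g Q ≤ H := (cj_mono g le_sup_right).trans hg
    have hQgp : IsPGroup p (cj g Q) := (P.2.to_le hQ).map (MulAut.conj g).toMonoidHom
    obtain ⟨h', hh', hh'Q⟩ := exists_mem_cj_le P hPH hQgp hQg
    have hk3 : Nat.card (cj h' (cj g Q)) = k := by rw [card_cj, card_cj, hk]
    obtain ⟨y, hy, hyP, hyF⟩ := lemmaA P IH hh'Q hk3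
    set v : G := y * (h' * g) with hv
    have hvQ : cj v Q = cj y (cj h' (cj g Q)) := by
      rw [hv, cj_mul, cj_mul]
    obtain ⟨h'', hh'', s, hs, hag⟩ := step1 P IH hQ hk hyP hvQ hyF
    have he := cj_eq_of_step1 hvQ hs hag
    have hnN : h''⁻¹ * v ∈ N := by
      apply mem_normalizer_of_cj_eq
      rw [cj_mul, hvQ, ← he, ← cj_mul, inv_mul_cancel]
      intro z hz
      obtain ⟨w, hw, rfl⟩ := hz
      simpa using hw
    refine ⟨⟨h''⁻¹ * v, hnN⟩, ?_⟩
    have hr1 : (⟨h''⁻¹ * v, hnN⟩ : N) * ⟨u ^ a, hrN⟩ * (⟨h''⁻¹ * v, hnN⟩ : N)⁻¹ ∈ H.subgroupOf N := by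
      rw [Subgroup.mem_subgroupOf]
      have h1 : g * u ^ a * g⁻¹ ∈ H :=
        hg (conj_mem_cj (Subgroup.mem_sup_left (Subgroup.mem_zpowers _)))
      have e : ((((⟨h''⁻¹ * v, hnN⟩ : N) * ⟨u ^ a, hrN⟩ * (⟨h''⁻¹ * v, hnN⟩ : N)⁻¹ : N)) : G)
          = (h''⁻¹ * y * h') * (g * u ^ a * g⁻¹) * (h''⁻¹ * y * h')⁻¹ := by
        simp only [Subgroup.coe_mul, Subgroup.coe_inv, hv]
        group
      rw [e]
      exact H.mul_mem (H.mul_mem ((H.mul_mem (H.mul_mem (inv_mem hh'') hy) hh')) h1)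
        (inv_mem (H.mul_mem (H.mul_mem (inv_mem hh'') hy) hh'))
    have hc1 : (⟨h''⁻¹ * v, hnN⟩ : N) * ⟨u ^ b, hcN⟩ * (⟨h''⁻¹ * v, hnN⟩ : N)⁻¹ ∈ C' :=
      hC'n.conj_mem _ (by rw [hC', Subgroup.mem_subgroupOf]; exact hcC) _
    have e : (⟨u, hu⟩ : N) = ⟨u ^ a, hrN⟩ * ⟨u ^ b, hcN⟩ := by
      ext
      exact hpart.symm
    rw [e]
    have e2 : (⟨h''⁻¹ * v, hnN⟩ : N) * (⟨u ^ a, hrN⟩ * ⟨u ^ b, hcN⟩) * (⟨h''⁻¹ * v, hnN⟩ : N)⁻¹
        = ((⟨h''⁻¹ * v, hnN⟩ : N) * ⟨u ^ a, hrN⟩ * (⟨h''⁻¹ * v, hnN⟩ : N)⁻¹) *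
          ((⟨h''⁻¹ * v, hnN⟩ : N) * ⟨u ^ b, hcN⟩ * (⟨h''⁻¹ * v, hnN⟩ : N)⁻¹) := by group
    rw [e2]
    exact B.mul_mem (Subgroup.mem_sup_left hr1) (Subgroup.mem_sup_right hc1)
  intro u hu
  have h1 : (⟨u, hu⟩ : N) ∈ B := by rw [htop]; trivial
  have h2 : (⟨u, hu⟩ : N) ∈ ((B : Subgroup N) : Set N) := h1
  rw [hB, Subgroup.mul_normal, Set.mem_mul] at h2
  obtain ⟨x, hx, y, hy, hxy⟩ := h2
  refine ⟨x, ?_, x.2, y, ?_, ?_⟩
  · simpa [Subgroup.mem_subgroupOf] using hx
  · simpa [hC', Subgroup.mem_subgroupOf] using hy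
  · have := congrArg Subtype.val hxy
    simpa using this.symm

theorem ctl_step (hS : Setup π H) (hPH : (P : Subgroup G) ≤ H) (hp : p ∈ π) {Q : Subgroup G}
    (hQ : Q ≤ P) (IH : ∀ Q' : Subgroup G, Q' ≤ P → Nat.card Q < Nat.card Q' → Ctl H P Q') :
    Ctl H P Q := by
  by_cases hQ1 : Q = ⊥
  · intro g _
    refine ⟨1, one_mem _, ?_⟩
    intro x hx
    have : x = 1 := by
      rw [hQ1] at hx
      simpa using hx
    simp [this]
  intro g hg
  obtain ⟨y₁, hy₁, h1, -⟩ := lemmaA P IH hQ rfl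
  have hk2 : Nat.card (cj g Q) = Nat.card Q := card_cj g Q
  obtain ⟨y₂, hy₂, h2, hF2⟩ := lemmaA P IH (Q₁ := cj g Q) hg hk2
  set v : G := y₂ * g * y₁⁻¹ with hv
  have hvQ : cj v (cj y₁ Q) = cj y₂ (cj g Q) := by
    rw [← cj_mul, hv, ← cj_mul]
    congr 1
    group
  have hk1 : Nat.card (cj y₁ Q) = Nat.card Q := card_cj y₁ Q
  obtain ⟨h, hh, s, hs, hag⟩ := step1 P IH h1 hk1 h2 hvQ hF2
  have hk4 : Nat.card (cj y₂ (cj g Q)) = Nat.card Q := by rw [card_cj, card_cj]
  have hne : cj y₂ (cj g Q) ≠ ⊥ := by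
    intro h0
    apply hQ1
    have h3 : Nat.card (cj y₂ (cj g Q)) = 1 := by rw [h0]; simp
    rw [hk4] at h3
    exact Subgroup.card_eq_one.1 h3
  obtain ⟨hs', hhs', -, c, hc, hsc⟩ := lemmaB P hS hPH hp IH h2 hk4 hne s hs
  refine ⟨y₂⁻¹ * (hs'⁻¹ * h) * y₁, H.mul_mem (H.mul_mem (inv_mem hy₂)
    (H.mul_mem (inv_mem hhs') hh)) hy₁, ?_⟩
  intro x₀ hx₀
  have hx : y₁ * x₀ * y₁⁻¹ ∈ cj y₁ Q := conj_mem_cj hx₀
  have hag' := hag _ hx
  have hz : v * (y₁ * x₀ * y₁⁻¹) * v⁻¹ ∈ cj y₂ (cj g Q) := by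
    rw [← hvQ]
    exact conj_mem_cj hx
  have hcz : c * (v * (y₁ * x₀ * y₁⁻¹) * v⁻¹) * c⁻¹ = v * (y₁ * x₀ * y₁⁻¹) * v⁻¹ := by
    have := Subgroup.mem_centralizer_iff.1 hc _ hz
    rw [← this]
    group
  have e1 : (s * v) * (y₁ * x₀ * y₁⁻¹) * (s * v)⁻¹ = hs' * (v * (y₁ * x₀ * y₁⁻¹) * v⁻¹) * hs'⁻¹ := by
    calc (s * v) * (y₁ * x₀ * y₁⁻¹) * (s * v)⁻¹
        = s * (v * (y₁ * x₀ * y₁⁻¹) * v⁻¹) * s⁻¹ := by group
      _ = hs' * (c * (v * (y₁ * x₀ * y₁⁻¹) * v⁻¹) * c⁻¹) * hs'⁻¹ := by rw [hsc]; group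
      _ = hs' * (v * (y₁ * x₀ * y₁⁻¹) * v⁻¹) * hs'⁻¹ := by rw [hcz]
  rw [e1] at hag'
  have e2 : v * (y₁ * x₀ * y₁⁻¹) * v⁻¹ = hs'⁻¹ * (h * (y₁ * x₀ * y₁⁻¹) * h⁻¹) * hs' := by
    rw [← hag']
    group
  have e3 : g * x₀ * g⁻¹ = y₂⁻¹ * (v * (y₁ * x₀ * y₁⁻¹) * v⁻¹) * y₂ := by
    rw [hv]
    group
  rw [e3, e2]
  group

theorem ctl_all (hS : Setup π H) (hPH : (P : Subgroup G) ≤ H) (hp : p ∈ π) :
    ∀ Q : Subgroup G, Q ≤ P → Ctl H P Q := by
  have key : ∀ n : ℕ, ∀ Q : Subgroup G, Q ≤ P → Nat.card P - Nat.card Q = n → Ctl H P Q := by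
    intro n
    induction n using Nat.strong_induction_on with
    | _ n ih =>
      intro Q hQ hn
      apply ctl_step P hS hPH hp hQ
      intro Q' hQ' hlt
      apply ih (Nat.card P - Nat.card Q') _ Q' hQ' rfl
      have : Nat.card Q' ≤ Nat.card P := Subgroup.card_le_of_le hQ'
      omega
  exact fun Q hQ => key _ Q hQ rfl

end Step

theorem relIndex_centralizer_dvd (L : Subgroup G) (Q' : Subgroup L) :
    (centralizer (Q' : Set L)).relIndex (normalizer (Q' : Set L)) ∣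
      (centralizer ((Q'.map L.subtype : Subgroup G) : Set G)).relIndex
        (normalizer ((Q'.map L.subtype : Subgroup G) : Set G)) := by
  set Q : Subgroup G := Q'.map L.subtype with hQ
  set C : Subgroup G := centralizer (Q : Set G) with hC
  set N : Subgroup G := normalizer (Q : Set G) with hN
  set A : Subgroup L := normalizer (Q' : Set L) with hA
  set B : Subgroup L := centralizer (Q' : Set L) with hB
  set A₁ : Subgroup G := A.map L.subtype with hA₁'
  have hA₁ : A₁ ≤ N := by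
    rintro _ ⟨a, ha, rfl⟩
    apply mem_normalizer_of_cj_eq
    rintro _ ⟨_, ⟨z, hz, rfl⟩, rfl⟩
    refine ⟨a * z * a⁻¹, ((Subgroup.mem_normalizer_iff).1 ha z).1 hz, ?_⟩
    simp
  have hBA : B ≤ A := by
    intro b hb
    rw [hA, Subgroup.mem_normalizer_iff]
    intro z
    have h1 : ∀ w ∈ Q', b * w * b⁻¹ = w := by
      intro w hw
      have := (Subgroup.mem_centralizer_iff.1 hb) w hw
      rw [← this]
      group
    constructor
    · intro hz
      rwa [h1 z hz]
    · intro hz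
      have h2 := h1 _ hz
      have h3 : b * z * b⁻¹ = z := by
        have h4 : b * (b * z * b⁻¹) * b⁻¹ = b * z * b⁻¹ := h2
        have h5 : b * (b * z * b⁻¹) * b⁻¹ = b * (b * z * b⁻¹ * b⁻¹) := by group
        rw [h5] at h4
        have h6 : b * z * b⁻¹ * b⁻¹ = z * b⁻¹ := by
          exact mul_left_cancel (a := b) (by rw [h4]; group)
        exact mul_right_cancel (b := b⁻¹) h6
      rwa [h3] at hz
  have e1 : B.relIndex A = (B.map L.subtype).relIndex A₁ :=
    (Subgroup.relIndex_map_map_of_injective B A L.subtype_injective).symm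
  have e2 : B.map L.subtype = C ⊓ A₁ := by
    ext x
    constructor
    · rintro ⟨b, hb, rfl⟩
      refine Subgroup.mem_inf.2 ⟨?_, ⟨b, hBA hb, rfl⟩⟩
      rw [hC, Subgroup.mem_centralizer_iff]
      rintro _ ⟨w, hw, rfl⟩
      have := (Subgroup.mem_centralizer_iff.1 hb) w hw
      simpa using congrArg Subtype.val this
    · intro hx
      obtain ⟨hx1, a, ha, rfl⟩ := Subgroup.mem_inf.1 hx
      refine ⟨a, ?_, rfl⟩
      show a ∈ B
      rw [hB, Subgroup.mem_centralizer_iff]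
      intro w hw
      have := (Subgroup.mem_centralizer_iff.1 hx1) (w : G) ⟨w, hw, rfl⟩
      ext
      simpa using this
  rw [e1, e2, Subgroup.inf_relIndex_right, ← Subgroup.relIndex_subgroupOf hA₁]
  haveI : (C.subgroupOf N).Normal := normal_centralizer_subgroupOf Q
  exact Subgroup.relIndex_dvd_index_of_normal _ _

theorem piHom_subgroup (hom : PiHom π G) (L : Subgroup G) : PiHom π L := by
  intro Q' hQ' hπ q hq hd
  have hc : Nat.card (Q'.map L.subtype) = Nat.card Q' :=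
    Subgroup.card_map_of_injective L.subtype_injective
  refine hom (Q'.map L.subtype) ?_ ?_ q hq (hd.trans (relIndex_centralizer_dvd L Q'))
  · intro h0
    apply hQ'
    have h1 : Nat.card (Q'.map L.subtype) = 1 := by rw [h0]; simp
    rw [hc] at h1
    exact Subgroup.card_eq_one.1 h1
  · intro p hp hd'
    rw [hc] at hd'
    exact hπ p hp hd'

theorem Setup.exists_sylow_le (hS : Setup π H) {p : ℕ} [Fact p.Prime] (hp : p ∈ π) :
    ∃ P : Sylow p G, (P : Subgroup G) ≤ H := by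
  obtain ⟨S⟩ : Nonempty (Sylow p G) := inferInstance
  obtain ⟨g, hg⟩ := hS.hT S (isPi_of_isPGroup hp S.2)
  refine ⟨g • S, ?_⟩
  intro z hz
  rw [Sylow.coe_subgroup_smul, Subgroup.mem_pointwise_smul_iff_inv_smul_mem] at hz
  apply hg
  rw [mem_cj]
  simpa [MulAut.smul_def] using hz

end Finite

/-- `H` controls the fusion of its elements. -/
theorem controls_aux : ∀ (n : ℕ) (G : Type u) [Group G] [Finite G] (π : Set ℕ) (H : Subgroup G),
    Setup π H → Nat.card G = n →
    ∀ x ∈ H, ∀ g : G, g * x * g⁻¹ ∈ H → ∃ h ∈ H, g * x * g⁻¹ = h * x * h⁻¹ := by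
  intro n
  induction n using Nat.strong_induction_on with
  | _ n IHn =>
  intro G _ _ π H hS hn
  have key : ∀ m : ℕ, ∀ x ∈ H, orderOf x = m → ∀ g : G, g * x * g⁻¹ ∈ H →
      ∃ h ∈ H, g * x * g⁻¹ = h * x * h⁻¹ := by
    intro m
    induction m using Nat.strong_induction_on with
    | _ m IHm =>
    intro x hxH hxm g hg
    by_cases hcen : x ∈ Subgroup.center G
    · refine ⟨1, one_mem _, ?_⟩
      rw [Subgroup.mem_center_iff] at hcen
      have := hcen g
      rw [this]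
      group
    -- the noncentral power case
    have main : ∀ e : ℕ, orderOf (x ^ e) < m → x ^ e ∉ Subgroup.center G →
        ∃ h ∈ H, g * x * g⁻¹ = h * x * h⁻¹ := by
      intro e hlt hnc
      set y : G := x ^ e with hy
      have hyH : y ∈ H := pow_mem hxH e
      have hgy : g * y * g⁻¹ ∈ H := by
        rw [hy, ← conj_pow]
        exact pow_mem hg e
      obtain ⟨h₀, hh₀, he₀⟩ := IHm _ hlt y hyH rfl g hgy
      set L : Subgroup G := centralizer ({y} : Set G) with hL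
      have hyL : y ∈ L := by
        rw [hL, Subgroup.mem_centralizer_singleton_iff]
      have hxL : x ∈ L := by
        rw [hL, Subgroup.mem_centralizer_singleton_iff, hy]
        exact ((Commute.refl x).pow_left e).eq.symm
      have hconjL : ∀ u : G, u * y * u⁻¹ = y → u ∈ L := by
        intro u hu
        rw [hL, Subgroup.mem_centralizer_singleton_iff]
        calc u * y = (u * y * u⁻¹) * u := by group
          _ = y * u := by rw [hu]
      have hLcard : Nat.card L < Nat.card G := by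
        by_contra hcon
        have h1 : L = ⊤ := Subgroup.eq_top_of_card_eq L
          (le_antisymm (Subgroup.card_le_card_group L) (not_lt.1 hcon))
        apply hnc
        rw [Subgroup.mem_center_iff]
        intro z
        have h2 : z ∈ L := by rw [h1]; trivial
        have := (Subgroup.mem_centralizer_singleton_iff).1 h2
        exact this
      have hS' : Setup π (H.subgroupOf L) := by
        refine ⟨?_, ?_, piHom_subgroup hS.hom L⟩
        · intro q hq hd
          apply hS.hπ q hq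
          have h1 : Nat.card ((H.subgroupOf L).map L.subtype) = Nat.card (H.subgroupOf L) :=
            Subgroup.card_map_of_injective L.subtype_injective
          rw [← h1] at hd
          refine hd.trans (Subgroup.card_dvd_of_le ?_)
          rintro _ ⟨z, hz, rfl⟩
          exact hz
        · intro L' hL'
          have hA : IsPiSubgroup π (zpowers y) := by
            intro q hq hd
            apply hS.hπ q hq
            refine hd.trans (Subgroup.card_dvd_of_le ((Subgroup.zpowers_le).2 hyH))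
          have hB : IsPiSubgroup π (L'.map L.subtype) := by
            intro q hq hd
            rw [Subgroup.card_map_of_injective L.subtype_injective] at hd
            exact hL' q hq hd
          have hnorm : zpowers y ≤ normalizer ((L'.map L.subtype : Subgroup G) : Set G) := by
            rw [Subgroup.zpowers_le]
            apply mem_normalizer_of_cj_eq
            rintro _ ⟨_, ⟨z, hz, rfl⟩, rfl⟩
            have h1 : (z : G) * y = y * z := (Subgroup.mem_centralizer_singleton_iff).1 z.2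
            have e : (MulAut.conj y).toMonoidHom (L.subtype z) = z := by
              simp only [MulEquiv.coe_toMonoidHom, MulAut.conj_apply, Subgroup.coe_subtype]
              rw [← h1]
              group
            rw [e]
            exact ⟨z, hz, rfl⟩
          obtain ⟨g₂, hg₂⟩ := hS.hT _ (isPi_sup hA hB hnorm)
          have h1 : g₂ * y * g₂⁻¹ ∈ H :=
            hg₂ (conj_mem_cj (Subgroup.mem_sup_left (Subgroup.mem_zpowers y)))
          obtain ⟨h₂, hh₂, he₂⟩ := IHm _ hlt y hyH rfl g₂ h1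
          have hg₃ : h₂⁻¹ * g₂ ∈ L := by
            apply hconjL
            calc (h₂⁻¹ * g₂) * y * (h₂⁻¹ * g₂)⁻¹ = h₂⁻¹ * (g₂ * y * g₂⁻¹) * h₂ := by group
              _ = y := by rw [he₂]; group
          refine ⟨⟨_, hg₃⟩, ?_⟩
          rintro _ ⟨z, hz, rfl⟩
          rw [Subgroup.mem_subgroupOf]
          have h2 : g₂ * (z : G) * g₂⁻¹ ∈ H :=
            hg₂ (conj_mem_cj (Subgroup.mem_sup_right ⟨z, hz, rfl⟩))
          have e : (((MulAut.conj (⟨_, hg₃⟩ : L)).toMonoidHom z : L) : G)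
              = h₂⁻¹ * (g₂ * (z : G) * g₂⁻¹) * h₂ := by
            simp only [MulEquiv.coe_toMonoidHom, MulAut.conj_apply, Subgroup.coe_mul,
              Subgroup.coe_inv]
            group
          rw [e]
          exact H.mul_mem (H.mul_mem (inv_mem hh₂) h2) hh₂
      have hg₀ : h₀⁻¹ * g ∈ L := by
        apply hconjL
        calc (h₀⁻¹ * g) * y * (h₀⁻¹ * g)⁻¹ = h₀⁻¹ * (g * y * g⁻¹) * h₀ := by group
          _ = y := by rw [he₀]; group
      have hxH' : (⟨x, hxL⟩ : L) ∈ H.subgroupOf L := by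
        rw [Subgroup.mem_subgroupOf]
        exact hxH
      have hgH' : (⟨_, hg₀⟩ : L) * ⟨x, hxL⟩ * (⟨_, hg₀⟩ : L)⁻¹ ∈ H.subgroupOf L := by
        rw [Subgroup.mem_subgroupOf]
        have e : (((⟨_, hg₀⟩ : L) * ⟨x, hxL⟩ * (⟨_, hg₀⟩ : L)⁻¹ : L) : G)
            = h₀⁻¹ * (g * x * g⁻¹) * h₀ := by
          simp only [Subgroup.coe_mul, Subgroup.coe_inv]
          group
        rw [e]
        exact H.mul_mem (H.mul_mem (inv_mem hh₀) hg) hh₀
      obtain ⟨h', hh', he'⟩ := IHn (Nat.card L) (by rw [← hn]; exact hLcard) L π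
        (H.subgroupOf L) hS' rfl ⟨x, hxL⟩ hxH' ⟨_, hg₀⟩ hgH'
      have he'' := congrArg Subtype.val he'
      simp only [Subgroup.coe_mul, Subgroup.coe_inv] at he''
      refine ⟨h₀ * h', H.mul_mem hh₀ (by simpa [Subgroup.mem_subgroupOf] using hh'), ?_⟩
      have e2 : g * x * g⁻¹ = h₀ * (h₀⁻¹ * g * x * (h₀⁻¹ * g)⁻¹) * h₀⁻¹ := by group
      rw [e2, he'']
      group
    have hx1 : x ≠ 1 := by
      rintro rfl
      exact hcen (one_mem _)
    have hm0 : m ≠ 0 := by
      rw [← hxm]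
      exact (orderOf_pos x).ne'
    have hm1 : m ≠ 1 := by
      rw [← hxm]
      intro h1
      exact hx1 (orderOf_eq_one_iff.1 h1)
    have hp : (m.minFac).Prime := Nat.minFac_prime hm1
    obtain ⟨k, t, hpt, hmk⟩ := Nat.exists_eq_pow_mul_and_not_dvd hm0 m.minFac hp.ne_one
    have hk0 : k ≠ 0 := by
      rintro rfl
      apply hpt
      have e : m = t := by
        rw [pow_zero, one_mul] at hmk
        exact hmk
      calc m.minFac ∣ m := Nat.minFac_dvd m
        _ = t := e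
    set p : ℕ := m.minFac with hpdef
    haveI : Fact p.Prime := ⟨hp⟩
    have hs1 : 1 < p ^ k := Nat.one_lt_pow hk0 hp.one_lt
    have ht0 : 0 < t := by
      rcases Nat.eq_zero_or_pos t with h0 | h0
      · rw [h0] at hmk
        simp at hmk
        exact absurd hmk hm0
      · exact h0
    by_cases ht1 : t = 1
    · -- prime power order
      have hord : orderOf x = p ^ k := by rw [hxm, hmk, ht1, mul_one]
      have hpπ : p ∈ π := by
        apply hS.hπ p hp
        have h1 : orderOf x ∣ Nat.card H := Subgroup.orderOf_dvd_natCard H hxH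
        rw [hord] at h1
        exact (dvd_pow_self p hk0).trans h1
      obtain ⟨P, hPH⟩ := hS.exists_sylow_le hpπ
      have hW : IsPGroup p (zpowers x) := by
        rw [IsPGroup.iff_card]
        exact ⟨k, by rw [Nat.card_zpowers, hord]⟩
      have hW2 : cj g (zpowers x) ≤ H := by
        rintro _ ⟨z, hz, rfl⟩
        obtain ⟨i, rfl⟩ := Subgroup.mem_zpowers_iff.1 hz
        have e : (MulAut.conj g).toMonoidHom (x ^ i) = (g * x * g⁻¹) ^ i := by
          simp only [MulEquiv.coe_toMonoidHom, MulAut.conj_apply]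
          rw [conj_zpow]
        rw [e]
        exact zpow_mem hg i
      obtain ⟨h₁, hh₁, hl₁⟩ := exists_mem_cj_le P hPH hW ((Subgroup.zpowers_le).2 hxH)
      obtain ⟨h₂, hh₂, hl₂⟩ := exists_mem_cj_le P hPH (hW.map (MulAut.conj g).toMonoidHom) hW2
      have hc : cj (h₂ * g * h₁⁻¹) (cj h₁ (zpowers x)) ≤ P := by
        rw [← cj_mul]
        have e : h₂ * g * h₁⁻¹ * h₁ = h₂ * g := by group
        rw [e, cj_mul]
        exact hl₂
      obtain ⟨h₃, hh₃, he₃⟩ := ctl_all P hS hPH hpπ _ hl₁ _ hc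
      have hxm1 : h₁ * x * h₁⁻¹ ∈ cj h₁ (zpowers x) := conj_mem_cj (Subgroup.mem_zpowers x)
      have h4 := he₃ _ hxm1
      refine ⟨h₂⁻¹ * h₃ * h₁, H.mul_mem (H.mul_mem (inv_mem hh₂) hh₃) hh₁, ?_⟩
      have e1 : g * x * g⁻¹ = h₂⁻¹ * ((h₂ * g * h₁⁻¹) * (h₁ * x * h₁⁻¹) * (h₂ * g * h₁⁻¹)⁻¹) * h₂ := by
        group
      rw [e1, h4]
      group
    · -- split into two coprime parts
      have ht2 : 1 < t := by omega
      have hlt1 : orderOf (x ^ t) < m := by
        have h1 : orderOf (x ^ t) ∣ p ^ k := by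
          apply orderOf_dvd_of_pow_eq_one
          rw [← pow_mul, mul_comm, ← hmk, ← hxm, pow_orderOf_eq_one]
        have h2 : orderOf (x ^ t) ≤ p ^ k := Nat.le_of_dvd (by positivity) h1
        rw [hmk]
        nlinarith
      have hlt2 : orderOf (x ^ (p ^ k)) < m := by
        have h1 : orderOf (x ^ (p ^ k)) ∣ t := by
          apply orderOf_dvd_of_pow_eq_one
          rw [← pow_mul, ← hmk, ← hxm, pow_orderOf_eq_one]
        have h2 : orderOf (x ^ (p ^ k)) ≤ t := Nat.le_of_dvd ht0 h1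
        rw [hmk]
        nlinarith
      by_cases hc1 : x ^ t ∈ Subgroup.center G
      · by_cases hc2 : x ^ (p ^ k) ∈ Subgroup.center G
        · exfalso
          apply hcen
          have hcop : Nat.Coprime t (p ^ k) :=
            Nat.Coprime.pow_right k ((Nat.Prime.coprime_iff_not_dvd hp).2 hpt).symm
          have hbez := Nat.gcd_eq_gcd_ab t (p ^ k)
          rw [hcop] at hbez
          have e : x = (x ^ t) ^ (Nat.gcdA t (p ^ k)) * (x ^ (p ^ k)) ^ (Nat.gcdB t (p ^ k)) := by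
            rw [← zpow_natCast x t, ← zpow_natCast x (p ^ k), ← zpow_mul, ← zpow_mul, ← zpow_add,
              ← hbez]
            simp
          rw [e]
          exact mul_mem (zpow_mem hc1 _) (zpow_mem hc2 _)
        · exact main _ hlt2 hc2
      · exact main _ hlt1 hc1
  intro x hx g hg
  exact key _ x hx rfl g hg

theorem Setup.controls {G : Type u} [Group G] [Finite G] {π : Set ℕ} {H : Subgroup G}
    (hS : Setup π H) : ∀ x ∈ H, ∀ y ∈ H, IsConj x y → ∃ h ∈ H, h * x * h⁻¹ = y := by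
  intro x hx y hy hc
  obtain ⟨g, rfl⟩ := isConj_iff.1 hc
  obtain ⟨h, hh, he⟩ := controls_aux _ G π H hS rfl x hx g hy
  exact ⟨h, hh, he.symm⟩

/-- The `π'`-elements form a normal complement to `H`. -/
theorem Setup.exists_complement {G : Type u} [Group G] [Finite G] {π : Set ℕ} {H : Subgroup G}
    (hS : Setup π H) : ∃ K : Subgroup G, K.Normal ∧ K ⊔ H = ⊤ ∧ K ⊓ H = ⊥ ∧
      Nat.card K = H.index ∧ K.index = Nat.card H ∧
      ∀ x : G, x ∈ K ↔ ∀ p : ℕ, p.Prime → p ∣ orderOf x → p ∉ π := by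
  have helem : ∀ (E : Subgroup G) (p : ℕ), p.Prime → Cfsg.IsElementary p E →
      Nat.card E ∣ Nat.card H → ∃ g : G, E.map (MulAut.conj g).toMonoidHom ≤ H := by
    intro E p _ _ hd
    exact hS.hT E (fun q hq hdq => hS.hπ q hq (hdq.trans hd))
  obtain ⟨K, hKn, hsup, hinf⟩ := Cfsg.Agent.S0877.result H hS.coprime hS.controls helem
  have hnorm : H ≤ normalizer (K : Set G) := by
    rw [Subgroup.normalizer_eq_top_iff.2 hKn]
    exact le_top
  have h1 := Cfsg.Agent.Lib.PGroup.Timmesfeld.card_sup_mul_card_inf_of_le_normalizer H K hnorm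
  rw [sup_comm, hsup, inf_comm, hinf] at h1
  simp only [Subgroup.card_top, Subgroup.card_bot, mul_one] at h1
  have h2 : Nat.card K = H.index := by
    have h3 := Subgroup.card_mul_index H
    exact Nat.eq_of_mul_eq_mul_left Nat.card_pos (by rw [← h1, h3])
  have h4 : K.index = Nat.card H := by
    have h3 := Subgroup.card_mul_index K
    rw [h1, mul_comm (Nat.card K)] at h3
    exact Nat.eq_of_mul_eq_mul_right Nat.card_pos h3
  refine ⟨K, hKn, hsup, hinf, h2, h4, ?_⟩
  intro x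
  constructor
  · intro hx p hp hd
    apply hS.not_mem_of_dvd_index hp
    rw [← h2]
    exact hd.trans (Subgroup.orderOf_dvd_natCard K hx)
  · intro hx
    have h5 : x ^ K.index ∈ K := Subgroup.pow_index_mem K x
    have hcop : Nat.Coprime K.index (orderOf x) := by
      rw [Nat.coprime_iff_gcd_eq_one]
      by_contra hne
      obtain ⟨q, hq, hqd⟩ := Nat.exists_prime_and_dvd hne
      have h6 : q ∈ π := hS.hπ q hq (by rw [← h4]; exact hqd.trans (Nat.gcd_dvd_left _ _))
      exact hx q hq (hqd.trans (Nat.gcd_dvd_right _ _)) h6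
    obtain ⟨m, hm⟩ := exists_pow_eq_self_of_coprime hcop
    rw [← hm]
    exact pow_mem h5 m

/-- Groups whose maximal `π`-subgroups are conjugate and with `N(Q)/C(Q)` a `π`-group for each
nontrivial `π`-subgroup `Q` are `π'`-closed. -/
theorem exists_of_isDPiGroup {G : Type u} [Group G] [Finite G] {π : Set ℕ}
    (hD : Cfsg.IsDPiGroup π G) (hhom : PiHom π G) :
    ∃ K : Subgroup G, ∀ x : G, x ∈ K ↔ ∀ p : ℕ, p.Prime → p ∣ orderOf x → p ∉ π := by
  have hbot : IsPiSubgroup π (⊥ : Subgroup G) := by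
    intro p hp hd
    rw [Subgroup.card_bot] at hd
    exact absurd (Nat.dvd_one.1 hd) hp.one_lt.ne'
  obtain ⟨H, -, hHmax⟩ := Finite.exists_le_maximal hbot
  have hT : ∀ L : Subgroup G, IsPiSubgroup π L → ∃ g : G, cj g L ≤ H := by
    intro L hL
    obtain ⟨M, hLM, hM⟩ := Finite.exists_le_maximal hL
    obtain ⟨g, hg⟩ := hD M H hM hHmax
    exact ⟨g, by rw [hg]; exact cj_mono g hLM⟩
  have hS : Setup π H := ⟨hHmax.prop, hT, hhom⟩
  obtain ⟨K, -, -, -, -, -, hK⟩ := hS.exists_complement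
  exact ⟨K, hK⟩

end Cfsg.Agent.Lib.Components.PiHomog
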