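import Mathlib
import Cfsg.Prelude.Def_Solvable
import Cfsg.Prelude.Def_Local
import Cfsg.Prelude.Def_Transfer
import Cfsg.Prelude.Def_SubgroupEmbedding
import Cfsg.Agent.S3012
import Cfsg.Agent.Lib.Components.LocalFStar
import Cfsg.Agent.Lib.Components.PMinimal

/-!
# Minimal counterexamples to the Sidki pair statement
-/

set_option autoImplicit false
set_option linter.unusedSectionVars false
set_option linter.style.haveILetI false
open Cfsg

universe u

namespace Cfsg.Agent.Lib.Components.SidkiMin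

open Subgroup Cfsg.Agent.Lib.Components.Layer
open Cfsg.Agent.Lib.Components.PMinimal (cj mem_cj)
open Cfsg.Agent.Lib.Components.Quasisimple
open Cfsg.Agent.Lib.Components.FStarFactor
open Cfsg.Agent.Lib.Components.LocalFStar
open scoped Pointwise
open Cfsg.Agent.Lib.Basic.PCore (le_pCore_of_subnormal mem_pCore_of_normal_nilpotent
  le_fittingSubgroup_of_subnormal pCore_quotient_eq_bot)

section Pure

variable {G : Type*} [Group G]

/-- A group element of odd order whose square lies in `Y` lies in `Y`. -/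
theorem mem_of_mul_self_mem {Y : Subgroup G} {x : G} (hodd : Odd (orderOf x)) (h : x * x ∈ Y) :
    x ∈ Y := by
  obtain ⟨r, hr⟩ := hodd
  have h1 : x ^ (2 * r + 1) = 1 := by rw [← hr]; exact pow_orderOf_eq_one x
  have h2 : (x * x) ^ (r + 1) = x := by
    calc (x * x) ^ (r + 1) = x ^ (2 * r + 1) * x := by
          rw [← pow_two, ← pow_mul, ← pow_succ]; congr 1
      _ = x := by rw [h1, one_mul]
  rw [← h2]
  exact pow_mem h _

theorem eq_one_of_mul_self (x : G) (hodd : Odd (orderOf x)) (h : x * x = 1) : x = 1 := by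
  have : x ∈ (⊥ : Subgroup G) := mem_of_mul_self_mem hodd (by simp [h])
  simpa using this

theorem odd_of_no_involution [Finite G] {F : Subgroup G} (h : ∀ z ∈ F, z * z = 1 → z = 1)
    {f : G} (hf : f ∈ F) : Odd (orderOf f) := by
  by_contra hne
  rw [Nat.not_odd_iff_even] at hne
  obtain ⟨k, hk⟩ := hne
  have hpos : 0 < orderOf f := orderOf_pos f
  have h1 : f ^ k * f ^ k = 1 := by
    rw [← pow_add, ← hk]; exact pow_orderOf_eq_one f
  have h2 : f ^ k = 1 := h _ (pow_mem hf _) h1
  have h3 := orderOf_dvd_of_pow_eq_one h2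
  have h4 := Nat.le_of_dvd (by omega) h3
  omega

theorem odd_orderOf_mul {x y : G} (hc : Commute x y) (hx : Odd (orderOf x)) (hy : Odd (orderOf y)) :
    Odd (orderOf (x * y)) := by
  have h := hc.orderOf_mul_dvd_mul_orderOf
  exact Odd.of_dvd_nat (hx.mul hy) h

/-- `H ⊔ [Q,Q] = Q` forces `H = Q` in a finite nilpotent group. -/
theorem eq_top_of_sup_commutator {Q : Type*} [Group Q] [Finite Q] [hn : Group.IsNilpotent Q]
    (H : Subgroup Q) (h : H ⊔ commutator Q = ⊤) : H = ⊤ := by
  by_contra hne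
  obtain ⟨M, hM, hHM⟩ := (eq_top_or_exists_le_coatom H).resolve_left hne
  have hnorm : M < normalizer (M : Set Q) := Group.normalizerCondition_of_isNilpotent M hM.lt_top
  have htop : normalizer (M : Set Q) = ⊤ := hM.2 _ hnorm
  have hMn : M.Normal := normalizer_eq_top_iff.mp htop
  have hsimple : IsSimpleGroup (Q ⧸ M) := by
    haveI : Nontrivial (Q ⧸ M) := QuotientGroup.nontrivial_iff.2 hM.1
    refine ⟨fun N hN => ?_⟩
    have h1 : M ≤ N.comap (QuotientGroup.mk' M) := by
      intro x hx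
      have : QuotientGroup.mk' M x = 1 := (QuotientGroup.eq_one_iff x).mpr hx
      rw [mem_comap, this]
      exact one_mem _
    rcases h1.eq_or_lt with h2 | h2
    · left
      rw [eq_bot_iff]
      intro q hq
      obtain ⟨y, rfl⟩ := QuotientGroup.mk_surjective q
      have : y ∈ N.comap (QuotientGroup.mk' M) := hq
      rw [← h2] at this
      exact (mem_bot).mpr ((QuotientGroup.eq_one_iff y).mpr this)
    · right
      have h3 := hM.2 _ h2
      rw [eq_top_iff]
      intro q _
      obtain ⟨y, rfl⟩ := QuotientGroup.mk_surjective q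
      have : y ∈ N.comap (QuotientGroup.mk' M) := by rw [h3]; trivial
      exact this
  have hsolv : Group.IsSolvable (Q ⧸ M) := by
    have : Group.IsNilpotent (Q ⧸ M) := inferInstance
    infer_instance
  have hcomm := (IsSimpleGroup.comm_iff_isSolvable (G := Q ⧸ M)).mpr hsolv
  have hle : commutator Q ≤ M := by
    rw [_root_.commutator_def, Subgroup.commutator_le]
    intro a _ b _
    rw [← QuotientGroup.eq_one_iff]
    have := hcomm (QuotientGroup.mk a) (QuotientGroup.mk b)
    simp only [commutatorElement_def, QuotientGroup.mk_mul, QuotientGroup.mk_inv, this]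
    group
  apply hM.1
  rw [eq_top_iff, ← h]
  exact sup_le hHM hle

/-- An involutory automorphism of a nilpotent group of odd order acting trivially on the
abelianisation is trivial. -/
theorem commute_of_commutator_mem [Finite G] {F : Subgroup G} (hnil : Group.IsNilpotent F) {v : G}
    (hv2 : v * v = 1) (hvF : ∀ f ∈ F, v * f * v⁻¹ ∈ F) (hodd : ∀ f ∈ F, Odd (orderOf f))
    (hK : ∀ f ∈ F, f⁻¹ * (v * f * v⁻¹) ∈ ⁅F, F⁆) : ∀ f ∈ F, v * f = f * v := by
  have hvinv : v⁻¹ = v := inv_eq_of_mul_eq_one_left hv2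
  set H : Subgroup ↥F := (centralizer ({v} : Set G)).subgroupOf F with hH
  have htop : H = ⊤ := by
    apply eq_top_of_sup_commutator
    rw [eq_top_iff]
    rintro ⟨f, hf⟩ -
    have hcomm : ∀ x : ↥F, (x : G) ∈ ⁅F, F⁆ → x ∈ commutator ↥F := by
      rintro ⟨x, hx⟩ hx'
      rw [← map_subtype_commutator] at hx'
      obtain ⟨y, hy, hyx⟩ := hx'
      have : y = ⟨x, hx⟩ := Subtype.ext hyx
      rwa [← this]
    set j := f⁻¹ * (v * f * v⁻¹) with hj
    have hjF : j ∈ F := mul_mem (inv_mem hf) (hvF f hf)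
    have hjK : j ∈ ⁅F, F⁆ := hK f hf
    have hjinv : v * j * v⁻¹ = j⁻¹ := by
      rw [hj, hvinv]
      have e : v * (v * f * v) * v = f := by
        calc v * (v * f * v) * v = (v * v) * f * (v * v) := by group
          _ = f := by rw [hv2]; group
      calc v * (f⁻¹ * (v * f * v)) * v = (v * f⁻¹ * v) * (v * (v * f * v) * v) := by
            have : v * f⁻¹ * v * (v * (v * f * v) * v) = v * f⁻¹ * (v * v) * (v * f * v) * v := by group
            rw [this, hv2]; group
        _ = (v * f * v)⁻¹ * f := by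
            rw [e]
            congr 1
            rw [mul_inv_rev, mul_inv_rev, hvinv]
            group
        _ = _ := by group
    obtain ⟨r, hr⟩ := hodd _ (inv_mem hjF)
    set i := (j⁻¹) ^ (r + 1) with hi
    have hii : i * i = j⁻¹ := by
      have h1 : (j⁻¹) ^ (2 * r + 1) = 1 := by rw [← hr]; exact pow_orderOf_eq_one _
      calc i * i = (j⁻¹) ^ (2 * r + 1) * j⁻¹ := by
            rw [hi, ← pow_add, ← pow_succ]; congr 1; ring
        _ = j⁻¹ := by rw [h1, one_mul]
    have hiF : i ∈ F := pow_mem (inv_mem hjF) _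
    have hiK : i ∈ ⁅F, F⁆ := pow_mem (inv_mem hjK) _
    have hiinv : v * i * v⁻¹ = i⁻¹ := by
      have h2 : v * j⁻¹ * v⁻¹ = j := by
        calc v * j⁻¹ * v⁻¹ = (v * j * v⁻¹)⁻¹ := by group
          _ = j := by rw [hjinv, inv_inv]
      rw [hi, ← conj_pow, h2, inv_pow, inv_inv]
    -- `c = f * i⁻¹` is fixed
    have hfj : v * f * v⁻¹ = f * j := by rw [hj]; group
    have hc : v * (f * i⁻¹) * v⁻¹ = f * i⁻¹ := by
      have e1 : v * (f * i⁻¹) * v⁻¹ = (v * f * v⁻¹) * (v * i * v⁻¹)⁻¹ := by group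
      rw [e1, hiinv, hfj, inv_inv]
      have : j = i⁻¹ * i⁻¹ := by
        have := congrArg (·⁻¹) hii
        simp only [inv_inv, mul_inv_rev] at this
        exact this.symm
      rw [this]
      group
    have hcmem : (⟨f * i⁻¹, mul_mem hf (inv_mem hiF)⟩ : ↥F) ∈ H := by
      rw [hH, mem_subgroupOf, mem_centralizer_singleton_iff]
      show f * i⁻¹ * v = v * (f * i⁻¹)
      rw [eq_mul_inv_iff_mul_eq.mp hc.symm] 
    have hl : (⟨f, hf⟩ : ↥F) =
        (⟨f * i⁻¹, mul_mem hf (inv_mem hiF)⟩ : ↥F) * ⟨i, hiF⟩ := by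
      apply Subtype.ext
      show f = f * i⁻¹ * i
      group
    rw [hl]
    exact mul_mem_sup hcmem (hcomm ⟨i, hiF⟩ hiK)
  intro f hf
  have : (⟨f, hf⟩ : ↥F) ∈ H := by rw [htop]; trivial
  rw [hH, mem_subgroupOf, mem_centralizer_singleton_iff] at this
  exact this.symm

end Pure

section Main

variable {G : Type u} [Group G] [Finite G]

/-- The minimal counterexample hypotheses. -/
structure Setup (V : Subgroup G) : Prop where
  hV : IsElementaryAbelian 2 V
  hV1 : V ≠ ⊥
  hS : IsSidkiPair V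
  hVO : V ⊓ pCore 2 G = ⊥
  hminG : ∀ (H : Type u) [Group H] [Finite H] (W : Subgroup H), Nat.card H < Nat.card G →
    IsElementaryAbelian 2 W → W ≠ ⊥ → IsSidkiPair W → W ⊓ pCore 2 H ≠ ⊥

variable {V : Subgroup G}

theorem Setup.sq (hs : Setup V) {v : G} (hv : v ∈ V) : v * v = 1 := by
  have := hs.hV.2 v hv
  rwa [pow_two] at this

theorem Setup.inv (hs : Setup V) {v : G} (hv : v ∈ V) : v⁻¹ = v :=
  inv_eq_of_mul_eq_one_left (hs.sq hv)

theorem Setup.comm (hs : Setup V) {a b : G} (ha : a ∈ V) (hb : b ∈ V) : a * b = b * a := by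
  have := hs.hV.1
  have h := mul_comm' (⟨a, ha⟩ : V) ⟨b, hb⟩
  exact congrArg Subtype.val h

theorem exists_ne_one_of_ne_bot {H : Subgroup G} (h : H ≠ ⊥) : ∃ x ∈ H, x ≠ 1 := by
  rcases Subgroup.bot_or_exists_ne_one H with h1 | h1
  · exact absurd h1 h
  · exact h1

theorem ne_bot_of_exists {H : Subgroup G} {x : G} (hx : x ∈ H) (h1 : x ≠ 1) : H ≠ ⊥ := by
  rintro rfl
  exact h1 (by simpa using hx)

/-- Sidki condition on a proper subgroup gives a nontrivial element in the `2`-core. -/
theorem Setup.min_sub (hs : Setup V) {H D : Subgroup G} (hH : H ≠ ⊤) (hDH : D ≤ H) (hDV : D ≤ V)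
    (hD : D ≠ ⊥)
    (hSid : ∀ v h : G, v ∈ D → h ∈ H → Odd (orderOf h) → v * h * v⁻¹ = h⁻¹ →
      ∃ w ∈ D, w ≠ 1 ∧ w * h = h * w) :
    ∃ d ∈ D, d ≠ 1 ∧ d ∈ (pCore 2 ↥H).map H.subtype := by
  have hcard : Nat.card ↥H < Nat.card G :=
    lt_of_le_of_ne (Subgroup.card_le_card_group H) (fun h => hH (Subgroup.eq_top_of_card_eq H h))
  have hel : IsElementaryAbelian 2 (D.subgroupOf H) := by
    refine ⟨⟨⟨?_⟩⟩, ?_⟩
    · rintro ⟨⟨a, ha⟩, ha'⟩ ⟨⟨b, hb⟩, hb'⟩
      apply Subtype.ext
      apply Subtype.ext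
      exact hs.comm (hDV (mem_subgroupOf.mp ha')) (hDV (mem_subgroupOf.mp hb'))
    · rintro ⟨a, ha⟩ ha'
      apply Subtype.ext
      exact hs.hV.2 a (hDV (mem_subgroupOf.mp ha'))
  have hne : D.subgroupOf H ≠ ⊥ := by
    obtain ⟨x, hx, hx1⟩ := exists_ne_one_of_ne_bot hD
    refine ne_bot_of_exists (x := ⟨x, hDH hx⟩) (mem_subgroupOf.mpr hx) ?_
    intro h
    exact hx1 (congrArg Subtype.val h)
  have hsid : IsSidkiPair (D.subgroupOf H) := by
    rintro ⟨h, hh⟩ ⟨v, hv⟩ hv' hodd hinv
    obtain ⟨w, hw, hw1, hwc⟩ := hSid v h (mem_subgroupOf.mp hv') hh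
      (by rwa [Subgroup.orderOf_mk] at hodd)
      (by simpa using congrArg Subtype.val hinv)
    refine ⟨⟨w, hDH hw⟩, mem_subgroupOf.mpr hw, fun h => hw1 (congrArg Subtype.val h), ?_⟩
    exact Subtype.ext hwc
  have := hs.hminG ↥H (D.subgroupOf H) hcard hel hne hsid
  obtain ⟨x, hx, hx1⟩ := exists_ne_one_of_ne_bot this
  refine ⟨x, mem_subgroupOf.mp hx.1, fun h => hx1 (Subtype.ext h), ⟨x, hx.2, rfl⟩⟩

/-- The `2`-core of a subgroup normalizing a subnormal subgroup `Y ≤ H` centralizes `Y`. -/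
theorem commute_of_mem_core (hO : pCore 2 G = ⊥) {H Y : Subgroup G} (hY : Y.IsSubnormal)
    (hYH : Y ≤ H) (hN : H ≤ normalizer (Y : Set G)) {d y : G}
    (hd : d ∈ (pCore 2 ↥H).map H.subtype) (hy : y ∈ Y) : d * y = y * d := by
  set T : Subgroup G := (pCore 2 ↥H).map H.subtype with hT
  have hTp : IsPGroup 2 T := by
    have h1 : IsPGroup 2 (pCore 2 ↥H) := Cfsg.Agent.Lib.Basic.PCore.pCore_isPGroup 2
    exact h1.map H.subtype
  have hTH : T ≤ H := by
    rintro _ ⟨x, -, rfl⟩
    exact x.2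
  have hTn : ∀ t ∈ T, ∀ g ∈ H, g * t * g⁻¹ ∈ T := by
    rintro _ ⟨t, ht, rfl⟩ g hg
    refine ⟨⟨g, hg⟩ * t * ⟨g, hg⟩⁻¹, ?_, rfl⟩
    have hn : (pCore 2 ↥H).Normal := Cfsg.Agent.Lib.Nilpotent.Fitting.pCore_normal 2
    exact hn.conj_mem _ ht _
  have hYd : d ∈ normalizer (Y : Set G) := hN (hTH hd)
  have hsn : (T ⊓ Y).IsSubnormal := by
    refine Subgroup.IsSubnormal.step (T ⊓ Y) Y inf_le_right hY ?_
    refine ⟨?_⟩
    rintro ⟨x, hx⟩ hx' ⟨g, hg⟩
    have hx2 : x ∈ Y := hx
    have hg2 : g ∈ Y := hg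
    rw [mem_subgroupOf] at hx' ⊢
    refine Subgroup.mem_inf.mpr ⟨hTn x (Subgroup.mem_inf.mp hx').1 g (hYH hg), ?_⟩
    exact mul_mem (mul_mem hg2 hx2) (inv_mem hg2)
  have hpg : IsPGroup 2 ↥(T ⊓ Y) :=
    hTp.to_le inf_le_left
  have hbot := le_pCore_of_subnormal hsn hpg
  rw [hO, le_bot_iff] at hbot
  have hmem : d * y * d⁻¹ * y⁻¹ ∈ T ⊓ Y := by
    refine Subgroup.mem_inf.mpr ⟨?_, ?_⟩
    · have h1 : y * d⁻¹ * y⁻¹ ∈ T := hTn d⁻¹ (inv_mem hd) y (hYH hy)
      have : d * y * d⁻¹ * y⁻¹ = d * (y * d⁻¹ * y⁻¹) := by group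
      rw [this]
      exact mul_mem hd h1
    · have h1 : d * y * d⁻¹ ∈ Y := (mem_normalizer_iff.mp hYd y).mp hy
      exact mul_mem h1 (inv_mem hy)
  rw [hbot, mem_bot] at hmem
  calc d * y = (d * y * d⁻¹ * y⁻¹) * y * d := by group
    _ = y * d := by rw [hmem, one_mul]

/-- odd elements of `Y ⊔ D` lie in `Y`. -/
theorem Setup.odd_mem (hs : Setup V) {Y D : Subgroup G} (hDV : D ≤ V)
    (hN : D ≤ normalizer (Y : Set G)) {x : G} (hx : x ∈ Y ⊔ D) (hodd : Odd (orderOf x)) : x ∈ Y := by
  apply mem_of_mul_self_mem hodd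
  have hset : ((Y ⊔ D : Subgroup G) : Set G) = (D : Set G) * (Y : Set G) := by
    rw [sup_comm]
    exact Subgroup.coe_mul_of_left_le_normalizer_right D Y hN
  have hx' : x ∈ (D : Set G) * (Y : Set G) := by rw [← hset]; exact hx
  obtain ⟨d, hd, y, hy, rfl⟩ := hx'
  have hd2 := hs.sq (hDV hd)
  have e : d * y * (d * y) = (d * y * d⁻¹) * y := by
    have hdi := hs.inv (hDV hd)
    rw [hdi]
    group
  rw [e]
  exact mul_mem ((mem_normalizer_iff.mp (hN hd) y).mp hy) hy

/-- Bender: an element of `V` centralizing `F*(G)` is trivial. -/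
theorem Setup.eq_one_of_centralizes (hs : Setup V) (hO : pCore 2 G = ⊥) {d : G} (hd : d ∈ V)
    (hc : ∀ f ∈ generalizedFittingSubgroup G, d * f = f * d) : d = 1 := by
  by_contra hd1
  set Fs := generalizedFittingSubgroup G with hFs
  have hdC : d ∈ centralizer (Fs : Set G) := by
    rw [mem_centralizer_iff]
    intro f hf
    exact (hc f hf).symm
  have hdF : d ∈ Fs := Cfsg.Agent.Lib.Components.FStar.centralizer_generalizedFitting_le hdC
  set Z : Subgroup G := centralizer (Fs : Set G) ⊓ Fs with hZ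
  have hFsn : Fs.Normal := inferInstance
  have hZn : Z.Normal := by
    haveI : (centralizer (Fs : Set G)).Normal := Subgroup.normal_centralizer
    exact Subgroup.normal_inf_normal _ _
  have hZnil : Group.IsNilpotent Z := by
    letI : CommGroup Z :=
      { (inferInstance : Group Z) with
        mul_comm := by
          rintro ⟨a, ha⟩ ⟨b, hb⟩
          apply Subtype.ext
          exact (mem_centralizer_iff.mp ha.1 b hb.2).symm }
    exact CommGroup.isNilpotent
  have hord : orderOf d = 2 ^ 1 := by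
    rw [pow_one]
    apply orderOf_eq_prime
    · rw [pow_two]; exact hs.sq hd
    · exact hd1
  have := mem_pCore_of_normal_nilpotent hZn hZnil (⟨hdC, hdF⟩ : d ∈ Z) Nat.prime_two hord
  rw [hO] at this
  exact hd1 (by simpa using this)

/-- Quotients. -/
theorem Setup.quot_step (hs : Setup V) (K : Subgroup G) [hK : K.Normal] (hK1 : K ≠ ⊥)
    (hVK : V ⊓ K = ⊥) : ∃ v ∈ V, v ≠ 1 ∧ QuotientGroup.mk' K v ∈ pCore 2 (G ⧸ K) := by
  have hcard : Nat.card (G ⧸ K) < Nat.card G := by
    have h1 := Subgroup.card_eq_card_quotient_mul_card_subgroup K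
    have h2 : 1 < Nat.card K := by
      obtain ⟨x, hx, hx1⟩ := exists_ne_one_of_ne_bot hK1
      haveI : Nontrivial K := ⟨⟨⟨x, hx⟩, 1, fun h => hx1 (congrArg Subtype.val h)⟩⟩
      exact Finite.one_lt_card
    have h3 : 0 < Nat.card (G ⧸ K) := Nat.card_pos
    rw [h1]
    nlinarith
  have hel : IsElementaryAbelian 2 (V.map (QuotientGroup.mk' K)) := by
    refine ⟨⟨⟨?_⟩⟩, ?_⟩
    · rintro ⟨_, a, ha, rfl⟩ ⟨_, b, hb, rfl⟩
      apply Subtype.ext
      show QuotientGroup.mk' K a * QuotientGroup.mk' K b = QuotientGroup.mk' K b * QuotientGroup.mk' K a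
      rw [← map_mul, ← map_mul, hs.comm ha hb]
    · rintro _ ⟨a, ha, rfl⟩
      rw [← map_pow, hs.hV.2 a ha, map_one]
  have hinj : ∀ v ∈ V, QuotientGroup.mk' K v = 1 → v = 1 := by
    intro v hv h
    have : v ∈ K := (QuotientGroup.eq_one_iff v).mp h
    have h2 : v ∈ V ⊓ K := ⟨hv, this⟩
    rw [hVK] at h2
    simpa using h2
  have hne : V.map (QuotientGroup.mk' K) ≠ ⊥ := by
    obtain ⟨x, hx, hx1⟩ := exists_ne_one_of_ne_bot hs.hV1
    exact ne_bot_of_exists ⟨x, hx, rfl⟩ (fun h => hx1 (hinj x hx h))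
  have := hs.hminG (G ⧸ K) (V.map (QuotientGroup.mk' K)) hcard hel hne
    (Cfsg.Agent.S3012.result V K hs.hV hs.hV1 hs.hS hVK)
  obtain ⟨x, hx, hx1⟩ := exists_ne_one_of_ne_bot this
  obtain ⟨v, hv, rfl⟩ := hx.1
  exact ⟨v, hv, fun h => hx1 (by rw [h, map_one]), hx.2⟩

theorem Setup.core_eq_bot (hs : Setup V) : pCore 2 G = ⊥ := by
  by_contra hne
  haveI hn : (pCore 2 G).Normal := Cfsg.Agent.Lib.Nilpotent.Fitting.pCore_normal 2
  obtain ⟨v, hv, h1, h2⟩ := hs.quot_step (pCore 2 G) hne hs.hVO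
  haveI : Fact (Nat.Prime 2) := ⟨Nat.prime_two⟩
  rw [pCore_quotient_eq_bot, mem_bot] at h2
  have h3 : v ∈ pCore 2 G := (QuotientGroup.eq_one_iff v).mp h2
  have h4 : v ∈ V ⊓ pCore 2 G := mem_inf.mpr ⟨hv, h3⟩
  rw [hs.hVO] at h4
  exact h1 (by simpa using h4)

theorem Setup.sid_sup (hs : Setup V) (H : Subgroup G) :
    ∀ v h : G, v ∈ V → h ∈ H → Odd (orderOf h) → v * h * v⁻¹ = h⁻¹ →
      ∃ w ∈ V, w ≠ 1 ∧ w * h = h * w :=
  fun v h hv _ hodd hinv => hs.hS h v hv hodd hinv

theorem Setup.sup_eq_top (hs : Setup V) : V ⊔ generalizedFittingSubgroup G = ⊤ := by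
  by_contra hne
  have hO := hs.core_eq_bot
  have hFsn : (generalizedFittingSubgroup G).Normal := inferInstance
  obtain ⟨d, hd, hd1, hdc⟩ := hs.min_sub (H := V ⊔ generalizedFittingSubgroup G) (D := V) hne
    le_sup_left le_rfl hs.hV1 (hs.sid_sup _)
  apply hd1
  apply hs.eq_one_of_centralizes hO hd
  intro f hf
  refine commute_of_mem_core hO (Y := generalizedFittingSubgroup G) hFsn.isSubnormal le_sup_right
    ?_ hdc hf
  rw [normalizer_eq_top_iff.mpr hFsn]
  exact le_top

/-- The main reduction lemma. -/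
theorem Setup.lemmaU (hs : Setup V) {X Y : Subgroup G} (hXn : X.Normal) (hYn : Y.Normal)
    (hcomm : ∀ x ∈ X, ∀ y ∈ Y, x * y = y * x)
    (hXY : ∀ z, z ∈ X → z ∈ Y → z * z = 1 → z = 1)
    (hFs : ∀ d ∈ V, (∀ x ∈ X, d * x = x * d) → (∀ y ∈ Y, d * y = y * d) → d = 1)
    (hYX : ∃ y ∈ Y, Odd (orderOf y) ∧ y ∉ X)
    (hA : ∃ a ∈ V, a ≠ 1 ∧ ∀ y ∈ Y, a * y = y * a) : False := by
  have hO := hs.core_eq_bot
  set A : Subgroup G := V ⊓ centralizer (Y : Set G) with hAdef
  have hmemA : ∀ {a : G}, a ∈ A ↔ a ∈ V ∧ ∀ y ∈ Y, a * y = y * a := by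
    intro a
    rw [hAdef, mem_inf, mem_centralizer_iff]
    exact and_congr_right fun _ =>
      ⟨fun h y hy => (h y hy).symm, fun h y hy => (h y hy).symm⟩
  have hAV : A ≤ V := inf_le_left
  have hAne : A ≠ ⊥ := by
    obtain ⟨a, ha, ha1, hay⟩ := hA
    exact ne_bot_of_exists (hmemA.mpr ⟨ha, hay⟩) ha1
  have hNX : ∀ D : Subgroup G, D ≤ normalizer (X : Set G) := fun D => by
    rw [normalizer_eq_top_iff.mpr hXn]; exact le_top
  have hNY : ∀ D : Subgroup G, D ≤ normalizer (Y : Set G) := fun D => by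
    rw [normalizer_eq_top_iff.mpr hYn]; exact le_top
  have hH : X ⊔ A ≠ ⊤ := by
    intro htop
    obtain ⟨y, hy, hyo, hyX⟩ := hYX
    exact hyX (hs.odd_mem hAV (hNX A) (by rw [htop]; trivial) hyo)
  by_cases hsid : ∀ v h : G, v ∈ A → h ∈ X ⊔ A → Odd (orderOf h) → v * h * v⁻¹ = h⁻¹ →
      ∃ w ∈ A, w ≠ 1 ∧ w * h = h * w
  · obtain ⟨d, hd, hd1, hdc⟩ := hs.min_sub hH le_sup_right hAV hAne hsid
    apply hd1
    apply hFs d (hAV hd)
    · intro x hx
      exact commute_of_mem_core hO hXn.isSubnormal le_sup_left (hNX _) hdc hx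
    · exact (hmemA.mp hd).2
  · push Not at hsid
    obtain ⟨b, x, hb, hxH, hodd, hinv, hno⟩ := hsid
    have hx : x ∈ X := hs.odd_mem hAV (hNX A) hxH hodd
    have hbV := hAV hb
    have hbY := (hmemA.mp hb).2
    have hx1 : x ≠ 1 := by
      rintro rfl
      obtain ⟨a, ha, ha1⟩ := exists_ne_one_of_ne_bot hAne
      exact hno a ha ha1 (by simp)
    set D : Subgroup G := V ⊓ centralizer ({x} : Set G) with hDdef
    have hmemD : ∀ {a : G}, a ∈ D ↔ a ∈ V ∧ a * x = x * a := by
      intro a
      rw [hDdef, mem_inf, mem_centralizer_singleton_iff]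
    have hDV : D ≤ V := inf_le_left
    have hDne : D ≠ ⊥ := by
      obtain ⟨w, hw, hw1, hwc⟩ := hs.hS x b hbV hodd hinv
      exact ne_bot_of_exists (hmemD.mpr ⟨hw, hwc⟩) hw1
    have hH' : Y ⊔ D ≠ ⊤ := by
      intro htop
      have hbmem : b ∈ Y ⊔ D := by rw [htop]; trivial
      have hset : ((Y ⊔ D : Subgroup G) : Set G) = (D : Set G) * (Y : Set G) := by
        rw [sup_comm]
        exact Subgroup.coe_mul_of_left_le_normalizer_right D Y (hNY D)
      have hb' : b ∈ (D : Set G) * (Y : Set G) := by rw [← hset]; exact hbmem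
      obtain ⟨d, hd, y, hy, rfl⟩ := hb'
      have hdx := (hmemD.mp hd).2
      have hyx : y * x = x * y := (hcomm x hx y hy).symm
      have : (d * y) * x * (d * y)⁻¹ = x := by
        calc (d * y) * x * (d * y)⁻¹ = d * (y * x) * y⁻¹ * d⁻¹ := by group
          _ = (d * x) * d⁻¹ := by rw [hyx]; group
          _ = x := by rw [hdx]; group
      rw [this] at hinv
      apply hx1
      apply eq_one_of_mul_self x hodd
      calc x * x = x⁻¹ * x := by rw [← hinv]
        _ = 1 := by group
    have hsid' : ∀ c y : G, c ∈ D → y ∈ Y ⊔ D → Odd (orderOf y) → c * y * c⁻¹ = y⁻¹ →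
        ∃ w ∈ D, w ≠ 1 ∧ w * y = y * w := by
      intro c y hc hyH hyo hyinv
      have hy : y ∈ Y := hs.odd_mem hDV (hNY D) hyH hyo
      have hcV := hDV hc
      have hcx := (hmemD.mp hc).2
      have hxy : x * y = y * x := hcomm x hx y hy
      have hoddxy : Odd (orderOf (x * y)) := odd_orderOf_mul hxy hodd hyo
      have hby : b * y = y * b := hbY y hy
      have hinvxy : (b * c) * (x * y) * (b * c)⁻¹ = (x * y)⁻¹ := by
        have e1 : (b * c) * x * (b * c)⁻¹ = x⁻¹ := by
          calc (b * c) * x * (b * c)⁻¹ = b * (c * x) * c⁻¹ * b⁻¹ := by group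
            _ = b * x * b⁻¹ := by rw [hcx]; group
            _ = x⁻¹ := hinv
        have e2 : (b * c) * y * (b * c)⁻¹ = y⁻¹ := by
          calc (b * c) * y * (b * c)⁻¹ = b * (c * y * c⁻¹) * b⁻¹ := by group
            _ = b * y⁻¹ * b⁻¹ := by rw [hyinv]
            _ = (b * y * b⁻¹)⁻¹ := by group
            _ = y⁻¹ := by rw [hby]; group
        calc (b * c) * (x * y) * (b * c)⁻¹
            = ((b * c) * x * (b * c)⁻¹) * ((b * c) * y * (b * c)⁻¹) := by group
          _ = x⁻¹ * y⁻¹ := by rw [e1, e2]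
          _ = (y * x)⁻¹ := by group
          _ = (x * y)⁻¹ := by rw [hxy]
      obtain ⟨w, hw, hw1, hwc⟩ := hs.hS (x * y) (b * c) (mul_mem hbV hcV) hoddxy hinvxy
      set x' := w * x * w⁻¹ with hx'
      set y' := w * y * w⁻¹ with hy'
      have hx'X : x' ∈ X := hXn.conj_mem x hx w
      have hy'Y : y' ∈ Y := hYn.conj_mem y hy w
      have he : x' * y' = x * y := by
        calc x' * y' = w * (x * y) * w⁻¹ := by rw [hx', hy']; group
          _ = (x * y) * w * w⁻¹ := by rw [hwc]
          _ = x * y := by group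
      set z := x⁻¹ * x' with hz
      have hzX : z ∈ X := mul_mem (inv_mem hx) hx'X
      have hzeq : z = y * y'⁻¹ := by
        calc z = x⁻¹ * (x' * y') * y'⁻¹ := by rw [hz]; group
          _ = x⁻¹ * (x * y) * y'⁻¹ := by rw [he]
          _ = y * y'⁻¹ := by group
      have hzY : z ∈ Y := by
        rw [hzeq]
        exact mul_mem hy (inv_mem hy'Y)
      have hbw : b * w = w * b := hs.comm hbV hw
      have hb1 : b * x' * b⁻¹ = x'⁻¹ := by
        calc b * x' * b⁻¹ = (b * w) * x * (b * w)⁻¹ := by rw [hx']; group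
          _ = (w * b) * x * (w * b)⁻¹ := by rw [hbw]
          _ = w * (b * x * b⁻¹) * w⁻¹ := by group
          _ = w * x⁻¹ * w⁻¹ := by rw [hinv]
          _ = x'⁻¹ := by rw [hx']; group
      have hxz : x * z = z * x := hcomm x hx z hzY
      have hx'eq : x' = x * z := by rw [hz]; group
      have hbz : b * z = z * b := hbY z hzY
      have hzz : z * z = 1 := by
        have e1 : b * x' * b⁻¹ = x⁻¹ * z := by
          calc b * x' * b⁻¹ = (b * x * b⁻¹) * (b * z * b⁻¹) := by rw [hx'eq]; group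
            _ = x⁻¹ * (b * z * b⁻¹) := by rw [hinv]
            _ = x⁻¹ * z := by rw [hbz]; group
        have e2 : x'⁻¹ = x⁻¹ * z⁻¹ := by
          rw [hx'eq, hxz]; group
        rw [hb1, e2] at e1
        have e3 : z⁻¹ = z := mul_left_cancel e1
        calc z * z = z⁻¹ * z := by rw [e3]
          _ = 1 := by group
      have hz1 : z = 1 := hXY z hzX hzY hzz
      have hx'x : x' = x := by rw [hx'eq, hz1, mul_one]
      have hy'y : y' = y := by
        rw [hx'x] at he
        exact mul_left_cancel he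
      refine ⟨w, hmemD.mpr ⟨hw, ?_⟩, hw1, ?_⟩
      · calc w * x = (w * x * w⁻¹) * w := by group
          _ = x * w := by rw [← hx', hx'x]
      · calc w * y = (w * y * w⁻¹) * w := by group
          _ = y * w := by rw [← hy', hy'y]
    obtain ⟨d, hd, hd1, hdc⟩ := hs.min_sub hH' le_sup_right hDV hDne hsid'
    have hdY : ∀ y ∈ Y, d * y = y * d := fun y hy =>
      commute_of_mem_core hO hYn.isSubnormal le_sup_left (hNY _) hdc hy
    exact hno d (hmemA.mpr ⟨hDV hd, hdY⟩) hd1 (hmemD.mp hd).2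

/-! ### Step A: the Fitting subgroup is trivial -/

theorem Setup.fitting_no_inv (hs : Setup V) :
    ∀ z ∈ fittingSubgroup G, z * z = 1 → z = 1 := by
  intro z hz hzz
  by_contra hz1
  have hO := hs.core_eq_bot
  have hord : orderOf z = 2 ^ 1 := by
    rw [pow_one]
    apply orderOf_eq_prime
    · rw [pow_two]; exact hzz
    · exact hz1
  have := mem_pCore_of_normal_nilpotent (inferInstance : (fittingSubgroup G).Normal)
    Cfsg.Agent.Lib.Components.Fitting.fitting_isNilpotent hz Nat.prime_two hord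
  rw [hO] at this
  exact hz1 (by simpa using this)

theorem Setup.inf_fitting (hs : Setup V) : V ⊓ fittingSubgroup G = ⊥ := by
  rw [eq_bot_iff]
  intro v hv
  rw [mem_inf] at hv
  exact (mem_bot).mpr (hs.fitting_no_inv v hv.2 (hs.sq hv.1))

theorem exists_odd_not_mem {K F : Subgroup G} (hK : IsComponent K) (hFn : F.Normal)
    (hFs : Group.IsSolvable F) : ∃ y ∈ K, Odd (orderOf y) ∧ y ∉ F := by
  by_contra hno
  push Not at hno
  apply not_isSolvable_of_isQuasisimple hK.2
  have hp : IsPGroup 2 (↥K ⧸ F.subgroupOf K) := by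
    intro q
    obtain ⟨g, rfl⟩ := QuotientGroup.mk_surjective q
    haveI : Fact (Nat.Prime 2) := ⟨Nat.prime_two⟩
    obtain ⟨a, ha⟩ := exists_pow_coprime 2 (g : G)
    refine ⟨a, ?_⟩
    rw [← QuotientGroup.mk_pow, QuotientGroup.eq_one_iff, mem_subgroupOf]
    apply hno _ (pow_mem g.2 _)
    exact Nat.coprime_two_right.mp ha
  haveI : Fact (Nat.Prime 2) := ⟨Nat.prime_two⟩
  haveI : Group.IsNilpotent (↥K ⧸ F.subgroupOf K) := hp.isNilpotent
  haveI : Group.IsSolvable (F.subgroupOf K) := by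
    refine Group.isSolvable_of_isSolvable_injective (f := K.subtype.subgroupComap F) ?_
    rintro ⟨⟨a, ha⟩, ha'⟩ ⟨⟨b, hb⟩, hb'⟩ h
    have h2 := congrArg Subtype.val h
    apply Subtype.ext
    apply Subtype.ext
    exact h2
  refine Group.isSolvable_of_ker_le_range (F.subgroupOf K).subtype
    (QuotientGroup.mk' (F.subgroupOf K)) ?_
  rw [QuotientGroup.ker_mk', range_subtype]

theorem exists_component_of_ne_bot (h : layer G ≠ ⊥) : ∃ K : Subgroup G, IsComponent K := by
  by_contra hno
  push Not at hno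
  apply h
  apply le_antisymm _ bot_le
  apply sSup_le
  intro K hK
  exact absurd hK (hno K)

/-- A solvable preimage. -/
theorem isSolvable_comap {Q : Type*} [Group Q] (f : G →* Q) (L : Subgroup Q)
    (hL : Group.IsSolvable L) (hk : Group.IsSolvable f.ker) : Group.IsSolvable (L.comap f) := by
  have hle : f.ker ≤ L.comap f := by
    intro x hx
    rw [mem_comap, MonoidHom.mem_ker.mp hx]
    exact one_mem _
  refine Group.isSolvable_of_ker_le_range (Subgroup.inclusion hle) (f.subgroupComap L) ?_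
  rintro ⟨x, hx⟩ hx'
  have h1 : f x = 1 := congrArg Subtype.val (MonoidHom.mem_ker.mp hx')
  exact ⟨⟨x, h1⟩, rfl⟩

theorem Setup.fitting_case_layer (hs : Setup V) (hE : layer G ≠ ⊥)
    (hF : fittingSubgroup G ≠ ⊥) : False := by
  have hO := hs.core_eq_bot
  have hFn : (fittingSubgroup G).Normal := inferInstance
  have hEn : (layer G).Normal := layer_normal
  have hFnil : Group.IsNilpotent (fittingSubgroup G) :=
    Cfsg.Agent.Lib.Components.Fitting.fitting_isNilpotent
  refine hs.lemmaU hFn hEn (fun x hx y hy => (layer_fitting_commute hy hx).symm)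
    (fun z hz _ h => hs.fitting_no_inv z hz h) ?_ ?_ ?_
  · intro d hd h1 h2
    apply hs.eq_one_of_centralizes hO hd
    have : generalizedFittingSubgroup G ≤ centralizer ({d} : Set G) := by
      apply sup_le
      · intro y hy
        rw [mem_centralizer_singleton_iff]
        exact (h2 y hy).symm
      · intro y hy
        rw [mem_centralizer_singleton_iff]
        exact (h1 y hy).symm
    intro f hf
    exact (mem_centralizer_singleton_iff.mp (this hf)).symm
  · obtain ⟨K, hK⟩ := exists_component_of_ne_bot hE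
    obtain ⟨y, hy, hyo, hyF⟩ := exists_odd_not_mem hK hFn inferInstance
    exact ⟨y, le_layer hK hy, hyo, hyF⟩
  · obtain ⟨v, hv, hv1, hvm⟩ := hs.quot_step (fittingSubgroup G) hF hs.inf_fitting
    refine ⟨v, hv, hv1, ?_⟩
    intro y hy
    set P := (pCore 2 (G ⧸ fittingSubgroup G)).comap (QuotientGroup.mk' (fittingSubgroup G)) with hP
    haveI : Fact (Nat.Prime 2) := ⟨Nat.prime_two⟩
    have hPs : Group.IsSolvable P := by
      apply isSolvable_comap
      · have : IsPGroup 2 (pCore 2 (G ⧸ fittingSubgroup G)) :=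
          Cfsg.Agent.Lib.Basic.PCore.pCore_isPGroup 2
        haveI : Group.IsNilpotent (pCore 2 (G ⧸ fittingSubgroup G)) := this.isNilpotent
        infer_instance
      · rw [QuotientGroup.ker_mk']
        infer_instance
    have hPn : P.Normal := by
      haveI : (pCore 2 (G ⧸ fittingSubgroup G)).Normal :=
        Cfsg.Agent.Lib.Nilpotent.Fitting.pCore_normal 2
      exact Subgroup.Normal.comap inferInstance _
    have := commutator_layer_eq_bot_of_isSolvable hPs hPn
    exact (commutator_eq_bot_iff_forall.mp this y hy v hvm).symm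

/-- normality from invariance under `V` and `F*`. -/
theorem Setup.normal_of_inv (hs : Setup V) {L : Subgroup G}
    (h1 : ∀ v ∈ V, ∀ x ∈ L, v * x * v⁻¹ ∈ L)
    (h2 : ∀ g ∈ generalizedFittingSubgroup G, ∀ x ∈ L, g * x * g⁻¹ ∈ L) : L.Normal := by
  rw [← normalizer_eq_top_iff, eq_top_iff, ← hs.sup_eq_top]
  apply sup_le
  · intro v hv
    exact Cfsg.Agent.Lib.Coprime.Three.mem_normalizer_of_conj_mem (h1 v hv)
  · intro g hg
    exact Cfsg.Agent.Lib.Coprime.Three.mem_normalizer_of_conj_mem (h2 g hg)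

theorem Setup.fitting_case_abelian (hs : Setup V) (hE : layer G = ⊥)
    (hF : fittingSubgroup G ≠ ⊥)
    (hab : ∀ a ∈ fittingSubgroup G, ∀ b ∈ fittingSubgroup G, a * b = b * a) : False := by
  have hO := hs.core_eq_bot
  set F := fittingSubgroup G with hFdef
  have hFs : generalizedFittingSubgroup G = F := by
    show layer G ⊔ fittingSubgroup G = F
    rw [hE, bot_sup_eq]
  have hFn : F.Normal := inferInstance
  have hodd : ∀ f ∈ F, Odd (orderOf f) := fun f hf => odd_of_no_involution hs.fitting_no_inv hf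
  have hcent : ∀ d ∈ V, (∀ f ∈ F, d * f = f * d) → d = 1 := by
    intro d hd h
    apply hs.eq_one_of_centralizes hO hd
    rw [hFs]
    exact h
  by_cases hfix : ∃ w ∈ V, w ≠ 1 ∧ ∃ f ∈ F, f ≠ 1 ∧ w * f = f * w
  · obtain ⟨w, hw, hw1, f₀, hf₀, hf₀1, hf₀c⟩ := hfix
    have hww := hs.sq hw
    have hwi := hs.inv hw
    set X : Subgroup G := F ⊓ centralizer ({w} : Set G) with hX
    have hmemX : ∀ {a : G}, a ∈ X ↔ a ∈ F ∧ a * w = w * a := by
      intro a
      rw [hX, mem_inf, mem_centralizer_singleton_iff]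
    let Y : Subgroup G :=
      { carrier := {y | y ∈ F ∧ w * y * w⁻¹ = y⁻¹}
        mul_mem' := by
          rintro a b ⟨ha, ha'⟩ ⟨hb, hb'⟩
          refine ⟨mul_mem ha hb, ?_⟩
          calc w * (a * b) * w⁻¹ = (w * a * w⁻¹) * (w * b * w⁻¹) := by group
            _ = a⁻¹ * b⁻¹ := by rw [ha', hb']
            _ = (b * a)⁻¹ := by group
            _ = (a * b)⁻¹ := by rw [hab a ha b hb]
        one_mem' := ⟨one_mem _, by group⟩
        inv_mem' := by
          rintro a ⟨ha, ha'⟩
          refine ⟨inv_mem ha, ?_⟩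
          calc w * a⁻¹ * w⁻¹ = (w * a * w⁻¹)⁻¹ := by group
            _ = a⁻¹⁻¹ := by rw [ha'] }
    have hmemY : ∀ {a : G}, a ∈ Y ↔ a ∈ F ∧ w * a * w⁻¹ = a⁻¹ := Iff.rfl
    have hvw : ∀ {v : G}, v ∈ V → v * w = w * v := fun hv => hs.comm hv hw
    have hXn : X.Normal := by
      apply hs.normal_of_inv
      · intro v hv x hx
        obtain ⟨hx1, hx2⟩ := hmemX.mp hx
        refine hmemX.mpr ⟨hFn.conj_mem x hx1 v, ?_⟩
        have hv' : v⁻¹ * w = w * v⁻¹ := by
          rw [hs.inv hv]; exact hvw hv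
        calc v * x * v⁻¹ * w = v * x * (v⁻¹ * w) := by group
          _ = v * (x * w) * v⁻¹ := by rw [hv']; group
          _ = v * (w * x) * v⁻¹ := by rw [hx2]
          _ = (v * w) * x * v⁻¹ := by group
          _ = w * (v * x * v⁻¹) := by rw [hvw hv]; group
      · intro g hg x hx
        rw [hFs] at hg
        have hgx := hab g hg x (hmemX.mp hx).1
        have : g * x * g⁻¹ = x := by rw [hgx]; group
        rwa [this]
    have hYn : Y.Normal := by
      apply hs.normal_of_inv
      · intro v hv x hx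
        obtain ⟨hx1, hx2⟩ := hmemY.mp hx
        refine hmemY.mpr ⟨hFn.conj_mem x hx1 v, ?_⟩
        have hv' : v⁻¹ * w⁻¹ = w⁻¹ * v⁻¹ := by
          rw [hs.inv hv, hwi]; exact hvw hv
        calc w * (v * x * v⁻¹) * w⁻¹ = (w * v) * x * (v⁻¹ * w⁻¹) := by group
          _ = (v * w) * x * (w⁻¹ * v⁻¹) := by rw [hvw hv, hv']
          _ = v * (w * x * w⁻¹) * v⁻¹ := by group
          _ = v * x⁻¹ * v⁻¹ := by rw [hx2]
          _ = (v * x * v⁻¹)⁻¹ := by group
      · intro g hg x hx
        rw [hFs] at hg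
        have hgx := hab g hg x (hmemY.mp hx).1
        have : g * x * g⁻¹ = x := by rw [hgx]; group
        rwa [this]
    have hnoinv : ∀ z, z ∈ X → z ∈ Y → z = 1 := by
      intro z hz hz'
      obtain ⟨hz1, hz2⟩ := hmemX.mp hz
      obtain ⟨-, hz3⟩ := hmemY.mp hz'
      apply hs.fitting_no_inv z hz1
      have : w * z * w⁻¹ = z := by rw [← hz2]; group
      rw [this] at hz3
      calc z * z = z⁻¹ * z := by rw [← hz3]
        _ = 1 := by group
    -- the decomposition
    have hdecomp : ∀ f ∈ F, f * (w * f * w⁻¹) ∈ X ∧ f * (w * f * w⁻¹)⁻¹ ∈ Y := by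
      intro f hf
      have hf' : w * f * w⁻¹ ∈ F := hFn.conj_mem f hf w
      have hww' : w * (w * f * w⁻¹) * w⁻¹ = f := by
        rw [hwi]
        calc w * (w * f * w) * w = (w * w) * f * (w * w) := by group
          _ = f := by rw [hww]; group
      constructor
      · refine hmemX.mpr ⟨mul_mem hf hf', ?_⟩
        have e : w * (f * (w * f * w⁻¹)) * w⁻¹ = f * (w * f * w⁻¹) := by
          calc w * (f * (w * f * w⁻¹)) * w⁻¹ = (w * f * w⁻¹) * (w * (w * f * w⁻¹) * w⁻¹) := by group
            _ = (w * f * w⁻¹) * f := by rw [hww']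
            _ = f * (w * f * w⁻¹) := (hab _ hf' _ hf)
        calc f * (w * f * w⁻¹) * w = (w * (f * (w * f * w⁻¹)) * w⁻¹) * w := by rw [e]
          _ = w * (f * (w * f * w⁻¹)) := by group
      · refine hmemY.mpr ⟨mul_mem hf (inv_mem hf'), ?_⟩
        calc w * (f * (w * f * w⁻¹)⁻¹) * w⁻¹
            = (w * f * w⁻¹) * (w * (w * f * w⁻¹) * w⁻¹)⁻¹ := by group
          _ = (w * f * w⁻¹) * f⁻¹ := by rw [hww']
          _ = (f * (w * f * w⁻¹)⁻¹)⁻¹ := by group
    refine hs.lemmaU hXn hYn (fun x hx y hy => hab x (hmemX.mp hx).1 y (hmemY.mp hy).1)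
      (fun z hz hz' _ => hnoinv z hz hz') ?_ ?_ ?_
    · intro d hd h1 h2
      apply hcent d hd
      intro f hf
      obtain ⟨hA, hB⟩ := hdecomp f hf
      have hf' : w * f * w⁻¹ ∈ F := hFn.conj_mem f hf w
      have h3 : f * f ∈ centralizer ({d} : Set G) := by
        have e : f * f = (f * (w * f * w⁻¹)) * (f * (w * f * w⁻¹)⁻¹) := by
          have := hab _ hf' _ hf
          calc f * f = f * ((w * f * w⁻¹) * (w * f * w⁻¹)⁻¹) * f := by group
            _ = f * (w * f * w⁻¹) * ((w * f * w⁻¹)⁻¹ * f) := by group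
            _ = f * (w * f * w⁻¹) * (f * (w * f * w⁻¹)⁻¹) := by
                congr 1
                exact (hab _ (inv_mem hf') _ hf)
        rw [e]
        apply mul_mem
        · rw [mem_centralizer_singleton_iff]; exact (h1 _ hA).symm
        · rw [mem_centralizer_singleton_iff]; exact (h2 _ hB).symm
      have h4 := mem_of_mul_self_mem (hodd f hf) h3
      exact (mem_centralizer_singleton_iff.mp h4).symm
    · have : ∃ f ∈ F, w * f ≠ f * w := by
        by_contra hno
        push Not at hno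
        exact hw1 (hcent w hw hno)
      obtain ⟨f, hf, hfw⟩ := this
      obtain ⟨-, hB⟩ := hdecomp f hf
      refine ⟨_, hB, hodd _ (hmemY.mp hB).1, ?_⟩
      intro hmem
      have h1 := hnoinv _ hmem hB
      apply hfw
      have h2 : f = w * f * w⁻¹ := by
        calc f = (f * (w * f * w⁻¹)⁻¹) * (w * f * w⁻¹) := by group
          _ = w * f * w⁻¹ := by rw [h1, one_mul]
      calc w * f = (w * f * w⁻¹) * w := by group
        _ = f * w := by rw [← h2]
    · have hH : Y ⊔ V ≠ ⊤ := by
        intro htop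
        have hmem : f₀ ∈ Y ⊔ V := by rw [htop]; trivial
        have hN : V ≤ normalizer (Y : Set G) := by
          rw [normalizer_eq_top_iff.mpr hYn]; exact le_top
        have h1 : f₀ ∈ Y := hs.odd_mem le_rfl hN hmem (hodd f₀ hf₀)
        apply hf₀1
        exact hnoinv f₀ (hmemX.mpr ⟨hf₀, hf₀c.symm⟩) h1
      obtain ⟨d, hd, hd1, hdc⟩ := hs.min_sub hH le_sup_right le_rfl hs.hV1 (hs.sid_sup _)
      refine ⟨d, hd, hd1, ?_⟩
      intro y hy
      refine commute_of_mem_core hO hYn.isSubnormal le_sup_left ?_ hdc hy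
      rw [normalizer_eq_top_iff.mpr hYn]; exact le_top
  · push Not at hfix
    obtain ⟨f, hf, hf1⟩ := exists_ne_one_of_ne_bot hF
    obtain ⟨w, hw, hw1⟩ := exists_ne_one_of_ne_bot hs.hV1
    have hww := hs.sq hw
    have hwi := hs.inv hw
    have hf' : w * f * w⁻¹ ∈ F := hFn.conj_mem f hf w
    have hww' : w * (w * f * w⁻¹) * w⁻¹ = f := by
      rw [hwi]
      calc w * (w * f * w) * w = (w * w) * f * (w * w) := by group
        _ = f := by rw [hww]; group
    have h1 : f * (w * f * w⁻¹) = 1 := by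
      by_contra hne
      apply hfix w hw hw1 _ (mul_mem hf hf') hne
      have e : w * (f * (w * f * w⁻¹)) * w⁻¹ = f * (w * f * w⁻¹) := by
        calc w * (f * (w * f * w⁻¹)) * w⁻¹ = (w * f * w⁻¹) * (w * (w * f * w⁻¹) * w⁻¹) := by group
          _ = (w * f * w⁻¹) * f := by rw [hww']
          _ = f * (w * f * w⁻¹) := (hab _ hf' _ hf)
      calc w * (f * (w * f * w⁻¹)) = (w * (f * (w * f * w⁻¹)) * w⁻¹) * w := by group
        _ = f * (w * f * w⁻¹) * w := by rw [e]
    have h2 : w * f * w⁻¹ = f⁻¹ := by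
      exact eq_inv_of_mul_eq_one_right h1
    obtain ⟨w', hw', hw'1, hw'c⟩ := hs.hS f w hw (hodd f hf) h2
    exact hfix w' hw' hw'1 f hf hf1 hw'c

theorem Setup.fitting_case_nonabelian (hs : Setup V)
    (hE : layer G = ⊥)
    (hab : ¬ ∀ a ∈ fittingSubgroup G, ∀ b ∈ fittingSubgroup G, a * b = b * a) : False := by
  have hO := hs.core_eq_bot
  set F := fittingSubgroup G with hFdef
  have hFs : generalizedFittingSubgroup G = F := by
    show layer G ⊔ fittingSubgroup G = F
    rw [hE, bot_sup_eq]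
  have hFn : F.Normal := inferInstance
  have hodd : ∀ f ∈ F, Odd (orderOf f) := fun f hf => odd_of_no_involution hs.fitting_no_inv hf
  have hFnil : Group.IsNilpotent F := Cfsg.Agent.Lib.Components.Fitting.fitting_isNilpotent
  haveI hKn : (⁅F, F⁆ : Subgroup G).Normal := Subgroup.commutator_normal F F
  have hKle : ⁅F, F⁆ ≤ F := Subgroup.commutator_le_self F
  have hK1 : ⁅F, F⁆ ≠ ⊥ := by
    intro h
    exact hab (commutator_eq_bot_iff_forall.mp h)
  have hVK : V ⊓ ⁅F, F⁆ = ⊥ := by
    rw [eq_bot_iff]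
    intro v hv
    rw [mem_inf] at hv
    exact (mem_bot).mpr (hs.fitting_no_inv v (hKle hv.2) (hs.sq hv.1))
  obtain ⟨v, hv, hv1, hvm⟩ := hs.quot_step ⁅F, F⁆ hK1 hVK
  haveI : Fact (Nat.Prime 2) := ⟨Nat.prime_two⟩
  set mk := QuotientGroup.mk' (⁅F, F⁆ : Subgroup G) with hmk
  have hKm : ∀ f ∈ F, f⁻¹ * (v * f * v⁻¹) ∈ ⁅F, F⁆ := by
    intro f hf
    set x := f⁻¹ * (v * f * v⁻¹) with hx
    have hxF : x ∈ F := mul_mem (inv_mem hf) (hFn.conj_mem f hf v)
    have hp : IsPGroup 2 (pCore 2 (G ⧸ (⁅F, F⁆ : Subgroup G))) :=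
      Cfsg.Agent.Lib.Basic.PCore.pCore_isPGroup 2
    have hn : (pCore 2 (G ⧸ (⁅F, F⁆ : Subgroup G))).Normal :=
      Cfsg.Agent.Lib.Nilpotent.Fitting.pCore_normal 2
    have h1 : mk x ∈ pCore 2 (G ⧸ (⁅F, F⁆ : Subgroup G)) := by
      have e : mk x = ((mk f)⁻¹ * mk v * (mk f)⁻¹⁻¹) * (mk v)⁻¹ := by
        rw [hx]; simp only [map_mul, map_inv]; group
      rw [e]
      exact mul_mem (hn.conj_mem _ hvm _) (inv_mem hvm)
    have h2 : (orderOf (mk x)).Coprime 2 := by
      apply Nat.coprime_two_right.mpr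
      exact Odd.of_dvd_nat (hodd x hxF) (orderOf_map_dvd mk x)
    have h3 := eq_one_of_mem_of_isPGroup 2 hp h1 h2
    exact (QuotientGroup.eq_one_iff x).mp h3
  have hc := commute_of_commutator_mem hFnil (hs.sq hv) (fun f hf => hFn.conj_mem f hf v) hodd hKm
  apply hv1
  apply hs.eq_one_of_centralizes hO hv
  rw [hFs]
  exact hc

theorem Setup.fitting_eq_bot (hs : Setup V) : fittingSubgroup G = ⊥ := by
  by_contra hF
  by_cases hE : layer G = ⊥
  · by_cases hab : ∀ a ∈ fittingSubgroup G, ∀ b ∈ fittingSubgroup G, a * b = b * a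
    · exact hs.fitting_case_abelian hE hF hab
    · exact hs.fitting_case_nonabelian hE hab
  · exact hs.fitting_case_layer hE hF

/-! ### Step B: the components -/

theorem cj_mul (a b : G) (L : Subgroup G) : cj a (cj b L) = cj (a * b) L := by
  ext x
  simp only [mem_cj]
  have : (a * b)⁻¹ * x * (a * b) = b⁻¹ * (a⁻¹ * x * a) * b := by group
  rw [this]

theorem conj_mem_cj {g k : G} {L : Subgroup G} (hk : k ∈ L) : g * k * g⁻¹ ∈ cj g L :=
  ⟨k, hk, rfl⟩

theorem orderOf_conj (g x : G) : orderOf (g * x * g⁻¹) = orderOf x :=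
  orderOf_injective (MulAut.conj g).toMonoidHom (MulAut.conj g).injective x

theorem center_comp_eq_one (hF : fittingSubgroup G = ⊥) {K : Subgroup G} (hK : IsComponent K)
    {k : G} (hk : k ∈ K) (hc : ∀ g ∈ K, g * k = k * g) : k = 1 := by
  set Z : Subgroup G := (center ↥K).map K.subtype with hZ
  have hZK : Z ≤ K := by
    rintro _ ⟨x, -, rfl⟩
    exact x.2
  have hmemZ : ∀ {a : G}, a ∈ Z → ∀ g ∈ K, g * a = a * g := by
    rintro _ ⟨x, hx, rfl⟩ g hg
    have := (mem_center_iff.mp hx) ⟨g, hg⟩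
    exact congrArg Subtype.val this
  have hsn : Z.IsSubnormal := by
    refine Subgroup.IsSubnormal.step Z K hZK hK.1 ?_
    refine ⟨?_⟩
    rintro ⟨x, hx⟩ hx' ⟨g, hg⟩
    rw [mem_subgroupOf] at hx' ⊢
    have e := hmemZ hx' g hg
    have : g * x * g⁻¹ = x := by
      show g * x * g⁻¹ = x
      rw [e]; group
    show g * x * g⁻¹ ∈ Z
    rw [this]
    exact hx'
  have hnil : Group.IsNilpotent Z := by
    letI : CommGroup Z :=
      { (inferInstance : Group Z) with
        mul_comm := by
          rintro ⟨a, ha⟩ ⟨b, hb⟩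
          apply Subtype.ext
          exact hmemZ hb a (hZK ha) }
    exact CommGroup.isNilpotent
  have hle := le_fittingSubgroup_of_subnormal hsn hnil
  rw [hF, le_bot_iff] at hle
  have hkZ : k ∈ Z := by
    refine ⟨⟨k, hk⟩, ?_, rfl⟩
    rw [SetLike.mem_coe, mem_center_iff]
    rintro ⟨g, hg⟩
    exact Subtype.ext (hc g hg)
  rw [hle] at hkZ
  simpa using hkZ

theorem comp_comm {K L : Subgroup G} (hK : IsComponent K) (hL : IsComponent L) (hne : K ≠ L)
    {a b : G} (ha : a ∈ K) (hb : b ∈ L) : a * b = b * a :=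
  commutator_eq_bot_iff_forall.mp ((eq_or_commutator_eq_bot hK hL).resolve_left hne) a ha b hb

theorem comp_inf (hF : fittingSubgroup G = ⊥) {K L : Subgroup G} (hK : IsComponent K)
    (hL : IsComponent L) (hne : K ≠ L) {x : G} (hx : x ∈ K) (hx' : x ∈ L) : x = 1 :=
  center_comp_eq_one hF hL hx' (fun _ hg => (comp_comm hK hL hne hx hg).symm)

theorem layer_central_eq_one (hF : fittingSubgroup G = ⊥) {z : G} (hz : z ∈ layer G)
    (hc : ∀ g ∈ layer G, g * z = z * g) : z = 1 := by
  have hEn : (layer G).Normal := layer_normal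
  set Z : Subgroup G := layer G ⊓ centralizer (layer G : Set G) with hZ
  have hZn : Z.Normal := by
    haveI : (centralizer (layer G : Set G)).Normal := Subgroup.normal_centralizer
    exact Subgroup.normal_inf_normal _ _
  have hnil : Group.IsNilpotent Z := by
    letI : CommGroup Z :=
      { (inferInstance : Group Z) with
        mul_comm := by
          rintro ⟨a, ha⟩ ⟨b, hb⟩
          apply Subtype.ext
          exact mem_centralizer_iff.mp hb.2 a ha.1 }
    exact CommGroup.isNilpotent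
  have hle := Cfsg.Agent.Lib.Basic.PCore.le_fittingSubgroup hZn hnil
  rw [hF, le_bot_iff] at hle
  have hzZ : z ∈ Z := by
    refine mem_inf.mpr ⟨hz, ?_⟩
    rw [mem_centralizer_iff]
    intro g hg
    exact hc g hg
  rw [hle] at hzZ
  simpa using hzZ

theorem layer_normalizes {g : G} (hg : g ∈ layer G) {L : Subgroup G} (hL : IsComponent L) {x : G}
    (hx : x ∈ L) : g * x * g⁻¹ ∈ L := by
  have : layer G ≤ normalizer (L : Set G) := by
    apply sSup_le
    intro K₀ hK₀
    rcases eq_or_commutator_eq_bot hK₀ hL with h | h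
    · rw [h]
      exact Subgroup.le_normalizer
    · intro y hy
      refine Subgroup.centralizer_le_normalizer _ ?_
      rw [mem_centralizer_iff]
      intro l hl
      exact (commutator_eq_bot_iff_forall.mp h y hy l hl).symm
  exact (mem_normalizer_iff.mp (this hg) x).mp hx

theorem exists_odd_of_subnormal (hO : pCore 2 G = ⊥) {L : Subgroup G} (hL : L.IsSubnormal)
    (hne : L ≠ ⊥) : ∃ k ∈ L, Odd (orderOf k) ∧ k ≠ 1 := by
  haveI : Fact (Nat.Prime 2) := ⟨Nat.prime_two⟩
  by_contra hno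
  push Not at hno
  have hp : IsPGroup 2 L := isPGroup_of_forall_coprime 2 (fun x hx hc =>
    hno x hx (Nat.coprime_two_right.mp hc))
  have := le_pCore_of_subnormal hL hp
  rw [hO, le_bot_iff] at this
  exact hne this

theorem Setup.sSup_comp_normal (hs : Setup V) (hF : fittingSubgroup G = ⊥) {S : Set (Subgroup G)}
    (hcomp : ∀ L ∈ S, IsComponent L) (hSV : ∀ v ∈ V, ∀ L ∈ S, cj v L ∈ S) : (sSup S).Normal := by
  have hFs : generalizedFittingSubgroup G = layer G := by
    show layer G ⊔ fittingSubgroup G = layer G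
    rw [hF, sup_bot_eq]
  apply hs.normal_of_inv
  · intro v hv x hx
    have : sSup S ≤ (sSup S).comap (MulAut.conj v).toMonoidHom :=
      sSup_le fun L hL y hy => le_sSup (hSV v hv L hL) ⟨y, hy, rfl⟩
    exact this hx
  · intro g hg x hx
    rw [hFs] at hg
    have : sSup S ≤ (sSup S).comap (MulAut.conj g).toMonoidHom :=
      sSup_le fun L hL y hy => le_sSup hL (layer_normalizes hg (hcomp L hL) hy)
    exact this hx

/-- `V` acts transitively on the components. -/
theorem Setup.all_conj (hs : Setup V) (hF : fittingSubgroup G = ⊥) {K : Subgroup G}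
    (hK : IsComponent K) : ∀ L : Subgroup G, IsComponent L → ∃ v ∈ V, L = cj v K := by
  have hO := hs.core_eq_bot
  have hFs : generalizedFittingSubgroup G = layer G := by
    show layer G ⊔ fittingSubgroup G = layer G
    rw [hF, sup_bot_eq]
  set SX : Set (Subgroup G) := {L | ∃ v ∈ V, L = cj v K} with hSX
  set SY : Set (Subgroup G) := {L | IsComponent L ∧ ∀ v ∈ V, L ≠ cj v K} with hSY
  set X := sSup SX with hX
  set Y := sSup SY with hY
  have hcX : ∀ L ∈ SX, IsComponent L := by
    rintro L ⟨v, -, rfl⟩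
    exact isComponent_conj v hK
  have hcY : ∀ L ∈ SY, IsComponent L := fun L hL => hL.1
  have hXn : X.Normal := by
    apply hs.sSup_comp_normal hF hcX
    rintro v hv L ⟨v', hv', rfl⟩
    exact ⟨v * v', mul_mem hv hv', cj_mul _ _ _⟩
  have hYn : Y.Normal := by
    apply hs.sSup_comp_normal hF hcY
    rintro v hv L ⟨hL1, hL2⟩
    refine ⟨isComponent_conj v hL1, ?_⟩
    intro v' hv' h
    apply hL2 (v⁻¹ * v') (mul_mem (inv_mem hv) hv')
    rw [← cj_mul, ← h, Cfsg.Agent.Lib.Components.PMinimal.cj_inv_cj]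
  have hKX : K ≤ X := by
    apply le_sSup
    refine ⟨1, one_mem _, ?_⟩
    ext x
    simp [mem_cj]
  have hcomm : ∀ x ∈ X, ∀ y ∈ Y, x * y = y * x := by
    have h1 : X ≤ centralizer (Y : Set G) := by
      apply sSup_le
      intro L₁ hL₁
      rw [le_centralizer_iff]
      apply sSup_le
      intro L₂ hL₂
      intro b hb
      rw [mem_centralizer_iff]
      intro a ha
      obtain ⟨v, hv, rfl⟩ := hL₁
      refine comp_comm (hcX _ ⟨v, hv, rfl⟩) hL₂.1 ?_ ha hb
      intro h
      exact hL₂.2 v hv h.symm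
    intro x hx y hy
    exact (mem_centralizer_iff.mp (h1 hx) y hy).symm
  have hcases : ∀ L : Subgroup G, IsComponent L → L ≤ X ∨ L ≤ Y := by
    intro L hL
    by_cases h : ∃ v ∈ V, L = cj v K
    · exact Or.inl (le_sSup h)
    · push Not at h
      exact Or.inr (le_sSup ⟨hL, h⟩)
  have hXE : X ≤ layer G := sSup_le fun L hL => le_layer (hcX L hL)
  have hYE : Y ≤ layer G := sSup_le fun L hL => le_layer (hcY L hL)
  have hXY : ∀ z, z ∈ X → z ∈ Y → z = 1 := by
    intro z hz hz'
    apply layer_central_eq_one hF (hXE hz)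
    intro g hg
    have : layer G ≤ centralizer ({z} : Set G) := by
      apply sSup_le
      intro L hL
      rcases hcases L hL with h | h
      · intro a ha
        rw [mem_centralizer_singleton_iff]
        exact hcomm a (h ha) z hz'
      · intro a ha
        rw [mem_centralizer_singleton_iff]
        exact (hcomm z hz a (h ha)).symm
    exact mem_centralizer_singleton_iff.mp (this hg)
  have hYbot : Y = ⊥ := by
    by_contra hYne
    refine hs.lemmaU hXn hYn hcomm (fun z hz hz' _ => hXY z hz hz') ?_ ?_ ?_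
    · intro d hd h1 h2
      apply hs.eq_one_of_centralizes hO hd
      rw [hFs]
      have : layer G ≤ centralizer ({d} : Set G) := by
        apply sSup_le
        intro L hL
        rcases hcases L hL with h | h
        · intro a ha
          rw [mem_centralizer_singleton_iff]
          exact (h1 a (h ha)).symm
        · intro a ha
          rw [mem_centralizer_singleton_iff]
          exact (h2 a (h ha)).symm
      intro f hf
      exact (mem_centralizer_singleton_iff.mp (this hf)).symm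
    · obtain ⟨y, hy, hyo, hy1⟩ := exists_odd_of_subnormal hO hYn.isSubnormal hYne
      exact ⟨y, hy, hyo, fun h => hy1 (hXY y h hy)⟩
    · have hH : Y ⊔ V ≠ ⊤ := by
        intro htop
        have hXne : X ≠ ⊥ := by
          intro h
          rw [h, le_bot_iff] at hKX
          exact ne_bot_of_isComponent hK hKX
        obtain ⟨x, hx, hxo, hx1⟩ := exists_odd_of_subnormal hO hXn.isSubnormal hXne
        have hmem : x ∈ Y ⊔ V := by rw [htop]; trivial
        have hN : V ≤ normalizer (Y : Set G) := by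
          rw [normalizer_eq_top_iff.mpr hYn]; exact le_top
        exact hx1 (hXY x hx (hs.odd_mem le_rfl hN hmem hxo))
      obtain ⟨d, hd, hd1, hdc⟩ := hs.min_sub hH le_sup_right le_rfl hs.hV1 (hs.sid_sup _)
      refine ⟨d, hd, hd1, ?_⟩
      intro y hy
      refine commute_of_mem_core hO hYn.isSubnormal le_sup_left ?_ hdc hy
      rw [normalizer_eq_top_iff.mpr hYn]; exact le_top
  intro L hL
  rcases hcases L hL with h | h
  · by_contra hno
    push Not at hno
    -- `L` commutes with `X`, hence is abelian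
    have hcL : ∀ a ∈ L, ∀ b ∈ X, a * b = b * a := by
      have h1 : X ≤ centralizer (L : Set G) := by
        apply sSup_le
        rintro L₁ ⟨v, hv, rfl⟩
        intro b hb
        rw [mem_centralizer_iff]
        intro a ha
        exact comp_comm hL (isComponent_conj v hK) (fun e => hno v hv e) ha hb
      intro a ha b hb
      exact mem_centralizer_iff.mp (h1 hb) a ha
    obtain ⟨k, hk, -, hk1⟩ := exists_odd_of_subnormal hO hL.1 (ne_bot_of_isComponent hL)
    exact hk1 (center_comp_eq_one hF hL hk (fun g hg => hcL g hg k (h hk)))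
  · rw [hYbot, le_bot_iff] at h
    exact absurd h (ne_bot_of_isComponent hL)

/-- `V` fixes every component. -/
theorem Setup.conj_eq (hs : Setup V) (hF : fittingSubgroup G = ⊥) {K : Subgroup G}
    (hK : IsComponent K) : ∀ v ∈ V, cj v K = K := by
  have hO := hs.core_eq_bot
  have hFs : generalizedFittingSubgroup G = layer G := by
    show layer G ⊔ fittingSubgroup G = layer G
    rw [hF, sup_bot_eq]
  intro v hv
  by_contra hne
  obtain ⟨k, hkK, hko, hk1⟩ := exists_odd_of_subnormal hO hK.1 (ne_bot_of_isComponent hK)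
  have hcv := isComponent_conj v hK
  have hvv := hs.sq hv
  have hvi := hs.inv hv
  set V₀ : Subgroup G := V ⊓ normalizer (K : Set G) with hV₀
  have hmem0 : ∀ {w : G}, w ∈ V₀ ↔ w ∈ V ∧ cj w K = K := by
    intro w
    rw [hV₀, mem_inf, mem_normalizer_iff_map_conj_eq]
    exact Iff.rfl
  set k' := v * k * v⁻¹ with hk'
  have hk'mem : k' ∈ cj v K := conj_mem_cj hkK
  have hkk' : k * k' = k' * k := comp_comm hK hcv (Ne.symm hne) hkK hk'mem
  by_cases hV0 : V₀ = ⊥
  · -- the free case
    set x := k * k'⁻¹ with hx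
    have hk'o : Odd (orderOf k') := by rw [hk', orderOf_conj]; exact hko
    have hxo : Odd (orderOf x) := by
      refine odd_orderOf_mul ?_ hko (by rwa [orderOf_inv])
      exact (Commute.inv_right hkk')
    have hk'' : v * k' * v⁻¹ = k := by
      rw [hk', hvi]
      calc v * (v * k * v) * v = (v * v) * k * (v * v) := by group
        _ = k := by rw [hvv]; group
    have hxinv : v * x * v⁻¹ = x⁻¹ := by
      calc v * x * v⁻¹ = (v * k * v⁻¹) * (v * k' * v⁻¹)⁻¹ := by rw [hx]; group
        _ = k' * k⁻¹ := by rw [hk'', ← hk']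
        _ = (k * k'⁻¹)⁻¹ := by group
    obtain ⟨w, hw, hw1, hwc⟩ := hs.hS x v hv hxo hxinv
    by_cases hwv : w = v
    · subst hwv
      have h1 : x = x⁻¹ := by
        rw [← hxinv]
        rw [hwc]; group
      have h2 : x * x = 1 := by
        nth_rewrite 1 [h1]
        group
      have h3 : x = 1 := eq_one_of_mul_self x hxo h2
      have h4 : k = k' := by
        rw [hx] at h3
        exact mul_inv_eq_one.mp h3
      exact hk1 (comp_inf hF hK hcv (Ne.symm hne) hkK (h4 ▸ hk'mem))
    · have hwK : cj w K ≠ K := by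
        intro h
        have : w ∈ V₀ := hmem0.mpr ⟨hw, h⟩
        rw [hV0] at this
        exact hw1 (by simpa using this)
      have hwvK : cj (w * v) K ≠ K := by
        intro h
        have : w * v ∈ V₀ := hmem0.mpr ⟨mul_mem hw hv, h⟩
        rw [hV0] at this
        apply hwv
        have h2 : w * v = 1 := by simpa using this
        calc w = w * v * v := by rw [mul_assoc, hvv, mul_one]
          _ = v := by rw [h2, one_mul]
      have hxw : w * x * w⁻¹ = x := by
        rw [hwc]; group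
      have hcw := isComponent_conj w hK
      have hcwv := isComponent_conj (w * v) hK
      have hxeq : x = (w * k * w⁻¹) * ((w * v) * k * (w * v)⁻¹)⁻¹ := by
        rw [← hxw]
        nth_rewrite 1 [hx]
        rw [hk']
        group
      apply hk1
      apply center_comp_eq_one hF hK hkK
      intro g hg
      have h1 : g * (w * k * w⁻¹) = (w * k * w⁻¹) * g :=
        comp_comm hK hcw (Ne.symm hwK) hg (conj_mem_cj hkK)
      have h2 : g * ((w * v) * k * (w * v)⁻¹) = ((w * v) * k * (w * v)⁻¹) * g :=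
        comp_comm hK hcwv (Ne.symm hwvK) hg (conj_mem_cj hkK)
      have h3 : g * k' = k' * g := comp_comm hK hcv (Ne.symm hne) hg hk'mem
      have h4 : g * x = x * g := by
        rw [hxeq]
        have h2' := (Commute.inv_right (show Commute g ((w * v) * k * (w * v)⁻¹) from h2))
        exact (Commute.mul_right (show Commute g _ from h1) h2').eq
      have h5 : k = x * k' := by rw [hx]; group
      rw [h5]
      have h3' : Commute g k' := h3
      exact (Commute.mul_right (show Commute g x from h4) h3').eq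
  · have hV0V : V₀ ≤ V := inf_le_left
    have hV0N : V₀ ≤ normalizer (K : Set G) := inf_le_right
    have hH : K ⊔ V₀ ≠ ⊤ := by
      intro htop
      have hmem : k' ∈ K ⊔ V₀ := by rw [htop]; trivial
      have hk'o : Odd (orderOf k') := by rw [hk', orderOf_conj]; exact hko
      have h1 : k' ∈ K := hs.odd_mem hV0V hV0N hmem hk'o
      have h2 : k' = 1 := comp_inf hF hK hcv (Ne.symm hne) h1 hk'mem
      apply hk1
      rw [hk'] at h2
      have : k = v⁻¹ * (v * k * v⁻¹) * v := by group
      rw [this, h2]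
      group
    have hNK : K ⊔ V₀ ≤ normalizer (K : Set G) := sup_le Subgroup.le_normalizer hV0N
    by_cases hsid : ∀ u h : G, u ∈ V₀ → h ∈ K ⊔ V₀ → Odd (orderOf h) → u * h * u⁻¹ = h⁻¹ →
        ∃ w ∈ V₀, w ≠ 1 ∧ w * h = h * w
    · obtain ⟨d, hd, hd1, hdc⟩ := hs.min_sub hH le_sup_right hV0V hV0 hsid
      have hdK : ∀ y ∈ K, d * y = y * d := fun y hy =>
        commute_of_mem_core hO hK.1 le_sup_left hNK hdc hy
      apply hd1
      apply hs.eq_one_of_centralizes hO (hV0V hd)
      rw [hFs]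
      have : layer G ≤ centralizer ({d} : Set G) := by
        apply sSup_le
        intro L hL
        obtain ⟨u, hu, rfl⟩ := hs.all_conj hF hK L hL
        rintro _ ⟨y, hy, rfl⟩
        rw [mem_centralizer_singleton_iff]
        have hdu := hs.comm (hV0V hd) hu
        show (u * y * u⁻¹) * d = d * (u * y * u⁻¹)
        have c1 : Commute d u := hdu
        have c2 : Commute d y := hdK y hy
        exact ((c1.mul_right c2).mul_right c1.inv_right).eq.symm
      intro f hf
      exact (mem_centralizer_singleton_iff.mp (this hf)).symm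
    · push Not at hsid
      obtain ⟨u, h, hu, hH', hho, hinv, hno⟩ := hsid
      have hhK : h ∈ K := hs.odd_mem hV0V hV0N hH' hho
      have hh1 : h ≠ 1 := by
        rintro rfl
        obtain ⟨a, ha, ha1⟩ := exists_ne_one_of_ne_bot hV0
        exact hno a ha ha1 (by simp)
      obtain ⟨w, hw, hw1, hwc⟩ := hs.hS h u (hV0V hu) hho hinv
      have hwK : cj w K ≠ K := by
        intro he
        exact hno w (hmem0.mpr ⟨hw, he⟩) hw1 hwc
      apply hh1
      have hhmem : h ∈ cj w K := by
        have : w * h * w⁻¹ = h := by rw [hwc]; group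
        rw [← this]
        exact conj_mem_cj hhK
      exact comp_inf hF hK (isComponent_conj w hK) (Ne.symm hwK) hhK hhmem

theorem Setup.main (hs : Setup V) :
    IsSimpleGroup ↥(generalizedFittingSubgroup G) ∧
      ¬ IsMulCommutative ↥(generalizedFittingSubgroup G) ∧
      V ⊔ generalizedFittingSubgroup G = ⊤ := by
  have hO := hs.core_eq_bot
  have hF := hs.fitting_eq_bot
  have hFs : generalizedFittingSubgroup G = layer G := by
    show layer G ⊔ fittingSubgroup G = layer G
    rw [hF, sup_bot_eq]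
  have hEne : layer G ≠ ⊥ := by
    intro h
    obtain ⟨w, hw, hw1⟩ := exists_ne_one_of_ne_bot hs.hV1
    apply hw1
    apply hs.eq_one_of_centralizes hO hw
    intro f hf
    rw [hFs, h] at hf
    have : f = 1 := by simpa using hf
    rw [this]; group
  obtain ⟨K, hK⟩ := exists_component_of_ne_bot hEne
  have hEK : layer G = K := by
    apply le_antisymm
    · apply sSup_le
      intro L hL
      obtain ⟨v, hv, rfl⟩ := hs.all_conj hF hK L hL
      rw [hs.conj_eq hF hK v hv]
    · exact le_layer hK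
  have hFK : generalizedFittingSubgroup G = K := hFs.trans hEK
  have hcenter : center ↥K = ⊥ := by
    rw [eq_bot_iff]
    rintro ⟨x, hx⟩ hx'
    have := center_comp_eq_one hF hK hx (fun g hg => by
      have := (mem_center_iff.mp hx') ⟨g, hg⟩
      exact congrArg Subtype.val this)
    exact (mem_bot).mpr (Subtype.ext this)
  refine ⟨?_, ?_, hs.sup_eq_top⟩
  · rw [hFK]
    exact ((QuotientGroup.quotientMulEquivOfEq hcenter).trans
      (QuotientGroup.quotientBot (G := ↥K))).isSimpleGroup_congr.mp hK.2.2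
  · rw [hFK]
    exact not_isMulCommutative_of_isQuasisimple hK.2

end Main

end Cfsg.Agent.Lib.Components.SidkiMin
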