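import Mathlib
import Cfsg.Prelude.Def_Local
import Cfsg.Agent.Lib.Basic.PCore
import Cfsg.Agent.Lib.Components.Fitting
import Cfsg.Agent.Lib.Coprime.Three
import Cfsg.Agent.S0206

/-!
# The Thompson dihedral lemma
-/

set_option autoImplicit false
set_option linter.unusedSectionVars false
set_option linter.style.haveILetI false
open Cfsg

namespace Cfsg.Agent.Lib.Components.ThompsonDihedral

open Subgroup

variable {G : Type*} [Group G] [Finite G]

section Odd

variable {W : Subgroup G}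

theorem pow_card_eq_one_of_mem {x : G} (hx : x ∈ W) : x ^ Nat.card W = 1 := by
  have := pow_card_eq_one' (x := (⟨x, hx⟩ : W))
  have h2 := congrArg Subtype.val this
  rw [SubgroupClass.coe_pow] at h2
  exact h2

/-- Square root in an odd order subgroup. -/
noncomputable def rt (W : Subgroup G) (y : G) : G := y ^ ((Nat.card W + 1) / 2)

theorem rt_mem {y : G} (hy : y ∈ W) : rt W y ∈ W := pow_mem hy _

theorem rt_sq (hW : Odd (Nat.card W)) {y : G} (hy : y ∈ W) : rt W y * rt W y = y := by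
  obtain ⟨k, hk⟩ := hW
  have h1 := pow_card_eq_one_of_mem hy
  have h2 : (Nat.card W + 1) / 2 = k + 1 := by omega
  rw [rt, h2, ← pow_add]
  have h3 : k + 1 + (k + 1) = Nat.card W + 1 := by omega
  rw [h3, pow_succ, h1, one_mul]

theorem rt_conj (g y : G) : g * rt W y * g⁻¹ = rt W (g * y * g⁻¹) := by
  rw [rt, rt, conj_pow]

theorem rt_inv (y : G) : (rt W y)⁻¹ = rt W y⁻¹ := by
  rw [rt, rt, inv_pow]

theorem sq_inj (hW : Odd (Nat.card W)) {x y : G} (hx : x ∈ W) (hy : y ∈ W) (h : x * x = y * y) :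
    x = y := by
  obtain ⟨k, hk⟩ := hW
  have h1 := pow_card_eq_one_of_mem hx
  have h2 := pow_card_eq_one_of_mem hy
  rw [hk] at h1 h2
  have e : ∀ z : G, z ^ (2 * k + 1) = 1 → z = ((z * z) ^ k)⁻¹ := by
    intro z hz
    rw [eq_inv_iff_mul_eq_one, ← pow_two, ← pow_mul, ← pow_succ']
    exact hz
  rw [e x h1, e y h2, h]

theorem eq_one_of_eq_inv (hW : Odd (Nat.card W)) {x : G} (hx : x ∈ W) (h : x = x⁻¹) : x = 1 := by
  apply sq_inj hW hx W.one_mem
  rw [one_mul]
  nth_rewrite 1 [h]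
  simp

theorem inverted {a : G} (ha : a * a = 1) (x : G) :
    a * (x⁻¹ * (a * x * a⁻¹)) * a⁻¹ = (x⁻¹ * (a * x * a⁻¹))⁻¹ := by
  have e1 : a * (x⁻¹ * (a * x * a⁻¹)) * a⁻¹ = (a * x⁻¹ * a⁻¹) * (a * a) * x * (a * a)⁻¹ := by group
  rw [e1, ha]
  group

/-- The key lemma: a four-group acting on a group of odd order. -/
theorem centralizes_of_four (hW : Odd (Nat.card W)) {a b : G} (ha : a * a = 1) (hb : b * b = 1)
    (hab : a * b = b * a) (haW : a ∈ normalizer (W : Set G)) (hbW : b ∈ normalizer (W : Set G))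
    (h1 : ∀ x ∈ W, b * x * b⁻¹ = x → a * x * a⁻¹ = x)
    (h2 : ∀ x ∈ W, (a * b) * x * (a * b)⁻¹ = x → a * x * a⁻¹ = x) :
    ∀ x ∈ W, a * x * a⁻¹ = x := by
  have ha' : a⁻¹ = a := inv_eq_of_mul_eq_one_left ha
  have hb' : b⁻¹ = b := inv_eq_of_mul_eq_one_left hb
  intro x hx
  set i := x⁻¹ * (a * x * a⁻¹) with hi
  have hiW : i ∈ W := mul_mem (inv_mem hx) ((mem_normalizer_iff.mp haW _).mp hx)
  have hia : a * i * a⁻¹ = i⁻¹ := inverted ha x
  set j := b * i * b⁻¹ with hj
  have hjW : j ∈ W := (mem_normalizer_iff.mp hbW _).mp hiW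
  have hja : a * j * a⁻¹ = j⁻¹ := by
    rw [hj]
    have e : a * (b * i * b⁻¹) * a⁻¹ = b * (a * i * a⁻¹) * b⁻¹ := by
      have : b⁻¹ * a⁻¹ = a⁻¹ * b⁻¹ := by rw [← mul_inv_rev, ← mul_inv_rev, hab]
      calc a * (b * i * b⁻¹) * a⁻¹ = (a * b) * i * (b⁻¹ * a⁻¹) := by group
        _ = (b * a) * i * (a⁻¹ * b⁻¹) := by rw [this, hab]
        _ = _ := by group
    rw [e, hia]
    group
  set h := rt W i with hh
  have hhW : h ∈ W := rt_mem hiW
  have hh2 : h * h = i := rt_sq hW hiW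
  have hha : a * h * a⁻¹ = h⁻¹ := by
    rw [hh, rt_conj, hia, rt_inv]
  set t := h⁻¹ * j * h⁻¹ with ht
  have htW : t ∈ W := mul_mem (mul_mem (inv_mem hhW) hjW) (inv_mem hhW)
  have hta : a * t * a⁻¹ = t⁻¹ := by
    have e : a * (h⁻¹ * j * h⁻¹) * a⁻¹ = (a * h * a⁻¹)⁻¹ * (a * j * a⁻¹) * (a * h * a⁻¹)⁻¹ := by group
    rw [ht, e, hha, hja]
    group
  set z := rt W t with hz
  have hzW : z ∈ W := rt_mem htW
  have hz2 : z * z = t := rt_sq hW htW
  have hza : a * z * a⁻¹ = z⁻¹ := by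
    rw [hz, rt_conj, hta, rt_inv]
  set m := h * z * h with hm
  have hmW : m ∈ W := mul_mem (mul_mem hhW hzW) hhW
  have hma : a * m * a⁻¹ = m⁻¹ := by
    have e : a * (h * z * h) * a⁻¹ = (a * h * a⁻¹) * (a * z * a⁻¹) * (a * h * a⁻¹) := by group
    rw [hm, e, hha, hza]
    group
  have hsol : m * i⁻¹ * m = j := by
    rw [← hh2, hm]
    calc h * z * h * (h * h)⁻¹ * (h * z * h) = h * (z * z) * h := by group
      _ = j := by rw [hz2, ht]; group
  have huniq : ∀ X ∈ W, X * i⁻¹ * X = j → X = m := by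
    intro X hX hXs
    have e1 : (h⁻¹ * X * h⁻¹) * (h⁻¹ * X * h⁻¹) = z * z := by
      rw [hz2, ht, ← hXs, ← hh2]
      group
    have e2 := sq_inj hW (mul_mem (mul_mem (inv_mem hhW) hX) (inv_mem hhW)) hzW e1
    rw [hm, ← e2]
    group
  have hmb : b * m * b⁻¹ = m := by
    apply huniq _ ((mem_normalizer_iff.mp hbW _).mp hmW)
    have e1 : b * j * b⁻¹ = i := by
      have e0 : b * (b * i * b⁻¹) * b⁻¹ = (b * b) * i * (b * b)⁻¹ := by group
      rw [hj, e0, hb]
      group
    have e2 : (b * m * b⁻¹) * j⁻¹ * (b * m * b⁻¹) = i := by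
      have : (b * m * b⁻¹) * j⁻¹ * (b * m * b⁻¹) = b * (m * (b⁻¹ * j⁻¹ * b) * m) * b⁻¹ := by group
      rw [this]
      have e3 : b⁻¹ * j⁻¹ * b = i⁻¹ := by
        rw [hj]
        group
      rw [e3, hsol, e1]
    have e3 : j⁻¹ = (b * m * b⁻¹)⁻¹ * i * (b * m * b⁻¹)⁻¹ := by
      rw [← e2]
      group
    have e4 := congrArg (fun y => y⁻¹) e3
    simp only [inv_inv] at e4
    rw [e4]
    group
  have hm1 : m = 1 := by
    apply eq_one_of_eq_inv hW hmW
    have := h1 m hmW hmb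
    rw [hma] at this
    exact this.symm
  have hji : j = i⁻¹ := by
    have := hsol
    rw [hm1] at this
    simpa using this.symm
  have hia2 : (a * b) * i * (a * b)⁻¹ = i := by
    have e : (a * b) * i * (a * b)⁻¹ = a * (b * i * b⁻¹) * a⁻¹ := by group
    rw [e, ← hj, hji]
    have e5 : a * i⁻¹ * a⁻¹ = (a * i * a⁻¹)⁻¹ := by group
    rw [e5, hia, inv_inv]
  have hi1 : i = 1 := by
    apply eq_one_of_eq_inv hW hiW
    have := h2 i hiW hia2
    rw [hia] at this
    exact this.symm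
  rw [hi] at hi1
  have := eq_of_inv_mul_eq_one hi1
  exact this.symm

end Odd

theorem mem_cent {x c : G} : x ∈ centralizer ({c} : Set G) ↔ c * x * c⁻¹ = x := by
  rw [mem_centralizer_iff, mul_inv_eq_iff_eq_mul]
  simp

theorem card_lt {H K : Subgroup G} (h : H < K) : Nat.card H < Nat.card K := by
  by_contra hc
  push Not at hc
  exact h.ne (Subgroup.eq_of_le_of_card_ge h.le hc)

/-- A pure element. -/
def Pure (A : Subgroup G) (u : G) : Prop := ∀ b ∈ A, b * u * b⁻¹ = u ∨ b * u * b⁻¹ = u⁻¹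

/-- The existence of pure elements. -/
theorem exists_pure (A : Subgroup G) (hA : IsElementaryAbelian 2 A) {a : G} (ha : a ∈ A) :
    ∀ (n : ℕ) (W : Subgroup G), Nat.card W = n → Odd (Nat.card W) → A ≤ normalizer (W : Set G) →
      (∃ x ∈ W, a * x * a⁻¹ ≠ x) →
      ∃ u ∈ W, u ≠ 1 ∧ a * u * a⁻¹ = u⁻¹ ∧ Pure A u := by
  obtain ⟨hAc, hA2⟩ := hA
  have hcomm : ∀ x ∈ A, ∀ y ∈ A, x * y = y * x := fun x hx y hy => by
    have := hAc.is_comm.comm ⟨x, hx⟩ ⟨y, hy⟩
    exact congrArg Subtype.val this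
  have hsq : ∀ x ∈ A, x * x = 1 := fun x hx => by
    have := hA2 x hx
    rwa [pow_two] at this
  have hinv : ∀ x ∈ A, x⁻¹ = x := fun x hx => inv_eq_of_mul_eq_one_left (hsq x hx)
  intro n
  induction n using Nat.strong_induction_on with
  | _ n ih =>
    intro W hWn hW hAW hx
    -- reduction to a proper subgroup
    have hsub : ∀ c ∈ A, (∃ x ∈ W, c * x * c⁻¹ ≠ x) → (∃ x ∈ W ⊓ centralizer ({c} : Set G), a * x * a⁻¹ ≠ x) →
        ∃ u ∈ W, u ≠ 1 ∧ a * u * a⁻¹ = u⁻¹ ∧ Pure A u := by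
      intro c hc hc1 hc2
      have hlt : W ⊓ centralizer ({c} : Set G) < W := by
        refine lt_of_le_of_ne inf_le_left ?_
        intro he
        obtain ⟨x, hxW, hxc⟩ := hc1
        rw [← he] at hxW
        apply hxc
        exact mem_cent.mp hxW.2
      have hcard : Nat.card ↥(W ⊓ centralizer ({c} : Set G)) < n := by
        rw [← hWn]
        exact card_lt hlt
      have hdvd : Nat.card ↥(W ⊓ centralizer ({c} : Set G)) ∣ Nat.card W :=
        Subgroup.card_dvd_of_le inf_le_left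
      have hodd : Odd (Nat.card ↥(W ⊓ centralizer ({c} : Set G))) := Odd.of_dvd_nat hW hdvd
      have hN : A ≤ normalizer ((W ⊓ centralizer ({c} : Set G) : Subgroup G) : Set G) := by
        intro b hb
        apply Cfsg.Agent.Lib.Coprime.Three.mem_normalizer_of_conj_mem
        rintro x ⟨hx1, hx2⟩
        refine ⟨(mem_normalizer_iff.mp (hAW hb) _).mp hx1, ?_⟩
        have hx3 : c * x * c⁻¹ = x := mem_cent.mp hx2
        apply mem_cent.mpr
        have hbc : c * b = b * c := hcomm c hc b hb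
        have hbc' : c⁻¹ * b = b * c⁻¹ := by
          rw [hinv c hc]
          exact hbc
        have hbc'' : b⁻¹ * c⁻¹ = c⁻¹ * b⁻¹ := by
          rw [← mul_inv_rev, ← mul_inv_rev, hbc]
        calc c * (b * x * b⁻¹) * c⁻¹ = (c * b) * x * (b⁻¹ * c⁻¹) := by group
          _ = (b * c) * x * (c⁻¹ * b⁻¹) := by rw [hbc, hbc'']
          _ = b * (c * x * c⁻¹) * b⁻¹ := by group
          _ = _ := by rw [hx3]
      obtain ⟨u, hu, hu1, hu2, hu3⟩ := ih _ hcard _ rfl hodd hN hc2
      exact ⟨u, hu.1, hu1, hu2, hu3⟩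
    by_cases hcase : ∃ b ∈ A, (∃ x ∈ W, b * x * b⁻¹ ≠ x) ∧ ∃ x ∈ W, (a * b) * x * (a * b)⁻¹ ≠ x
    · obtain ⟨b, hb, hb1, hb2⟩ := hcase
      by_cases hc1 : ∃ x ∈ W ⊓ centralizer ({b} : Set G), a * x * a⁻¹ ≠ x
      · exact hsub b hb hb1 hc1
      · by_cases hc2 : ∃ x ∈ W ⊓ centralizer ({a * b} : Set G), a * x * a⁻¹ ≠ x
        · exact hsub (a * b) (mul_mem ha hb) hb2 hc2
        · exfalso
          push Not at hc1 hc2
          obtain ⟨x, hxW, hxa⟩ := hx
          apply hxa
          refine centralizes_of_four hW (hsq a ha) (hsq b hb) (hcomm a ha b hb) (hAW ha) (hAW hb)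
            ?_ ?_ x hxW
          · intro y hy hyb
            exact hc1 y ⟨hy, mem_cent.mpr hyb⟩
          · intro y hy hyb
            exact hc2 y ⟨hy, mem_cent.mpr hyb⟩
    · push Not at hcase
      obtain ⟨x, hxW, hxa⟩ := hx
      set i := x⁻¹ * (a * x * a⁻¹) with hi
      have hiW : i ∈ W := mul_mem (inv_mem hxW) ((mem_normalizer_iff.mp (hAW ha) _).mp hxW)
      have ha2 := hsq a ha
      have hinva := hinv a ha
      have hia : a * i * a⁻¹ = i⁻¹ := inverted ha2 x
      refine ⟨i, hiW, ?_, hia, ?_⟩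
      · intro h1
        apply hxa
        have := eq_of_inv_mul_eq_one h1
        exact this.symm
      · intro b hb
        by_cases hb1 : ∀ y ∈ W, b * y * b⁻¹ = y
        · exact Or.inl (hb1 i hiW)
        · push Not at hb1
          right
          have h3 := hcase b hb hb1 i hiW
          have e : (a * b) * i * (a * b)⁻¹ = a * (b * i * b⁻¹) * a⁻¹ := by group
          rw [e] at h3
          have h4 : b * i * b⁻¹ = a⁻¹ * i * a := by
            calc b * i * b⁻¹ = a⁻¹ * (a * (b * i * b⁻¹) * a⁻¹) * a := by group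
              _ = a⁻¹ * i * a := by rw [h3]
          rw [h4, hinva, ← hia, hinva]

/-- A fixed-point lemma in nilpotent groups. -/
theorem centralizes_of_nilpotent {Q : Subgroup G} (hQ : Group.IsNilpotent ↥Q) (hodd : Odd (Nat.card Q))
    {a : G} (ha : a * a = 1) (haQ : a ∈ normalizer (Q : Set G)) (S : Set G) (hS : S ⊆ Q)
    (h1 : ∀ u ∈ S, a * u * a⁻¹ = u)
    (h2 : ∀ x ∈ Q, (∀ u ∈ S, x * u = u * x) → a * x * a⁻¹ = x) : ∀ x ∈ Q, a * x * a⁻¹ = x := by
  let T : Subgroup ↥Q :=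
    { carrier := {x | a * (x : G) * a⁻¹ = x}
      mul_mem' := by
        intro x y hx hy
        show a * ((x : G) * y) * a⁻¹ = (x : G) * y
        have : a * ((x : G) * y) * a⁻¹ = (a * x * a⁻¹) * (a * y * a⁻¹) := by group
        rw [this, hx, hy]
      one_mem' := by
        show a * ((1 : ↥Q) : G) * a⁻¹ = ((1 : ↥Q) : G)
        simp
      inv_mem' := by
        intro x hx
        show a * ((x : G))⁻¹ * a⁻¹ = ((x : G))⁻¹
        have : a * ((x : G))⁻¹ * a⁻¹ = (a * x * a⁻¹)⁻¹ := by group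
        rw [this, hx] }
  have hT : ∀ x : ↥Q, x ∈ T ↔ a * (x : G) * a⁻¹ = x := fun x => Iff.rfl
  have htop : T = ⊤ := by
    by_contra hne
    have hlt : T < ⊤ := lt_top_iff_ne_top.mpr hne
    have hn := normalizerCondition_of_isNilpotent (G := ↥Q) T hlt
    obtain ⟨x, hx1, hx2⟩ := SetLike.exists_of_lt hn
    apply hx2
    rw [hT]
    have hxa : a * (x : G) * a⁻¹ ∈ Q := (mem_normalizer_iff.mp haQ _).mp x.2
    set c := (x : G)⁻¹ * (a * x * a⁻¹) with hc
    have hcQ : c ∈ Q := mul_mem (inv_mem x.2) hxa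
    have hcom : ∀ t : ↥Q, t ∈ T → c * t = t * c := by
      intro t ht
      have h3 : x * t * x⁻¹ ∈ T := by
        have := (mem_normalizer_iff.mp hx1 t).mp ht
        exact this
      rw [hT] at h3 ht
      have h4 : a * ((x : G) * t * (x : G)⁻¹) * a⁻¹ = (x : G) * t * (x : G)⁻¹ := by
        simpa using h3
      have h5 : a * ((x : G) * t * (x : G)⁻¹) * a⁻¹ =
          (a * x * a⁻¹) * (a * t * a⁻¹) * (a * x * a⁻¹)⁻¹ := by group
      rw [h5, ht] at h4
      have h6 : (a * (x : G) * a⁻¹) = (x : G) * c := by rw [hc]; group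
      rw [h6] at h4
      have h7 : c * t * c⁻¹ = t := by
        have h8 : (x : G) * (c * t * c⁻¹) * (x : G)⁻¹ = (x : G) * t * (x : G)⁻¹ := by
          rw [← h4]; group
        have h9 := mul_left_cancel (a := (x : G)) (by
          have := mul_right_cancel (b := (x : G)⁻¹) h8
          exact this)
        exact h9
      exact mul_inv_eq_iff_eq_mul.mp h7
    have hcfix : a * c * a⁻¹ = c := by
      refine h2 c hcQ fun u hu => ?_
      have hut : (⟨u, hS hu⟩ : ↥Q) ∈ T := by
        rw [hT]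
        exact h1 u hu
      exact hcom _ hut
    have hcinv : a * c * a⁻¹ = c⁻¹ := inverted ha x
    have hc1 : c = 1 := by
      apply eq_one_of_eq_inv hodd hcQ
      rw [← hcinv, hcfix]
    have := eq_of_inv_mul_eq_one hc1
    exact this.symm
  intro x hx
  have : (⟨x, hx⟩ : ↥Q) ∈ T := by rw [htop]; trivial
  exact this

/-- A good family of pure elements. -/
structure Good (Q A : Subgroup G) (S : Finset G) : Prop where
  hQ : ∀ u ∈ S, u ∈ Q
  hne : ∀ u ∈ S, u ≠ 1
  hpure : ∀ u ∈ S, Pure A u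
  hcomm : ∀ u ∈ S, ∀ v ∈ S, u * v = v * u
  hdual : ∀ u ∈ S, ∃ a ∈ A, a * u * a⁻¹ = u⁻¹ ∧ ∀ v ∈ S, v ≠ u → a * v * a⁻¹ = v

theorem good_step {Q A : Subgroup G} (hQ : Group.IsNilpotent ↥Q) (hodd : Odd (Nat.card Q))
    (hA : IsElementaryAbelian 2 A) (hAQ : A ≤ normalizer (Q : Set G))
    (hfaith : A ⊓ centralizer (Q : Set G) = ⊥) {S : Finset G} (hS : Good Q A S) {a : G} (ha : a ∈ A)
    (ha1 : a ≠ 1) (hfix : ∀ u ∈ S, a * u * a⁻¹ = u) :
    ∃ S' : Finset G, Good Q A S' ∧ S.card < S'.card := by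
  classical
  have hcomm : ∀ x ∈ A, ∀ y ∈ A, x * y = y * x := fun x hx y hy => by
    have := hA.1.is_comm.comm ⟨x, hx⟩ ⟨y, hy⟩
    exact congrArg Subtype.val this
  have hsq : ∀ x ∈ A, x * x = 1 := fun x hx => by
    have := hA.2 x hx
    rwa [pow_two] at this
  have hinv : ∀ x ∈ A, x⁻¹ = x := fun x hx => inv_eq_of_mul_eq_one_left (hsq x hx)
  -- a moves an element of `C_Q(S)`
  have hmove : ∃ x ∈ Q, (∀ u ∈ S, x * u = u * x) ∧ a * x * a⁻¹ ≠ x := by
    by_contra hc
    push Not at hc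
    have h1 := centralizes_of_nilpotent hQ hodd (hsq a ha) (hAQ ha) (S : Set G) (fun u hu => hS.hQ u hu)
      (fun u hu => hfix u hu) hc
    apply ha1
    have h2 : a ∈ A ⊓ centralizer (Q : Set G) := by
      refine mem_inf.mpr ⟨ha, ?_⟩
      rw [mem_centralizer_iff]
      intro q hq
      exact (mul_inv_eq_iff_eq_mul.mp (h1 q hq)).symm
    rw [hfaith] at h2
    exact h2
  obtain ⟨x, hxQ, hxS, hxa⟩ := hmove
  let W : Subgroup G := Q ⊓ centralizer (S : Set G)
  have hWmem : ∀ y, y ∈ W ↔ y ∈ Q ∧ ∀ u ∈ S, y * u = u * y := by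
    intro y
    rw [mem_inf, mem_centralizer_iff]
    constructor
    · rintro ⟨h1, h2⟩
      exact ⟨h1, fun u hu => (h2 u hu).symm⟩
    · rintro ⟨h1, h2⟩
      exact ⟨h1, fun u hu => (h2 u hu).symm⟩
  have hWodd : Odd (Nat.card W) := Odd.of_dvd_nat hodd (Subgroup.card_dvd_of_le inf_le_left)
  have hAW : A ≤ normalizer (W : Set G) := by
    intro b hb
    apply Cfsg.Agent.Lib.Coprime.Three.mem_normalizer_of_conj_mem
    intro y hy
    rw [hWmem] at hy ⊢
    refine ⟨(mem_normalizer_iff.mp (hAQ hb) _).mp hy.1, fun u hu => ?_⟩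
    have hbi := hinv b hb
    have h3 : b⁻¹ * u * b = b * u * b⁻¹ := by
      rw [hbi]
    have h4 : y * (b⁻¹ * u * b) = (b⁻¹ * u * b) * y := by
      rw [h3]
      rcases hS.hpure u hu b hb with h5 | h5
      · rw [h5]
        exact hy.2 u hu
      · rw [h5]
        have := hy.2 u hu
        calc y * u⁻¹ = u⁻¹ * (u * y) * u⁻¹ := by group
          _ = u⁻¹ * (y * u) * u⁻¹ := by rw [this]
          _ = _ := by group
    calc b * y * b⁻¹ * u = b * (y * (b⁻¹ * u * b)) * b⁻¹ := by group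
      _ = b * ((b⁻¹ * u * b) * y) * b⁻¹ := by rw [h4]
      _ = _ := by group
  obtain ⟨u₀, hu₀, hu₀1, hu₀a, hu₀p⟩ := exists_pure A hA ha _ W rfl hWodd hAW
    ⟨x, (hWmem x).mpr ⟨hxQ, hxS⟩, hxa⟩
  have hu₀' := (hWmem u₀).mp hu₀
  have hnot : u₀ ∉ S := by
    intro hin
    apply hu₀1
    apply eq_one_of_eq_inv hodd hu₀'.1
    rw [← hu₀a, hfix u₀ hin]
  refine ⟨insert u₀ S, ?_, by rw [Finset.card_insert_of_notMem hnot]; omega⟩
  have hmem : ∀ v, v ∈ insert u₀ S ↔ v = u₀ ∨ v ∈ S := fun v => Finset.mem_insert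
  refine ⟨?_, ?_, ?_, ?_, ?_⟩
  · intro v hv
    rcases (hmem v).mp hv with rfl | hv
    · exact hu₀'.1
    · exact hS.hQ v hv
  · intro v hv
    rcases (hmem v).mp hv with rfl | hv
    · exact hu₀1
    · exact hS.hne v hv
  · intro v hv
    rcases (hmem v).mp hv with rfl | hv
    · exact hu₀p
    · exact hS.hpure v hv
  · intro v hv w hw
    rcases (hmem v).mp hv with hv' | hv' <;> rcases (hmem w).mp hw with hw' | hw'
    · rw [hv', hw']
    · rw [hv']
      exact hu₀'.2 w hw'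
    · rw [hw']
      exact (hu₀'.2 v hv').symm
    · exact hS.hcomm v hv' w hw'
  · intro v hv
    rcases (hmem v).mp hv with rfl | hv
    · refine ⟨a, ha, hu₀a, fun w hw hne => ?_⟩
      rcases (hmem w).mp hw with rfl | hw
      · exact absurd rfl hne
      · exact hfix w hw
    · obtain ⟨b, hb, hb1, hb2⟩ := hS.hdual v hv
      have hvne : u₀ ≠ v := fun h => hnot (h ▸ hv)
      rcases hu₀p b hb with h5 | h5
      · refine ⟨b, hb, hb1, fun w hw hne => ?_⟩
        rcases (hmem w).mp hw with rfl | hw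
        · exact h5
        · exact hb2 w hw hne
      · refine ⟨b * a, mul_mem hb ha, ?_, fun w hw hne => ?_⟩
        · have e : (b * a) * v * (b * a)⁻¹ = b * (a * v * a⁻¹) * b⁻¹ := by group
          rw [e, hfix v hv, hb1]
        · rcases (hmem w).mp hw with rfl | hw
          · have e : (b * a) * w * (b * a)⁻¹ = b * (a * w * a⁻¹) * b⁻¹ := by group
            rw [e, hu₀a]
            have e2 : b * w⁻¹ * b⁻¹ = (b * w * b⁻¹)⁻¹ := by group
            rw [e2, h5, inv_inv]
          · have e : (b * a) * w * (b * a)⁻¹ = b * (a * w * a⁻¹) * b⁻¹ := by group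
            rw [e, hfix w hw, hb2 w hw hne]

theorem exists_good {Q A : Subgroup G} (hQ : Group.IsNilpotent ↥Q) (hodd : Odd (Nat.card Q))
    (hA : IsElementaryAbelian 2 A) (hAQ : A ≤ normalizer (Q : Set G))
    (hfaith : A ⊓ centralizer (Q : Set G) = ⊥) :
    ∃ S : Finset G, Good Q A S ∧ ∀ a ∈ A, (∀ u ∈ S, a * u * a⁻¹ = u) → a = 1 := by
  classical
  haveI := Fintype.ofFinite G
  have key : ∀ (n : ℕ) (S : Finset G), Good Q A S → Fintype.card G - S.card = n →
      ∃ S : Finset G, Good Q A S ∧ ∀ a ∈ A, (∀ u ∈ S, a * u * a⁻¹ = u) → a = 1 := by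
    intro n
    induction n using Nat.strong_induction_on with
    | _ n ih =>
      intro S hS hn
      by_cases hc : ∀ a ∈ A, (∀ u ∈ S, a * u * a⁻¹ = u) → a = 1
      · exact ⟨S, hS, hc⟩
      · push Not at hc
        obtain ⟨a, ha, hfix, ha1⟩ := hc
        obtain ⟨S', hS', hlt⟩ := good_step hQ hodd hA hAQ hfaith hS ha ha1 hfix
        have hle : S'.card ≤ Fintype.card G := Finset.card_le_univ _
        exact ih _ (by omega) S' hS' rfl
  refine key _ ∅ ?_ rfl
  refine ⟨?_, ?_, ?_, ?_, ?_⟩ <;> simp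

theorem mem_cent' {x c : G} : x ∈ centralizer ({c} : Set G) ↔ x * c = c * x := by
  rw [mem_centralizer_iff]
  constructor
  · intro h
    exact (h c rfl).symm
  · intro h y hy
    rw [Set.mem_singleton_iff.mp hy]
    exact h.symm

theorem comm_of_four {a u a' u' : G} (h1 : a * a' = a' * a) (h2 : a * u' = u' * a)
    (h3 : u * a' = a' * u) (h4 : u * u' = u' * u) :
    ∀ x ∈ zpowers a ⊔ zpowers u, ∀ y ∈ zpowers a' ⊔ zpowers u', x * y = y * x := by
  have hT : ∀ y ∈ zpowers a' ⊔ zpowers u', y * a = a * y ∧ y * u = u * y := by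
    intro y hy
    have h5 : zpowers a' ⊔ zpowers u' ≤ centralizer ({a} : Set G) ⊓ centralizer ({u} : Set G) := by
      refine sup_le (zpowers_le.mpr ⟨mem_cent'.mpr h1.symm, mem_cent'.mpr h3.symm⟩)
        (zpowers_le.mpr ⟨mem_cent'.mpr h2.symm, mem_cent'.mpr h4.symm⟩)
    have h6 := h5 hy
    exact ⟨mem_cent'.mp h6.1, mem_cent'.mp h6.2⟩
  intro x hx y hy
  have h5 : zpowers a ⊔ zpowers u ≤ centralizer ({y} : Set G) :=
    sup_le (zpowers_le.mpr (mem_cent'.mpr (hT y hy).1.symm))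
      (zpowers_le.mpr (mem_cent'.mpr (hT y hy).2.symm))
  exact mem_cent'.mp (h5 hx)

theorem dihedral_of {a u : G} (ha : a * a = 1) (hu : a * u * a⁻¹ = u⁻¹) (hne : u ≠ u⁻¹) :
    Nat.card (zpowers a) = 2 ∧
    Nonempty (↥(zpowers a ⊔ zpowers u) ≃* DihedralGroup (orderOf u)) := by
  have hai : a⁻¹ = a := inv_eq_of_mul_eq_one_left ha
  have ha1 : a ≠ 1 := by
    rintro rfl
    apply hne
    rw [← hu]
    group
  have hu1 : u ≠ 1 := by
    rintro rfl
    simp at hne
  have hoa : orderOf a = 2 := orderOf_eq_prime (by rwa [pow_two]) ha1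
  refine ⟨by rw [Nat.card_zpowers, hoa], ?_⟩
  have hy2 : (a * u) * (a * u) = 1 := by
    have e : (a * u) * (a * u) = (a * u * a⁻¹) * (a * a) * u := by group
    rw [e, hu, ha]
    group
  have hy1 : a * u ≠ 1 := by
    intro h
    have h2 : u = a⁻¹ := eq_inv_of_mul_eq_one_right h
    rw [hai] at h2
    apply hne
    rw [← hu]
    rw [h2]
    group
  have hoy : orderOf (a * u) = 2 := orderOf_eq_prime (by rwa [pow_two]) hy1
  have hxy : a ≠ a * u := by
    intro h
    apply hu1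
    have := mul_left_cancel (a := a) (b := 1) (c := u) (by rw [mul_one]; exact h)
    exact this.symm
  have h := Cfsg.Agent.S0206.result a (a * u) hoa hoy hxy
  have e : a * (a * u) = u := by rw [← mul_assoc, ha, one_mul]
  rw [e] at h
  obtain ⟨φ⟩ := h
  have hcl : closure ({a, a * u} : Set G) = zpowers a ⊔ zpowers u := by
    apply le_antisymm
    · rw [closure_le]
      rintro x (rfl | hx)
      · exact mem_sup_left (mem_zpowers _)
      · rw [Set.mem_singleton_iff.mp hx]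
        exact mul_mem (mem_sup_left (mem_zpowers _)) (mem_sup_right (mem_zpowers _))
    · refine sup_le (zpowers_le.mpr (subset_closure (by simp))) (zpowers_le.mpr ?_)
      have h1 : a ∈ closure ({a, a * u} : Set G) := subset_closure (by simp)
      have h2 : a * u ∈ closure ({a, a * u} : Set G) := subset_closure (by simp)
      have h3 := mul_mem h1 h2
      rwa [e] at h3
  exact ⟨(MulEquiv.subgroupCongr hcl.symm).trans φ⟩

/-- The Fitting subgroup of `L`, as a subgroup of `G`. -/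
theorem fitting_data {L A : Subgroup G} (hLs : Group.IsSolvable ↥L) (hLodd : Odd (Nat.card ↥L))
    (hA : IsElementaryAbelian 2 A) (hAL : A ≤ normalizer (L : Set G))
    (hfaith : A ⊓ centralizer (L : Set G) = ⊥) :
    ∃ Q : Subgroup G, Q ≤ L ∧ Group.IsNilpotent ↥Q ∧ A ≤ normalizer (Q : Set G) ∧
      A ⊓ centralizer (Q : Set G) = ⊥ := by
  haveI := hLs
  let Q : Subgroup G := (fittingSubgroup ↥L).map L.subtype
  have hQL : Q ≤ L := map_subtype_le _
  have hsq : ∀ x ∈ A, x * x = 1 := fun x hx => by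
    have := hA.2 x hx
    rwa [pow_two] at this
  have hmemQ : ∀ x : ↥L, (x : G) ∈ Q ↔ x ∈ fittingSubgroup ↥L := by
    intro x
    constructor
    · rintro ⟨y, hy, hxy⟩
      have : y = x := Subtype.ext hxy
      rwa [← this]
    · intro hx
      exact ⟨x, hx, rfl⟩
  have hnorm : A ≤ normalizer (Q : Set G) := by
    intro b hb
    apply Cfsg.Agent.Lib.Coprime.Three.mem_normalizer_of_conj_mem
    rintro _ ⟨y, hy, rfl⟩
    let φ : MulAut ↥L := normalizerMonoidHom L ⟨b, hAL hb⟩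
    have h1 : φ y ∈ fittingSubgroup ↥L := by
      rw [← Cfsg.Agent.Lib.Components.Fitting.fitting_map_eq φ]
      exact ⟨y, hy, rfl⟩
    exact (hmemQ (φ y)).mpr h1
  refine ⟨Q, hQL, Cfsg.Agent.Lib.Basic.PCore.isNilpotent_map
    Cfsg.Agent.Lib.Basic.PCore.fittingSubgroup_isNilpotent _, hnorm, ?_⟩
  rw [eq_bot_iff]
  rintro a ⟨ha, haQ⟩
  have hfixQ : ∀ q ∈ Q, a * q * a⁻¹ = q := by
    intro q hq
    have := mem_centralizer_iff.mp haQ q hq
    exact mul_inv_eq_iff_eq_mul.mpr this.symm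
  have hfixL : ∀ x ∈ L, a * x * a⁻¹ = x := by
    intro x hx
    set c := x⁻¹ * (a * x * a⁻¹) with hc
    have hxa : a * x * a⁻¹ ∈ L := (mem_normalizer_iff.mp (hAL ha) _).mp hx
    have hcL : c ∈ L := mul_mem (inv_mem hx) hxa
    have hcQ : c ∈ Q := by
      have hle : centralizer (fittingSubgroup ↥L : Set ↥L) ≤ fittingSubgroup ↥L :=
        Cfsg.Agent.Lib.Components.Fitting.le_fitting_of_solvable_of_le_centralizer _ le_rfl
          Subgroup.le_normalizer inferInstance
      have h1 : (⟨c, hcL⟩ : ↥L) ∈ fittingSubgroup ↥L := by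
        apply hle
        rw [mem_centralizer_iff]
        intro q hq
        have hq0 : (q : G) ∈ Q := (hmemQ q).mpr hq
        have hq1 : (⟨x, hx⟩ : ↥L) * q * (⟨x, hx⟩ : ↥L)⁻¹ ∈ fittingSubgroup ↥L :=
          (inferInstance : (fittingSubgroup ↥L).Normal).conj_mem q hq _
        have hq2 : x * q * x⁻¹ ∈ Q := (hmemQ _).mpr hq1
        have hq3 := hfixQ _ hq2
        have hq4 := hfixQ _ hq0
        have hq5 : a⁻¹ * q * a = q := by
          nth_rewrite 1 [← hq4]
          group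
        have h7 : c * q * c⁻¹ = q := by
          have e : c * q * c⁻¹ = x⁻¹ * (a * (x * (a⁻¹ * q * a) * x⁻¹) * a⁻¹) * x := by
            rw [hc]
            group
          rw [e, hq5, hq3]
          group
        apply Subtype.ext
        show (q : G) * c = c * q
        exact (mul_inv_eq_iff_eq_mul.mp h7).symm
      exact (hmemQ _).mpr h1
    have hc1 : c = 1 := by
      apply eq_one_of_eq_inv (W := L) hLodd hcL
      rw [← inverted (hsq a ha) x, ← hc, hfixQ c hcQ]
    have := eq_of_inv_mul_eq_one hc1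
    exact this.symm
  rw [← hfaith]
  refine mem_inf.mpr ⟨ha, ?_⟩
  rw [mem_centralizer_iff]
  intro x hx
  exact (mul_inv_eq_iff_eq_mul.mp (hfixL x hx)).symm

/-- The Thompson dihedral lemma. -/
theorem main {L A : Subgroup G} (hLs : Group.IsSolvable ↥L) (hLodd : Odd (Nat.card ↥L))
    (hA : IsElementaryAbelian 2 A) (d : ℕ) (hAd : Nat.card ↥A = 2 ^ d)
    (hAL : A ≤ normalizer (L : Set G)) (hfaith : A ⊓ centralizer (L : Set G) = ⊥) :
    ∃ (Ai : Fin d → Subgroup G) (Li : Fin d → Subgroup G) (n : Fin d → ℕ),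
      (∀ i, Ai i ≤ A ∧ Nat.card ↥(Ai i) = 2 ∧ Li i ≤ L ∧ Odd (n i) ∧ 3 ≤ n i ∧
        Nonempty (↥(Ai i ⊔ Li i) ≃* DihedralGroup (n i))) ∧
      (⨆ i, Ai i) = A ∧ ∀ i j, i ≠ j → ∀ x ∈ Ai i ⊔ Li i, ∀ y ∈ Ai j ⊔ Li j, x * y = y * x := by
  classical
  obtain ⟨Q, hQL, hQn, hAQ, hfQ⟩ := fitting_data hLs hLodd hA hAL hfaith
  have hQodd : Odd (Nat.card Q) := Odd.of_dvd_nat hLodd (Subgroup.card_dvd_of_le hQL)
  obtain ⟨S, hS, hSf⟩ := exists_good hQn hQodd hA hAQ hfQ
  have hcomm : ∀ x ∈ A, ∀ y ∈ A, x * y = y * x := fun x hx y hy => by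
    have := hA.1.is_comm.comm ⟨x, hx⟩ ⟨y, hy⟩
    exact congrArg Subtype.val this
  have hsq : ∀ x ∈ A, x * x = 1 := fun x hx => by
    have := hA.2 x hx
    rwa [pow_two] at this
  have hinv : ∀ x ∈ A, x⁻¹ = x := fun x hx => inv_eq_of_mul_eq_one_left (hsq x hx)
  have hne' : ∀ u ∈ S, u ≠ u⁻¹ := fun u hu h =>
    hS.hne u hu (eq_one_of_eq_inv hQodd (hS.hQ u hu) h)
  choose! dd hd1 hd2 hd3 using hS.hdual
  -- realisation of subsets
  have hreal : ∀ (Z : Subgroup G), Z ≤ A → (∀ u ∈ S, dd u ∈ Z) → ∀ X : Finset G, X ⊆ S →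
      ∃ b ∈ Z, ∀ u ∈ S, (u ∈ X ↔ b * u * b⁻¹ ≠ u) := by
    intro Z hZA hZ X
    induction X using Finset.induction_on with
    | empty =>
      intro _
      refine ⟨1, one_mem _, fun u _ => ?_⟩
      simp
    | insert w X hw ih =>
      intro hsub
      have hwS : w ∈ S := hsub (Finset.mem_insert_self _ _)
      obtain ⟨b, hb, hb2⟩ := ih (fun v hv => hsub (Finset.mem_insert_of_mem hv))
      refine ⟨b * dd w, mul_mem hb (hZ w hwS), fun u hu => ?_⟩
      have e : (b * dd w) * u * (b * dd w)⁻¹ = b * (dd w * u * (dd w)⁻¹) * b⁻¹ := by group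
      rw [Finset.mem_insert, e]
      by_cases huw : u = w
      · subst huw
        rw [hd2 u hu]
        have hfix : b * u * b⁻¹ = u := by
          by_contra hc
          exact hw ((hb2 u hu).mpr hc)
        have e2 : b * u⁻¹ * b⁻¹ = (b * u * b⁻¹)⁻¹ := by group
        rw [e2, hfix]
        simp only [true_or, true_iff]
        exact (hne' u hu).symm
      · rw [hd3 w hwS u hu huw]
        simp only [huw, false_or]
        exact hb2 u hu
  -- injectivity
  have hinj : ∀ b ∈ A, ∀ c ∈ A, (∀ u ∈ S, (b * u * b⁻¹ ≠ u ↔ c * u * c⁻¹ ≠ u)) → b = c := by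
    intro b hb c hc h
    have h1 : b * c⁻¹ = 1 := by
      refine hSf _ (mul_mem hb (inv_mem hc)) fun u hu => ?_
      have e : (b * c⁻¹) * u * (b * c⁻¹)⁻¹ = b * (c⁻¹ * u * c) * b⁻¹ := by group
      rw [e, hinv c hc]
      nth_rewrite 2 [← hinv c hc]
      rcases hS.hpure u hu c hc with h5 | h5
      · have h6 : b * u * b⁻¹ = u := by
          by_contra hne
          exact ((h u hu).mp hne) h5
        rw [h5, h6]
      · have h6 : c * u * c⁻¹ ≠ u := by
          rw [h5]
          exact (hne' u hu).symm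
        have h7 := (h u hu).mpr h6
        rcases hS.hpure u hu b hb with h8 | h8
        · exact absurd h8 h7
        · rw [h5]
          have e2 : b * u⁻¹ * b⁻¹ = (b * u * b⁻¹)⁻¹ := by group
          rw [e2, h8, inv_inv]
    exact mul_inv_eq_one.mp h1
  -- the order of `A`
  have hcard : Nat.card A = 2 ^ S.card := by
    let T : ↥A → ↥S.powerset := fun b =>
      ⟨S.filter (fun u => (b : G) * u * (b : G)⁻¹ ≠ u), Finset.mem_powerset.mpr (Finset.filter_subset _ _)⟩
    have hT : Function.Bijective T := by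
      constructor
      · intro b c hbc
        apply Subtype.ext
        apply hinj b b.2 c c.2
        intro u hu
        have := congrArg Subtype.val hbc
        have h2 := Finset.ext_iff.mp this u
        simpa [T, hu] using h2
      · rintro ⟨X, hX⟩
        obtain ⟨b, hb, hb2⟩ := hreal A le_rfl (fun u hu => hd1 u hu) X (Finset.mem_powerset.mp hX)
        refine ⟨⟨b, hb⟩, ?_⟩
        apply Subtype.ext
        ext u
        by_cases hu : u ∈ S
        · simpa [T, hu] using (hb2 u hu).symm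
        · have : u ∉ X := fun h => hu (Finset.mem_powerset.mp hX h)
          simp [T, hu, this]
    rw [Nat.card_congr (Equiv.ofBijective T hT), Nat.card_eq_fintype_card, Fintype.card_coe,
      Finset.card_powerset]
  have hdS : d = S.card := by
    have h1 : 2 ^ d = 2 ^ S.card := by rw [← hAd, hcard]
    exact Nat.pow_right_injective (le_refl 2) h1
  subst hdS
  let u : Fin S.card → G := fun i => (S.equivFin.symm i).1
  have huS : ∀ i, u i ∈ S := fun i => (S.equivFin.symm i).2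
  have huinj : ∀ i j, i ≠ j → u i ≠ u j := by
    intro i j hij h
    apply hij
    have : S.equivFin.symm i = S.equivFin.symm j := Subtype.ext h
    exact S.equivFin.symm.injective this
  have hsurj : ∀ w ∈ S, ∃ i, u i = w := by
    intro w hw
    refine ⟨S.equivFin ⟨w, hw⟩, ?_⟩
    simp [u]
  refine ⟨fun i => zpowers (dd (u i)), fun i => zpowers (u i), fun i => orderOf (u i), ?_, ?_, ?_⟩
  · intro i
    have hD := dihedral_of (hsq _ (hd1 _ (huS i))) (hd2 _ (huS i)) (hne' _ (huS i))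
    have hdvd : orderOf (u i) ∣ Nat.card L := Subgroup.orderOf_dvd_natCard L (hQL (hS.hQ _ (huS i)))
    have hoddn : Odd (orderOf (u i)) := Odd.of_dvd_nat hLodd hdvd
    have hn1 : orderOf (u i) ≠ 1 := by
      rw [Ne, orderOf_eq_one_iff]
      exact hS.hne _ (huS i)
    refine ⟨zpowers_le.mpr (hd1 _ (huS i)), hD.1, zpowers_le.mpr (hQL (hS.hQ _ (huS i))), hoddn, ?_, hD.2⟩
    show 3 ≤ orderOf (u i)
    obtain ⟨k, hk⟩ := hoddn
    omega
  · apply le_antisymm
    · exact iSup_le fun i => zpowers_le.mpr (hd1 _ (huS i))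
    · intro c hc
      obtain ⟨b, hb, hb2⟩ := hreal (⨆ i, zpowers (dd (u i)))
        (iSup_le fun i => zpowers_le.mpr (hd1 _ (huS i)))
        (fun w hw => by
          obtain ⟨i, rfl⟩ := hsurj w hw
          exact (le_iSup (fun i => zpowers (dd (u i))) i) (mem_zpowers _))
        (S.filter (fun u => c * u * c⁻¹ ≠ u)) (Finset.filter_subset _ _)
      have hbA : b ∈ A := (iSup_le fun i => zpowers_le.mpr (hd1 _ (huS i)) :
        (⨆ i, zpowers (dd (u i))) ≤ A) hb
      have : b = c := by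
        apply hinj b hbA c hc
        intro w hw
        have := hb2 w hw
        simp only [Finset.mem_filter, hw, true_and] at this
        exact this.symm
      rw [← this]
      exact hb
  · intro i j hij x hx y hy
    have hui := huS i
    have huj := huS j
    have hne := huinj i j hij
    refine comm_of_four (a := dd (u i)) (u := u i) (a' := dd (u j)) (u' := u j)
      (hcomm _ (hd1 _ hui) _ (hd1 _ huj)) ?_ ?_ (hS.hcomm _ hui _ huj) x hx y hy
    · exact mul_inv_eq_iff_eq_mul.mp (hd3 _ hui _ huj hne.symm)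
    · exact (mul_inv_eq_iff_eq_mul.mp (hd3 _ huj _ hui hne)).symm

end Cfsg.Agent.Lib.Components.ThompsonDihedral
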