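import Mathlib
import Cfsg.Prelude.Def_FusionSystem
import Cfsg.Prelude.Def_CaseTheorems
import Cfsg.Agent.Lib.Components.ZStarMain

/-!
# The `Z*`-theorem in fusion language
-/

set_option autoImplicit false
set_option linter.style.haveILetI false

open scoped Pointwise

namespace Cfsg.Agent.Lib.Components.ZStarFus

open Cfsg Cfsg.Agent.Lib.Components.ZStarIso Cfsg.Agent.Lib.Components.ZStarMain

universe u

variable {G : Type u} [Group G]

/-- A `p`-subgroup inside `S L`, with `L` normal, is moved into `S` by an element of `L`. -/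
lemma exists_conj_mem_sylow [Finite G] {p : ℕ} [Fact p.Prime] (S : Sylow p G) {L : Subgroup G} [hL : L.Normal]
    {T : Subgroup G} (hT : IsPGroup p T) (hTL : T ≤ (S : Subgroup G) ⊔ L) :
    ∃ l ∈ L, ∀ t ∈ T, l * t * l⁻¹ ∈ (S : Subgroup G) := by
  classical
  set X : Subgroup G := (S : Subgroup G) ⊔ L with hX
  have hSX : (S : Subgroup G) ≤ X := le_sup_left
  have hT' : IsPGroup p (T.subgroupOf X) := hT.comap_of_injective X.subtype X.subtype_injective
  obtain ⟨R, hR⟩ := hT'.exists_le_sylow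
  obtain ⟨u, hu⟩ := MulAction.exists_smul_eq X R (S.subtype hSX)
  obtain ⟨s, hs, l, hl, hsl⟩ := Subgroup.mem_sup_of_normal_right.1 u.2
  refine ⟨l, hl, fun t ht => ?_⟩
  have htX : t ∈ X := hTL ht
  have h1 : (⟨t, htX⟩ : X) ∈ (R : Subgroup X) := hR (by simpa [Subgroup.mem_subgroupOf] using ht)
  have h2 : MulAut.conj u • (⟨t, htX⟩ : X) ∈ MulAut.conj u • (R : Subgroup X) :=
    Subgroup.smul_mem_pointwise_smul _ _ _ h1
  rw [← Sylow.coe_subgroup_smul, hu, Sylow.coe_subtype, Subgroup.mem_subgroupOf] at h2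
  have h3 : (u : G) * t * (u : G)⁻¹ ∈ (S : Subgroup G) := by
    simpa [MulAut.smul_def] using h2
  rw [← hsl] at h3
  have h4 : l * t * l⁻¹ = s⁻¹ * (s * l * t * (s * l)⁻¹) * s := by group
  rw [h4]
  exact Subgroup.mul_mem _ (Subgroup.mul_mem _ (Subgroup.inv_mem _ hs) h3) hs

/-- A Sylow `2`-subgroup meets a subgroup of odd order trivially. -/
lemma eq_one_of_mem_sylow_of_mem_odd [Finite G] (S : Sylow 2 G) {L : Subgroup G} (hL : Odd (Nat.card L)) {x : G}
    (hS : x ∈ (S : Subgroup G)) (hxL : x ∈ L) : x = 1 := by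
  haveI : Fact (Nat.Prime 2) := ⟨Nat.prime_two⟩
  obtain ⟨e, he⟩ := S.isPGroup' ⟨x, hS⟩
  have h1 : (⟨x, hxL⟩ : L) ^ 2 ^ e = 1 := by
    apply Subtype.ext
    have := congrArg (fun y : (S : Subgroup G) => (y : G)) he
    simpa using this
  have h2 := eq_one_of_odd hL _ h1
  exact congrArg Subtype.val h2

/-- The oddCore has odd order. -/
lemma odd_card_oddCore [Finite G] : Odd (Nat.card (oddCore G)) :=
  Nat.coprime_two_right.1 (Cfsg.Agent.Lib.Solvable.Carter.card_pPrimeCore_coprime (G := G) 2)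

/-- The subgroup of elements of `S` central modulo `O(G)` is central in the fusion system. -/
theorem isCentral_inf (S : Sylow 2 G) [Finite G] :
    (groupFusionSystem (S : Subgroup G)).IsCentral
      ((S : Subgroup G) ⊓ (Subgroup.center (G ⧸ oddCore G)).comap (QuotientGroup.mk' (oddCore G))) := by
  classical
  haveI hp2 : Fact (Nat.Prime 2) := ⟨Nat.prime_two⟩
  set L := oddCore G with hLdef
  haveI hLn : L.Normal := Cfsg.pPrimeCore_normal 2 G
  have hLodd : Odd (Nat.card L) := odd_card_oddCore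
  set Q₀ := (S : Subgroup G) ⊓ (Subgroup.center (G ⧸ L)).comap (QuotientGroup.mk' L) with hQ₀
  have hcentral : ∀ x ∈ Q₀, ∀ g : G, (g * x * g⁻¹) * x⁻¹ ∈ L := by
    intro x hx g
    have h1 : QuotientGroup.mk' L x ∈ Subgroup.center (G ⧸ L) := hx.2
    have h2 := (Subgroup.mem_center_iff.1 h1) (QuotientGroup.mk' L g)
    rw [← QuotientGroup.eq_one_iff]
    show QuotientGroup.mk' L ((g * x * g⁻¹) * x⁻¹) = 1
    simp only [map_mul, map_inv, h2]
    group
  refine ⟨inf_le_left, ?_⟩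
  rintro P φ ⟨hPS, hφS, g, hg⟩
  -- the target
  set T : Subgroup G := (P ⊔ Q₀).map (MulAut.conj g).toMonoidHom with hT
  have hPQS : P ⊔ Q₀ ≤ (S : Subgroup G) := sup_le hPS inf_le_left
  have hT2 : IsPGroup 2 T := (S.isPGroup'.to_le hPQS).map _
  have hTL : T ≤ (S : Subgroup G) ⊔ L := by
    rw [hT, Subgroup.map_le_iff_le_comap]
    refine sup_le ?_ ?_
    · intro p hp
      show g * p * g⁻¹ ∈ (S : Subgroup G) ⊔ L
      rw [← hg ⟨p, hp⟩]
      exact (le_sup_left : (S : Subgroup G) ≤ (S : Subgroup G) ⊔ L) (hφS _)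
    · intro x hx
      show g * x * g⁻¹ ∈ (S : Subgroup G) ⊔ L
      have h1 := hcentral x hx g
      have h2 : g * x * g⁻¹ = ((g * x * g⁻¹) * x⁻¹) * x := by group
      rw [h2]
      rw [sup_comm]
      exact Subgroup.mul_mem _ ((le_sup_left : L ≤ L ⊔ (S : Subgroup G)) h1)
        ((le_sup_right : (S : Subgroup G) ≤ L ⊔ (S : Subgroup G)) (hPQS ((le_sup_right : Q₀ ≤ P ⊔ Q₀) hx)))
  obtain ⟨l, hl, hlT⟩ := exists_conj_mem_sylow S hT2 hTL
  have himg : ∀ y ∈ P ⊔ Q₀, l * (g * y * g⁻¹) * l⁻¹ ∈ (S : Subgroup G) := by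
    intro y hy
    exact hlT _ ⟨y, hy, rfl⟩
  refine ⟨conjHom (P ⊔ Q₀) (l * g), ⟨hPQS, ?_, l * g, fun x => rfl⟩, ?_, ?_⟩
  · rintro ⟨y, hy⟩
    show (l * g) * y * (l * g)⁻¹ ∈ _
    have : (l * g) * y * (l * g)⁻¹ = l * (g * y * g⁻¹) * l⁻¹ := by group
    rw [this]
    exact himg y hy
  · rintro ⟨p, hp⟩
    show (l * g) * p * (l * g)⁻¹ = φ ⟨p, hp⟩
    rw [hg ⟨p, hp⟩]
    show (l * g) * p * (l * g)⁻¹ = g * p * g⁻¹
    set y := g * p * g⁻¹ with hy
    have hyS : y ∈ (S : Subgroup G) := by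
      rw [hy, ← show φ ⟨p, hp⟩ = g * p * g⁻¹ from hg ⟨p, hp⟩]
      exact hφS _
    have h1 : (l * g) * p * (l * g)⁻¹ = l * y * l⁻¹ := by rw [hy]; group
    rw [h1]
    have h2 : l * y * l⁻¹ ∈ (S : Subgroup G) := himg p ((le_sup_left : P ≤ P ⊔ Q₀) hp)
    have h3 : (l * y * l⁻¹) * y⁻¹ ∈ (S : Subgroup G) := Subgroup.mul_mem _ h2 (Subgroup.inv_mem _ hyS)
    have h4 : (l * y * l⁻¹) * y⁻¹ ∈ L := by
      have h5 : y * l⁻¹ * y⁻¹ ∈ L := hLn.conj_mem _ (Subgroup.inv_mem _ hl) y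
      have h6 : (l * y * l⁻¹) * y⁻¹ = l * (y * l⁻¹ * y⁻¹) := by group
      rw [h6]
      exact Subgroup.mul_mem _ hl h5
    have h7 := eq_one_of_mem_sylow_of_mem_odd S hLodd h3 h4
    exact mul_inv_eq_one.1 h7
  · rintro ⟨x, hx⟩
    show (l * g) * x * (l * g)⁻¹ = x
    have h2 := himg x ((le_sup_right : Q₀ ≤ P ⊔ Q₀) hx)
    have h1 : (l * g) * x * (l * g)⁻¹ = l * (g * x * g⁻¹) * l⁻¹ := by group
    rw [h1]
    have hxS : x ∈ (S : Subgroup G) := hx.1
    have h3 : (l * (g * x * g⁻¹) * l⁻¹) * x⁻¹ ∈ (S : Subgroup G) := Subgroup.mul_mem _ h2 (Subgroup.inv_mem _ hxS)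
    have h4 : (l * (g * x * g⁻¹) * l⁻¹) * x⁻¹ ∈ L := by
      have h5 := hcentral x hx (l * g)
      have h6 : ((l * g) * x * (l * g)⁻¹) * x⁻¹ = (l * (g * x * g⁻¹) * l⁻¹) * x⁻¹ := by group
      rwa [h6] at h5
    have h7 := eq_one_of_mem_sylow_of_mem_odd S hLodd h3 h4
    exact mul_inv_eq_one.1 h7

/-- Central subgroups of the fusion system consist of elements weakly closed in `S`. -/
lemma conj_eq_of_isCentral {S : Subgroup G} {Q : Subgroup G} (hQ : (groupFusionSystem S).IsCentral Q) {x g : G}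
    (hx : x ∈ Q) (h : g * x * g⁻¹ ∈ S) : g * x * g⁻¹ = x := by
  obtain ⟨hQS, hext⟩ := hQ
  have hP : Subgroup.zpowers x ≤ S := by
    rw [Subgroup.zpowers_le]; exact hQS hx
  have hφ : conjHom (Subgroup.zpowers x) g ∈ (groupFusionSystem S).Hom (Subgroup.zpowers x) := by
    refine ⟨hP, ?_, g, fun _ => rfl⟩
    rintro ⟨y, hy⟩
    obtain ⟨k, rfl⟩ := Subgroup.mem_zpowers_iff.1 hy
    show g * x ^ k * g⁻¹ ∈ S
    rw [← conj_zpow]
    exact Subgroup.zpow_mem _ h _
  obtain ⟨ψ, -, h1, h2⟩ := hext _ _ hφ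
  have h3 := h1 ⟨x, Subgroup.mem_zpowers x⟩
  have h4 := h2 ⟨x, hx⟩
  have h5 : Subgroup.inclusion (le_sup_left : Subgroup.zpowers x ≤ Subgroup.zpowers x ⊔ Q) ⟨x, Subgroup.mem_zpowers x⟩ =
      Subgroup.inclusion (le_sup_right : Q ≤ Subgroup.zpowers x ⊔ Q) ⟨x, hx⟩ := rfl
  rw [h5, h4] at h3
  exact h3.symm

/-- The elementwise weak closure hypothesis. -/
def PW (S : Subgroup G) (x : G) : Prop := ∀ (m : ℕ) (g : G), g * x ^ m * g⁻¹ ∈ S → g * x ^ m * g⁻¹ = x ^ m

lemma comap_le_of_central [Finite G] {w : G}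
    (hO : ∀ N : Subgroup G, N.Normal → Odd (Nat.card N) → N = ⊥)
    [hKn : (Subgroup.zpowers w).Normal]
    {Nb : Subgroup (G ⧸ Subgroup.zpowers w)} (hNb : Nb.Normal) (hNbodd : Odd (Nat.card Nb)) :
    Nb.comap (QuotientGroup.mk' (Subgroup.zpowers w)) ≤ Subgroup.zpowers w := by
  classical
  haveI hp2 : Fact (Nat.Prime 2) := ⟨Nat.prime_two⟩
  set K := Subgroup.zpowers w with hK
  set N := Nb.comap (QuotientGroup.mk' K) with hNdef
  haveI hNn : N.Normal := inferInstance
  -- `2`-elements of `N` lie in `K`.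
  have h2el : ∀ x ∈ N, ∀ e : ℕ, x ^ 2 ^ e = 1 → x ∈ K := by
    intro x hx e hxe
    have h1 : (⟨QuotientGroup.mk' K x, hx⟩ : Nb) ^ 2 ^ e = 1 := by
      apply Subtype.ext
      simp only [Subgroup.coe_pow, Subgroup.coe_one]
      rw [← map_pow, hxe, map_one]
    have h2 := eq_one_of_odd hNbodd _ h1
    have h3 : QuotientGroup.mk' K x = 1 := congrArg Subtype.val h2
    exact (QuotientGroup.eq_one_iff x).1 h3
  -- a Sylow `2`-subgroup of `N` is cyclic
  have hcyc : ∀ S : Sylow 2 N, IsCyclic (S : Subgroup N) := by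
    intro S
    haveI : IsCyclic K := by rw [hK]; infer_instance
    have hmem : ∀ x : (S : Subgroup N), ((x : N) : G) ∈ K := by
      intro x
      obtain ⟨e, he⟩ := S.isPGroup' x
      apply h2el _ (x : N).2 e
      have := congrArg (fun y : (S : Subgroup N) => ((y : N) : G)) he
      simpa using this
    let f : (S : Subgroup N) →* K :=
      { toFun := fun x => ⟨((x : N) : G), hmem x⟩
        map_one' := rfl
        map_mul' := fun _ _ => rfl }
    refine isCyclic_of_injective f ?_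
    intro a b hab
    have := congrArg Subtype.val hab
    exact Subtype.ext (Subtype.ext this)
  have hS : Nonempty (Sylow 2 N) := inferInstance
  obtain ⟨S₀⟩ := hS
  obtain ⟨P', L, hL, hLc⟩ := Cfsg.Agent.Lib.PGroup.QDSylow6.hasNormalPComplement_of_isCyclic S₀ (hcyc S₀)
  have hLodd : Odd (Nat.card L) := odd_card_of_complement P' hLc
  have hLbot := bot_of_normal_of_hO hO hL hLodd
  have hPtop : (P' : Subgroup N) = ⊤ := by
    rw [hLbot] at hLc
    exact (Subgroup.isComplement'_bot_left.1 hLc)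
  intro x hx
  have h1 : (⟨x, hx⟩ : N) ∈ (P' : Subgroup N) := by rw [hPtop]; trivial
  obtain ⟨e, he⟩ := P'.isPGroup' ⟨_, h1⟩
  refine h2el x hx e ?_
  have := congrArg (fun y : (P' : Subgroup N) => ((y : N) : G)) he
  simpa using this

/-- Generalized `Z*`-theorem for elements all of whose powers are weakly closed in `S`. -/
theorem pw_goal (hBS : BrauerSuzuki.{u}) : ∀ (n : ℕ) (G : Type u) [Group G] [Finite G], Nat.card G = n →
    ∀ (S : Sylow 2 G) (x : G), x ∈ (S : Subgroup G) → PW (S : Subgroup G) x → ZGoal x := by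
  intro n
  induction n using Nat.strong_induction_on with
  | _ n IH =>
  intro G _ _ hn S x hxS hPW
  haveI hp2 : Fact (Nat.Prime 2) := ⟨Nat.prime_two⟩
  by_cases hx1 : x = 1
  · subst hx1
    exact ⟨⊥, inferInstance, by simp, fun g => by simp⟩
  -- Step 1
  by_cases hodd : ∃ K : Subgroup G, K.Normal ∧ Odd (Nat.card K) ∧ K ≠ ⊥
  · obtain ⟨K, hKn, hKodd, hKne⟩ := hodd
    haveI := hKn
    have hcard : Nat.card (G ⧸ K) < n := by
      have h1 := K.card_eq_card_quotient_mul_card_subgroup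
      have h2 : 1 < Nat.card K := by
        rw [Nat.one_lt_iff_ne_zero_and_ne_one]
        exact ⟨Nat.card_pos.ne', fun h => hKne ((Subgroup.card_eq_one).1 h)⟩
      have h3 : 0 < Nat.card (G ⧸ K) := Nat.card_pos
      rw [← hn, h1]
      nlinarith
    have hsurj := QuotientGroup.mk'_surjective K
    have hPW' : PW ((S.mapSurjective hsurj : Sylow 2 (G ⧸ K)) : Subgroup (G ⧸ K)) (QuotientGroup.mk' K x) := by
      intro m g hg
      obtain ⟨g, rfl⟩ := hsurj g
      rw [Sylow.coe_mapSurjective] at hg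
      obtain ⟨s, hs, hsg⟩ := hg
      rw [← map_pow, ← map_inv, ← map_mul, ← map_mul] at hsg ⊢
      set y := g * x ^ m * g⁻¹ with hy
      have hyL : y * s⁻¹ ∈ K := by
        have h1 : QuotientGroup.mk' K (y * s⁻¹) = 1 := by
          rw [map_mul, map_inv, hsg, mul_inv_cancel]
        exact (QuotientGroup.eq_one_iff _).1 h1
      have hyS : y ∈ (S : Subgroup G) ⊔ K := by
        have h2 : y = (y * s⁻¹) * s := by group
        rw [h2, sup_comm]
        exact Subgroup.mul_mem _ ((le_sup_left : K ≤ K ⊔ (S : Subgroup G)) hyL)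
          ((le_sup_right : (S : Subgroup G) ≤ K ⊔ (S : Subgroup G)) hs)
      have hT : IsPGroup 2 (Subgroup.zpowers y) := by
        obtain ⟨e, he⟩ := S.isPGroup' ⟨x, hxS⟩
        have he' : x ^ 2 ^ e = 1 := by
          have := congrArg (fun y : (S : Subgroup G) => (y : G)) he
          simpa using this
        have h3 : y ^ 2 ^ e = 1 := by
          rw [hy, conj_pow, ← pow_mul, mul_comm, pow_mul, he', one_pow]
          group
        rintro ⟨t, ht⟩
        obtain ⟨k, rfl⟩ := Subgroup.mem_zpowers_iff.1 ht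
        refine ⟨e, ?_⟩
        apply Subtype.ext
        simp only [Subgroup.coe_pow, Subgroup.coe_one]
        rw [← zpow_natCast, zpow_comm, zpow_natCast, h3, one_zpow]
      obtain ⟨l, hl, hlT⟩ := exists_conj_mem_sylow S hT (by
        rw [Subgroup.zpowers_le]; exact hyS)
      have h4 := hlT y (Subgroup.mem_zpowers y)
      have h5 : l * y * l⁻¹ = (l * g) * x ^ m * (l * g)⁻¹ := by rw [hy]; group
      rw [h5] at h4
      have h6 := hPW m _ h4
      rw [← h5] at h6
      have hl1 : QuotientGroup.mk' K l = 1 := (QuotientGroup.eq_one_iff _).2 hl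
      have := congrArg (QuotientGroup.mk' K) h6
      rw [map_mul, map_mul, map_inv, hl1, one_mul, inv_one, mul_one] at this
      exact this
    have hxS' : QuotientGroup.mk' K x ∈ ((S.mapSurjective hsurj : Sylow 2 (G ⧸ K)) : Subgroup (G ⧸ K)) := by
      rw [Sylow.coe_mapSurjective]
      exact ⟨x, hxS, rfl⟩
    obtain ⟨Nb, hNb, hNbodd, hcomm⟩ := IH _ hcard (G ⧸ K) rfl _ _ hxS' hPW'
    refine ⟨Nb.comap (QuotientGroup.mk' K), inferInstance, odd_card_comap hKodd hNbodd, fun g => ?_⟩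
    have := hcomm (QuotientGroup.mk' K g)
    rw [Subgroup.mem_comap]
    simpa using this
  have hO : ∀ N : Subgroup G, N.Normal → Odd (Nat.card N) → N = ⊥ := by
    intro N h1 h2
    by_contra h3
    exact hodd ⟨N, h1, h2, h3⟩
  -- the involution in `⟨x⟩`
  obtain ⟨e, he⟩ := S.isPGroup' ⟨x, hxS⟩
  have he' : x ^ 2 ^ e = 1 := by
    have := congrArg (fun y : (S : Subgroup G) => (y : G)) he
    simpa using this
  obtain ⟨k, hk⟩ : ∃ k, orderOf x = 2 ^ k :=
    (Nat.dvd_prime_pow Nat.prime_two).1 (orderOf_dvd_of_pow_eq_one he') |>.imp fun _ h => h.2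
  have hk0 : k ≠ 0 := by
    rintro rfl
    rw [pow_zero, orderOf_eq_one_iff] at hk
    exact hx1 hk
  obtain ⟨j, rfl⟩ := Nat.exists_eq_succ_of_ne_zero hk0
  set z := x ^ 2 ^ j with hz
  have hzord : orderOf z = 2 := by
    rw [hz, orderOf_pow, hk, Nat.gcd_eq_right (pow_dvd_pow 2 (Nat.le_succ j))]
    rw [Nat.succ_eq_add_one, pow_succ]
    exact Nat.mul_div_cancel_left _ (by positivity)
  have hzS : z ∈ (S : Subgroup G) := Subgroup.pow_mem _ hxS _
  have hIz : IsIso z := isIso_of_sylow S hzord hzS (fun g hg => hPW _ g hg)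
  -- `z` is central
  obtain ⟨N, hN, hNodd, hcomm⟩ := zstar hBS _ G rfl z hIz
  have hNbot := hO N hN hNodd
  have hzc : ∀ g : G, g * z = z * g := by
    intro g
    have h1 := hcomm g
    rw [hNbot, Subgroup.mem_bot] at h1
    have h2 : z * g * z⁻¹ = g := mul_inv_eq_one.1 h1
    exact (mul_inv_eq_iff_eq_mul.1 h2).symm
  -- the quotient by `z`
  have hKc : Subgroup.zpowers z ≤ Subgroup.center G := by
    rw [Subgroup.zpowers_le, Subgroup.mem_center_iff]
    exact hzc
  haveI hKn : (Subgroup.zpowers z).Normal := by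
    constructor
    intro n hn g
    have h1 := hKc hn
    have h2 : g * n * g⁻¹ = n := by
      rw [Subgroup.mem_center_iff] at h1
      rw [h1 g]; group
    rwa [h2]
  have hcard : Nat.card (G ⧸ Subgroup.zpowers z) < n := by
    have h1 := (Subgroup.zpowers z).card_eq_card_quotient_mul_card_subgroup
    have h2 : Nat.card (Subgroup.zpowers z) = 2 := by rw [Nat.card_zpowers, hzord]
    have h3 : 0 < Nat.card (G ⧸ Subgroup.zpowers z) := Nat.card_pos
    rw [← hn, h1, h2]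
    omega
  have hKS : Subgroup.zpowers z ≤ (S : Subgroup G) := by
    rw [Subgroup.zpowers_le]; exact hzS
  have hsurj := QuotientGroup.mk'_surjective (Subgroup.zpowers z)
  have hPW' : PW ((S.mapSurjective hsurj : Sylow 2 (G ⧸ Subgroup.zpowers z)) : Subgroup (G ⧸ Subgroup.zpowers z))
      (QuotientGroup.mk' (Subgroup.zpowers z) x) := by
    intro m g hg
    obtain ⟨g, rfl⟩ := hsurj g
    rw [Sylow.coe_mapSurjective] at hg
    obtain ⟨s, hs, hsg⟩ := hg
    rw [← map_pow, ← map_inv, ← map_mul, ← map_mul] at hsg ⊢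
    have hyL : (g * x ^ m * g⁻¹) * s⁻¹ ∈ Subgroup.zpowers z := by
      have h1 : QuotientGroup.mk' (Subgroup.zpowers z) ((g * x ^ m * g⁻¹) * s⁻¹) = 1 := by
        rw [map_mul, map_inv, hsg, mul_inv_cancel]
      exact (QuotientGroup.eq_one_iff _).1 h1
    have hyS : g * x ^ m * g⁻¹ ∈ (S : Subgroup G) := by
      have h2 : g * x ^ m * g⁻¹ = ((g * x ^ m * g⁻¹) * s⁻¹) * s := by group
      rw [h2]
      exact Subgroup.mul_mem _ (hKS hyL) hs
    rw [hPW m g hyS]
  have hxS' : QuotientGroup.mk' (Subgroup.zpowers z) x ∈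
      ((S.mapSurjective hsurj : Sylow 2 (G ⧸ Subgroup.zpowers z)) : Subgroup (G ⧸ Subgroup.zpowers z)) := by
    rw [Sylow.coe_mapSurjective]
    exact ⟨x, hxS, rfl⟩
  obtain ⟨Nb, hNb, hNbodd, hcommb⟩ := IH _ hcard _ rfl _ _ hxS' hPW'
  have hle := comap_le_of_central hO hNb hNbodd
  -- `x` is central
  have hxc : ∀ g : G, g * x * g⁻¹ = x := by
    intro g
    have h1 : x * g * x⁻¹ * g⁻¹ ∈ Subgroup.zpowers z := hle (by
      rw [Subgroup.mem_comap]
      simpa using hcommb (QuotientGroup.mk' _ g))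
    have h2 : g * x⁻¹ * g⁻¹ ∈ (S : Subgroup G) := by
      have h3 : g * x⁻¹ * g⁻¹ = x⁻¹ * (x * g * x⁻¹ * g⁻¹) := by group
      rw [h3]
      exact Subgroup.mul_mem _ (Subgroup.inv_mem _ hxS) (hKS h1)
    have h4 : g * x * g⁻¹ ∈ (S : Subgroup G) := by
      have h5 := Subgroup.inv_mem _ h2
      have h6 : (g * x⁻¹ * g⁻¹)⁻¹ = g * x * g⁻¹ := by group
      rwa [h6] at h5
    have h7 := hPW 1 g (by rwa [pow_one])
    rwa [pow_one] at h7
  refine ⟨⊥, inferInstance, by simp, fun g => ?_⟩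
  rw [Subgroup.mem_bot]
  have h1 := hxc g⁻¹
  have h2 : g⁻¹ * x * g = x := by simpa using h1
  have h3 : x * g = g * x := by
    calc x * g = g * (g⁻¹ * x * g) := by group
      _ = g * x := by rw [h2]
  rw [h3]; group

/-- **S5094**, given the Brauer–Suzuki theorem. -/
theorem center_eq (hBS : BrauerSuzuki.{u}) [Finite G] (S : Sylow 2 G) :
    (groupFusionSystem (S : Subgroup G)).center =
      (S : Subgroup G) ⊓ (Subgroup.center (G ⧸ oddCore G)).comap (QuotientGroup.mk' (oddCore G)) := by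
  classical
  haveI hp2 : Fact (Nat.Prime 2) := ⟨Nat.prime_two⟩
  haveI hLn : (oddCore G).Normal := Cfsg.pPrimeCore_normal 2 G
  apply le_antisymm
  · refine sSup_le fun Q hQ => ?_
    intro x hx
    refine ⟨hQ.1 hx, ?_⟩
    have hPW : PW (S : Subgroup G) x := fun m g hg =>
      conj_eq_of_isCentral hQ (Subgroup.pow_mem _ hx m) hg
    obtain ⟨N, hN, hNodd, hcomm⟩ := pw_goal hBS _ G rfl S x (hQ.1 hx) hPW
    have hNle : N ≤ oddCore G := Cfsg.Agent.Lib.Basic.PCore.le_pPrimeCore hN (Nat.coprime_two_right.2 hNodd)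
    show QuotientGroup.mk' (oddCore G) x ∈ Subgroup.center (G ⧸ oddCore G)
    rw [Subgroup.mem_center_iff]
    intro gb
    obtain ⟨g, rfl⟩ := QuotientGroup.mk'_surjective (oddCore G) gb
    have h1 := hNle (hcomm g)
    have h2 : QuotientGroup.mk' (oddCore G) (x * g * x⁻¹ * g⁻¹) = 1 := (QuotientGroup.eq_one_iff _).2 h1
    simp only [map_mul, map_inv] at h2
    have h3 : QuotientGroup.mk' (oddCore G) x * QuotientGroup.mk' (oddCore G) g *
        (QuotientGroup.mk' (oddCore G) x)⁻¹ = QuotientGroup.mk' (oddCore G) g := mul_inv_eq_one.1 h2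
    exact (mul_inv_eq_iff_eq_mul.1 h3).symm
  · exact le_sSup (isCentral_inf S)

end Cfsg.Agent.Lib.Components.ZStarFus
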