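import Mathlib
import Cfsg.Agent.S0201
import Cfsg.Agent.Lib.Components.ZStarFus

/-!
# The `Z*`-theorem for a `2`-element isolated in a Sylow `2`-subgroup

If a `2`-element `x` of a Sylow `2`-subgroup `S` has no other `G`-conjugate in `S`, then `x` is
central modulo `O(G)`.
-/

set_option autoImplicit false
set_option linter.style.haveILetI false
set_option linter.unusedSectionVars false
set_option linter.unusedVariables false

namespace Cfsg.Agent.Lib.Components.ZStarElt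

open Cfsg Cfsg.Agent.Lib.Components.ZStarFus

universe u

variable {G : Type u} [Group G] [Finite G]

/-- An element isolated in a Sylow `2`-subgroup has all its powers isolated. -/
theorem pw_of_isolated (S : Sylow 2 G) {x : G} (hxS : x ∈ (S : Subgroup G))
    (hiso : ∀ g : G, g * x * g⁻¹ ∈ (S : Subgroup G) → g * x * g⁻¹ = x) :
    PW (S : Subgroup G) x := by
  classical
  haveI hp2 : Fact (Nat.Prime 2) := ⟨Nat.prime_two⟩
  intro m g hw
  set w : G := g * x ^ m * g⁻¹ with hwdef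
  -- `x` is central in `S`
  have hxcent : ∀ s ∈ (S : Subgroup G), s * x = x * s := by
    intro s hs
    have h1 := hiso s (Subgroup.mul_mem _ (Subgroup.mul_mem _ hs hxS) (Subgroup.inv_mem _ hs))
    have h2 : s * x * s⁻¹ * s = x * s := by rw [h1]
    simpa using h2
  set C : Subgroup G := Subgroup.centralizer ({w} : Set G) with hC
  have hxC : x ∈ C := by
    rw [hC, Subgroup.mem_centralizer_singleton_iff]
    exact (hxcent w hw).symm
  set x' : G := g * x * g⁻¹ with hx'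
  have hx'C : x' ∈ C := by
    rw [hC, Subgroup.mem_centralizer_singleton_iff, hwdef, hx']
    have : x * x ^ m = x ^ m * x := (Commute.self_pow x m).eq
    calc g * x * g⁻¹ * (g * x ^ m * g⁻¹) = g * (x * x ^ m) * g⁻¹ := by group
      _ = g * (x ^ m * x) * g⁻¹ := by rw [this]
      _ = g * x ^ m * g⁻¹ * (g * x * g⁻¹) := by group
  -- `x` is a 2-element
  have hxp : ∀ y : G, y ∈ Subgroup.zpowers x → ∃ k : ℕ, y ^ 2 ^ k = 1 := by
    intro y hy
    have hyS : y ∈ (S : Subgroup G) := (Subgroup.zpowers_le.mpr hxS) hy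
    obtain ⟨k, hk⟩ := S.isPGroup' ⟨y, hyS⟩
    exact ⟨k, congrArg Subtype.val hk⟩
  obtain ⟨e, he⟩ := hxp x (Subgroup.mem_zpowers x)
  have hx0p : IsPGroup 2 (Subgroup.zpowers (⟨x, hxC⟩ : C)) := by
    intro y
    obtain ⟨i, hi⟩ := Subgroup.mem_zpowers_iff.mp y.2
    refine ⟨e, ?_⟩
    apply Subtype.ext
    show y.1 ^ 2 ^ e = 1
    rw [← hi, ← zpow_natCast, zpow_comm, zpow_natCast]
    have : (⟨x, hxC⟩ : C) ^ 2 ^ e = 1 := Subtype.ext he
    rw [this, one_zpow]
  have hx'p : (x') ^ 2 ^ e = 1 := by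
    rw [hx', conj_pow, he]; simp
  have hx1p : IsPGroup 2 (Subgroup.zpowers (⟨x', hx'C⟩ : C)) := by
    intro y
    obtain ⟨i, hi⟩ := Subgroup.mem_zpowers_iff.mp y.2
    refine ⟨e, ?_⟩
    apply Subtype.ext
    show y.1 ^ 2 ^ e = 1
    rw [← hi, ← zpow_natCast, zpow_comm, zpow_natCast]
    have : (⟨x', hx'C⟩ : C) ^ 2 ^ e = 1 := Subtype.ext hx'p
    rw [this, one_zpow]
  obtain ⟨A, hA⟩ := hx0p.exists_le_sylow
  obtain ⟨B, hB⟩ := hx1p.exists_le_sylow
  obtain ⟨h, hh⟩ := MulAction.exists_smul_eq C B A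
  have hx'A : (h : C) * ⟨x', hx'C⟩ * h⁻¹ ∈ (A : Subgroup C) := by
    rw [← hh, Sylow.coe_subgroup_smul]
    refine Subgroup.mem_pointwise_smul_iff_inv_smul_mem.mpr ?_
    have : (⟨x', hx'C⟩ : C) ∈ (B : Subgroup C) := hB (Subgroup.mem_zpowers _)
    simpa [MulAut.smul_def, MulAut.conj_inv_apply, mul_assoc] using this
  have hxA : (⟨x, hxC⟩ : C) ∈ (A : Subgroup C) := hA (Subgroup.mem_zpowers _)
  have hAp : IsPGroup 2 ((A : Subgroup C).map C.subtype) := A.isPGroup'.map _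
  obtain ⟨S', hS'⟩ := hAp.exists_le_sylow
  obtain ⟨k, hk⟩ := MulAction.exists_smul_eq G S S'
  have hmem : ∀ z : G, z ∈ (S' : Subgroup G) → k⁻¹ * z * k ∈ (S : Subgroup G) := by
    intro z hz
    rw [← hk, Sylow.coe_subgroup_smul] at hz
    have := Subgroup.mem_pointwise_smul_iff_inv_smul_mem.mp hz
    simpa [MulAut.smul_def, MulAut.conj_inv_apply] using this
  have h1 : k⁻¹ * x * k = x := by
    have h2 := hmem x (hS' ⟨_, hxA, rfl⟩)
    have h3 := hiso k⁻¹ (by simpa using h2)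
    simpa using h3
  have hhw : (h : G) * w * (h : G)⁻¹ = w := by
    have h0 : (h : G) * w = w * (h : G) := Subgroup.mem_centralizer_singleton_iff.mp h.2
    rw [h0, mul_inv_cancel_right]
  have h2 : (h : G) * g * x * (g⁻¹ * (h : G)⁻¹) = x := by
    have h3 := hmem _ (hS' ⟨_, hx'A, rfl⟩)
    have h4 := hiso (k⁻¹ * ((h : G) * g)) (by
      have h5 : k⁻¹ * ((h : G) * g) * x * (k⁻¹ * ((h : G) * g))⁻¹ =
          k⁻¹ * ((h : G) * (g * x * g⁻¹) * (h : G)⁻¹) * k := by group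
      rw [h5]
      exact h3)
    have h6 : (h : G) * g * x * (g⁻¹ * (h : G)⁻¹) = k * (k⁻¹ * ((h : G) * g) * x * (k⁻¹ * ((h : G) * g))⁻¹) * k⁻¹ := by
      group
    rw [h6, h4]
    calc k * x * k⁻¹ = k * (k⁻¹ * x * k) * k⁻¹ := by rw [h1]
      _ = x := by group
  have h3 : (h : G) * w * (h : G)⁻¹ = x ^ m := by
    have h4 : ((h : G) * g) * x ^ m * ((h : G) * g)⁻¹ = (((h : G) * g) * x * ((h : G) * g)⁻¹) ^ m := by
      rw [conj_pow]
    have h5 : ((h : G) * g) * x * ((h : G) * g)⁻¹ = x := by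
      rw [mul_inv_rev]; exact h2
    rw [h5] at h4
    rw [← h4, hwdef]
    group
  rw [← h3, hhw]

/-- **The `Z*`-theorem for an isolated `2`-element.** -/
theorem zstar_element (S : Sylow 2 G) {x : G} (hxS : x ∈ (S : Subgroup G))
    (hiso : ∀ g : G, g * x * g⁻¹ ∈ (S : Subgroup G) → g * x * g⁻¹ = x) :
    ∃ N : Subgroup G, N.Normal ∧ Odd (Nat.card N) ∧ ∀ g : G, x * g * x⁻¹ * g⁻¹ ∈ N :=
  pw_goal (fun X _ _ S n e hO => Cfsg.Agent.S0201.result S n e hO) _ G rfl S x hxS (pw_of_isolated S hxS hiso)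

end Cfsg.Agent.Lib.Components.ZStarElt
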