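import Mathlib
import Cfsg.Agent.Lib.Components.ZStarElt
import Cfsg.Agent.Lib.Coprime.Coset

/-!
# `[N, Q]` has odd order when `C_N(Q) = C_N(t)` for `t ∈ Z(Q) ∩ Q'`

Elementary lemma on nilpotent actions, then isolation of `t` in a Sylow `2`-subgroup and the
`Z*`-theorem for `2`-elements.
-/

set_option autoImplicit false
set_option linter.style.haveILetI false
set_option linter.unusedSectionVars false
set_option linter.unusedVariables false

namespace Cfsg.Agent.Lib.Components.TwoCommutator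

open Cfsg Cfsg.Agent.Lib.Components.ZStarElt
open scoped commutatorElement

universe u

/-- A nilpotent group `R`, a normal subgroup `T` and a subgroup `Q`: if `t ∈ Q'` and `C_T(t) ≤ C_T(Q)`
then `Q` centralizes `T`. -/
theorem centralizes_of_commutator_fix {R : Type u} [Group R] [hR : Group.IsNilpotent R]
    (T Q : Subgroup R) [hT : T.Normal] {t : R} (ht : t ∈ ⁅Q, Q⁆)
    (h : ∀ y ∈ T, t * y = y * t → ∀ q ∈ Q, q * y = y * q) :
    ∀ y ∈ T, ∀ q ∈ Q, q * y = y * q := by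
  classical
  have key : ∀ n : ℕ, ∀ y ∈ T, y ∈ Subgroup.upperCentralSeries R n → ∀ q ∈ Q, q * y = y * q := by
    intro n
    induction n with
    | zero =>
      intro y _ hy q _
      have : y = 1 := by
        rw [Subgroup.upperCentralSeries_zero, Subgroup.mem_bot] at hy
        exact hy
      rw [this]; simp
    | succ n ih =>
      intro y hyT hyZ
      apply h y hyT
      -- the cocycle
      have hZn : (Subgroup.upperCentralSeries R n).Normal := inferInstance
      let d : R → R := fun q => y⁻¹ * q * y * q⁻¹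
      have hdZ : ∀ q, d q ∈ Subgroup.upperCentralSeries R n := by
        intro q
        have hinv : y⁻¹ ∈ Subgroup.upperCentralSeries R (n + 1) := Subgroup.inv_mem _ hyZ
        have := Subgroup.mem_upperCentralSeries_succ_iff.mp hinv q
        simpa [d, commutatorElement_def] using this
      have hdT : ∀ q, d q ∈ T := by
        intro q
        have h1 : q * y * q⁻¹ ∈ T := hT.conj_mem y hyT q
        have h2 := T.mul_mem (T.inv_mem hyT) h1
        simpa [d, mul_assoc] using h2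
      have hcomm_Q : ∀ x ∈ T, x ∈ Subgroup.upperCentralSeries R n → ∀ q ∈ Q, q * x = x * q := ih
      have hq_y : ∀ q, q * y * q⁻¹ = y * d q := by
        intro q
        simp [d, mul_assoc]
      have hdmul : ∀ q₁ ∈ Q, ∀ q₂, d (q₁ * q₂) = d q₁ * d q₂ := by
        intro q₁ hq₁ q₂
        have h1 := hcomm_Q _ (hdT q₂) (hdZ q₂) q₁ hq₁
        have h2 : d (q₁ * q₂) = y⁻¹ * q₁ * (q₂ * y * q₂⁻¹) * q₁⁻¹ := by
          simp [d, mul_assoc]
        rw [h2, hq_y q₂]
        calc y⁻¹ * q₁ * (y * d q₂) * q₁⁻¹ = y⁻¹ * q₁ * y * (d q₂ * q₁⁻¹) := by group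
          _ = y⁻¹ * q₁ * y * (q₁⁻¹ * (q₁ * d q₂) * q₁⁻¹) := by group
          _ = y⁻¹ * q₁ * y * (q₁⁻¹ * (d q₂ * q₁) * q₁⁻¹) := by rw [h1]
          _ = d q₁ * d q₂ := by simp only [d]; group
      -- values of `d` are central in `T ⊓ Z_n`
      have hdcent : ∀ q ∈ Q, ∀ x' ∈ T, x' ∈ Subgroup.upperCentralSeries R n → d q * x' = x' * d q := by
        intro q hq x' hx'T hx'Z
        set x : R := y * x' * y⁻¹ with hx
        have hxT : x ∈ T := hT.conj_mem x' hx'T y
        have hxZ : x ∈ Subgroup.upperCentralSeries R n := hZn.conj_mem x' hx'Z y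
        have h1 : q * x' * q⁻¹ = x' := by
          rw [hcomm_Q x' hx'T hx'Z q hq]; group
        have h2 : q * x * q⁻¹ = x := by
          rw [hcomm_Q x hxT hxZ q hq]; group
        have h3 : x' = y⁻¹ * x * y := by rw [hx]; group
        have h4 : q * x' * q⁻¹ = (q * y⁻¹ * q⁻¹) * (q * x * q⁻¹) * (q * y * q⁻¹) := by
          rw [h3]; group
        rw [h2, hq_y q] at h4
        have h5 : q * y⁻¹ * q⁻¹ = (y * d q)⁻¹ := by
          rw [← hq_y q]; group
        rw [h5, h1] at h4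
        have h6 : x' = (d q)⁻¹ * x' * d q := by
          calc x' = (y * d q)⁻¹ * x * (y * d q) := h4
            _ = (d q)⁻¹ * (y⁻¹ * x * y) * d q := by group
            _ = (d q)⁻¹ * x' * d q := by rw [← h3]
        calc d q * x' = d q * ((d q)⁻¹ * x' * d q) := by rw [← h6]
          _ = x' * d q := by group
      -- `d` is trivial on `Q'`
      have hd1 : d 1 = 1 := by simp [d]
      have hdinv : ∀ q ∈ Q, d q⁻¹ = (d q)⁻¹ := by
        intro q hq
        have h1 := hdmul q hq q⁻¹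
        rw [mul_inv_cancel, hd1] at h1
        exact eq_inv_of_mul_eq_one_right h1.symm
      let K : Subgroup R :=
        { carrier := {q | q ∈ Q ∧ d q = 1}
          mul_mem' := by
            rintro a b ⟨ha, hda⟩ ⟨hb, hdb⟩
            refine ⟨Q.mul_mem ha hb, ?_⟩
            rw [hdmul a ha b, hda, hdb, one_mul]
          one_mem' := ⟨Q.one_mem, hd1⟩
          inv_mem' := by
            rintro a ⟨ha, hda⟩
            refine ⟨Q.inv_mem ha, ?_⟩
            rw [hdinv a ha, hda, inv_one] }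
      have hQ'K : ⁅Q, Q⁆ ≤ K := by
        rw [Subgroup.commutator_le]
        intro a ha b hb
        refine ⟨Q.mul_mem (Q.mul_mem (Q.mul_mem ha hb) (Q.inv_mem ha)) (Q.inv_mem hb), ?_⟩
        rw [commutatorElement_def]
        rw [hdmul _ (Q.mul_mem (Q.mul_mem ha hb) (Q.inv_mem ha)), hdmul _ (Q.mul_mem ha hb), hdmul a ha,
          hdinv a ha, hdinv b hb]
        have hc := hdcent a ha (d b) (hdT b) (hdZ b)
        calc d a * d b * (d a)⁻¹ * (d b)⁻¹ = d b * d a * (d a)⁻¹ * (d b)⁻¹ := by rw [hc]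
          _ = 1 := by group
      have hdt : d t = 1 := (hQ'K ht).2
      have h2 : y⁻¹ * t * y * t⁻¹ = 1 := hdt
      have h3 : y⁻¹ * t * y = t := mul_inv_eq_one.mp h2
      calc t * y = y * (y⁻¹ * t * y) := by group
        _ = y * t := by rw [h3]
  intro y hy q hq
  have hn : Subgroup.upperCentralSeries R (Group.nilpotencyClass R) = ⊤ := Subgroup.upperCentralSeries_nilpotencyClass
  exact key _ y hy (by rw [hn]; trivial) q hq

variable {G : Type u} [Group G] [Finite G]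

/-- The core statement. -/
theorem commutator_le_odd (N Q : Subgroup G) [hNn : N.Normal] (hG : Q ⊔ N = ⊤) (hQ : IsPGroup 2 Q)
    (hdisj : Q ⊓ N = ⊥) (t : G) (htZ : t ∈ Q ⊓ Subgroup.centralizer (Q : Set G)) (htQ : t ∈ ⁅Q, Q⁆)
    (hC : N ⊓ Subgroup.centralizer (Q : Set G) = N ⊓ Subgroup.centralizer ({t} : Set G)) :
    ∃ M : Subgroup G, M.Normal ∧ Odd (Nat.card M) ∧ ⁅N, Q⁆ ≤ M := by
  classical
  haveI hp2 : Fact (Nat.Prime 2) := ⟨Nat.prime_two⟩
  have htQ' : t ∈ Q := htZ.1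
  have htc : ∀ q ∈ Q, q * t = t * q := by
    intro q hq
    exact Subgroup.mem_centralizer_iff.mp htZ.2 q hq
  have hCiff : ∀ x ∈ N, x * t = t * x → ∀ q ∈ Q, q * x = x * q := by
    intro x hxN hxt q hq
    have h1 : x ∈ N ⊓ Subgroup.centralizer ({t} : Set G) :=
      ⟨hxN, Subgroup.mem_centralizer_singleton_iff.mpr hxt⟩
    rw [← hC] at h1
    exact Subgroup.mem_centralizer_iff.mp h1.2 q hq
  have hdec : ∀ g : G, ∃ n ∈ N, ∃ q ∈ Q, g = n * q := by
    intro g
    have h1 : g ∈ N ⊔ Q := by rw [sup_comm, hG]; trivial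
    obtain ⟨n, hn, q, hq, h2⟩ := (Cfsg.Agent.Lib.Coprime.Coset.mem_sup_iff_of_le_normalizer (by
      rw [Subgroup.normalizer_eq_top]; exact le_top) g).mp h1
    exact ⟨n, hn, q, hq, h2.symm⟩
  -- a Sylow subgroup
  obtain ⟨S, hQS⟩ := hQ.exists_le_sylow
  have htS : t ∈ (S : Subgroup G) := hQS htQ'
  -- `Q` centralizes `S ∩ N`
  have hQT : ∀ y ∈ (S : Subgroup G), y ∈ N → ∀ q ∈ Q, q * y = y * q := by
    haveI hR : Group.IsNilpotent (S : Subgroup G) := S.isPGroup'.isNilpotent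
    have ht' : (⟨t, htS⟩ : (S : Subgroup G)) ∈ ⁅Q.subgroupOf (S : Subgroup G), Q.subgroupOf (S : Subgroup G)⁆ := by
      have h1 : (⁅Q.subgroupOf (S : Subgroup G), Q.subgroupOf (S : Subgroup G)⁆).map (S : Subgroup G).subtype = ⁅Q, Q⁆ := by
        rw [Subgroup.map_commutator, Subgroup.map_subgroupOf_eq_of_le hQS]
      rw [← h1] at htQ
      obtain ⟨z, hz, hzz⟩ := htQ
      have : z = ⟨t, htS⟩ := Subtype.ext hzz
      rwa [← this]
    have key := centralizes_of_commutator_fix (N.subgroupOf (S : Subgroup G)) (Q.subgroupOf (S : Subgroup G)) ht'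
      (by
        intro y hy hyt q hq
        have h1 : t * y.1 = y.1 * t := congrArg Subtype.val hyt
        have h2 := hCiff y.1 hy h1.symm q.1 hq
        exact Subtype.ext h2)
    intro y hyS hyN q hq
    have h3 := key ⟨y, hyS⟩ hyN ⟨q, hQS hq⟩ hq
    exact congrArg Subtype.val h3
  -- `t` is isolated in `S`
  have hiso : ∀ g : G, g * t * g⁻¹ ∈ (S : Subgroup G) → g * t * g⁻¹ = t := by
    intro g hg
    obtain ⟨n, hn, q₀, hq₀, rfl⟩ := hdec g
    have e0 : n * q₀ * t * (n * q₀)⁻¹ = n * t * n⁻¹ := by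
      have : q₀ * t * q₀⁻¹ = t := by rw [htc q₀ hq₀]; group
      calc n * q₀ * t * (n * q₀)⁻¹ = n * (q₀ * t * q₀⁻¹) * n⁻¹ := by group
        _ = n * t * n⁻¹ := by rw [this]
    rw [e0] at hg ⊢
    set t' : G := n * t * n⁻¹ with ht'
    have hsS : t' * t⁻¹ ∈ (S : Subgroup G) := Subgroup.mul_mem _ hg (Subgroup.inv_mem _ htS)
    have hsN : t' * t⁻¹ ∈ N := by
      have h1 : t * n⁻¹ * t⁻¹ ∈ N := hNn.conj_mem _ (N.inv_mem hn) t
      have h2 := N.mul_mem hn h1
      have h3 : n * (t * n⁻¹ * t⁻¹) = t' * t⁻¹ := by rw [ht']; group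
      rwa [h3] at h2
    have ht'Q : ∀ q ∈ Q, q * t' * q⁻¹ = t' := by
      intro q hq
      have h1 := hQT _ hsS hsN q hq
      have h2 : t' = (t' * t⁻¹) * t := by group
      have h3 : q * t' = t' * q := by
        calc q * t' = q * ((t' * t⁻¹) * t) := by rw [← h2]
          _ = (q * (t' * t⁻¹)) * t := by group
          _ = ((t' * t⁻¹) * q) * t := by rw [h1]
          _ = (t' * t⁻¹) * (q * t) := by group
          _ = (t' * t⁻¹) * (t * q) := by rw [htc q hq]
          _ = t' * q := by group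
      rw [h3]; group
    let c : G → G := fun q => n⁻¹ * q * n * q⁻¹
    have hcN : ∀ q, c q ∈ N := by
      intro q
      have h1 : q * n * q⁻¹ ∈ N := hNn.conj_mem n hn q
      have h2 := N.mul_mem (N.inv_mem hn) h1
      have h3 : n⁻¹ * (q * n * q⁻¹) = c q := by simp only [c]; group
      rwa [h3] at h2
    have hct : ∀ q ∈ Q, c q * t = t * c q := by
      intro q hq
      have h1 := ht'Q q hq
      have h2 : q * t' * q⁻¹ = (q * n * q⁻¹) * t * (q * n * q⁻¹)⁻¹ := by
        rw [ht']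
        have : q⁻¹ * t * q = t := by
          have := htc q⁻¹ (Q.inv_mem hq)
          rw [this]; group
        calc q * (n * t * n⁻¹) * q⁻¹ = q * n * (t) * n⁻¹ * q⁻¹ := by group
          _ = q * n * (q⁻¹ * t * q) * n⁻¹ * q⁻¹ := by rw [this]
          _ = (q * n * q⁻¹) * t * (q * n * q⁻¹)⁻¹ := by group
      rw [h2] at h1
      have h3 : c q * t * (c q)⁻¹ = t := by
        have h4 : c q * t * (c q)⁻¹ = n⁻¹ * ((q * n * q⁻¹) * t * (q * n * q⁻¹)⁻¹) * n := by
          simp only [c]; group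
        rw [h4, h1, ht']; group
      rw [mul_inv_eq_iff_eq_mul] at h3
      exact h3
    have hcQ : ∀ q₀ ∈ Q, ∀ q ∈ Q, q * c q₀ = c q₀ * q := fun q₀ hq₀ q hq =>
      hCiff _ (hcN q₀) (hct q₀ hq₀) q hq
    have hcmul : ∀ q₁ ∈ Q, ∀ q₂ ∈ Q, c (q₁ * q₂) = c q₁ * c q₂ := by
      intro q₁ hq₁ q₂ hq₂
      have h1 := hcQ q₂ hq₂ q₁ hq₁
      have h2 : q₂ * n * q₂⁻¹ = n * c q₂ := by simp only [c]; group
      calc c (q₁ * q₂) = n⁻¹ * q₁ * (q₂ * n * q₂⁻¹) * q₁⁻¹ := by simp only [c]; group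
        _ = n⁻¹ * q₁ * (n * c q₂) * q₁⁻¹ := by rw [h2]
        _ = n⁻¹ * q₁ * n * (c q₂ * q₁⁻¹) := by group
        _ = n⁻¹ * q₁ * n * (q₁⁻¹ * (q₁ * c q₂) * q₁⁻¹) := by group
        _ = n⁻¹ * q₁ * n * (q₁⁻¹ * (c q₂ * q₁) * q₁⁻¹) := by rw [h1]
        _ = c q₁ * c q₂ := by simp only [c]; group
    -- elements of `C_N(t)` commuting with `c t` commute with all `c q`
    have hclaim : ∀ x ∈ N, x * t = t * x → x * c t = c t * x → ∀ q ∈ Q, x * c q = c q * x := by
      intro x hxN hxt hxc q hq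
      have hxq := hCiff x hxN hxt q hq
      have h1 : n⁻¹ * t * n = c t * t := by simp only [c]; group
      have h2 : x * (n⁻¹ * t * n) = (n⁻¹ * t * n) * x := by
        rw [h1]
        calc x * (c t * t) = (x * c t) * t := by group
          _ = (c t * x) * t := by rw [hxc]
          _ = c t * (x * t) := by group
          _ = c t * (t * x) := by rw [hxt]
          _ = c t * t * x := by group
      have hyN : n * x * n⁻¹ ∈ N := hNn.conj_mem x hxN n
      have h3 : (n * x * n⁻¹) * t = t * (n * x * n⁻¹) := by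
        have : n * (x * (n⁻¹ * t * n)) * n⁻¹ = n * ((n⁻¹ * t * n) * x) * n⁻¹ := by rw [h2]
        calc (n * x * n⁻¹) * t = n * (x * (n⁻¹ * t * n)) * n⁻¹ := by group
          _ = n * ((n⁻¹ * t * n) * x) * n⁻¹ := this
          _ = t * (n * x * n⁻¹) := by group
      have h4 := hCiff _ hyN h3 q hq
      have h5 : n⁻¹ * q * n = c q * q := by simp only [c]; group
      have h6 : x * (n⁻¹ * q * n) = (n⁻¹ * q * n) * x := by
        have : n⁻¹ * (q * (n * x * n⁻¹)) * n = n⁻¹ * ((n * x * n⁻¹) * q) * n := by rw [h4]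
        calc x * (n⁻¹ * q * n) = n⁻¹ * ((n * x * n⁻¹) * q) * n := by group
          _ = n⁻¹ * (q * (n * x * n⁻¹)) * n := this.symm
          _ = (n⁻¹ * q * n) * x := by group
      rw [h5] at h6
      have h7 : (x * c q) * q = (c q * x) * q := by
        calc (x * c q) * q = x * (c q * q) := by group
          _ = (c q * q) * x := h6
          _ = c q * (q * x) := by group
          _ = c q * (x * q) := by rw [hxq]
          _ = (c q * x) * q := by group
      exact mul_right_cancel h7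
    have hcc : ∀ q₀ ∈ Q, ∀ q ∈ Q, c q₀ * c q = c q * c q₀ := by
      intro q₀ hq₀ q hq
      refine hclaim _ (hcN q₀) (hct q₀ hq₀) ?_ q hq
      rw [← hcmul q₀ hq₀ t htQ', ← hcmul t htQ' q₀ hq₀, htc q₀ hq₀]
    have hc1 : c 1 = 1 := by simp [c]
    have hcinv : ∀ q ∈ Q, c q⁻¹ = (c q)⁻¹ := by
      intro q hq
      have h1 := hcmul q hq q⁻¹ (Q.inv_mem hq)
      rw [mul_inv_cancel, hc1] at h1
      exact eq_inv_of_mul_eq_one_right h1.symm
    let K : Subgroup G :=
      { carrier := {q | q ∈ Q ∧ c q = 1}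
        mul_mem' := by
          rintro a b ⟨ha, hda⟩ ⟨hb, hdb⟩
          refine ⟨Q.mul_mem ha hb, ?_⟩
          rw [hcmul a ha b hb, hda, hdb, one_mul]
        one_mem' := ⟨Q.one_mem, hc1⟩
        inv_mem' := by
          rintro a ⟨ha, hda⟩
          refine ⟨Q.inv_mem ha, ?_⟩
          rw [hcinv a ha, hda, inv_one] }
    have hQ'K : ⁅Q, Q⁆ ≤ K := by
      rw [Subgroup.commutator_le]
      intro a ha b hb
      refine ⟨Q.mul_mem (Q.mul_mem (Q.mul_mem ha hb) (Q.inv_mem ha)) (Q.inv_mem hb), ?_⟩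
      rw [commutatorElement_def]
      rw [hcmul _ (Q.mul_mem (Q.mul_mem ha hb) (Q.inv_mem ha)) _ (Q.inv_mem hb),
        hcmul _ (Q.mul_mem ha hb) _ (Q.inv_mem ha), hcmul a ha b hb, hcinv a ha, hcinv b hb]
      calc c a * c b * (c a)⁻¹ * (c b)⁻¹ = c b * c a * (c a)⁻¹ * (c b)⁻¹ := by rw [hcc a ha b hb]
        _ = 1 := by group
    have hct1 : c t = 1 := (hQ'K htQ).2
    have h2 : n⁻¹ * t * n = t := by
      have h3 : n⁻¹ * t * n * t⁻¹ = 1 := hct1
      exact mul_inv_eq_one.mp h3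
    rw [ht']
    calc n * t * n⁻¹ = n * (n⁻¹ * t * n) * n⁻¹ := by rw [h2]
      _ = t := by group
  -- the `Z*`-theorem
  obtain ⟨M, hMn, hModd, hcomm⟩ := zstar_element S htS hiso
  refine ⟨M, hMn, hModd, ?_⟩
  haveI := hMn
  have hM2 : ∀ x ∈ M, Odd (orderOf x) := by
    intro x hx
    have h1 := orderOf_dvd_natCard (⟨x, hx⟩ : M)
    rw [Subgroup.orderOf_mk] at h1
    exact Odd.of_dvd_nat hModd h1
  -- `M ≤ N`
  have hMN : M ≤ N := by
    intro x hx
    obtain ⟨n, hn, q, hq, rfl⟩ := hdec x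
    obtain ⟨k, hk⟩ := hQ ⟨q, hq⟩
    have hk' : q ^ 2 ^ k = 1 := congrArg Subtype.val hk
    have hb : QuotientGroup.mk' N (n * q) = QuotientGroup.mk' N q := by
      have hn1 : QuotientGroup.mk' N n = 1 := (QuotientGroup.eq_one_iff n).mpr hn
      rw [map_mul, hn1, one_mul]
    have h1 : (QuotientGroup.mk' N q) ^ 2 ^ k = 1 := by rw [← map_pow, hk', map_one]
    have h2 : orderOf (QuotientGroup.mk' N q) ∣ 2 ^ k := orderOf_dvd_of_pow_eq_one h1
    have h3 : orderOf (QuotientGroup.mk' N q) ∣ orderOf (n * q) := by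
      rw [← hb]; exact orderOf_map_dvd _ _
    have h4 : Nat.Coprime (2 ^ k) (orderOf (n * q)) :=
      Nat.Coprime.pow_left _ (Nat.coprime_two_left.mpr (hM2 _ hx))
    have h5 := Nat.eq_one_of_dvd_coprimes h4 h2 h3
    have h6 : QuotientGroup.mk' N q = 1 := orderOf_eq_one_iff.mp h5
    rw [← hb] at h6
    exact (QuotientGroup.eq_one_iff _).mp h6
  -- decomposition of `N`
  obtain ⟨e, he⟩ := hQ ⟨t, htQ'⟩
  have he' : t ^ 2 ^ e = 1 := congrArg Subtype.val he
  have hcardt : Nat.card (Subgroup.zpowers t) ∣ 2 ^ e := by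
    rw [Nat.card_zpowers]; exact orderOf_dvd_of_pow_eq_one he'
  have hdecN : ∀ n ∈ N, ∃ o ∈ M, ∃ d ∈ N, n = o * d ∧ d * t = t * d := by
    intro n hn
    have hcop : (Nat.card (Subgroup.zpowers t)).Coprime (Nat.card M) :=
      Nat.Coprime.coprime_dvd_left hcardt (Nat.Coprime.pow_left _ (Nat.coprime_two_left.mpr hModd))
    have hle : Subgroup.zpowers (n * t * n⁻¹) ≤ M ⊔ Subgroup.zpowers t := by
      rw [Subgroup.zpowers_le]
      have h1 : n * t * n⁻¹ * t⁻¹ ∈ M := by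
        have h2 := M.inv_mem (hcomm n)
        have h3 : (t * n * t⁻¹ * n⁻¹)⁻¹ = n * t * n⁻¹ * t⁻¹ := by group
        rwa [h3] at h2
      have h4 : n * t * n⁻¹ = (n * t * n⁻¹ * t⁻¹) * t := by group
      rw [h4]
      exact Subgroup.mul_mem _ ((le_sup_left : M ≤ _) h1)
        ((le_sup_right : Subgroup.zpowers t ≤ _) (Subgroup.mem_zpowers t))
    have hcd : Nat.card (Subgroup.zpowers (n * t * n⁻¹)) = Nat.card (Subgroup.zpowers t) := by
      rw [Nat.card_zpowers, Nat.card_zpowers]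
      have : n * t * n⁻¹ = (MulAut.conj n) t := by simp [MulAut.conj_apply]
      rw [this, MulEquiv.orderOf_eq]
    obtain ⟨o, ho, hoo⟩ := Cfsg.Agent.Lib.Coprime.Coset.exists_conj_eq_of_card_eq (A := Subgroup.zpowers t) (N := M)
      (A' := Subgroup.zpowers (n * t * n⁻¹)) (by rw [Subgroup.normalizer_eq_top]; exact le_top) hcop
      (Or.inl (Group.isSolvable_of_comm (by
        rintro ⟨a, ha⟩ ⟨b, hb⟩
        obtain ⟨i, rfl⟩ := Subgroup.mem_zpowers_iff.mp ha
        obtain ⟨j, rfl⟩ := Subgroup.mem_zpowers_iff.mp hb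
        apply Subtype.ext
        show t ^ i * t ^ j = t ^ j * t ^ i
        rw [← zpow_add, ← zpow_add, add_comm]))) hle hcd
    have h1 : n * t * n⁻¹ ∈ (Subgroup.zpowers t).map (MulAut.conj o).toMonoidHom := by
      rw [hoo]; exact Subgroup.mem_zpowers _
    obtain ⟨z, hz, hzz⟩ := h1
    obtain ⟨k, rfl⟩ := Subgroup.mem_zpowers_iff.mp hz
    have hzz' : o * t ^ k * o⁻¹ = n * t * n⁻¹ := by simpa [MulAut.conj_apply] using hzz
    -- `t ^ k = t`
    have h2 : t ^ k * t⁻¹ ∈ M := by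
      have h3 : n * t * n⁻¹ * t⁻¹ ∈ M := by
        have h4 := M.inv_mem (hcomm n)
        have h5 : (t * n * t⁻¹ * n⁻¹)⁻¹ = n * t * n⁻¹ * t⁻¹ := by group
        rwa [h5] at h4
      have h7 : ∀ a : G, a * t⁻¹ = (a * o * a⁻¹ * o⁻¹) * ((o * a * o⁻¹) * t⁻¹) := by
        intro a; group
      rw [h7 (t ^ k), hzz']
      exact M.mul_mem (M.mul_mem (hMn.conj_mem o ho _) (M.inv_mem ho)) h3
    have h8 : t ^ k * t⁻¹ = 1 := by
      have h9 : t ^ k * t⁻¹ ∈ Subgroup.zpowers t :=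
        Subgroup.mul_mem _ (Subgroup.zpow_mem_zpowers t k) (Subgroup.inv_mem _ (Subgroup.mem_zpowers t))
      have h10 : orderOf (t ^ k * t⁻¹) ∣ 2 ^ e := by
        have := orderOf_dvd_natCard (⟨_, h9⟩ : Subgroup.zpowers t)
        rw [Subgroup.orderOf_mk] at this
        exact this.trans hcardt
      have h11 : Nat.Coprime (2 ^ e) (orderOf (t ^ k * t⁻¹)) :=
        Nat.Coprime.pow_left _ (Nat.coprime_two_left.mpr (hM2 _ h2))
      exact orderOf_eq_one_iff.mp (Nat.eq_one_of_dvd_coprimes h11 h10 dvd_rfl)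
    have h12 : t ^ k = t := mul_inv_eq_one.mp h8
    rw [h12] at hzz'
    refine ⟨o, ho, o⁻¹ * n, N.mul_mem (N.inv_mem (hMN ho)) hn, by group, ?_⟩
    have h13 : o⁻¹ * n * t * n⁻¹ * o = t := by
      have : o⁻¹ * n * t * n⁻¹ * o = o⁻¹ * (n * t * n⁻¹) * o := by group
      rw [this, ← hzz']; group
    calc o⁻¹ * n * t = (o⁻¹ * n * t * n⁻¹ * o) * (o⁻¹ * n) := by group
      _ = t * (o⁻¹ * n) := by rw [h13]
  -- the commutator
  rw [Subgroup.commutator_le]
  intro n hn q hq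
  obtain ⟨o, ho, d, hd, rfl, hdt⟩ := hdecN n hn
  have hdq := hCiff d hd hdt q hq
  have h1 : ⁅o * d, q⁆ = o * (q * o⁻¹ * q⁻¹) := by
    rw [commutatorElement_def]
    have h2 : o * d * q * (o * d)⁻¹ * q⁻¹ = o * (d * q * d⁻¹) * o⁻¹ * q⁻¹ := by group
    rw [h2]
    have h3 : d * q * d⁻¹ = q := by rw [← hdq]; group
    rw [h3]; group
  rw [h1]
  exact M.mul_mem ho (hMn.conj_mem _ (M.inv_mem ho) q)

/-- The odd order of `[N, Q]`. -/
theorem odd_card_commutator (N Q : Subgroup G) [hNn : N.Normal] (hG : Q ⊔ N = ⊤) (hQ : IsPGroup 2 Q)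
    (hdisj : Q ⊓ N = ⊥) (t : G) (htZ : t ∈ Q ⊓ Subgroup.centralizer (Q : Set G)) (htQ : t ∈ ⁅Q, Q⁆)
    (hC : N ⊓ Subgroup.centralizer (Q : Set G) = N ⊓ Subgroup.centralizer ({t} : Set G)) :
    Odd (Nat.card ↥⁅N, Q⁆) := by
  obtain ⟨M, _, hM, hle⟩ := commutator_le_odd N Q hG hQ hdisj t htZ htQ hC
  exact Odd.of_dvd_nat hM (Subgroup.card_dvd_of_le hle)

end Cfsg.Agent.Lib.Components.TwoCommutator
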