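import Mathlib
import Cfsg.Agent.Lib.PGroup.FrattiniBasis

set_option autoImplicit false
open scoped commutatorElement

namespace Cfsg.Agent.Lib.Components.TwoGroup14

universe u
variable {T : Type u} [Group T] [Finite T]

/-- Upper central series, short name. -/
abbrev Zs (T : Type u) [Group T] (k : ℕ) : Subgroup T := Subgroup.upperCentralSeries T k

theorem mem_Zs_succ {k : ℕ} {x : T} : x ∈ Zs T (k + 1) ↔ ∀ y, x * y * x⁻¹ * y⁻¹ ∈ Zs T k :=
  Subgroup.mem_upperCentralSeries_succ_iff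

theorem Zs_le {a b : ℕ} (h : a ≤ b) : Zs T a ≤ Zs T b := Subgroup.upperCentralSeries_mono T h

theorem Zs_conj_mul_inv {k : ℕ} {x : T} (hx : x ∈ Zs T (k + 1)) (t : T) :
    t * x * t⁻¹ * x⁻¹ ∈ Zs T k := by
  have h := (mem_Zs_succ.1 hx) t
  have h2 := (Zs T k).inv_mem h
  have : (x * t * x⁻¹ * t⁻¹)⁻¹ = t * x * t⁻¹ * x⁻¹ := by group
  rwa [this] at h2

theorem Zs_step_eq {k : ℕ} (h : Zs T k = Zs T (k + 1)) (m : ℕ) : Zs T (k + m) = Zs T k := by
  induction m with
  | zero => rfl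
  | succ m ih =>
    rw [← Nat.add_assoc]
    ext x
    rw [mem_Zs_succ, ih, h, mem_Zs_succ, ← h]

theorem Zs_lt_succ [Group.IsNilpotent T] {k : ℕ} (h : Zs T k ≠ ⊤) : Zs T k < Zs T (k + 1) := by
  refine lt_of_le_of_ne (Zs_le (Nat.le_succ k)) ?_
  intro heq
  obtain ⟨n, hn⟩ := Group.IsNilpotent.nilpotent' (G := T)
  apply h
  have h1 : Zs T (k + n) = Zs T k := Zs_step_eq heq n
  have h2 : Zs T n ≤ Zs T (k + n) := Zs_le (Nat.le_add_left n k)
  rw [h1] at h2
  exact eq_top_iff.2 (hn ▸ h2)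

theorem exists_mem_succ [Group.IsNilpotent T] (N : Subgroup T) [hN : N.Normal] (k : ℕ)
    (h : ¬ N ≤ Zs T k) : ∃ n ∈ N, n ∉ Zs T k ∧ n ∈ Zs T (k + 1) := by
  classical
  obtain ⟨c, hc⟩ := (Subgroup.nilpotent_iff_lowerCentralSeries (G := T)).1 inferInstance
  have hex : ∃ i, ∀ x ∈ N, x ∈ Subgroup.lowerCentralSeries (⊤ : Subgroup T) i → x ∈ Zs T k := by
    refine ⟨c, fun x _ hx => ?_⟩
    rw [hc, Subgroup.mem_bot] at hx
    rw [hx]
    exact one_mem _
  have hspec := Nat.find_spec hex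
  have hmin := fun m => Nat.find_min hex (m := m)
  set i := Nat.find hex with hi
  have hi0 : i ≠ 0 := by
    intro h0
    rw [h0] at hspec
    apply h
    intro x hx
    exact hspec x hx (by simp)
  obtain ⟨j, hj⟩ := Nat.exists_eq_succ_of_ne_zero hi0
  have hj' : j < i := by omega
  have := hmin j hj'
  push Not at this
  obtain ⟨n, hnN, hnl, hnZ⟩ := this
  refine ⟨n, hnN, hnZ, mem_Zs_succ.2 fun y => ?_⟩
  apply hspec
  · have h1 : n * y * n⁻¹ * y⁻¹ = n * (y * n⁻¹ * y⁻¹) := by group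
    rw [h1]
    exact N.mul_mem hnN (hN.conj_mem _ (N.inv_mem hnN) y)
  · rw [hj]
    exact Subgroup.commutator_mem_commutator hnl (Subgroup.mem_top y)

/-- Two elements outside a subgroup of index two multiply into it. -/
theorem mul_mem_of_two {A B : Subgroup T} (hAB : A ≤ B) (hc : Nat.card B = 2 * Nat.card A)
    {x y : T} (hx : x ∈ B) (hy : y ∈ B) : x * y ∈ A ↔ (x ∈ A ↔ y ∈ A) := by
  have hidx : (A.subgroupOf B).index = 2 := by
    have h1 := Subgroup.card_mul_index (A.subgroupOf B)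
    have h2 : Nat.card (A.subgroupOf B) = Nat.card A :=
      Nat.card_congr (Subgroup.subgroupOfEquivOfLe hAB).toEquiv
    rw [h2, hc] at h1
    have h3 : 0 < Nat.card A := Nat.card_pos
    have h4 : Nat.card A * (A.subgroupOf B).index = Nat.card A * 2 := by rw [h1, mul_comm]
    exact Nat.eq_of_mul_eq_mul_left h3 h4
  have := Subgroup.mul_mem_iff_of_index_two hidx (a := ⟨x, hx⟩) (b := ⟨y, hy⟩)
  simpa [Subgroup.mem_subgroupOf] using this

/-- The numeric facts on the first terms of the upper central series. -/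
structure CardZ (T : Type u) [Group T] : Prop where
  c0 : Nat.card (Zs T 0) = 1
  c1 : Nat.card (Zs T 1) = 2
  c2 : Nat.card (Zs T 2) = 4
  c3 : Nat.card (Zs T 3) = 8
  c4 : Nat.card (Zs T 4) = 16

theorem cardZ_of (hT : IsPGroup 2 T) (ha : 16 < Nat.card T) (hb : Nat.card (Zs T 4) = 16) :
    CardZ T := by
  haveI : Fact (Nat.Prime 2) := ⟨Nat.prime_two⟩
  have : Group.IsNilpotent T := hT.isNilpotent
  have hne : ∀ k ≤ 3, Zs T k ≠ ⊤ := by
    intro k hk h
    have h1 : Zs T k ≤ Zs T 4 := Zs_le (by omega)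
    rw [h] at h1
    have h2 : Zs T 4 = ⊤ := eq_top_iff.2 h1
    rw [h2, Subgroup.card_top] at hb
    omega
  have hlt : ∀ k ≤ 3, Nat.card (Zs T k) < Nat.card (Zs T (k + 1)) := by
    intro k hk
    exact Set.ncard_lt_ncard (Zs_lt_succ (hne k hk)) (Set.toFinite _)
  have hpow : ∀ k, ∃ n, Nat.card (Zs T k) = 2 ^ n := by
    intro k
    exact (hT.to_subgroup (Zs T k)).exists_card_eq
  obtain ⟨n0, h0⟩ := hpow 0
  obtain ⟨n1, h1⟩ := hpow 1
  obtain ⟨n2, h2⟩ := hpow 2
  obtain ⟨n3, h3⟩ := hpow 3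
  have hl0 := hlt 0 (by omega)
  have hl1 := hlt 1 (by omega)
  have hl2 := hlt 2 (by omega)
  have hl3 := hlt 3 (by omega)
  have hZ0 : Nat.card (Zs T 0) = 1 := by
    simp [Zs, Subgroup.upperCentralSeries_zero]
  simp only [Nat.reduceAdd, Nat.zero_add] at hl0 hl1 hl2 hl3
  rw [h1, hZ0] at hl0
  rw [h1, h2] at hl1
  rw [h2, h3] at hl2
  rw [h3, hb] at hl3
  have e1 : n1 < n2 := (Nat.pow_lt_pow_iff_right (by norm_num)).1 hl1
  have e2 : n2 < n3 := (Nat.pow_lt_pow_iff_right (by norm_num)).1 hl2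
  have e3 : n3 < 4 := by
    have : (2 : ℕ) ^ n3 < 2 ^ 4 := by simpa using hl3
    exact (Nat.pow_lt_pow_iff_right (by norm_num)).1 this
  have e0 : 0 < n1 := by
    have : (2 : ℕ) ^ 0 < 2 ^ n1 := by simpa using hl0
    exact (Nat.pow_lt_pow_iff_right (by norm_num)).1 this
  have n1e : n1 = 1 := by omega
  have n2e : n2 = 2 := by omega
  have n3e : n3 = 3 := by omega
  subst n1e n2e n3e
  exact ⟨hZ0, by rw [h1]; norm_num, by rw [h2]; norm_num, by rw [h3]; norm_num, hb⟩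

/-- Normal subgroups are comparable with the small terms of the upper central series. -/
theorem normal_chain (hT : IsPGroup 2 T) (hc : CardZ T) (N : Subgroup T) [hN : N.Normal] :
    N = Zs T 0 ∨ N = Zs T 1 ∨ N = Zs T 2 ∨ N = Zs T 3 ∨ Zs T 4 ≤ N := by
  haveI : Fact (Nat.Prime 2) := ⟨Nat.prime_two⟩
  have : Group.IsNilpotent T := hT.isNilpotent
  have hstep : ∀ k, Nat.card (Zs T (k + 1)) = 2 * Nat.card (Zs T k) → Zs T k ≤ N →
      N = Zs T k ∨ Zs T (k + 1) ≤ N := by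
    intro k hk hle
    by_cases hNle : N ≤ Zs T k
    · exact Or.inl (le_antisymm hNle hle)
    · right
      obtain ⟨n, hnN, hnZ, hnZ'⟩ := exists_mem_succ N k hNle
      intro x hx
      by_cases hxZ : x ∈ Zs T k
      · exact hle hxZ
      · have h1 : x * n ∈ Zs T k :=
          (mul_mem_of_two (Zs_le (Nat.le_succ k)) hk hx hnZ').2 (by tauto)
        have h2 := N.mul_mem (hle h1) (N.inv_mem hnN)
        simpa using h2
  have h0 : Zs T 0 ≤ N := by
    simp [Zs, Subgroup.upperCentralSeries_zero]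
  rcases hstep 0 (by rw [hc.c0, hc.c1]) h0 with h | h1
  · exact Or.inl h
  rcases hstep 1 (by rw [hc.c1, hc.c2]) h1 with h | h2
  · exact Or.inr (Or.inl h)
  rcases hstep 2 (by rw [hc.c2, hc.c3]) h2 with h | h3
  · exact Or.inr (Or.inr (Or.inl h))
  rcases hstep 3 (by rw [hc.c3, hc.c4]) h3 with h | h4
  · exact Or.inr (Or.inr (Or.inr (Or.inl h)))
  · exact Or.inr (Or.inr (Or.inr (Or.inr h4)))

end Cfsg.Agent.Lib.Components.TwoGroup14
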