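import Mathlib
import Cfsg.Agent.Lib.PGroup.FrattiniBasis
import Cfsg.Agent.Lib.Components.TwoGroup14A

set_option autoImplicit false
open scoped commutatorElement

namespace Cfsg.Agent.Lib.Components.TwoGroup14

open Cfsg.Agent.Lib.PGroup

universe u
variable {T : Type u} [Group T] [Finite T]

theorem exists_not_mem_of_card_lt {A B : Subgroup T} (h : Nat.card A < Nat.card B) :
    ∃ x ∈ B, x ∉ A := by
  by_contra hcon
  push Not at hcon
  have : B ≤ A := hcon
  have h2 : Nat.card B ≤ Nat.card A := Subgroup.card_le_of_le this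
  omega

/-- A chain of elements through the upper central series. -/
structure EBasis (T : Type u) [Group T] where
  e1 : T
  e2 : T
  e3 : T
  h1 : e1 ∈ Zs T 1
  h1' : e1 ∉ Zs T 0
  h2 : e2 ∈ Zs T 2
  h2' : e2 ∉ Zs T 1
  h3 : e3 ∈ Zs T 3
  h3' : e3 ∉ Zs T 2

theorem exists_eBasis (hc : CardZ T) : Nonempty (EBasis T) := by
  obtain ⟨e1, h1, h1'⟩ := exists_not_mem_of_card_lt (A := Zs T 0) (B := Zs T 1)
    (by rw [hc.c0, hc.c1]; norm_num)
  obtain ⟨e2, h2, h2'⟩ := exists_not_mem_of_card_lt (A := Zs T 1) (B := Zs T 2)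
    (by rw [hc.c1, hc.c2]; norm_num)
  obtain ⟨e3, h3, h3'⟩ := exists_not_mem_of_card_lt (A := Zs T 2) (B := Zs T 3)
    (by rw [hc.c2, hc.c3]; norm_num)
  exact ⟨⟨e1, e2, e3, h1, h1', h2, h2', h3, h3'⟩⟩

theorem Zs_one_comm {x : T} (hx : x ∈ Zs T 1) (y : T) : x * y = y * x := by
  have h := (mem_Zs_succ (k := 0)).1 hx y
  have h2 : x * y * x⁻¹ * y⁻¹ = 1 := by
    simpa [Zs, Subgroup.upperCentralSeries_zero] using h
  calc x * y = x * y * x⁻¹ * y⁻¹ * (y * x) := by group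
    _ = y * x := by rw [h2, one_mul]

variable (hc : CardZ T) (E : EBasis T)

include hc in
theorem step2 {x : T} (hx : x ∈ Zs T 2) : x ∈ Zs T 1 ∨ x * E.e2 ∈ Zs T 1 := by
  by_cases h : x ∈ Zs T 1
  · exact Or.inl h
  · refine Or.inr ((mul_mem_of_two (Zs_le (by norm_num)) (by rw [hc.c1, hc.c2]) hx E.h2).2 ?_)
    have := E.h2'
    tauto

include hc in
theorem step3 {x : T} (hx : x ∈ Zs T 3) : x ∈ Zs T 2 ∨ x * E.e3 ∈ Zs T 2 := by
  by_cases h : x ∈ Zs T 2
  · exact Or.inl h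
  · refine Or.inr ((mul_mem_of_two (Zs_le (by norm_num)) (by rw [hc.c2, hc.c3]) hx E.h3).2 ?_)
    have := E.h3'
    tauto

include hc in
theorem step1 {x : T} (hx : x ∈ Zs T 1) : x = 1 ∨ x = E.e1 := by
  by_cases h : x ∈ Zs T 0
  · left
    simpa [Zs, Subgroup.upperCentralSeries_zero] using h
  · have hee : E.e1 * E.e1 ∈ Zs T 0 :=
      (mul_mem_of_two (Zs_le (by norm_num)) (by rw [hc.c0, hc.c1]) E.h1 E.h1).2 (by tauto)
    have hxe : x * E.e1 ∈ Zs T 0 :=
      (mul_mem_of_two (Zs_le (by norm_num)) (by rw [hc.c0, hc.c1]) hx E.h1).2 (by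
        have := E.h1'
        tauto)
    right
    have h1 : E.e1 * E.e1 = 1 := by simpa [Zs, Subgroup.upperCentralSeries_zero] using hee
    have h2 : x * E.e1 = 1 := by simpa [Zs, Subgroup.upperCentralSeries_zero] using hxe
    calc x = x * E.e1 * E.e1 := by rw [mul_assoc, h1, mul_one]
      _ = E.e1 := by rw [h2, one_mul]

include hc in
/-- Commuting with `e2` and `e3` means centralizing `Z₃`. -/
theorem mem_cent_of_comm {t : T} (h2 : t * E.e2 = E.e2 * t) (h3 : t * E.e3 = E.e3 * t) :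
    t ∈ Subgroup.centralizer ((Zs T 3 : Subgroup T) : Set T) := by
  rw [Subgroup.mem_centralizer_iff]
  have hZ1 : ∀ x ∈ Zs T 1, x * t = t * x := fun x hx => Zs_one_comm hx t
  have hZ2 : ∀ x ∈ Zs T 2, x * t = t * x := by
    intro x hx
    rcases step2 hc E hx with h | h
    · exact hZ1 x h
    · have h1 := hZ1 _ h
      have h4 : x * t * E.e2 = t * x * E.e2 := by
        calc x * t * E.e2 = x * (t * E.e2) := by group
          _ = x * (E.e2 * t) := by rw [h2]
          _ = (x * E.e2) * t := by group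
          _ = t * (x * E.e2) := h1
          _ = t * x * E.e2 := by group
      exact mul_right_cancel h4
  intro x hx
  rcases step3 hc E hx with h | h
  · exact hZ2 x h
  · have h1 := hZ2 _ h
    have h4 : x * t * E.e3 = t * x * E.e3 := by
      calc x * t * E.e3 = x * (t * E.e3) := by group
        _ = x * (E.e3 * t) := by rw [h3]
        _ = (x * E.e3) * t := by group
        _ = t * (x * E.e3) := h1
        _ = t * x * E.e3 := by group
    exact mul_right_cancel h4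

variable (W : Subgroup T) (hW : W = Subgroup.centralizer ((Zs T 3 : Subgroup T) : Set T))

omit [Finite T] in
/-- The code of an element: its commutators with `e2`, `e3`. -/
def codeF (E : EBasis T) (t : T) : Zs T 1 × Zs T 2 :=
  (⟨t * E.e2 * t⁻¹ * E.e2⁻¹, Zs_conj_mul_inv E.h2 t⟩, ⟨t * E.e3 * t⁻¹ * E.e3⁻¹, Zs_conj_mul_inv E.h3 t⟩)

include hc hW in
theorem code_eq_iff {s t : T} : codeF E s = codeF E t ↔ s⁻¹ * t ∈ W := by
  constructor
  · intro h
    rw [Prod.ext_iff] at h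
    have h1 : s * E.e2 * s⁻¹ * E.e2⁻¹ = t * E.e2 * t⁻¹ * E.e2⁻¹ := congrArg Subtype.val h.1
    have h2 : s * E.e3 * s⁻¹ * E.e3⁻¹ = t * E.e3 * t⁻¹ * E.e3⁻¹ := congrArg Subtype.val h.2
    have h1' : s * E.e2 * s⁻¹ = t * E.e2 * t⁻¹ := mul_right_cancel h1
    have h2' : s * E.e3 * s⁻¹ = t * E.e3 * t⁻¹ := mul_right_cancel h2
    rw [hW]
    apply mem_cent_of_comm hc E
    · calc s⁻¹ * t * E.e2 = s⁻¹ * (t * E.e2 * t⁻¹) * t := by group
        _ = s⁻¹ * (s * E.e2 * s⁻¹) * t := by rw [h1']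
        _ = E.e2 * (s⁻¹ * t) := by group
    · calc s⁻¹ * t * E.e3 = s⁻¹ * (t * E.e3 * t⁻¹) * t := by group
        _ = s⁻¹ * (s * E.e3 * s⁻¹) * t := by rw [h2']
        _ = E.e3 * (s⁻¹ * t) := by group
  · intro h
    rw [hW, Subgroup.mem_centralizer_iff] at h
    have h1 := h E.e2 (Zs_le (by norm_num) E.h2)
    have h2 := h E.e3 E.h3
    have h1' : s * E.e2 * s⁻¹ = t * E.e2 * t⁻¹ := by
      calc s * E.e2 * s⁻¹ = s * (E.e2 * (s⁻¹ * t)) * t⁻¹ := by group
        _ = s * (s⁻¹ * t * E.e2) * t⁻¹ := by rw [← h1]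
        _ = t * E.e2 * t⁻¹ := by group
    have h2' : s * E.e3 * s⁻¹ = t * E.e3 * t⁻¹ := by
      calc s * E.e3 * s⁻¹ = s * (E.e3 * (s⁻¹ * t)) * t⁻¹ := by group
        _ = s * (s⁻¹ * t * E.e3) * t⁻¹ := by rw [← h2]
        _ = t * E.e3 * t⁻¹ := by group
    rw [Prod.ext_iff]
    constructor
    · apply Subtype.ext
      change s * E.e2 * s⁻¹ * E.e2⁻¹ = t * E.e2 * t⁻¹ * E.e2⁻¹
      rw [h1']
    · apply Subtype.ext
      change s * E.e3 * s⁻¹ * E.e3⁻¹ = t * E.e3 * t⁻¹ * E.e3⁻¹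
      rw [h2']

include hc hW E in
theorem index_W_le : W.index ≤ 8 := by
  classical
  have hinj : Function.Injective (fun q : T ⧸ W => codeF E q.out) := by
    intro q q' h
    have h2 := (code_eq_iff hc E W hW).1 h
    have h3 : (QuotientGroup.mk q.out : T ⧸ W) = QuotientGroup.mk q'.out :=
      QuotientGroup.eq.2 h2
    simpa using h3
  have h1 : Nat.card (T ⧸ W) ≤ Nat.card (Zs T 1 × Zs T 2) := Nat.card_le_card_of_injective _ hinj
  rw [Nat.card_prod, hc.c1, hc.c2] at h1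
  exact h1

section Inside

/-- Frattini subgroup of `W` in `T`. -/
abbrev Fr : Subgroup T := (frattini ↥W).map W.subtype

/-- Derived subgroup of `W` in `T`. -/
abbrev Dc : Subgroup T := (commutator ↥W).map W.subtype

variable {W}

theorem fr_le_W : Fr W ≤ W := Subgroup.map_subtype_le _
theorem dc_le_W : Dc W ≤ W := Subgroup.map_subtype_le _

theorem mem_Fr_of {x : T} (hx : x ∈ W) (h : (⟨x, hx⟩ : W) ∈ frattini ↥W) : x ∈ Fr W :=
  ⟨⟨x, hx⟩, h, rfl⟩

theorem mem_Dc_of {x y : T} (hx : x ∈ W) (hy : y ∈ W) : x * y * x⁻¹ * y⁻¹ ∈ Dc W := by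
  refine ⟨⁅(⟨x, hx⟩ : W), (⟨y, hy⟩ : W)⁆, ?_, rfl⟩
  exact Subgroup.commutator_mem_commutator (Subgroup.mem_top _) (Subgroup.mem_top _)

theorem dc_le_fr (hT : IsPGroup 2 T) : Dc W ≤ Fr W := by
  haveI : Fact (Nat.Prime 2) := ⟨Nat.prime_two⟩
  exact Subgroup.map_mono (FrattiniBasis.commutator_le_frattini (hT.to_subgroup W))

theorem sq_mem_fr (hT : IsPGroup 2 T) {x : T} (hx : x ∈ W) : x ^ 2 ∈ Fr W := by
  haveI : Fact (Nat.Prime 2) := ⟨Nat.prime_two⟩
  exact ⟨_, FrattiniBasis.pow_mem_frattini (hT.to_subgroup W) (⟨x, hx⟩ : W), rfl⟩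

/-- Hypotheses on Frattini subgroup of `W`. -/
structure FrHyp (W : Subgroup T) : Prop where
  hc : Nat.card ↥(frattini ↥W) ≤ 8
  hd : ∀ U : Subgroup ↥W, U.index ≤ 16 → frattini ↥W ≤ U

theorem card_Fr : Nat.card (Fr W) = Nat.card ↥(frattini ↥W) :=
  Nat.card_congr (Subgroup.equivMapOfInjective _ _ W.subtype_injective).symm.toEquiv

/-- Frattini hypothesis at the level of `T`. -/
theorem FrHyp.le {h : FrHyp W} {U : Subgroup T} (hU : U.relIndex W ≤ 16) : Fr W ≤ U := by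
  have h1 : frattini ↥W ≤ U.subgroupOf W := h.hd _ hU
  rintro _ ⟨x, hx, rfl⟩
  exact h1 hx

theorem fr_central (hT : IsPGroup 2 T) (h : FrHyp W) {φ x : T} (hφ : φ ∈ Fr W) (hx : x ∈ W) :
    φ * x = x * φ := by
  classical
  obtain ⟨φ', hφ', rfl⟩ := hφ
  set v : W := ⟨x, hx⟩ with hv
  let C : Subgroup ↥W := Subgroup.centralizer {v}
  have hinj : Function.Injective (fun q : ↥W ⧸ C =>
      (⟨⁅q.out, v⁆, Subgroup.commutator_mem_commutator (Subgroup.mem_top _) (Subgroup.mem_top _)⟩ :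
        commutator ↥W)) := by
    intro q q' hq
    have h1 : ⁅q.out, v⁆ = ⁅q'.out, v⁆ := congrArg Subtype.val hq
    have h2 : q.out⁻¹ * q'.out ∈ C := by
      rw [Subgroup.mem_centralizer_singleton_iff]
      rw [commutatorElement_def, commutatorElement_def] at h1
      have h3 : q.out * v * q.out⁻¹ = q'.out * v * q'.out⁻¹ := mul_right_cancel h1
      calc q.out⁻¹ * q'.out * v = q.out⁻¹ * (q'.out * v * q'.out⁻¹) * q'.out := by group
        _ = q.out⁻¹ * (q.out * v * q.out⁻¹) * q'.out := by rw [h3]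
        _ = v * (q.out⁻¹ * q'.out) := by group
    have h3 : (QuotientGroup.mk q.out : ↥W ⧸ C) = QuotientGroup.mk q'.out := QuotientGroup.eq.2 h2
    simpa using h3
  have h1 : C.index ≤ Nat.card (commutator ↥W) := Nat.card_le_card_of_injective _ hinj
  have h2 : Nat.card (commutator ↥W) ≤ Nat.card ↥(frattini ↥W) := by
    haveI : Fact (Nat.Prime 2) := ⟨Nat.prime_two⟩
    exact Subgroup.card_le_of_le (FrattiniBasis.commutator_le_frattini (hT.to_subgroup W))
  have h3 : frattini ↥W ≤ C := h.hd C (by have := h.hc; omega)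
  have h4 := h3 hφ'
  rw [Subgroup.mem_centralizer_singleton_iff] at h4
  have h5 := congrArg Subtype.val h4
  exact h5

theorem comm_sq (hT : IsPGroup 2 T) (h : FrHyp W) {x y : T} (hx : x ∈ W) (hy : y ∈ W) :
    (x * y * x⁻¹ * y⁻¹) ^ 2 = 1 := by
  obtain ⟨c, hc⟩ : ∃ c, c = x * y * x⁻¹ * y⁻¹ := ⟨_, rfl⟩
  rw [← hc]
  have hcF : c ∈ Fr W := hc ▸ dc_le_fr hT (mem_Dc_of hx hy)
  have hcx : c * x = x * c := fr_central hT h hcF hx
  have hxF : x ^ 2 ∈ Fr W := sq_mem_fr hT hx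
  have hxy : x ^ 2 * y = y * x ^ 2 := fr_central hT h hxF hy
  have hcy : c * y = y * c := fr_central hT h hcF hy
  have h1 : x * y * x⁻¹ = c * y := by rw [hc]; group
  have h2 : x ^ 2 * y * (x ^ 2)⁻¹ = c ^ 2 * y := by
    calc x ^ 2 * y * (x ^ 2)⁻¹ = x * (x * y * x⁻¹) * x⁻¹ := by
          rw [pow_two, mul_inv_rev]; simp only [mul_assoc]
      _ = x * (c * y) * x⁻¹ := by rw [h1]
      _ = (x * c) * y * x⁻¹ := by group
      _ = c * (x * y * x⁻¹) := by rw [← hcx]; group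
      _ = c * (c * y) := by rw [h1]
      _ = c ^ 2 * y := by rw [pow_two, mul_assoc]
  have h3 : x ^ 2 * y * (x ^ 2)⁻¹ = y := by rw [hxy]; group
  rw [h3] at h2
  have h4 : c ^ 2 * y = 1 * y := by rw [← h2, one_mul]
  exact mul_right_cancel h4

theorem dc_sq (hT : IsPGroup 2 T) (h : FrHyp W) {x : T} (hx : x ∈ Dc W) : x ^ 2 = 1 := by
  obtain ⟨x', hx', rfl⟩ := hx
  have hcent : ∀ a b : ↥W, a ∈ commutator ↥W → (a : T) * b = b * a := by
    intro a b ha
    exact fr_central hT h (dc_le_fr hT ⟨a, ha, rfl⟩) b.2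
  rw [commutator_def, Subgroup.commutator_def] at hx'
  have key : x' ∈ Subgroup.closure {g : ↥W | ∃ a ∈ (⊤ : Subgroup W), ∃ b ∈ (⊤ : Subgroup W), ⁅a, b⁆ = g}
      ∧ ((x' : T)) ^ 2 = 1 := by
    induction hx' using Subgroup.closure_induction with
    | mem a ha =>
      refine ⟨Subgroup.subset_closure ha, ?_⟩
      obtain ⟨p, _, q, _, rfl⟩ := ha
      exact comm_sq hT h p.2 q.2
    | one => exact ⟨one_mem _, by simp⟩
    | mul a b _ _ ha hb =>
      refine ⟨mul_mem ha.1 hb.1, ?_⟩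
      have hab : (a : T) * b = b * a := hcent a b (by rw [commutator_def]; exact ha.1)
      have h1 : (((a * b : ↥W)) : T) ^ 2 = (a : T) ^ 2 * (b : T) ^ 2 := by
        simp only [Subgroup.coe_mul, pow_two]
        calc (a : T) * b * (a * b) = a * (b * a) * b := by group
          _ = a * (a * b) * b := by rw [hab]
          _ = a * a * (b * b) := by group
      rw [h1, ha.2, hb.2, one_mul]
    | inv a _ ha =>
      refine ⟨inv_mem ha.1, ?_⟩
      have : (((a⁻¹ : ↥W)) : T) ^ 2 = ((a : T) ^ 2)⁻¹ := by simp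
      rw [this, ha.2, inv_one]
  exact key.2

end Inside

end Cfsg.Agent.Lib.Components.TwoGroup14
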