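import Mathlib
import Cfsg.Agent.Lib.PGroup.FrattiniBasis
import Cfsg.Agent.Lib.Components.TwoGroup14B

set_option autoImplicit false
open scoped commutatorElement

namespace Cfsg.Agent.Lib.Components.TwoGroup14

open Cfsg.Agent.Lib.PGroup

universe u
variable {T : Type u} [Group T] [Finite T]

section Core

variable {W : Subgroup T}

theorem exists_index_two (hT : IsPGroup 2 T) {u : T} (hu : u ∈ W) (huF : u ∉ Fr W) :
    ∃ H : Subgroup T, H ≤ W ∧ Fr W ≤ H ∧ u ∉ H ∧ H.relIndex W = 2 := by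
  haveI : Fact (Nat.Prime 2) := ⟨Nat.prime_two⟩
  have h1 : (⟨u, hu⟩ : W) ∉ frattini ↥W := fun h => huF ⟨_, h, rfl⟩
  rw [FrattiniBasis.mem_frattini_iff] at h1
  push Not at h1
  obtain ⟨M, hM, huM⟩ := h1
  refine ⟨M.map W.subtype, Subgroup.map_subtype_le _, ?_, ?_, ?_⟩
  · exact Subgroup.map_mono (frattini_le_coatom hM)
  · rintro ⟨x, hx, hxe⟩
    have : x = ⟨u, hu⟩ := Subtype.ext hxe
    exact huM (this ▸ hx)
  · have h2 : (M.map W.subtype).subgroupOf W = M := Subgroup.comap_map_eq_self_of_injective W.subtype_injective M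
    rw [Subgroup.relIndex, h2]
    exact FrattiniBasis.coatom_index (hT.to_subgroup W) hM

/-- All conjugates of `H`. -/
def Core (H : Subgroup T) : Subgroup T := ⨅ t : T, H.map (MulAut.conj t).toMonoidHom

omit [Finite T] in
theorem mem_conj_map {H : Subgroup T} {t x : T} :
    x ∈ H.map (MulAut.conj t).toMonoidHom ↔ t⁻¹ * x * t ∈ H := by
  constructor
  · rintro ⟨h, hh, rfl⟩
    have : t⁻¹ * ((MulAut.conj t).toMonoidHom h) * t = h := by
      simp [MulAut.conj_apply]
      group
    rwa [this]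
  · intro h
    refine ⟨_, h, ?_⟩
    simp [MulAut.conj_apply]
    group

omit [Finite T] in
theorem mem_Core {H : Subgroup T} {x : T} : x ∈ Core H ↔ ∀ t : T, t⁻¹ * x * t ∈ H := by
  rw [Core, Subgroup.mem_iInf]
  simp only [mem_conj_map]

omit [Finite T] in
theorem Core_normal (H : Subgroup T) : (Core H).Normal := by
  constructor
  intro x hx g
  rw [mem_Core] at hx ⊢
  intro t
  have := hx (g⁻¹ * t)
  have e : (g⁻¹ * t)⁻¹ * x * (g⁻¹ * t) = t⁻¹ * (g * x * g⁻¹) * t := by group
  rwa [e] at this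

theorem relIndex_conj [hW : W.Normal] (H : Subgroup T) (t : T) :
    (H.map (MulAut.conj t).toMonoidHom).relIndex W = H.relIndex W := by
  have hm : W.map (MulAut.conj t).toMonoidHom = W := by
    ext x
    rw [mem_conj_map]
    constructor
    · intro h
      have := hW.conj_mem _ h t
      have e : t * (t⁻¹ * x * t) * t⁻¹ = x := by group
      rwa [e] at this
    · intro h
      have := hW.conj_mem _ h t⁻¹
      have e : t⁻¹ * x * t⁻¹⁻¹ = t⁻¹ * x * t := by group
      rwa [e] at this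
  conv_lhs => rw [← hm]
  exact Subgroup.relIndex_map_map_of_injective _ _ (MulAut.conj t).injective

/-- Index bound for `Core`. -/
theorem relIndex_core_le [hW : W.Normal] {H : Subgroup T} (hDH : ∀ w ∈ W, ∀ h ∈ H, w * h * w⁻¹ ∈ H) :
    (Core H).relIndex W ≤ H.relIndex W ^ W.index := by
  classical
  letI : Fintype (T ⧸ W) := Fintype.ofFinite _
  have hcore : Core H = ⨅ q : T ⧸ W, H.map (MulAut.conj q.out).toMonoidHom := by
    apply le_antisymm
    · exact le_iInf fun q => iInf_le _ _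
    · refine le_iInf fun t => ?_
      intro x hx
      rw [Subgroup.mem_iInf] at hx
      have h1 := hx (QuotientGroup.mk t)
      rw [mem_conj_map] at h1 ⊢
      obtain ⟨w, hwW, hw⟩ : ∃ w ∈ W, (QuotientGroup.mk t : T ⧸ W).out = t * w := by
        have := QuotientGroup.mk_out_eq_mul W t
        obtain ⟨w, hw⟩ := this
        exact ⟨w, w.2, hw⟩
      rw [hw] at h1
      have h2 := hDH w hwW _ h1
      have e : w * ((t * w)⁻¹ * x * (t * w)) * w⁻¹ = t⁻¹ * x * t := by group
      rwa [e] at h2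
  rw [hcore]
  refine (Subgroup.relIndex_iInf_le _).trans ?_
  simp only [relIndex_conj]
  rw [Finset.prod_const, Finset.card_univ, ← Nat.card_eq_fintype_card]
  rfl

end Core

section X

/-- Subgroups avoiding an element, index at most four. -/
theorem exists_sub {A : Type*} [Group A] [Finite A] (K : Subgroup A) (z : A) (hzK : z ∉ K)
    (hcomm : ∀ a b : A, a * b * a⁻¹ * b⁻¹ ∈ K)
    (hs : ∀ a : A, a ^ 2 ∈ K ∨ a ^ 2 * z⁻¹ ∈ K) :
    ∃ X : Subgroup A, K ≤ X ∧ z ∉ X ∧ X.index ≤ 4 := by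
  classical
  obtain ⟨X, hX⟩ : ∃ X : Subgroup A, Maximal (fun Y : Subgroup A => K ≤ Y ∧ z ∉ Y) X :=
    (Set.toFinite {Y : Subgroup A | K ≤ Y ∧ z ∉ Y}).exists_maximal ⟨K, le_refl _, hzK⟩
  obtain ⟨hKX, hzX⟩ := hX.prop
  refine ⟨X, hKX, hzX, ?_⟩
  have hXn : X.Normal := by
    constructor
    intro x hx g
    have h1 : g * x * g⁻¹ * x⁻¹ ∈ X := hKX (hcomm g x)
    have h2 := X.mul_mem h1 hx
    simpa using h2
  have hcommX : ∀ a b : A, a * b * a⁻¹ * b⁻¹ ∈ X := fun a b => hKX (hcomm a b)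
  -- in the quotient
  let q : A → A ⧸ X := fun a => (QuotientGroup.mk a : A ⧸ X)
  have hqmul : ∀ a b, q (a * b) = q a * q b := fun a b => rfl
  have hq1 : ∀ a, q a = 1 ↔ a ∈ X := fun a => QuotientGroup.eq_one_iff a
  have hqsurj : ∀ s : A ⧸ X, ∃ a, q a = s := fun s => QuotientGroup.mk_surjective s
  have hQc : ∀ s t : A ⧸ X, s * t = t * s := by
    intro s t
    obtain ⟨a, rfl⟩ := hqsurj s
    obtain ⟨b, rfl⟩ := hqsurj t
    have h1 : q (a * b * a⁻¹ * b⁻¹) = 1 := (hq1 _).2 (hcommX a b)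
    have h2 : q a * q b * (q a)⁻¹ * (q b)⁻¹ = 1 := h1
    calc q a * q b = q a * q b * (q a)⁻¹ * (q b)⁻¹ * (q b * q a) := by group
      _ = q b * q a := by rw [h2, one_mul]
  set zb := q z with hzb
  have hzb1 : zb ≠ 1 := fun h => hzX ((hq1 z).1 h)
  have hQs : ∀ s : A ⧸ X, s ^ 2 = 1 ∨ s ^ 2 = zb := by
    intro s
    obtain ⟨a, rfl⟩ := hqsurj s
    rcases hs a with h | h
    · left
      exact (hq1 _).2 (hKX h)
    · right
      have h1 : q (a ^ 2 * z⁻¹) = 1 := (hq1 _).2 (hKX h)
      have h2 : (q a) ^ 2 * zb⁻¹ = 1 := h1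
      exact mul_inv_eq_one.1 h2
  have hzz : zb ^ 2 = 1 := by
    rcases hQs zb with h | h
    · exact h
    · exfalso
      apply hzb1
      have h2 : zb * zb = zb * 1 := by rw [← pow_two, h, mul_one]
      exact mul_left_cancel h2
  have hinv : ∀ s : A ⧸ X, s ^ 2 = 1 → s = 1 ∨ s = zb := by
    intro s hs2
    by_cases hs1 : s = 1
    · exact Or.inl hs1
    right
    obtain ⟨a, rfl⟩ := hqsurj s
    have haX : a ∉ X := fun h => hs1 ((hq1 a).2 h)
    -- the next subgroup
    have ha2 : a ^ 2 ∈ X := (hq1 _).1 hs2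
    have hXlt : X < X ⊔ Subgroup.zpowers a := by
      refine lt_of_le_of_ne le_sup_left ?_
      intro h
      apply haX
      rw [h]
      exact Subgroup.mem_sup_right (Subgroup.mem_zpowers a)
    have hz' : z ∈ X ⊔ Subgroup.zpowers a := by
      by_contra hcon
      have := hX.le_of_ge ⟨hKX.trans le_sup_left, hcon⟩ hXlt.le
      exact absurd this (not_le_of_gt hXlt)
    rw [Subgroup.mem_sup_of_normal_left] at hz'
    obtain ⟨x, hx, y, hy, rfl⟩ := hz'
    obtain ⟨i, rfl⟩ := Subgroup.mem_zpowers_iff.1 hy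
    have hqz : zb = (q a) ^ i := by
      rw [hzb, hqmul, (hq1 x).2 hx, one_mul]
      rfl
    rcases Int.even_or_odd' i with ⟨j, hj | hj⟩
    · exfalso
      apply hzb1
      rw [hqz, hj, zpow_mul]
      have : (q a) ^ (2 : ℤ) = 1 := by exact_mod_cast hs2
      rw [this, one_zpow]
    · rw [hqz, hj, zpow_add, zpow_mul]
      have : (q a) ^ (2 : ℤ) = 1 := by exact_mod_cast hs2
      rw [this, one_zpow, one_mul, zpow_one]
  -- conclude
  rw [Subgroup.index_eq_card]
  haveI : Fintype (A ⧸ X) := Fintype.ofFinite _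
  rw [Nat.card_eq_fintype_card]
  by_cases hall : ∀ s : A ⧸ X, s ^ 2 = 1
  · have hsub : (Finset.univ : Finset (A ⧸ X)) ⊆ {1, zb} := by
      intro s _
      rcases hinv s (hall s) with h | h <;> simp [h]
    have := (Finset.card_le_card hsub).trans Finset.card_le_two
    rw [Finset.card_univ] at this
    omega
  · push Not at hall
    obtain ⟨s₀, hs₀⟩ := hall
    have hs₀z : s₀ ^ 2 = zb := (hQs s₀).resolve_left hs₀
    have hsub : (Finset.univ : Finset (A ⧸ X)) ⊆ {1, zb, s₀⁻¹, zb * s₀⁻¹} := by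
      intro s _
      rcases hQs s with h | h
      · rcases hinv s h with h | h <;> simp [h]
      · have h2 : (s * s₀) ^ 2 = 1 := by
          have : (s * s₀) ^ 2 = s ^ 2 * s₀ ^ 2 := by
            rw [pow_two, pow_two, pow_two]
            calc s * s₀ * (s * s₀) = s * (s₀ * s) * s₀ := by group
              _ = s * (s * s₀) * s₀ := by rw [hQc s₀ s]
              _ = s * s * (s₀ * s₀) := by group
          rw [this, h, hs₀z, ← pow_two, hzz]
        rcases hinv _ h2 with h3 | h3
        · have : s = s₀⁻¹ := eq_inv_of_mul_eq_one_left h3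
          simp [this]
        · have : s = zb * s₀⁻¹ := eq_mul_inv_of_mul_eq h3
          simp [this]
    have := (Finset.card_le_card hsub).trans Finset.card_le_four
    rw [Finset.card_univ] at this
    exact this

end X

end Cfsg.Agent.Lib.Components.TwoGroup14
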