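import Mathlib
import Cfsg.Agent.Lib.PGroup.FrattiniBasis
import Cfsg.Agent.Lib.Components.TwoGroup14C

set_option autoImplicit false
open scoped commutatorElement

namespace Cfsg.Agent.Lib.Components.TwoGroup14

open Cfsg.Agent.Lib.PGroup

universe u
variable {T : Type u} [Group T] [Finite T]

section Num

variable {W : Subgroup T}

theorem core_eq (hT : IsPGroup 2 T) {k : ℕ} (hk : Nat.card (Zs T (k + 1)) = 2 * Nat.card (Zs T k))
    (hF : Fr W = Zs T k) {H : Subgroup T} (hFH : Fr W ≤ H) {u : T} (hu : u ∈ Zs T (k + 1))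
    (huk : u ∉ Zs T k) (huH : u ∉ H) : Core H = Zs T k := by
  haveI : Fact (Nat.Prime 2) := ⟨Nat.prime_two⟩
  have : Group.IsNilpotent T := hT.isNilpotent
  haveI := Core_normal H
  apply le_antisymm
  · by_contra hcon
    obtain ⟨n, hnC, hnk, hnk'⟩ := exists_mem_succ (Core H) k hcon
    have h1 : u * n ∈ Zs T k :=
      (mul_mem_of_two (Zs_le (Nat.le_succ k)) hk hu hnk').2 (by tauto)
    have hnH : n ∈ H := by
      have := (mem_Core.1 hnC) 1
      simpa using this
    have h2 : u * n ∈ H := hFH (hF ▸ h1)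
    have h3 := H.mul_mem h2 (H.inv_mem hnH)
    apply huH
    simpa using h3
  · intro x hx
    rw [mem_Core]
    intro t
    apply hFH
    rw [hF]
    have := (inferInstance : (Zs T k).Normal).conj_mem x hx t⁻¹
    simpa using this

/-- Main numerical conclusion. -/
structure Num (W : Subgroup T) : Prop where
  cT : Nat.card T = 2 ^ 14
  iW : W.index = 8
  cF : Nat.card (Fr W) = 8
  eF : Fr W = Zs T 3
  iF : (Fr W).relIndex W = 2 ^ 8
  cW : Nat.card W = 2 ^ 11

theorem Z4_le_W (hT : IsPGroup 2 T) (hc : CardZ T) [hWn : W.Normal] (hW : 8 < Nat.card W) :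
    Zs T 4 ≤ W := by
  rcases normal_chain hT hc W with h | h | h | h | h
  · rw [h, hc.c0] at hW; omega
  · rw [h, hc.c1] at hW; omega
  · rw [h, hc.c2] at hW; omega
  · rw [h, hc.c3] at hW; omega
  · exact h

theorem num_of (hT : IsPGroup 2 T) (ha : 2 ^ 14 ≤ Nat.card T) (hb : Nat.card (Zs T 4) = 16)
    (hW : W = Subgroup.centralizer ((Zs T 3 : Subgroup T) : Set T)) (h : FrHyp W) : Num W := by
  classical
  haveI : Fact (Nat.Prime 2) := ⟨Nat.prime_two⟩
  have hc : CardZ T := cardZ_of hT (by omega) hb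
  obtain ⟨E⟩ := exists_eBasis hc
  have hi : W.index ≤ 8 := index_W_le hc E W hW
  haveI hWn : W.Normal := by rw [hW]; infer_instance
  have hcT : Nat.card W * W.index = Nat.card T := Subgroup.card_mul_index W
  have hipos : 0 < W.index := Nat.pos_of_ne_zero Subgroup.index_ne_zero_of_finite
  have hcW : 2 ^ 11 ≤ Nat.card W := by
    by_contra hcon
    push Not at hcon
    have : Nat.card W * W.index ≤ (2 ^ 11 - 1) * 8 := Nat.mul_le_mul (by omega) hi
    omega
  have hZW : Zs T 4 ≤ W := Z4_le_W hT hc (by omega)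
  have hFc : Nat.card (Fr W) ≤ 8 := by rw [card_Fr]; exact h.hc
  haveI hFn : (Fr W).Normal := inferInstance
  have hcases : ∃ k, Nat.card (Zs T (k + 1)) = 2 * Nat.card (Zs T k) ∧ Fr W = Zs T k ∧ k + 1 ≤ 4 := by
    rcases normal_chain hT hc (Fr W) with h0 | h0 | h0 | h0 | h0
    · exact ⟨0, by rw [hc.c0, hc.c1], h0, by norm_num⟩
    · exact ⟨1, by rw [hc.c1, hc.c2], h0, by norm_num⟩
    · exact ⟨2, by rw [hc.c2, hc.c3], h0, by norm_num⟩
    · exact ⟨3, by rw [hc.c3, hc.c4], h0, by norm_num⟩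
    · exfalso
      have := Subgroup.card_le_of_le h0
      rw [hc.c4] at this
      omega
  obtain ⟨k, hk, hFk, hk4⟩ := hcases
  obtain ⟨u, hu, huk⟩ := exists_not_mem_of_card_lt (A := Zs T k) (B := Zs T (k + 1)) (by
    have : 0 < Nat.card (Zs T k) := Nat.card_pos
    rw [hk]; omega)
  have huW : u ∈ W := hZW (Zs_le hk4 hu)
  obtain ⟨H, hHW, hFH, huH, hH2⟩ := exists_index_two hT huW (by rw [hFk]; exact huk)
  have hDH : ∀ w ∈ W, ∀ x ∈ H, w * x * w⁻¹ ∈ H := by
    intro w hw x hx
    have h1 : w * x * w⁻¹ * x⁻¹ ∈ H := hFH (dc_le_fr hT (mem_Dc_of hw (hHW hx)))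
    have h2 := H.mul_mem h1 hx
    simpa using h2
  have hcore := core_eq hT hk hFk hFH hu huk huH
  have hb2 : (Fr W).relIndex W ≤ 2 ^ W.index := by
    have := relIndex_core_le (W := W) hDH
    rwa [hcore, ← hFk, hH2] at this
  have hb3 : (Fr W).relIndex W ≤ 2 ^ 8 := hb2.trans (Nat.pow_le_pow_right (by norm_num) hi)
  have hFW : Fr W ≤ W := fr_le_W
  have hrel : (Fr W).relIndex W * Nat.card (Fr W) = Nat.card W := by
    have h1 := Subgroup.card_mul_index ((Fr W).subgroupOf W)
    have h2 : Nat.card ((Fr W).subgroupOf W) = Nat.card (Fr W) :=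
      Nat.card_congr (Subgroup.subgroupOfEquivOfLe hFW).toEquiv
    rw [h2] at h1
    rw [Subgroup.relIndex, mul_comm, h1]
  have hT2 : W.index * ((Fr W).relIndex W * Nat.card (Fr W)) = Nat.card T := by
    rw [hrel, mul_comm, hcT]
  set a := W.index with hadef
  set b := (Fr W).relIndex W with hbdef
  set c := Nat.card (Fr W) with hcdef
  have hupper : a * (b * c) ≤ 8 * (2 ^ 8 * 8) := Nat.mul_le_mul hi (Nat.mul_le_mul hb3 hFc)
  have hcTe : Nat.card T = 2 ^ 14 := by
    apply le_antisymm _ ha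
    rw [← hT2]
    exact hupper.trans (by norm_num)
  have ha8 : a = 8 := by
    by_contra hcon
    have : a ≤ 7 := by omega
    have h3 : a * (b * c) ≤ 7 * (2 ^ 8 * 8) := Nat.mul_le_mul this (Nat.mul_le_mul hb3 hFc)
    rw [hT2, hcTe] at h3
    omega
  have hb8 : b = 2 ^ 8 := by
    by_contra hcon
    have : b ≤ 2 ^ 8 - 1 := by omega
    have h3 : a * (b * c) ≤ 8 * ((2 ^ 8 - 1) * 8) := Nat.mul_le_mul hi (Nat.mul_le_mul this hFc)
    rw [hT2, hcTe] at h3
    omega
  have hc8 : c = 8 := by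
    by_contra hcon
    have : c ≤ 7 := by omega
    have h3 : a * (b * c) ≤ 8 * (2 ^ 8 * 7) := Nat.mul_le_mul hi (Nat.mul_le_mul hb3 this)
    rw [hT2, hcTe] at h3
    omega
  have hF3 : Fr W = Zs T 3 := by
    rcases normal_chain hT hc (Fr W) with h0 | h0 | h0 | h0 | h0
    · rw [h0, hc.c0] at hcdef; omega
    · rw [h0, hc.c1] at hcdef; omega
    · rw [h0, hc.c2] at hcdef; omega
    · exact h0
    · have := Subgroup.card_le_of_le h0
      rw [hc.c4] at this
      omega
  refine ⟨hcTe, ha8, hc8, hF3, hb8, ?_⟩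
  rw [← hrel, hb8, hc8]
  norm_num

omit [Finite T] in
theorem mul_inv_mem_of_two {A B : Subgroup T} [Finite B] (hAB : A ≤ B) (hc : Nat.card B = 2 * Nat.card A)
    {x y : T} (hx : x ∈ B) (hy : y ∈ B) (hxA : x ∉ A) (hyA : y ∉ A) : x * y⁻¹ ∈ A := by
  have hidx : (A.subgroupOf B).index = 2 := by
    have h1 := Subgroup.card_mul_index (A.subgroupOf B)
    have h2 : Nat.card (A.subgroupOf B) = Nat.card A :=
      Nat.card_congr (Subgroup.subgroupOfEquivOfLe hAB).toEquiv
    rw [h2, hc] at h1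
    have : Finite A := Finite.of_injective (Subgroup.inclusion hAB) (Subgroup.inclusion_injective hAB)
    have h3 : 0 < Nat.card A := Nat.card_pos
    have h4 : Nat.card A * (A.subgroupOf B).index = Nat.card A * 2 := by rw [h1, mul_comm]
    exact Nat.eq_of_mul_eq_mul_left h3 h4
  have := Subgroup.mul_mem_iff_of_index_two hidx (a := ⟨x, hx⟩) (b := ⟨y⁻¹, B.inv_mem hy⟩)
  have h2 := this.2 (by
    simp only [Subgroup.mem_subgroupOf]
    constructor
    · intro h; exact absurd h hxA
    · intro h; exact absurd (A.inv_mem_iff.1 h) hyA)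
  simpa [Subgroup.mem_subgroupOf] using h2

/-- The derived subgroup equals `Z₃`. -/
theorem dc_eq (hT : IsPGroup 2 T) (hc : CardZ T) (E : EBasis T) (h : FrHyp W) (hN : Num W)
    [hWn : W.Normal] : Dc W = Zs T 3 := by
  haveI hDn : (Dc W).Normal := inferInstance
  have hle : Dc W ≤ Zs T 3 := hN.eF ▸ dc_le_fr hT
  have hZW : Zs T 3 ≤ W := by
    have : Zs T 4 ≤ W := Z4_le_W hT hc (by rw [hN.cW]; norm_num)
    exact (Zs_le (by norm_num)).trans this
  have key : ¬ Dc W ≤ Zs T 2 := by
    intro hle2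
    have he3W : E.e3 ∈ W := hZW E.h3
    obtain ⟨X, hKX, hzX, hXi⟩ := exists_sub (A := ↥W) ((Zs T 2).subgroupOf W) ⟨E.e3, he3W⟩
      (by rw [Subgroup.mem_subgroupOf]; exact E.h3')
      (by
        intro a b
        rw [Subgroup.mem_subgroupOf]
        exact hle2 (mem_Dc_of a.2 b.2))
      (by
        intro a
        have h1 : (a : T) ^ 2 ∈ Zs T 3 := by
          rw [← hN.eF]; exact sq_mem_fr hT a.2
        by_cases h2 : (a : T) ^ 2 ∈ Zs T 2
        · left
          rw [Subgroup.mem_subgroupOf]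
          exact_mod_cast h2
        · right
          rw [Subgroup.mem_subgroupOf]
          have := mul_inv_mem_of_two (A := Zs T 2) (B := Zs T 3) (Zs_le (by norm_num))
            (by rw [hc.c2, hc.c3]) h1 E.h3 h2 E.h3'
          simpa using this)
    have := h.hd X (by omega)
    apply hzX
    apply this
    have h2 : E.e3 ∈ Fr W := hN.eF ▸ E.h3
    obtain ⟨y, hy, hye⟩ := h2
    have : y = ⟨E.e3, he3W⟩ := Subtype.ext hye
    exact this ▸ hy
  rcases normal_chain hT hc (Dc W) with h0 | h0 | h0 | h0 | h0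
  · exact absurd (h0.le.trans (Zs_le (by norm_num))) key
  · exact absurd (h0.le.trans (Zs_le (by norm_num))) key
  · exact absurd h0.le key
  · exact h0
  · have h1 := Subgroup.card_le_of_le (h0.trans hle)
    rw [hc.c3, hc.c4] at h1
    omega

end Num

end Cfsg.Agent.Lib.Components.TwoGroup14
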