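import Mathlib
import Cfsg.Agent.Lib.PGroup.FrattiniBasis
import Cfsg.Agent.Lib.Components.TwoGroup14D

set_option autoImplicit false
open scoped commutatorElement

namespace Cfsg.Agent.Lib.Components.TwoGroup14

open Cfsg.Agent.Lib.PGroup

universe u
variable {T : Type u} [Group T] [Finite T]

/-- The context of the final step. -/
structure Ctx (W : Subgroup T) : Prop where
  hT : IsPGroup 2 T
  hc : CardZ T
  hW : W = Subgroup.centralizer ((Zs T 3 : Subgroup T) : Set T)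
  h : FrHyp W
  hN : Num W
  hD : Dc W = Zs T 3

section Beta

variable {W : Subgroup T} (C : Ctx W)

include C

theorem Ctx.normal : W.Normal := by rw [C.hW]; infer_instance

theorem Ctx.Z4W : Zs T 4 ≤ W := by
  haveI := C.normal
  exact Z4_le_W C.hT C.hc (by rw [C.hN.cW]; norm_num)

theorem Ctx.Z3W : Zs T 3 ≤ W := (Zs_le (by norm_num)).trans C.Z4W

theorem Ctx.Z2Z3 : Zs T 2 ≤ Zs T 3 := Zs_le (by norm_num)

theorem Ctx.central {z x : T} (hz : z ∈ Zs T 3) (hx : x ∈ W) : z * x = x * z :=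
  fr_central C.hT C.h (C.hN.eF ▸ hz) hx

theorem Ctx.sq {z : T} (hz : z ∈ Zs T 3) : z ^ 2 = 1 := dc_sq C.hT C.h (C.hD ▸ hz)

theorem Ctx.comm {x y : T} (hx : x ∈ W) (hy : y ∈ W) : x * y * x⁻¹ * y⁻¹ ∈ Zs T 3 :=
  C.hD ▸ mem_Dc_of hx hy

theorem Ctx.sqW {x : T} (hx : x ∈ W) : x ^ 2 ∈ Zs T 3 := C.hN.eF ▸ sq_mem_fr C.hT hx

theorem Ctx.conjW {t x : T} (hx : x ∈ W) : t * x * t⁻¹ ∈ W := by
  haveI := C.normal
  exact (inferInstance : W.Normal).conj_mem x hx t

omit C in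
/-- Class function. -/
noncomputable def chi (z : T) : ZMod 2 := by
  classical exact if z ∈ Zs T 2 then 0 else 1

omit C in
theorem chi_eq_zero {z : T} : chi z = 0 ↔ z ∈ Zs T 2 := by
  unfold chi
  by_cases h : z ∈ Zs T 2 <;> simp [h]

omit C in
theorem chi_of_mem {z : T} (h : z ∈ Zs T 2) : chi z = 0 := chi_eq_zero.2 h

omit C in
theorem chi_of_not_mem {z : T} (h : z ∉ Zs T 2) : chi z = 1 := by
  unfold chi
  simp [h]

theorem chi_mul {a b : T} (ha : a ∈ Zs T 3) (hb : b ∈ Zs T 3) : chi (a * b) = chi a + chi b := by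
  have hm := mul_mem_of_two (A := Zs T 2) (B := Zs T 3) C.Z2Z3
    (by rw [C.hc.c2, C.hc.c3]) ha hb
  by_cases h1 : a ∈ Zs T 2 <;> by_cases h2 : b ∈ Zs T 2
  · rw [chi_of_mem h1, chi_of_mem h2, chi_of_mem (hm.2 (by tauto))]; rfl
  · rw [chi_of_mem h1, chi_of_not_mem h2, chi_of_not_mem (fun h => (by have := hm.1 h; tauto))]; rfl
  · rw [chi_of_not_mem h1, chi_of_mem h2, chi_of_not_mem (fun h => (by have := hm.1 h; tauto))]; rfl
  · rw [chi_of_not_mem h1, chi_of_not_mem h2, chi_of_mem (hm.2 (by tauto))]; rfl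

omit C in
theorem chi_inv (a : T) : chi a⁻¹ = chi a := by
  by_cases h : a ∈ Zs T 2
  · rw [chi_of_mem h, chi_of_mem ((Zs T 2).inv_mem h)]
  · rw [chi_of_not_mem h, chi_of_not_mem (fun h' => h ((Zs T 2).inv_mem_iff.1 h'))]

omit C in
theorem chi_conj (g a : T) : chi (g * a * g⁻¹) = chi a := by
  by_cases h : a ∈ Zs T 2
  · rw [chi_of_mem h, chi_of_mem ((inferInstance : (Zs T 2).Normal).conj_mem a h g)]
  · rw [chi_of_not_mem h, chi_of_not_mem (fun h' => h (by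
      have := (inferInstance : (Zs T 2).Normal).conj_mem _ h' g⁻¹
      simpa [mul_assoc] using this))]

omit C in
/-- The commutator form. -/
noncomputable def beta (x y : T) : ZMod 2 := chi (x * y * x⁻¹ * y⁻¹)

theorem beta_mul_right {x y y' : T} (hx : x ∈ W) (hy : y ∈ W) (hy' : y' ∈ W) :
    beta x (y * y') = beta x y + beta x y' := by
  unfold beta
  rw [← chi_mul C (C.comm hx hy) (C.comm hx hy')]
  congr 1
  have hc := C.central (C.comm hx hy') ((W.inv_mem hy))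
  calc x * (y * y') * x⁻¹ * (y * y')⁻¹
      = x * y * x⁻¹ * (x * y' * x⁻¹ * y'⁻¹) * y⁻¹ := by group
    _ = x * y * x⁻¹ * ((x * y' * x⁻¹ * y'⁻¹) * y⁻¹) := by group
    _ = x * y * x⁻¹ * (y⁻¹ * (x * y' * x⁻¹ * y'⁻¹)) := by rw [hc]
    _ = x * y * x⁻¹ * y⁻¹ * (x * y' * x⁻¹ * y'⁻¹) := by group

omit C in
theorem beta_comm (x y : T) : beta x y = beta y x := by
  unfold beta
  rw [← chi_inv (y * x * y⁻¹ * x⁻¹)]
  congr 1
  group

omit C in
theorem beta_self (x : T) : beta x x = 0 := by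
  unfold beta
  apply chi_of_mem
  have : x * x * x⁻¹ * x⁻¹ = 1 := by group
  rw [this]
  exact one_mem _

theorem beta_mul_left {x x' y : T} (hx : x ∈ W) (hx' : x' ∈ W) (hy : y ∈ W) :
    beta (x * x') y = beta x y + beta x' y := by
  rw [beta_comm, beta_mul_right C hy hx hx', beta_comm y x, beta_comm y x']

omit C in
theorem beta_conj (g x y : T) : beta (g * x * g⁻¹) (g * y * g⁻¹) = beta x y := by
  unfold beta
  rw [← chi_conj g (x * y * x⁻¹ * y⁻¹)]
  congr 1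
  group

theorem beta_central {x z : T} (hx : x ∈ W) (hz : z ∈ Zs T 3) : beta x z = 0 := by
  unfold beta
  apply chi_of_mem
  have h := C.central hz hx
  have : x * z * x⁻¹ * z⁻¹ = 1 := by rw [← h]; group
  rw [this]
  exact one_mem _

omit C in
theorem zmod2_add_self (a : ZMod 2) : a + a = 0 := by
  revert a; decide

omit C in
theorem zmod2_eq_of_add (a b : ZMod 2) (h : a + b = 0) : a = b := by
  revert a b; decide

theorem beta_inv_right {x y : T} (hx : x ∈ W) (hy : y ∈ W) : beta x y⁻¹ = beta x y := by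
  have h1 := beta_mul_right C hx (W.inv_mem hy) hy
  rw [inv_mul_cancel] at h1
  have h2 : beta x (1 : T) = 0 := beta_central C hx (one_mem _)
  rw [h2] at h1
  exact zmod2_eq_of_add _ _ h1.symm

theorem beta_inv_left {x y : T} (hx : x ∈ W) (hy : y ∈ W) : beta x⁻¹ y = beta x y := by
  rw [beta_comm, beta_inv_right C hy hx, beta_comm]

theorem beta_mul_central {x y z : T} (hx : x ∈ W) (hy : y ∈ W) (hz : z ∈ Zs T 3) :
    beta x (y * z) = beta x y := by
  rw [beta_mul_right C hx hy (C.Z3W hz), beta_central C hx hz, add_zero]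

/-- Conjugating by an element of `W` changes by a central element. -/
theorem conj_W_eq {w x : T} (hw : w ∈ W) (hx : x ∈ W) : ∃ z ∈ Zs T 3, w * x * w⁻¹ = x * z := by
  refine ⟨x⁻¹ * (w * x * w⁻¹), ?_, by group⟩
  have h1 := C.comm hw hx
  have h2 := (C.central h1 (W.inv_mem hx))
  have h4 : x⁻¹ * (w * x * w⁻¹) = x⁻¹ * (w * x * w⁻¹ * x⁻¹) * x := by group
  rw [h4, ← h2]
  have h5 : w * x * w⁻¹ * x⁻¹ * x⁻¹ * x = w * x * w⁻¹ * x⁻¹ * (x⁻¹ * x) := by group
  rw [h5, inv_mul_cancel, mul_one]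
  exact h1

/-- The centralizer of `Z₂`. -/
def A1 (T : Type u) [Group T] : Subgroup T := Subgroup.centralizer ((Zs T 2 : Subgroup T) : Set T)

omit C in
theorem mem_A1 {k : T} : k ∈ A1 T ↔ ∀ z ∈ Zs T 2, z * k = k * z := by
  rw [A1, Subgroup.mem_centralizer_iff]
  rfl

theorem W_le_A1 : W ≤ A1 T := by
  intro w hw
  rw [mem_A1]
  intro z hz
  exact C.central (C.Z2Z3 hz) hw

omit C in
theorem A1_normal : (A1 T).Normal := by
  unfold A1
  infer_instance

theorem A1_conj {k : T} (hk : k ∈ A1 T) {z : T} (hz : z ∈ Zs T 2) : k * z * k⁻¹ = z := by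
  rw [mem_A1] at hk
  rw [← hk z hz]
  group

/-- Squares of elements of `A₁` lie in `W`. -/
theorem sq_A1 {k : T} (hk : k ∈ A1 T) : k * k ∈ W := by
  rw [C.hW, Subgroup.mem_centralizer_iff]
  intro z hz
  have hz' : z ∈ Zs T 3 := hz
  -- k z k⁻¹ = f z with f in Z₂
  obtain ⟨f, hfd⟩ : ∃ f, f = k * z * k⁻¹ * z⁻¹ := ⟨_, rfl⟩
  have hf : f ∈ Zs T 2 := hfd ▸ Zs_conj_mul_inv hz' k
  have h1 : k * z * k⁻¹ = f * z := by rw [hfd]; group
  have h2 : k * f * k⁻¹ = f := A1_conj C hk hf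
  have hfz : f ^ 2 = 1 := C.sq (C.Z2Z3 hf)
  have h3 : (k * k) * z * (k * k)⁻¹ = z := by
    calc (k * k) * z * (k * k)⁻¹ = k * (k * z * k⁻¹) * k⁻¹ := by group
      _ = k * (f * z) * k⁻¹ := by rw [h1]
      _ = (k * f * k⁻¹) * (k * z * k⁻¹) := by group
      _ = f * (f * z) := by rw [h2, h1]
      _ = f ^ 2 * z := by rw [pow_two, mul_assoc]
      _ = z := by rw [hfz, one_mul]
  calc z * (k * k) = (k * k) * ((k * k)⁻¹ * z * (k * k)) := by group
    _ = (k * k) * z := by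
      have h4 : (k * k)⁻¹ * z * (k * k) = z := by
        conv_lhs => rw [← h3]
        group
      rw [h4]

/-- `β(x, xᵏ) = 0` for `k ∈ A₁`. -/
theorem beta_A1 {x k : T} (hx : x ∈ W) (hk : k ∈ A1 T) : beta x (k * x * k⁻¹) = 0 := by
  unfold beta
  apply chi_of_mem
  set y := k * x * k⁻¹ with hy
  have hyW : y ∈ W := C.conjW hx
  set c := x * y * x⁻¹ * y⁻¹ with hc
  have hcZ : c ∈ Zs T 3 := C.comm hx hyW
  by_contra hcon
  have hk2 := sq_A1 C hk
  obtain ⟨z₁, hz₁, hkk⟩ := conj_W_eq C hk2 hx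
  have hckk : k * c * k⁻¹ = c := by
    have e1 : k * y * k⁻¹ = x * z₁ := by
      rw [hy, ← hkk]; group
    have hz₁x := C.central hz₁ hx
    have hz₁y := C.central hz₁ hyW
    have e2 : k * c * k⁻¹ = y * (x * z₁) * y⁻¹ * (x * z₁)⁻¹ := by
      rw [← e1, hc, hy]; group
    have e3 : y * (x * z₁) * y⁻¹ * (x * z₁)⁻¹ = y * x * y⁻¹ * x⁻¹ := by
      have : y * (x * z₁) * y⁻¹ * (x * z₁)⁻¹ = y * x * (z₁ * y⁻¹) * (z₁⁻¹ * x⁻¹) := by group
      rw [this]
      have h6 : z₁ * y⁻¹ = y⁻¹ * z₁ := C.central hz₁ (W.inv_mem hyW)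
      rw [h6]
      group
    have e4 : y * x * y⁻¹ * x⁻¹ = c⁻¹ := by rw [hc]; group
    have e5 : c⁻¹ = c := by
      have := C.sq hcZ
      rw [pow_two] at this
      exact inv_eq_of_mul_eq_one_left this
    rw [e2, e3, e4, e5]
  -- `k` centralizes `Z₃`
  have hkW : k ∈ W := by
    rw [C.hW, Subgroup.mem_centralizer_iff]
    intro z hz
    have hz' : z ∈ Zs T 3 := hz
    by_cases hz2 : z ∈ Zs T 2
    · exact (mem_A1.1 hk) z hz2
    · have h1 : z * c⁻¹ ∈ Zs T 2 := mul_inv_mem_of_two C.Z2Z3 (by rw [C.hc.c2, C.hc.c3]) hz' hcZ hz2 hcon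
      have h2 := (mem_A1.1 hk) _ h1
      have h3 : z = (z * c⁻¹) * c := by group
      have h4 : c * k = k * c := by
        calc c * k = (k * c * k⁻¹) * k := by rw [hckk]
          _ = k * c := by group
      calc z * k = (z * c⁻¹) * (c * k) := by group
        _ = (z * c⁻¹) * (k * c) := by rw [h4]
        _ = ((z * c⁻¹) * k) * c := by group
        _ = (k * (z * c⁻¹)) * c := by rw [h2]
        _ = k * z := by group
  apply hcon
  obtain ⟨z₂, hz₂, hkx⟩ := conj_W_eq C hkW hx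
  have hz₂x := C.central hz₂ hx
  have : c = 1 := by
    rw [hc, hy, hkx]
    calc x * (x * z₂) * x⁻¹ * (x * z₂)⁻¹ = x * x * (z₂ * x⁻¹) * z₂⁻¹ * x⁻¹ := by group
      _ = x * x * (x⁻¹ * z₂) * z₂⁻¹ * x⁻¹ := by rw [C.central hz₂ (W.inv_mem hx)]
      _ = 1 := by group
  rw [this]
  exact one_mem _

end Beta

end Cfsg.Agent.Lib.Components.TwoGroup14
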