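import Mathlib
import Cfsg.Agent.Lib.PGroup.FrattiniBasis
import Cfsg.Agent.Lib.Components.TwoGroup14F

set_option autoImplicit false
open scoped commutatorElement

namespace Cfsg.Agent.Lib.Components.TwoGroup14

open Cfsg.Agent.Lib.PGroup

universe u
variable {T : Type u} [Group T] [Finite T]

/-- The data attached to the chosen hyperplane. -/
structure GenData (W H : Subgroup T) (e : T) : Prop where
  hHW : H ≤ W
  hFH : Fr W ≤ H
  hH2 : H.relIndex W = 2
  hDH : ∀ w ∈ W, ∀ x ∈ H, w * x * w⁻¹ ∈ H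
  he : e ∈ W
  heH : e ∉ H
  he' : ∀ t, t ∉ W → t⁻¹ * e * t ∈ H
  hcore : Core H = Zs T 3

section Gen

variable {W : Subgroup T} (C : Ctx W)

include C in
theorem exists_gen {u : T} (hu : u ∈ Zs T 4) (hu3 : u ∉ Zs T 3) :
    ∃ H e, GenData W H e ∧ u ∉ H := by
  classical
  haveI hWn := C.normal
  letI : Fintype (T ⧸ W) := Fintype.ofFinite _
  have huF : u ∉ Fr W := by rw [C.hN.eF]; exact hu3
  obtain ⟨H, hHW, hFH, huH, hH2⟩ := exists_index_two C.hT (C.Z4W hu) huF
  have hDH : ∀ w ∈ W, ∀ x ∈ H, w * x * w⁻¹ ∈ H := by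
    intro w hw x hx
    have h1 : w * x * w⁻¹ * x⁻¹ ∈ H := hFH (dc_le_fr C.hT (mem_Dc_of hw (hHW hx)))
    have h2 := H.mul_mem h1 hx
    simpa using h2
  have hcore : Core H = Zs T 3 := core_eq C.hT (by rw [C.hc.c3, C.hc.c4]) C.hN.eF hFH hu hu3 huH
  let ι := {q : T ⧸ W // q ≠ 1}
  let N₀ : Subgroup T := ⨅ i : ι, H.map (MulAut.conj (i.1.out)).toMonoidHom
  have hcardQ : Fintype.card (T ⧸ W) = 8 := by
    rw [← Nat.card_eq_fintype_card]
    exact C.hN.iW
  have hcardι : Fintype.card ι = 7 := by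
    have := Set.card_ne_eq (1 : T ⧸ W)
    simp only [hcardQ] at this
    exact this
  have hrep : ∀ (t : T) (x : T), (QuotientGroup.mk t : T ⧸ W).out⁻¹ * x * (QuotientGroup.mk t : T ⧸ W).out ∈ H →
      t⁻¹ * x * t ∈ H := by
    intro t x hx
    obtain ⟨w, hw⟩ := QuotientGroup.mk_out_eq_mul W t
    rw [hw] at hx
    have h2 := hDH w w.2 _ hx
    have e1 : (w : T) * ((t * w)⁻¹ * x * (t * w)) * (w : T)⁻¹ = t⁻¹ * x * t := by group
    rwa [e1] at h2
  have hN₀le : N₀.relIndex W ≤ 2 ^ 7 := by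
    refine (Subgroup.relIndex_iInf_le _).trans ?_
    simp only [relIndex_conj, hH2]
    rw [Finset.prod_const, Finset.card_univ, hcardι]
  have hnot : ¬ N₀ ≤ H := by
    intro hle
    have h1 : N₀ ≤ Fr W := by
      rw [C.hN.eF, ← hcore]
      intro x hx
      rw [mem_Core]
      intro t
      by_cases ht : (QuotientGroup.mk t : T ⧸ W) = 1
      · have htW : t ∈ W := (QuotientGroup.eq_one_iff t).1 ht
        have := hDH t⁻¹ (W.inv_mem htW) x (hle hx)
        simpa using this
      · apply hrep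
        have h2 := (Subgroup.mem_iInf.1 hx) ⟨_, ht⟩
        exact mem_conj_map.1 h2
    have h2 : (Fr W).relIndex W ∣ N₀.relIndex W := Subgroup.relIndex_dvd_of_le_left _ h1
    rw [C.hN.iF] at h2
    have h3 : N₀.relIndex W ≠ 0 := Subgroup.index_ne_zero_of_finite
    have h4 := Nat.le_of_dvd (Nat.pos_of_ne_zero h3) h2
    omega
  obtain ⟨e, heN, heH⟩ := SetLike.not_le_iff_exists.1 hnot
  have hQ : ∀ t, t ∉ W → t⁻¹ * e * t ∈ H := by
    intro t ht
    have ht1 : (QuotientGroup.mk t : T ⧸ W) ≠ 1 := fun h => ht ((QuotientGroup.eq_one_iff t).1 h)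
    apply hrep
    exact mem_conj_map.1 ((Subgroup.mem_iInf.1 heN) ⟨_, ht1⟩)
  have heW : e ∈ W := by
    -- pick any element outside `W`
    obtain ⟨t, ht⟩ : ∃ t : T, t ∉ W := by
      by_contra hcon
      push Not at hcon
      have h5 : W = ⊤ := eq_top_iff.2 fun x _ => hcon x
      have h6 := C.hN.iW
      rw [h5, Subgroup.index_top] at h6
      omega
    have h7 := hHW (hQ t ht)
    have h8 := hWn.conj_mem _ h7 t
    have e1 : t * (t⁻¹ * e * t) * t⁻¹ = e := by group
    rwa [e1] at h8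
  exact ⟨H, e, ⟨hHW, hFH, hH2, hDH, heW, heH, hQ, hcore⟩, huH⟩

end Gen

section Bad

variable {W H : Subgroup T} {e : T} (C : Ctx W) (G : GenData W H e)

include G in
omit [Finite T] in
theorem GenData.conj_iff {w y : T} (hw : w ∈ W) : w⁻¹ * y * w ∈ H ↔ y ∈ H := by
  constructor
  · intro h
    have := G.hDH w hw _ h
    have e1 : w * (w⁻¹ * y * w) * w⁻¹ = y := by group
    rwa [e1] at this
  · intro h
    have := G.hDH w⁻¹ (W.inv_mem hw) _ h
    have e1 : w⁻¹ * y * w⁻¹⁻¹ = w⁻¹ * y * w := by group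
    rwa [e1] at this

include G in
omit [Finite T] in
theorem GenData.rep_iff (t x : T) (q : T ⧸ W) (hq : q = QuotientGroup.mk t) :
    q.out⁻¹ * x * q.out ∈ H ↔ t⁻¹ * x * t ∈ H := by
  subst hq
  obtain ⟨w, hw⟩ := QuotientGroup.mk_out_eq_mul W t
  rw [hw]
  have e1 : (t * (w : T))⁻¹ * x * (t * w) = (w : T)⁻¹ * (t⁻¹ * x * t) * w := by group
  rw [e1]
  exact G.conj_iff w.2

include G in
omit [Finite T] in
theorem GenData.ec_mem (t c : T) : t⁻¹ * (c * e * c⁻¹) * t ∈ H ↔ c⁻¹ * t ∉ W := by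
  have e1 : t⁻¹ * (c * e * c⁻¹) * t = (c⁻¹ * t)⁻¹ * e * (c⁻¹ * t) := by group
  rw [e1]
  constructor
  · intro h hw
    exact G.heH ((G.conj_iff hw).1 h)
  · intro h
    exact G.he' _ h

include C G in
theorem GenData.mul_iff {x y : T} (hx : x ∈ W) (hy : y ∈ W) : x * y ∈ H ↔ (x ∈ H ↔ y ∈ H) := by
  have := Subgroup.mul_mem_iff_of_index_two (H := H.subgroupOf W) G.hH2 (a := ⟨x, hx⟩) (b := ⟨y, hy⟩)
  simpa [Subgroup.mem_subgroupOf] using this

variable [Fintype (T ⧸ W)]

open scoped Classical in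
/-- The coordinates of `x` which are not zero. -/
noncomputable def bad (W H : Subgroup T) [Fintype (T ⧸ W)] (x : T) : Finset (T ⧸ W) :=
  Finset.univ.filter fun q => q.out⁻¹ * x * q.out ∉ H

omit [Finite T] in
theorem mem_bad {x : T} {q : T ⧸ W} : q ∈ bad W H x ↔ q.out⁻¹ * x * q.out ∉ H := by
  simp [bad]

include C G in
open scoped Classical in
theorem bad_step {x : T} (hx : x ∈ W) {q : T ⧸ W} (hq : q ∈ bad W H x) :
    bad W H (x * (q.out * e * q.out⁻¹)) = (bad W H x).erase q := by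
  classical
  haveI hWn := C.normal
  ext q'
  rw [Finset.mem_erase, mem_bad, mem_bad]
  have e1 : q'.out⁻¹ * (x * (q.out * e * q.out⁻¹)) * q'.out =
      (q'.out⁻¹ * x * q'.out) * (q'.out⁻¹ * (q.out * e * q.out⁻¹) * q'.out) := by group
  have h1 : q'.out⁻¹ * x * q'.out ∈ W := by
    have := hWn.conj_mem x hx q'.out⁻¹
    simpa using this
  have h2 : q'.out⁻¹ * (q.out * e * q.out⁻¹) * q'.out ∈ W := by
    have := hWn.conj_mem (q.out * e * q.out⁻¹) (hWn.conj_mem e G.he q.out) q'.out⁻¹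
    simpa using this
  rw [e1, G.mul_iff C h1 h2, G.ec_mem]
  have h3 : q.out⁻¹ * q'.out ∈ W ↔ q = q' := by
    have h4 : (QuotientGroup.mk q.out : T ⧸ W) = QuotientGroup.mk q'.out ↔ q = q' := by simp
    rw [← h4, QuotientGroup.eq]
  rw [h3]
  by_cases hqq : q' = q
  · subst hqq
    have := mem_bad.1 hq
    simp [this]
  · have : ¬ q = q' := fun h => hqq h.symm
    simp [hqq, this]

include C G in
/-- Induction along the coordinates. -/
theorem ind_bad (P : T → Prop) (h0 : ∀ z ∈ Zs T 3, P z)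
    (hstep : ∀ x ∈ W, ∀ q ∈ bad W H x, P (x * (q.out * e * q.out⁻¹)) → P x) :
    ∀ x ∈ W, P x := by
  classical
  haveI hWn := C.normal
  have key : ∀ n : ℕ, ∀ x ∈ W, (bad W H x).card = n → P x := by
    intro n
    induction n with
    | zero =>
      intro x hx hn
      apply h0
      rw [← G.hcore, mem_Core]
      intro t
      rw [← G.rep_iff t x _ rfl]
      by_contra hcon
      have : (QuotientGroup.mk t : T ⧸ W) ∈ bad W H x := mem_bad.2 hcon
      rw [Finset.card_eq_zero.1 hn] at this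
      simp at this
    | succ n ih =>
      intro x hx hn
      obtain ⟨q, hq⟩ : (bad W H x).Nonempty := by
        rw [← Finset.card_pos]; omega
      apply hstep x hx q hq
      apply ih
      · exact W.mul_mem hx (hWn.conj_mem e G.he q.out)
      · rw [bad_step C G hx hq, Finset.card_erase_of_mem hq, hn]
        rfl
  intro x hx
  exact key _ x hx rfl

include C G in
/-- Coordinate expansion of the form. -/
theorem beta_sum {x : T} (hx : x ∈ W) :
    beta e x = ∑ q ∈ bad W H x, beta e (q.out * e * q.out⁻¹) := by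
  classical
  haveI hWn := C.normal
  refine ind_bad C G (fun x => x ∈ W → beta e x = ∑ q ∈ bad W H x, beta e (q.out * e * q.out⁻¹))
    ?_ ?_ x hx hx
  · intro z hz _
    have : bad W H z = ∅ := by
      apply Finset.eq_empty_of_forall_notMem
      intro q hq
      apply mem_bad.1 hq
      apply G.hFH
      rw [C.hN.eF]
      have := (inferInstance : (Zs T 3).Normal).conj_mem z hz q.out⁻¹
      simpa using this
    rw [this, Finset.sum_empty]
    exact beta_central C G.he hz
  · intro x hx q hq h1 _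
    have hec : q.out * e * q.out⁻¹ ∈ W := hWn.conj_mem e G.he q.out
    have h2 := h1 (W.mul_mem hx hec)
    rw [beta_mul_right C G.he hx hec, bad_step C G hx hq] at h2
    rw [← Finset.add_sum_erase _ _ hq, ← h2]
    rw [add_comm (beta e x), ← add_assoc, zmod2_add_self, zero_add]

include C G in
/-- Total sum vanishes. -/
theorem total_sum {u : T} (hu : u ∈ Zs T 4) (huH : u ∉ H) (hcent : ∀ x ∈ W, u * x = x * u) :
    ∑ q : T ⧸ W, beta e (q.out * e * q.out⁻¹) = 0 := by
  classical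
  have h1 := beta_sum C G (C.Z4W hu)
  have h2 : bad W H u = Finset.univ := by
    apply Finset.eq_univ_of_forall
    intro q
    rw [mem_bad]
    intro h3
    apply huH
    have h4 : q.out⁻¹ * u * q.out * u⁻¹ ∈ Zs T 3 := Zs_conj_mul_inv hu q.out⁻¹ |> fun h => by
      simpa using h
    have h5 : q.out⁻¹ * u * q.out * u⁻¹ ∈ H := G.hFH (C.hN.eF ▸ h4)
    have h6 := H.mul_mem (H.inv_mem h5) h3
    have e1 : (q.out⁻¹ * u * q.out * u⁻¹)⁻¹ * (q.out⁻¹ * u * q.out) = u := by group
    rwa [e1] at h6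
  rw [h2] at h1
  rw [← h1]
  unfold beta
  apply chi_of_mem
  have h3 := hcent e G.he
  have : e * u * e⁻¹ * u⁻¹ = 1 := by rw [← h3]; group
  rw [this]
  exact one_mem _

end Bad

end Cfsg.Agent.Lib.Components.TwoGroup14
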