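import Mathlib
import Cfsg.Agent.Lib.PGroup.FrattiniBasis
import Cfsg.Agent.Lib.Components.TwoGroup14G

set_option autoImplicit false
open scoped commutatorElement

namespace Cfsg.Agent.Lib.Components.TwoGroup14

open Cfsg.Agent.Lib.PGroup

universe u
variable {T : Type u} [Group T] [Finite T]

section Final

variable {W H : Subgroup T} {e : T} (C : Ctx W) (G : GenData W H e)

omit [Finite T] in
/-- The function `b`. -/
noncomputable def bb (e : T) (n : T) : ZMod 2 := beta e (n * e * n⁻¹)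

include C G in
theorem bb_mul_W (n : T) {w : T} (hw : w ∈ W) : bb e (n * w) = bb e n := by
  haveI hWn := C.normal
  obtain ⟨z, hz, hzw⟩ := conj_W_eq C hw G.he
  unfold bb
  have h1 : n * w * e * (n * w)⁻¹ = (n * e * n⁻¹) * (n * z * n⁻¹) := by
    calc n * w * e * (n * w)⁻¹ = n * (w * e * w⁻¹) * n⁻¹ := by group
      _ = n * (e * z) * n⁻¹ := by rw [hzw]
      _ = (n * e * n⁻¹) * (n * z * n⁻¹) := by group
  rw [h1]
  exact beta_mul_central C G.he (hWn.conj_mem e G.he n)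
    ((inferInstance : (Zs T 3).Normal).conj_mem z hz n)

include C G in
theorem bb_congr {m n : T} (h : m⁻¹ * n ∈ W) : bb e n = bb e m := by
  have := bb_mul_W C G m h
  rwa [mul_inv_cancel_left] at this

include C G in
theorem bb_A1 {k : T} (hk : k ∈ A1 T) : bb e k = 0 := beta_A1 C G.he hk

include C G in
theorem beta_ec (c d : T) : beta (c * e * c⁻¹) (d * e * d⁻¹) = bb e (c⁻¹ * d) := by
  unfold bb
  rw [← beta_conj c⁻¹ (c * e * c⁻¹) (d * e * d⁻¹)]
  congr 1
  · group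
  · group

include C in
theorem A1_two {t t' : T} (ht : t ∉ A1 T) (ht' : t' ∉ A1 T) : t * t' ∈ A1 T := by
  obtain ⟨E⟩ := exists_eBasis C.hc
  have hdich : ∀ s : T, s ∉ A1 T → s * E.e2 * s⁻¹ = E.e1 * E.e2 := by
    intro s hs
    have h1 : s * E.e2 * s⁻¹ * E.e2⁻¹ ∈ Zs T 1 := Zs_conj_mul_inv E.h2 s
    rcases step1 C.hc E h1 with h2 | h2
    · exfalso
      apply hs
      have hse : s * E.e2 * s⁻¹ = E.e2 := by
        have := mul_eq_one_iff_eq_inv.1 h2
        rw [this, inv_inv]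
      rw [mem_A1]
      intro z hz
      rcases step2 C.hc E hz with h3 | h3
      · exact Zs_one_comm h3 s
      · have h4 := Zs_one_comm h3 s
        have h5 : E.e2 * s = s * E.e2 := by
          calc E.e2 * s = (s * E.e2 * s⁻¹) * s := by rw [hse]
            _ = s * E.e2 := by group
        have h6 : z * s * E.e2 = s * z * E.e2 := by
          calc z * s * E.e2 = z * (s * E.e2) := by group
            _ = z * (E.e2 * s) := by rw [h5]
            _ = (z * E.e2) * s := by group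
            _ = s * (z * E.e2) := h4
            _ = s * z * E.e2 := by group
        exact mul_right_cancel h6
    · have := mul_inv_eq_iff_eq_mul.1 h2
      exact this
  have h1 := hdich t ht
  have h2 := hdich t' ht'
  have he1 : E.e1 * E.e1 = 1 := by
    have := C.sq (Zs_le (by norm_num) E.h1)
    rwa [pow_two] at this
  have he1c : ∀ s : T, s * E.e1 * s⁻¹ = E.e1 := by
    intro s
    rw [← Zs_one_comm E.h1 s]
    group
  have hee : (t * t') * E.e2 * (t * t')⁻¹ = E.e2 := by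
    calc (t * t') * E.e2 * (t * t')⁻¹ = t * (t' * E.e2 * t'⁻¹) * t⁻¹ := by group
      _ = t * (E.e1 * E.e2) * t⁻¹ := by rw [h2]
      _ = (t * E.e1 * t⁻¹) * (t * E.e2 * t⁻¹) := by group
      _ = E.e1 * (E.e1 * E.e2) := by rw [he1c, h1]
      _ = (E.e1 * E.e1) * E.e2 := by group
      _ = E.e2 := by rw [he1, one_mul]
  rw [mem_A1]
  intro z hz
  rcases step2 C.hc E hz with h3 | h3
  · exact Zs_one_comm h3 _
  · have h4 := Zs_one_comm h3 (t * t')
    have h5 : E.e2 * (t * t') = (t * t') * E.e2 := by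
      calc E.e2 * (t * t') = ((t * t') * E.e2 * (t * t')⁻¹) * (t * t') := by rw [hee]
        _ = (t * t') * E.e2 := by group
    have h6 : z * (t * t') * E.e2 = (t * t') * z * E.e2 := by
      calc z * (t * t') * E.e2 = z * ((t * t') * E.e2) := by group
        _ = z * (E.e2 * (t * t')) := by rw [h5]
        _ = (z * E.e2) * (t * t') := by group
        _ = (t * t') * (z * E.e2) := h4
        _ = (t * t') * z * E.e2 := by group
    exact mul_right_cancel h6

include C in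
theorem exists_not_A1 : ∃ t : T, t ∉ A1 T := by
  obtain ⟨E⟩ := exists_eBasis C.hc
  by_contra hcon
  push Not at hcon
  apply E.h2'
  rw [mem_Zs_succ]
  intro y
  have h1 := (mem_A1.1 (hcon y)) E.e2 E.h2
  have : E.e2 * y * E.e2⁻¹ * y⁻¹ = 1 := by rw [h1]; group
  rw [this]
  exact one_mem _

variable [Fintype (T ⧸ W)]

include C G in
omit [Fintype (T ⧸ W)] in
theorem mem_out_A1 (t : T) : (QuotientGroup.mk t : T ⧸ W).out ∈ A1 T ↔ t ∈ A1 T := by
  obtain ⟨w, hw⟩ := QuotientGroup.mk_out_eq_mul W t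
  rw [hw]
  have hwA := W_le_A1 C w.2
  exact (A1 T).mul_mem_cancel_right hwA

open scoped Classical in
/-- Classes outside `A₁`. -/
noncomputable def F1 (W : Subgroup T) [Fintype (T ⧸ W)] : Finset (T ⧸ W) :=
  Finset.univ.filter fun q => q.out ∉ A1 T

omit [Finite T] in
theorem mem_F1 {q : T ⧸ W} : q ∈ F1 W ↔ q.out ∉ A1 T := by
  simp [F1]

include C G in
theorem card_F1 : (F1 W).card = 4 := by
  classical
  haveI hWn := C.normal
  obtain ⟨t₀, ht₀⟩ := exists_not_A1 C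
  have hcardQ : Fintype.card (T ⧸ W) = 8 := by
    rw [← Nat.card_eq_fintype_card]
    exact C.hN.iW
  have h1 := Finset.card_filter_add_card_filter_not (s := (Finset.univ : Finset (T ⧸ W)))
    (fun q => q.out ∉ A1 T)
  have h2 : (Finset.univ.filter fun q : T ⧸ W => q.out ∉ A1 T) = F1 W := rfl
  rw [Finset.card_univ, hcardQ, h2] at h1
  have h3 : (F1 W).card = (Finset.univ.filter fun q : T ⧸ W => ¬ (q.out ∉ A1 T)).card := by
    refine Finset.card_bij (fun q _ => (QuotientGroup.mk t₀⁻¹ : T ⧸ W) * q) ?_ ?_ ?_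
    · intro q hq
      simp only [Finset.mem_filter, Finset.mem_univ, true_and, not_not]
      have h4 : ((QuotientGroup.mk t₀⁻¹ : T ⧸ W) * q) = QuotientGroup.mk (t₀⁻¹ * q.out) := by
        simp
      rw [h4, mem_out_A1 C G]
      exact A1_two C (fun h => ht₀ ((A1 T).inv_mem_iff.1 h)) (mem_F1.1 hq)
    · intro a _ b _ hab
      exact mul_left_cancel hab
    · intro q hq
      simp only [Finset.mem_filter, Finset.mem_univ, true_and, not_not] at hq
      refine ⟨(QuotientGroup.mk t₀ : T ⧸ W) * q, ?_, ?_⟩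
      · rw [mem_F1]
        have h4 : ((QuotientGroup.mk t₀ : T ⧸ W) * q) = QuotientGroup.mk (t₀ * q.out) := by
          simp
        rw [h4, mem_out_A1 C G]
        intro h5
        exact ht₀ ((A1 T).mul_mem_cancel_right hq |>.1 h5)
      · rw [← mul_assoc, ← QuotientGroup.mk_mul, inv_mul_cancel]
        exact one_mul q
  omega

include C G in
/-- Sum outside `A₁` vanishes. -/
theorem sum_F1 (htot : ∑ q : T ⧸ W, beta e (q.out * e * q.out⁻¹) = 0) :
    ∑ q ∈ F1 W, bb e q.out = 0 := by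
  classical
  have h1 := Finset.sum_filter_add_sum_filter_not (s := (Finset.univ : Finset (T ⧸ W)))
    (fun q => q.out ∉ A1 T) (fun q => bb e q.out)
  have h2 : ∑ q ∈ Finset.univ.filter (fun q : T ⧸ W => ¬ (q.out ∉ A1 T)), bb e q.out = 0 := by
    apply Finset.sum_eq_zero
    intro q hq
    simp only [Finset.mem_filter, Finset.mem_univ, true_and, not_not] at hq
    exact bb_A1 C G hq
  rw [h2, add_zero] at h1
  have h3 : ∑ q ∈ F1 W, bb e q.out = ∑ q ∈ Finset.univ.filter (fun q : T ⧸ W => q.out ∉ A1 T), bb e q.out := rfl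
  rw [h3, h1]
  exact htot

include C G in
theorem sum4 (htot : ∑ q : T ⧸ W, beta e (q.out * e * q.out⁻¹) = 0) {k l c d : T}
    (hk : k ∈ A1 T) (hl : l ∈ A1 T) :
    bb e (c⁻¹ * d) + bb e (c⁻¹ * (l * d)) + bb e (c⁻¹ * (k⁻¹ * d)) + bb e (c⁻¹ * (k⁻¹ * (l * d))) = 0 := by
  classical
  haveI hWn := C.normal
  haveI hAn : (A1 T).Normal := A1_normal
  have hconj : ∀ a : T, d⁻¹ * a * d ∈ W ↔ a ∈ W := by
    intro a
    constructor
    · intro h
      have := hWn.conj_mem _ h d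
      have e1 : d * (d⁻¹ * a * d) * d⁻¹ = a := by group
      rwa [e1] at this
    · intro h
      have := hWn.conj_mem _ h d⁻¹
      simpa using this
  have hAconj : ∀ a ∈ A1 T, c⁻¹ * (a * d) ∈ A1 T ↔ c⁻¹ * d ∈ A1 T := by
    intro a ha
    have e1 : c⁻¹ * (a * d) = (c⁻¹ * a * c) * (c⁻¹ * d) := by group
    rw [e1]
    apply (A1 T).mul_mem_cancel_left
    have := hAn.conj_mem a ha c⁻¹
    simpa using this
  have hk' : k⁻¹ ∈ A1 T := (A1 T).inv_mem hk
  have hkl : k⁻¹ * l ∈ A1 T := (A1 T).mul_mem hk' hl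
  have e2 : c⁻¹ * (k⁻¹ * (l * d)) = c⁻¹ * ((k⁻¹ * l) * d) := by group
  by_cases hn : c⁻¹ * d ∈ A1 T
  · rw [bb_A1 C G hn, bb_A1 C G ((hAconj l hl).2 hn), bb_A1 C G ((hAconj k⁻¹ hk').2 hn), e2,
      bb_A1 C G ((hAconj _ hkl).2 hn)]
    rfl
  -- outside
  by_cases hkW : k ∈ W
  · have h1 : bb e (c⁻¹ * (k⁻¹ * d)) = bb e (c⁻¹ * d) := by
      apply bb_congr C G
      have e3 : (c⁻¹ * d)⁻¹ * (c⁻¹ * (k⁻¹ * d)) = d⁻¹ * k⁻¹ * d := by group
      rw [e3, hconj]
      exact W.inv_mem hkW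
    have h2 : bb e (c⁻¹ * (k⁻¹ * (l * d))) = bb e (c⁻¹ * (l * d)) := by
      apply bb_congr C G
      have e3 : (c⁻¹ * (l * d))⁻¹ * (c⁻¹ * (k⁻¹ * (l * d))) = d⁻¹ * (l⁻¹ * k⁻¹ * l) * d := by group
      rw [e3, hconj]
      have := hWn.conj_mem _ (W.inv_mem hkW) l⁻¹
      simpa using this
    rw [h1, h2]
    generalize bb e (c⁻¹ * d) = a
    generalize bb e (c⁻¹ * (l * d)) = b
    revert a b
    decide
  by_cases hlW : l ∈ W
  · have h1 : bb e (c⁻¹ * (l * d)) = bb e (c⁻¹ * d) := by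
      apply bb_congr C G
      have e3 : (c⁻¹ * d)⁻¹ * (c⁻¹ * (l * d)) = d⁻¹ * l * d := by group
      rw [e3, hconj]
      exact hlW
    have h2 : bb e (c⁻¹ * (k⁻¹ * (l * d))) = bb e (c⁻¹ * (k⁻¹ * d)) := by
      apply bb_congr C G
      have e3 : (c⁻¹ * (k⁻¹ * d))⁻¹ * (c⁻¹ * (k⁻¹ * (l * d))) = d⁻¹ * l * d := by group
      rw [e3, hconj]
      exact hlW
    rw [h1, h2]
    generalize bb e (c⁻¹ * d) = a
    generalize bb e (c⁻¹ * (k⁻¹ * d)) = b
    revert a b
    decide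
  have hsq := sq_A1 C hk
  by_cases hklW : k⁻¹ * l ∈ W
  · have h1 : bb e (c⁻¹ * (k⁻¹ * (l * d))) = bb e (c⁻¹ * d) := by
      apply bb_congr C G
      have e3 : (c⁻¹ * d)⁻¹ * (c⁻¹ * (k⁻¹ * (l * d))) = d⁻¹ * (k⁻¹ * l) * d := by group
      rw [e3, hconj]
      exact hklW
    have h2 : bb e (c⁻¹ * (k⁻¹ * d)) = bb e (c⁻¹ * (l * d)) := by
      apply bb_congr C G
      have e3 : (c⁻¹ * (l * d))⁻¹ * (c⁻¹ * (k⁻¹ * d)) = d⁻¹ * ((k⁻¹ * l)⁻¹ * (k * k)⁻¹) * d := by group
      rw [e3, hconj]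
      exact W.mul_mem (W.inv_mem hklW) (W.inv_mem hsq)
    rw [h1, h2]
    generalize bb e (c⁻¹ * d) = a
    generalize bb e (c⁻¹ * (l * d)) = b
    revert a b
    decide
  -- four distinct classes outside `A₁`
  have hsum := sum_F1 C G htot
  set x₁ : T ⧸ W := QuotientGroup.mk (c⁻¹ * d) with hx₁
  set x₂ : T ⧸ W := QuotientGroup.mk (c⁻¹ * (l * d)) with hx₂
  set x₃ : T ⧸ W := QuotientGroup.mk (c⁻¹ * (k⁻¹ * d)) with hx₃
  set x₄ : T ⧸ W := QuotientGroup.mk (c⁻¹ * (k⁻¹ * (l * d))) with hx₄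
  have hout : ∀ n : T, bb e (QuotientGroup.mk n : T ⧸ W).out = bb e n := by
    intro n
    obtain ⟨w, hw⟩ := QuotientGroup.mk_out_eq_mul W n
    rw [hw]
    exact bb_mul_W C G n w.2
  have hne : ∀ a b : T, a⁻¹ * b ∉ W → (QuotientGroup.mk a : T ⧸ W) ≠ QuotientGroup.mk b := by
    intro a b hab h
    exact hab (QuotientGroup.eq.1 h)
  have h12 : x₁ ≠ x₂ := by
    apply hne
    have e3 : (c⁻¹ * d)⁻¹ * (c⁻¹ * (l * d)) = d⁻¹ * l * d := by group
    rw [e3, hconj]
    exact hlW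
  have h13 : x₁ ≠ x₃ := by
    apply hne
    have e3 : (c⁻¹ * d)⁻¹ * (c⁻¹ * (k⁻¹ * d)) = d⁻¹ * k⁻¹ * d := by group
    rw [e3, hconj]
    exact fun h => hkW (W.inv_mem_iff.1 h)
  have h14 : x₁ ≠ x₄ := by
    apply hne
    have e3 : (c⁻¹ * d)⁻¹ * (c⁻¹ * (k⁻¹ * (l * d))) = d⁻¹ * (k⁻¹ * l) * d := by group
    rw [e3, hconj]
    exact hklW
  have h23 : x₂ ≠ x₃ := by
    apply hne
    have e3 : (c⁻¹ * (l * d))⁻¹ * (c⁻¹ * (k⁻¹ * d)) = d⁻¹ * (l⁻¹ * k⁻¹) * d := by group
    rw [e3, hconj]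
    intro h
    apply hklW
    have e4 : k⁻¹ * l = (k * k)⁻¹ * (l⁻¹ * k⁻¹)⁻¹ := by group
    rw [e4]
    exact W.mul_mem (W.inv_mem hsq) (W.inv_mem h)
  have h24 : x₂ ≠ x₄ := by
    apply hne
    have e3 : (c⁻¹ * (l * d))⁻¹ * (c⁻¹ * (k⁻¹ * (l * d))) = d⁻¹ * (l⁻¹ * k⁻¹ * l) * d := by group
    rw [e3, hconj]
    intro h
    apply hkW
    have := hWn.conj_mem _ h l
    have e4 : l * (l⁻¹ * k⁻¹ * l) * l⁻¹ = k⁻¹ := by group
    rw [e4] at this
    exact W.inv_mem_iff.1 this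
  have h34 : x₃ ≠ x₄ := by
    apply hne
    have e3 : (c⁻¹ * (k⁻¹ * d))⁻¹ * (c⁻¹ * (k⁻¹ * (l * d))) = d⁻¹ * l * d := by group
    rw [e3, hconj]
    exact hlW
  have hmemF : ∀ a ∈ A1 T, (QuotientGroup.mk (c⁻¹ * (a * d)) : T ⧸ W) ∈ F1 W := by
    intro a ha
    rw [mem_F1, mem_out_A1 C G, hAconj a ha]
    exact hn
  have hx₁F : x₁ ∈ F1 W := by
    rw [mem_F1, mem_out_A1 C G]
    exact hn
  have hx₂F : x₂ ∈ F1 W := hmemF l hl
  have hx₃F : x₃ ∈ F1 W := hmemF k⁻¹ hk'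
  have hx₄F : x₄ ∈ F1 W := by
    rw [hx₄, e2]
    exact hmemF _ hkl
  have hset : ({x₁, x₂, x₃, x₄} : Finset (T ⧸ W)) = F1 W := by
    apply Finset.eq_of_subset_of_card_le
    · intro y hy
      simp only [Finset.mem_insert, Finset.mem_singleton] at hy
      rcases hy with rfl | rfl | rfl | rfl <;> assumption
    · rw [card_F1 C G, Finset.card_insert_of_notMem, Finset.card_insert_of_notMem,
        Finset.card_insert_of_notMem, Finset.card_singleton]
      · simpa using h34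
      · simp [h23, h24]
      · simp [h12, h13, h14]
  rw [← hset, Finset.sum_insert (by simp [h12, h13, h14]), Finset.sum_insert (by simp [h23, h24]),
    Finset.sum_insert (by simpa using h34), Finset.sum_singleton] at hsum
  rw [hx₁, hx₂, hx₃, hx₄, hout, hout, hout, hout] at hsum
  rw [← hsum]
  ring

end Final

end Cfsg.Agent.Lib.Components.TwoGroup14
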