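import Mathlib
import Cfsg.Agent.Lib.PGroup.FrattiniBasis
import Cfsg.Agent.Lib.Components.TwoGroup14H

set_option autoImplicit false
open scoped commutatorElement

namespace Cfsg.Agent.Lib.Components.TwoGroup14

open Cfsg.Agent.Lib.PGroup

universe u
variable {T : Type u} [Group T] [Finite T]

section Y

variable {W H : Subgroup T} {e : T} (C : Ctx W) (G : GenData W H e)

omit [Finite T] in
/-- Generators of `Y`. -/
def Ygen (e : T) : Set T :=
  ((Zs T 3 : Subgroup T) : Set T) ∪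
    {g | ∃ c k : T, k ∈ A1 T ∧ g = (c * e * c⁻¹)⁻¹ * ((k * c) * e * (k * c)⁻¹)}

omit [Finite T] in
/-- The subgroup `Y`. -/
def YY (e : T) : Subgroup T := Subgroup.closure (Ygen e)

include C G in
theorem ec_mem (c : T) : c * e * c⁻¹ ∈ W := C.conjW G.he

include C G in
theorem Ygen_le : Ygen e ⊆ W := by
  rintro g (hg | ⟨c, k, _, rfl⟩)
  · exact C.Z3W hg
  · exact W.mul_mem (W.inv_mem (ec_mem C G c)) (ec_mem C G (k * c))

include C G in
theorem YY_le : YY e ≤ W := (Subgroup.closure_le _).2 (Ygen_le C G)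

include C G in
theorem beta_gen (c k d l : T) :
    beta ((c * e * c⁻¹)⁻¹ * ((k * c) * e * (k * c)⁻¹)) ((d * e * d⁻¹)⁻¹ * ((l * d) * e * (l * d)⁻¹)) =
      bb e (c⁻¹ * d) + bb e (c⁻¹ * (l * d)) + bb e (c⁻¹ * (k⁻¹ * d)) + bb e (c⁻¹ * (k⁻¹ * (l * d))) := by
  have hc := ec_mem C G c
  have hd := ec_mem C G d
  have hkc := ec_mem C G (k * c)
  have hld := ec_mem C G (l * d)
  rw [beta_mul_left C (W.inv_mem hc) hkc (W.mul_mem (W.inv_mem hd) hld),
    beta_mul_right C (W.inv_mem hc) (W.inv_mem hd) hld, beta_mul_right C hkc (W.inv_mem hd) hld,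
    beta_inv_left C hc (W.inv_mem hd), beta_inv_left C hc hld, beta_inv_right C hc hd,
    beta_inv_right C hkc hd, beta_ec C G, beta_ec C G, beta_ec C G, beta_ec C G]
  have e1 : (k * c)⁻¹ * d = c⁻¹ * (k⁻¹ * d) := by group
  have e2 : (k * c)⁻¹ * (l * d) = c⁻¹ * (k⁻¹ * (l * d)) := by group
  rw [e1, e2]
  ring

include C in
theorem closure_beta {S : Set T} (hS : S ⊆ W) (h : ∀ s ∈ S, ∀ s' ∈ S, beta s s' = 0) :
    ∀ y ∈ Subgroup.closure S, ∀ y' ∈ Subgroup.closure S, beta y y' = 0 := by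
  have hle : Subgroup.closure S ≤ W := (Subgroup.closure_le _).2 hS
  have h1 : ∀ s ∈ S, ∀ y ∈ Subgroup.closure S, beta s y = 0 := by
    intro s hs y hy
    induction hy using Subgroup.closure_induction with
    | mem a ha => exact h s hs a ha
    | one => exact beta_central C (hS hs) (one_mem _)
    | mul a b ha hb h1 h2 => rw [beta_mul_right C (hS hs) (hle ha) (hle hb), h1, h2, add_zero]
    | inv a ha h1 => rw [beta_inv_right C (hS hs) (hle ha), h1]
  intro y hy y' hy'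
  induction hy using Subgroup.closure_induction with
  | mem a ha => exact h1 a ha y' hy'
  | one =>
    rw [beta_comm]
    exact beta_central C (hle hy') (one_mem _)
  | mul a b ha hb h1 h2 => rw [beta_mul_left C (hle ha) (hle hb) (hle hy'), h1, h2, add_zero]
  | inv a ha h1 => rw [beta_inv_left C (hle ha) (hle hy'), h1]

include C G in
theorem beta_YY [Fintype (T ⧸ W)] (htot : ∑ q : T ⧸ W, beta e (q.out * e * q.out⁻¹) = 0) :
    ∀ y ∈ YY e, ∀ y' ∈ YY e, beta y y' = 0 := by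
  apply closure_beta C (Ygen_le C G)
  rintro s (hs | ⟨c, k, hk, rfl⟩) s' hs'
  · rw [beta_comm]
    exact beta_central C (Ygen_le C G hs') hs
  · rcases hs' with hs' | ⟨d, l, hl, rfl⟩
    · exact beta_central C (Ygen_le C G (Or.inr ⟨c, k, hk, rfl⟩)) hs'
    · rw [beta_gen C G]
      exact sum4 C G htot hk hl

include C G in
theorem relIndex_YY_le [Fintype (T ⧸ W)] : (YY e).relIndex W ≤ 4 := by
  classical
  haveI hWn := C.normal
  have hZY : Zs T 3 ≤ YY e := by
    intro z hz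
    exact Subgroup.subset_closure (Or.inl hz)
  have hcY : ∀ x ∈ W, ∀ y ∈ W, x * y * x⁻¹ * y⁻¹ ∈ YY e := fun x hx y hy => hZY (C.comm hx hy)
  set Y' : Subgroup ↥W := (YY e).subgroupOf W with hY'
  have hYn : Y'.Normal := by
    constructor
    intro y hy g
    rw [hY', Subgroup.mem_subgroupOf] at hy ⊢
    have h1 := hcY g g.2 y y.2
    have h2 := (YY e).mul_mem h1 hy
    simpa using h2
  let p : ↥W → ↥W ⧸ Y' := fun x => (QuotientGroup.mk x : ↥W ⧸ Y')
  have hp1 : ∀ x, p x = 1 ↔ (x : T) ∈ YY e := by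
    intro x
    rw [QuotientGroup.eq_one_iff, hY', Subgroup.mem_subgroupOf]
  have hpm : ∀ a b, p (a * b) = p a * p b := fun a b => rfl
  have hsurj : ∀ s : ↥W ⧸ Y', ∃ a, p a = s := fun s => QuotientGroup.mk_surjective s
  have hQc : ∀ s t : ↥W ⧸ Y', s * t = t * s := by
    intro s t
    obtain ⟨a, rfl⟩ := hsurj s
    obtain ⟨b, rfl⟩ := hsurj t
    have h1 : p (a * b * a⁻¹ * b⁻¹) = 1 := (hp1 _).2 (hcY a a.2 b b.2)
    have h2 : p a * p b * (p a)⁻¹ * (p b)⁻¹ = 1 := h1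
    calc p a * p b = p a * p b * (p a)⁻¹ * (p b)⁻¹ * (p b * p a) := by group
      _ = p b * p a := by rw [h2, one_mul]
  have hQs : ∀ s : ↥W ⧸ Y', s * s = 1 := by
    intro s
    obtain ⟨a, rfl⟩ := hsurj s
    have h1 : p (a * a) = 1 := by
      rw [hp1]
      have := hZY (C.sqW a.2)
      rwa [pow_two] at this
    exact h1
  obtain ⟨t₀, ht₀⟩ := exists_not_A1 C
  set a₀ : ↥W := ⟨e, G.he⟩ with ha₀
  set b₀ : ↥W := ⟨t₀ * e * t₀⁻¹, ec_mem C G t₀⟩ with hb₀
  have hgen : ∀ (c : T) (hc : c * e * c⁻¹ ∈ W), p ⟨c * e * c⁻¹, hc⟩ = p a₀ ∨ p ⟨c * e * c⁻¹, hc⟩ = p b₀ := by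
    intro c hc
    by_cases hcA : c ∈ A1 T
    · left
      have h1 : (1 * e * (1 : T)⁻¹)⁻¹ * ((c * 1) * e * (c * 1)⁻¹) ∈ YY e :=
        Subgroup.subset_closure (Or.inr ⟨1, c, hcA, rfl⟩)
      have h2 : p (a₀⁻¹ * ⟨c * e * c⁻¹, hc⟩) = 1 := by
        rw [hp1]
        convert h1 using 1
        simp [ha₀]
      have h3 : (p a₀)⁻¹ * p ⟨c * e * c⁻¹, hc⟩ = 1 := h2
      exact (inv_mul_eq_one.1 h3).symm
    · right
      have hk : c * t₀⁻¹ ∈ A1 T := A1_two C hcA (fun h => ht₀ ((A1 T).inv_mem_iff.1 h))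
      have h1 : (t₀ * e * t₀⁻¹)⁻¹ * ((c * t₀⁻¹ * t₀) * e * (c * t₀⁻¹ * t₀)⁻¹) ∈ YY e :=
        Subgroup.subset_closure (Or.inr ⟨t₀, c * t₀⁻¹, hk, rfl⟩)
      have h2 : p (b₀⁻¹ * ⟨c * e * c⁻¹, hc⟩) = 1 := by
        rw [hp1]
        convert h1 using 1
        simp [hb₀]
      have h3 : (p b₀)⁻¹ * p ⟨c * e * c⁻¹, hc⟩ = 1 := h2
      exact (inv_mul_eq_one.1 h3).symm
  set a := p a₀ with ha
  set b := p b₀ with hb
  let S : Finset (↥W ⧸ Y') := {1, a, b, a * b}
  have hclosed : ∀ s ∈ S, ∀ g : ↥W ⧸ Y', (g = a ∨ g = b) → s * g ∈ S := by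
    intro s hs g hg
    have haa := hQs a
    have hbb := hQs b
    have hab := hQc a b
    simp only [S, Finset.mem_insert, Finset.mem_singleton] at hs ⊢
    rcases hs with rfl | rfl | rfl | rfl <;> rcases hg with rfl | rfl
    · simp
    · simp
    · simp [haa]
    · simp
    · simp [← hab]
    · simp [hbb]
    · right; right; left
      rw [hab, mul_assoc, haa, mul_one]
    · right; left
      rw [mul_assoc, hbb, mul_one]
  have hall : ∀ x ∈ W, ∀ hx : x ∈ W, p ⟨x, hx⟩ ∈ S := by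
    refine ind_bad C G (fun x => ∀ hx : x ∈ W, p ⟨x, hx⟩ ∈ S) ?_ ?_
    · intro z hz hx
      have : p ⟨z, hx⟩ = 1 := (hp1 _).2 (hZY hz)
      rw [this]
      simp [S]
    · intro x hx q _ h1 hx'
      have hec := ec_mem C G q.out
      have h2 := h1 (W.mul_mem hx hec)
      have h3 : p ⟨x * (q.out * e * q.out⁻¹), W.mul_mem hx hec⟩ = p ⟨x, hx'⟩ * p ⟨_, hec⟩ := rfl
      have h4 : p ⟨x, hx'⟩ = p ⟨x * (q.out * e * q.out⁻¹), W.mul_mem hx hec⟩ * p ⟨_, hec⟩ := by
        rw [h3, mul_assoc, hQs, mul_one]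
      rw [h4]
      exact hclosed _ h2 _ (hgen _ hec)
  have hcard : Nat.card (↥W ⧸ Y') ≤ 4 := by
    letI : Fintype (↥W ⧸ Y') := Fintype.ofFinite _
    rw [Nat.card_eq_fintype_card]
    have hsub : (Finset.univ : Finset (↥W ⧸ Y')) ⊆ S := by
      intro s _
      obtain ⟨x, rfl⟩ := hsurj s
      exact hall x x.2 x.2
    have := (Finset.card_le_card hsub).trans Finset.card_le_four
    rwa [Finset.card_univ] at this
  exact hcard

include C in
/-- The final contradiction: `Z₄` cannot be central in `W`. -/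
theorem no_Z4_central (hcent : ∀ u ∈ Zs T 4, ∀ x ∈ W, u * x = x * u) : False := by
  classical
  haveI hWn := C.normal
  letI : Fintype (T ⧸ W) := Fintype.ofFinite _
  obtain ⟨E⟩ := exists_eBasis C.hc
  obtain ⟨u, hu, hu3⟩ := exists_not_mem_of_card_lt (A := Zs T 3) (B := Zs T 4)
    (by rw [C.hc.c3, C.hc.c4]; norm_num)
  obtain ⟨H, e, G, huH⟩ := exists_gen C hu hu3
  have htot := total_sum C G hu huH (hcent u hu)
  have hbeta := beta_YY C G htot
  have hle := YY_le C G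
  have hZY : Zs T 3 ≤ YY e := fun z hz => Subgroup.subset_closure (Or.inl hz)
  have he3 : E.e3 ∈ YY e := hZY E.h3
  obtain ⟨X, hKX, hzX, hXi⟩ := exists_sub (A := ↥(YY e)) ((Zs T 2).subgroupOf (YY e)) ⟨E.e3, he3⟩
    (by rw [Subgroup.mem_subgroupOf]; exact E.h3')
    (by
      intro a b
      rw [Subgroup.mem_subgroupOf]
      have := hbeta a a.2 b b.2
      exact chi_eq_zero.1 this)
    (by
      intro a
      have h1 : (a : T) ^ 2 ∈ Zs T 3 := C.sqW (hle a.2)
      by_cases h2 : (a : T) ^ 2 ∈ Zs T 2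
      · left
        rw [Subgroup.mem_subgroupOf]
        exact_mod_cast h2
      · right
        rw [Subgroup.mem_subgroupOf]
        have := mul_inv_mem_of_two (A := Zs T 2) (B := Zs T 3) C.Z2Z3
          (by rw [C.hc.c2, C.hc.c3]) h1 E.h3 h2 E.h3'
        simpa using this)
  set U : Subgroup T := X.map (YY e).subtype with hU
  have hUY : U ≤ YY e := Subgroup.map_subtype_le _
  have hUrel : U.relIndex (YY e) = X.index := by
    have h2 : U.subgroupOf (YY e) = X := Subgroup.comap_map_eq_self_of_injective (YY e).subtype_injective X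
    rw [Subgroup.relIndex, h2]
  have hrel : U.relIndex W ≤ 16 := by
    have h1 := Subgroup.relIndex_mul_relIndex U (YY e) W hUY hle
    rw [← h1, hUrel]
    have h2 := relIndex_YY_le C G
    exact Nat.mul_le_mul hXi h2
  have hF := FrHyp.le (h := C.h) hrel
  have he3F : E.e3 ∈ Fr W := by rw [C.hN.eF]; exact E.h3
  obtain ⟨y, hy, hyu⟩ := hF he3F
  apply hzX
  have : y = ⟨E.e3, he3⟩ := Subtype.ext hyu
  exact this ▸ hy

end Y

end Cfsg.Agent.Lib.Components.TwoGroup14
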