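import Mathlib
import Cfsg.Agent.Lib.PGroup.FrattiniBasis
import Cfsg.Agent.Lib.Components.TwoGroup14I

set_option autoImplicit false
open scoped commutatorElement

namespace Cfsg.Agent.Lib.Components.TwoGroup14

open Cfsg.Agent.Lib.PGroup

universe u
variable {T : Type u} [Group T] [Finite T]

/-- Explicit map to the dihedral group. -/
def FD (a b c : ZMod 2) : DihedralGroup 4 :=
  if a = 0 then
    (if b = 0 then (if c = 0 then DihedralGroup.r 0 else DihedralGroup.r 2)
     else (if c = 0 then DihedralGroup.sr 3 else DihedralGroup.sr 1))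
  else
    (if b = 0 then (if c = 0 then DihedralGroup.sr 0 else DihedralGroup.sr 2)
     else (if c = 0 then DihedralGroup.r 1 else DihedralGroup.r 3))

set_option maxRecDepth 100000 in
theorem FD_mul : ∀ a₁ b₁ c₁ a₂ b₂ c₂ : ZMod 2,
    FD (a₁ + a₂) (b₁ + b₂) (c₁ + c₂ + a₁ * b₂) = FD a₁ b₁ c₁ * FD a₂ b₂ c₂ := by
  decide

set_option maxRecDepth 100000 in
theorem FD_one : ∀ a b c : ZMod 2, FD a b c = 1 ↔ a = 0 ∧ b = 0 ∧ c = 0 := by
  decide

section Iso

variable {W : Subgroup T} (C : Ctx W) (E : EBasis T)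

include C in
theorem e1_sq : E.e1 * E.e1 = 1 := by
  have := C.sq (Zs_le (by norm_num) E.h1)
  rwa [pow_two] at this

include C in
theorem e2_sq : E.e2 * E.e2 = 1 := by
  have := C.sq (Zs_le (by norm_num) E.h2)
  rwa [pow_two] at this

omit [Finite T] in
theorem zmod2_cases (a : ZMod 2) : a = 0 ∨ a = 1 := by
  revert a; decide

theorem v0 : (0 : ZMod 2).val = 0 := rfl
theorem v1 : (1 : ZMod 2).val = 1 := rfl

omit [Finite T] in
theorem pw_add {x : T} (hx : x * x = 1) (a b : ZMod 2) :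
    x ^ a.val * x ^ b.val = x ^ (a + b).val := by
  have h2 : (1 + 1 : ZMod 2) = 0 := rfl
  rcases zmod2_cases a with rfl | rfl <;> rcases zmod2_cases b with rfl | rfl
  · simp [v0]
  · simp [v0, v1]
  · simp [v0, v1]
  · rw [h2, v0, v1]
    simpa using hx

include C in
theorem exists_code (t : T) : ∃ a b c : ZMod 2,
    t * E.e2 * t⁻¹ = E.e2 * E.e1 ^ a.val ∧
    t * E.e3 * t⁻¹ = E.e3 * E.e2 ^ b.val * E.e1 ^ c.val := by
  have h1 : t * E.e2 * t⁻¹ * E.e2⁻¹ ∈ Zs T 1 := Zs_conj_mul_inv E.h2 t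
  have hc1 : ∀ x : T, E.e1 * x = x * E.e1 := fun x => Zs_one_comm E.h1 x
  have ha : ∃ a : ZMod 2, t * E.e2 * t⁻¹ = E.e2 * E.e1 ^ a.val := by
    rcases step1 C.hc E h1 with h | h
    · refine ⟨0, ?_⟩
      have : t * E.e2 * t⁻¹ = E.e2 := by
        have := mul_inv_eq_one.1 h
        exact this
      simpa using this
    · refine ⟨1, ?_⟩
      have h2 := mul_inv_eq_iff_eq_mul.1 h
      rw [h2, hc1]
      simp [v1]
  have h3 : t * E.e3 * t⁻¹ * E.e3⁻¹ ∈ Zs T 2 := Zs_conj_mul_inv E.h3 t
  set δ := t * E.e3 * t⁻¹ * E.e3⁻¹ with hδ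
  have hδe : t * E.e3 * t⁻¹ = δ * E.e3 := by rw [hδ]; group
  have hδc : δ * E.e3 = E.e3 * δ := C.central (C.Z2Z3 h3) (C.Z3W E.h3)
  have he2 : E.e2 * E.e2 = 1 := e2_sq C E
  have hbc : ∃ b c : ZMod 2, δ = E.e2 ^ b.val * E.e1 ^ c.val := by
    rcases step2 C.hc E h3 with h | h
    · rcases step1 C.hc E h with h' | h'
      · exact ⟨0, 0, by simpa using h'⟩
      · exact ⟨0, 1, by simpa [v0, v1] using h'⟩
    · rcases step1 C.hc E h with h' | h'
      · refine ⟨1, 0, ?_⟩
        have : δ = E.e2⁻¹ := eq_inv_of_mul_eq_one_left h'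
        have h5 : E.e2⁻¹ = E.e2 := inv_eq_of_mul_eq_one_left he2
        rw [this, h5]
        simp [v0, v1]
      · refine ⟨1, 1, ?_⟩
        have h6 : δ = E.e1 * E.e2⁻¹ := eq_mul_inv_of_mul_eq h'
        have h5 : E.e2⁻¹ = E.e2 := inv_eq_of_mul_eq_one_left he2
        rw [h6, h5, hc1]
        simp [v1]
  obtain ⟨a, ha⟩ := ha
  obtain ⟨b, c, hbc⟩ := hbc
  refine ⟨a, b, c, ha, ?_⟩
  rw [hδe, hδc, hbc, mul_assoc]

include C in
theorem code_unique1 {a a' : ZMod 2} (h : E.e2 * E.e1 ^ a.val = E.e2 * E.e1 ^ a'.val) : a = a' := by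
  have h1 := mul_left_cancel h
  have he : E.e1 ≠ 1 := fun h0 => E.h1' (by rw [h0]; exact one_mem _)
  rcases zmod2_cases a with rfl | rfl <;> rcases zmod2_cases a' with rfl | rfl
  · rfl
  · simp only [v0, v1, pow_zero, pow_one] at h1
    exact absurd h1.symm he
  · simp only [v0, v1, pow_zero, pow_one] at h1
    exact absurd h1 he
  · rfl

include C in
theorem code_unique2 {b c b' c' : ZMod 2}
    (h : E.e3 * E.e2 ^ b.val * E.e1 ^ c.val = E.e3 * E.e2 ^ b'.val * E.e1 ^ c'.val) :
    b = b' ∧ c = c' := by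
  have h1 : E.e2 ^ b.val * E.e1 ^ c.val = E.e2 ^ b'.val * E.e1 ^ c'.val := by
    apply mul_left_cancel (a := E.e3)
    rw [← mul_assoc, ← mul_assoc]
    exact h
  have he : E.e1 ≠ 1 := fun h0 => E.h1' (by rw [h0]; exact one_mem _)
  have he2 : E.e2 ∉ Zs T 1 := E.h2'
  have he3 : E.e2 ≠ 1 := fun h0 => he2 (by rw [h0]; exact one_mem _)
  have he4 : E.e2 ≠ E.e1 := fun h0 => he2 (by rw [h0]; exact E.h1)
  have hm : E.e2 * E.e1 ∉ Zs T 1 := fun h0 => he2 (by
    have := (Zs T 1).mul_mem h0 ((Zs T 1).inv_mem E.h1)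
    simpa using this)
  have he5 : E.e2 * E.e1 ≠ 1 := fun h0 => hm (by rw [h0]; exact one_mem _)
  have he6 : E.e2 * E.e1 ≠ E.e1 := fun h0 => hm (by rw [h0]; exact E.h1)
  have he7 : E.e2 * E.e1 ≠ E.e2 := by
    intro h0
    apply he
    have := mul_left_cancel (a := E.e2) (b := E.e1) (c := 1) (by rw [h0, mul_one])
    exact this
  rcases zmod2_cases b with rfl | rfl <;> rcases zmod2_cases c with rfl | rfl <;>
    rcases zmod2_cases b' with rfl | rfl <;> rcases zmod2_cases c' with rfl | rfl <;>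
    simp only [v0, v1, pow_zero, pow_one, one_mul, mul_one] at h1 <;> first
      | exact ⟨rfl, rfl⟩
      | exact absurd h1 he
      | exact absurd h1.symm he
      | exact absurd h1 he3
      | exact absurd h1.symm he3
      | exact absurd h1 he4
      | exact absurd h1.symm he4
      | exact absurd h1 he5
      | exact absurd h1.symm he5
      | exact absurd h1 he6
      | exact absurd h1.symm he6
      | exact absurd h1 he7
      | exact absurd h1.symm he7

include C E in
theorem exists_iso [hWn : W.Normal] : Nonempty (T ⧸ W ≃* DihedralGroup 4) := by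
  classical
  choose a b c h2 h3 using exists_code C E
  have hc1 : ∀ x : T, E.e1 * x = x * E.e1 := fun x => Zs_one_comm E.h1 x
  have hc1p : ∀ (x : T) (n : ℕ), E.e1 ^ n * x = x * E.e1 ^ n := by
    intro x n
    exact ((Commute.pow_left (show Commute E.e1 x from hc1 x) n)).eq
  have he1 := e1_sq C E
  have he2 := e2_sq C E
  have hmul : ∀ s t : T, a (s * t) = a s + a t ∧ b (s * t) = b s + b t ∧
      c (s * t) = c s + c t + a s * b t := by
    intro s t
    have h4 : (s * t) * E.e2 * (s * t)⁻¹ = E.e2 * E.e1 ^ (a s + a t).val := by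
      calc (s * t) * E.e2 * (s * t)⁻¹ = s * (t * E.e2 * t⁻¹) * s⁻¹ := by group
        _ = s * (E.e2 * E.e1 ^ (a t).val) * s⁻¹ := by rw [h2]
        _ = (s * E.e2 * s⁻¹) * (E.e1 ^ (a t).val * s) * s⁻¹ := by
            rw [hc1p]; group
        _ = E.e2 * E.e1 ^ (a s).val * E.e1 ^ (a t).val := by
            rw [h2]; group
        _ = E.e2 * E.e1 ^ (a s + a t).val := by rw [mul_assoc, pw_add he1]
    have h5 : a (s * t) = a s + a t := code_unique1 C E ((h2 (s * t)).symm.trans h4)
    have h6 : (s * t) * E.e3 * (s * t)⁻¹ =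
        E.e3 * E.e2 ^ (b s + b t).val * E.e1 ^ (c s + c t + a s * b t).val := by
      have key : s * E.e2 ^ (b t).val * s⁻¹ = E.e2 ^ (b t).val * E.e1 ^ (a s * b t).val := by
        rcases zmod2_cases (b t) with hb | hb
        · rw [hb]; simp [v0]
        · rw [hb]
          rw [mul_one, v1, pow_one]
          exact h2 s
      calc (s * t) * E.e3 * (s * t)⁻¹ = s * (t * E.e3 * t⁻¹) * s⁻¹ := by group
        _ = s * (E.e3 * E.e2 ^ (b t).val * E.e1 ^ (c t).val) * s⁻¹ := by rw [h3]
        _ = (s * E.e3 * s⁻¹) * (s * E.e2 ^ (b t).val * s⁻¹) * (s * E.e1 ^ (c t).val * s⁻¹) := by group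
        _ = (E.e3 * E.e2 ^ (b s).val * E.e1 ^ (c s).val) *
              (E.e2 ^ (b t).val * E.e1 ^ (a s * b t).val) * (E.e1 ^ (c t).val) := by
            have hs1 : s * E.e1 ^ (c t).val * s⁻¹ = E.e1 ^ (c t).val := by
              rw [← hc1p s, mul_inv_cancel_right]
            rw [h3, key, hs1]
        _ = E.e3 * (E.e2 ^ (b s).val * E.e2 ^ (b t).val) *
              (E.e1 ^ (c s).val * E.e1 ^ (a s * b t).val * E.e1 ^ (c t).val) := by
            have : E.e1 ^ (c s).val * E.e2 ^ (b t).val = E.e2 ^ (b t).val * E.e1 ^ (c s).val := hc1p _ _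
            calc (E.e3 * E.e2 ^ (b s).val * E.e1 ^ (c s).val) *
                  (E.e2 ^ (b t).val * E.e1 ^ (a s * b t).val) * (E.e1 ^ (c t).val)
                = E.e3 * E.e2 ^ (b s).val * (E.e1 ^ (c s).val * E.e2 ^ (b t).val) *
                    E.e1 ^ (a s * b t).val * E.e1 ^ (c t).val := by
                  simp only [mul_assoc]
              _ = _ := by
                  rw [this]
                  simp only [mul_assoc]
        _ = E.e3 * E.e2 ^ (b s + b t).val * E.e1 ^ (c s + c t + a s * b t).val := by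
            rw [pw_add he2, pw_add he1, pw_add he1]
            have : c s + a s * b t + c t = c s + c t + a s * b t := by ring
            rw [this]
    have h8 := code_unique2 C E ((h3 (s * t)).symm.trans h6)
    exact ⟨h5, h8.1, h8.2⟩
  let ψ : T →* DihedralGroup 4 := MonoidHom.mk' (fun t => FD (a t) (b t) (c t)) (by
    intro s t
    obtain ⟨e1, e2, e3⟩ := hmul s t
    simp only [e1, e2, e3]
    exact FD_mul _ _ _ _ _ _)
  have hker : ψ.ker = W := by
    ext t
    rw [MonoidHom.mem_ker]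
    change FD (a t) (b t) (c t) = 1 ↔ t ∈ W
    rw [FD_one]
    constructor
    · rintro ⟨ha, hb, hc⟩
      have e2c := h2 t
      have e3c := h3 t
      rw [ha] at e2c
      rw [hb, hc] at e3c
      simp only [v0, pow_zero, mul_one] at e2c e3c
      replace e2c : t * E.e2 = E.e2 * t := by
        calc t * E.e2 = (t * E.e2 * t⁻¹) * t := by group
          _ = E.e2 * t := by rw [e2c]
      replace e3c : t * E.e3 = E.e3 * t := by
        calc t * E.e3 = (t * E.e3 * t⁻¹) * t := by group
          _ = E.e3 * t := by rw [e3c]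
      rw [C.hW]
      apply mem_cent_of_comm C.hc E
      · exact e2c
      · exact e3c
    · intro ht
      rw [C.hW, Subgroup.mem_centralizer_iff] at ht
      have h4 : t * E.e2 * t⁻¹ = E.e2 := by
        rw [← ht E.e2 (Zs_le (by norm_num) E.h2)]; group
      have h5 : t * E.e3 * t⁻¹ = E.e3 := by
        rw [← ht E.e3 E.h3]; group
      have h6 : E.e2 * E.e1 ^ (a t).val = E.e2 * E.e1 ^ (0 : ZMod 2).val := by
        rw [← h2 t, h4]
        simp [v0]
      have h7 : E.e3 * E.e2 ^ (b t).val * E.e1 ^ (c t).val =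
          E.e3 * E.e2 ^ (0 : ZMod 2).val * E.e1 ^ (0 : ZMod 2).val := by
        rw [← h3 t, h5]
        simp [v0]
      have h8 := code_unique2 C E h7
      exact ⟨code_unique1 C E h6, h8.1, h8.2⟩
  have hsurj : Function.Surjective ψ := by
    have h1 : Nat.card ψ.range = 8 := by
      have := Subgroup.index_ker ψ
      rw [hker, C.hN.iW] at this
      exact this.symm
    have h2 : ψ.range = ⊤ := by
      apply Subgroup.eq_top_of_card_eq
      rw [h1, DihedralGroup.nat_card]
    exact MonoidHom.range_eq_top.1 h2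
  subst hker
  exact ⟨QuotientGroup.quotientKerEquivOfSurjective ψ hsurj⟩

end Iso

/-- The main theorem. -/
theorem main {T : Type u} [Group T] [Finite T]
    (hT : IsPGroup 2 T) (ha : 2 ^ 14 ≤ Nat.card T) (hb : Nat.card ↥(Subgroup.upperCentralSeries T 4) = 16)
    (W : Subgroup T) (hW : W = Subgroup.centralizer ((Subgroup.upperCentralSeries T 3 : Subgroup T) : Set T))
    (hc : Nat.card ↥(frattini ↥W) ≤ 8) (hd : ∀ U : Subgroup ↥W, U.index ≤ 16 → frattini ↥W ≤ U) :
    Nat.card T = 2 ^ 14 ∧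
      (commutator ↥W).map W.subtype = Subgroup.upperCentralSeries T 3 ∧
      (frattini ↥W).map W.subtype = Subgroup.upperCentralSeries T 3 ∧
      Nat.card ↥(Subgroup.center ↥W) = 8 ∧
      Nat.card ↥(Subgroup.upperCentralSeries T 3) = 8 ∧ (∀ z ∈ Subgroup.upperCentralSeries T 3, z ^ 2 = 1) ∧
      (∃ (_ : W.Normal), Nonempty (T ⧸ W ≃* DihedralGroup 4)) ∧
      Nat.card (↥W ⧸ commutator ↥W) = 2 ^ 8 ∧ (∀ x : ↥W ⧸ commutator ↥W, x ^ 2 = 1) := by
  classical
  have h : FrHyp W := ⟨hc, hd⟩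
  have hcZ : CardZ T := cardZ_of hT (by omega) hb
  obtain ⟨E⟩ := exists_eBasis hcZ
  have hN := num_of hT ha hb hW h
  haveI hWn : W.Normal := by rw [hW]; infer_instance
  have hD : Dc W = Zs T 3 := dc_eq hT hcZ E h hN
  have C : Ctx W := ⟨hT, hcZ, hW, h, hN, hD⟩
  refine ⟨hN.cT, hD, hN.eF, ?_, hcZ.c3, fun z hz => C.sq hz, ⟨hWn, exists_iso C E⟩, ?_, ?_⟩
  · -- the centre
    haveI hCn : ((Subgroup.center ↥W).map W.subtype).Normal := inferInstance
    have hcard : Nat.card ↥(Subgroup.center ↥W) = Nat.card ((Subgroup.center ↥W).map W.subtype) :=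
      Nat.card_congr (Subgroup.equivMapOfInjective _ _ W.subtype_injective).toEquiv
    rw [hcard]
    have hZle : Zs T 3 ≤ (Subgroup.center ↥W).map W.subtype := by
      intro z hz
      refine ⟨⟨z, C.Z3W hz⟩, ?_, rfl⟩
      rw [SetLike.mem_coe, Subgroup.mem_center_iff]
      intro x
      apply Subtype.ext
      exact (C.central hz x.2).symm
    rcases normal_chain hT hcZ ((Subgroup.center ↥W).map W.subtype) with h0 | h0 | h0 | h0 | h0
    · exfalso
      have := Subgroup.card_le_of_le (hZle.trans h0.le)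
      rw [hcZ.c3, hcZ.c0] at this
      omega
    · exfalso
      have := Subgroup.card_le_of_le (hZle.trans h0.le)
      rw [hcZ.c3, hcZ.c1] at this
      omega
    · exfalso
      have := Subgroup.card_le_of_le (hZle.trans h0.le)
      rw [hcZ.c3, hcZ.c2] at this
      omega
    · rw [h0, hcZ.c3]
    · exfalso
      apply no_Z4_central C
      intro u hu x hx
      obtain ⟨y, hy, rfl⟩ := h0 hu
      rw [SetLike.mem_coe, Subgroup.mem_center_iff] at hy
      exact (congrArg Subtype.val (hy ⟨x, hx⟩)).symm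
  · -- the quotient
    have h1 := Subgroup.card_mul_index (commutator ↥W)
    have h2 : Nat.card ↥(commutator ↥W) = 8 := by
      have h3 : Nat.card (Dc W) = Nat.card ↥(commutator ↥W) :=
        Nat.card_congr (Subgroup.equivMapOfInjective _ _ W.subtype_injective).symm.toEquiv
      rw [← h3, hD, hcZ.c3]
    rw [h2, hN.cW] at h1
    have h3 : (commutator ↥W).index = 2 ^ 8 := by omega
    rw [← h3]
    rfl
  · intro x
    obtain ⟨a, rfl⟩ := QuotientGroup.mk_surjective x
    have h1 : (a : T) ^ 2 ∈ Dc W := by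
      rw [hD]
      exact C.sqW a.2
    obtain ⟨c, hc', hce⟩ := h1
    have h2 : c = a ^ 2 := Subtype.ext hce
    rw [← QuotientGroup.mk_pow, ← h2]
    exact (QuotientGroup.eq_one_iff c).2 hc'

end Cfsg.Agent.Lib.Components.TwoGroup14
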