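import Mathlib
import Cfsg.Agent.Lib.PGroup.FrattiniBasis
import Cfsg.Agent.Lib.Components.TwoGroup14J
import Cfsg.Agent.Lib.Fusion.EssentialSmall

set_option autoImplicit false
open scoped commutatorElement

namespace Cfsg.Agent.Lib.Components.TwoGroup14

open Cfsg.Agent.Lib.PGroup

universe u
variable {T : Type u} [Group T] [Finite T]

section Weak

/-- Subgroups avoiding an element, index at most two. -/
theorem exists_sub2 {A : Type*} [Group A] [Finite A] (K : Subgroup A) (z : A) (hzK : z ∉ K)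
    (hs : ∀ a : A, a ^ 2 ∈ K) (hcomm : ∀ a b : A, a * b * a⁻¹ * b⁻¹ ∈ K) :
    ∃ X : Subgroup A, K ≤ X ∧ z ∉ X ∧ X.index ≤ 2 := by
  classical
  obtain ⟨X, hX⟩ : ∃ X : Subgroup A, Maximal (fun Y : Subgroup A => K ≤ Y ∧ z ∉ Y) X :=
    (Set.toFinite {Y : Subgroup A | K ≤ Y ∧ z ∉ Y}).exists_maximal ⟨K, le_refl _, hzK⟩
  obtain ⟨hKX, hzX⟩ := hX.prop
  refine ⟨X, hKX, hzX, ?_⟩
  have hXn : X.Normal := by
    constructor
    intro x hx g
    have h1 : g * x * g⁻¹ * x⁻¹ ∈ X := hKX (hcomm g x)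
    have h2 := X.mul_mem h1 hx
    simpa using h2
  let q : A → A ⧸ X := fun a => (QuotientGroup.mk a : A ⧸ X)
  have hqmul : ∀ a b, q (a * b) = q a * q b := fun a b => rfl
  have hq1 : ∀ a, q a = 1 ↔ a ∈ X := fun a => QuotientGroup.eq_one_iff a
  have hqsurj : ∀ s : A ⧸ X, ∃ a, q a = s := fun s => QuotientGroup.mk_surjective s
  set zb := q z with hzb
  have hzb1 : zb ≠ 1 := fun h => hzX ((hq1 z).1 h)
  have hinv : ∀ s : A ⧸ X, s = 1 ∨ s = zb := by
    intro s
    by_cases hs1 : s = 1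
    · exact Or.inl hs1
    right
    obtain ⟨a, rfl⟩ := hqsurj s
    have haX : a ∉ X := fun h => hs1 ((hq1 a).2 h)
    have hs2 : (q a) ^ 2 = 1 := (hq1 (a ^ 2)).2 (hKX (hs a))
    have hXlt : X < X ⊔ Subgroup.zpowers a := by
      refine lt_of_le_of_ne le_sup_left ?_
      intro h
      apply haX
      rw [h]
      exact Subgroup.mem_sup_right (Subgroup.mem_zpowers a)
    have hz' : z ∈ X ⊔ Subgroup.zpowers a := by
      by_contra hcon
      have := hX.le_of_ge ⟨hKX.trans le_sup_left, hcon⟩ hXlt.le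
      exact absurd this (not_le_of_gt hXlt)
    rw [Subgroup.mem_sup_of_normal_left] at hz'
    obtain ⟨x, hx, y, hy, rfl⟩ := hz'
    obtain ⟨i, rfl⟩ := Subgroup.mem_zpowers_iff.1 hy
    have hqz : zb = (q a) ^ i := by
      rw [hzb, hqmul, (hq1 x).2 hx, one_mul]
      rfl
    rcases Int.even_or_odd' i with ⟨j, hj | hj⟩
    · exfalso
      apply hzb1
      rw [hqz, hj, zpow_mul]
      have : (q a) ^ (2 : ℤ) = 1 := by exact_mod_cast hs2
      rw [this, one_zpow]
    · rw [hqz, hj, zpow_add, zpow_mul]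
      have : (q a) ^ (2 : ℤ) = 1 := by exact_mod_cast hs2
      rw [this, one_zpow, one_mul, zpow_one]
  rw [Subgroup.index_eq_card]
  letI : Fintype (A ⧸ X) := Fintype.ofFinite _
  rw [Nat.card_eq_fintype_card]
  have hsub : (Finset.univ : Finset (A ⧸ X)) ⊆ {1, zb} := by
    intro s _
    rcases hinv s with h | h <;> simp [h]
  have := (Finset.card_le_card hsub).trans Finset.card_le_two
  rwa [Finset.card_univ] at this

variable {W : Subgroup T} (C : Ctx W)

include C in
/-- The core of weak closure: an injective image of `W` in `T` is `W`. -/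
theorem weak_core (φ : ↥W →* T) (hφ : Function.Injective φ) : φ.range = W := by
  classical
  haveI hWn := C.normal
  set W₂ : Subgroup T := φ.range with hW₂
  set Z₂ : Subgroup T := (frattini ↥W).map φ with hZ₂
  set R : Subgroup T := W ⊓ W₂ with hR
  have hT := C.hT
  have hh := C.h
  haveI : Fact (Nat.Prime 2) := ⟨Nat.prime_two⟩
  have hWp : IsPGroup 2 ↥W := hT.to_subgroup W
  have hcardW₂ : Nat.card W₂ = Nat.card W := by
    have : Nat.card ↥W = Nat.card φ.range := Nat.card_congr (MonoidHom.ofInjective hφ).toEquiv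
    exact this.symm
  have hcardZ₂ : Nat.card Z₂ = 8 := by
    have h1 : Nat.card ↥(frattini ↥W) = Nat.card Z₂ :=
      Nat.card_congr (Subgroup.equivMapOfInjective _ _ hφ).toEquiv
    rw [← h1, ← card_Fr]
    exact C.hN.cF
  -- facts on `W₂`
  have ha1 : ∀ x ∈ W₂, ∀ y ∈ W₂, x * y * x⁻¹ * y⁻¹ ∈ Z₂ := by
    rintro _ ⟨x, rfl⟩ _ ⟨y, rfl⟩
    refine ⟨x * y * x⁻¹ * y⁻¹, ?_, by simp⟩
    exact FrattiniBasis.commutator_le_frattini hWp
      (Subgroup.commutator_mem_commutator (Subgroup.mem_top x) (Subgroup.mem_top y))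
  have ha2 : ∀ x ∈ W₂, x ^ 2 ∈ Z₂ := by
    rintro _ ⟨x, rfl⟩
    exact ⟨x ^ 2, FrattiniBasis.pow_mem_frattini hWp x, by simp⟩
  have hb2 : ∀ z ∈ Z₂, ∀ x ∈ W₂, z * x = x * z := by
    rintro _ ⟨z, hz, rfl⟩ _ ⟨x, rfl⟩
    have h1 : (z : T) * x = x * z := fr_central hT hh ⟨z, hz, rfl⟩ x.2
    have h2 : z * x = x * z := Subtype.ext h1
    rw [← map_mul, h2, map_mul]
  have hc2 : ∀ U : Subgroup T, U.relIndex W₂ ≤ 16 → Z₂ ≤ U := by
    intro U hU
    have h1 : frattini ↥W ≤ U.comap φ := hh.hd _ (by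
      rw [Subgroup.index_comap]
      exact hU)
    rintro _ ⟨z, hz, rfl⟩
    exact h1 hz
  -- indices
  have hi2 : R.relIndex W₂ ≤ 8 := by
    have h1 : R.relIndex W₂ = W.relIndex W₂ := by
      rw [hR]
      exact Subgroup.inf_relIndex_right _ _
    rw [h1]
    have h2 : W.relIndex W₂ ≤ W.relIndex ⊤ :=
      Subgroup.relIndex_le_of_le_right le_top (by
        rw [Subgroup.relIndex_top_right]; exact Subgroup.index_ne_zero_of_finite)
    rw [Subgroup.relIndex_top_right, C.hN.iW] at h2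
    exact h2
  have hRW : R ≤ W := inf_le_left
  have hRW₂ : R ≤ W₂ := inf_le_right
  have hcardrel : ∀ {A B : Subgroup T}, A ≤ B → A.relIndex B * Nat.card A = Nat.card B := by
    intro A B hAB
    have h1 := Subgroup.card_mul_index (A.subgroupOf B)
    have h2 : Nat.card (A.subgroupOf B) = Nat.card A :=
      Nat.card_congr (Subgroup.subgroupOfEquivOfLe hAB).toEquiv
    rw [h2] at h1
    rw [Subgroup.relIndex, mul_comm, h1]
  have hi1 : R.relIndex W ≤ 8 := by
    have h1 := hcardrel hRW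
    have h2 := hcardrel hRW₂
    rw [hcardW₂, ← h1] at h2
    have h3 : 0 < Nat.card R := Nat.card_pos
    have h4 : R.relIndex W₂ = R.relIndex W := Nat.eq_of_mul_eq_mul_right h3 h2
    rw [← h4]
    exact hi2
  have hZR : Zs T 3 ≤ R := by
    have := FrHyp.le (h := hh) (U := R) (by omega)
    rwa [C.hN.eF] at this
  have hZ₂R : Z₂ ≤ R := hc2 R (by omega)
  have hle : Zs T 3 ≤ Z₂ := by
    by_contra hcon
    obtain ⟨z, hz, hzZ₂⟩ := SetLike.not_le_iff_exists.1 hcon
    set K₀ : Subgroup T := Zs T 3 ⊓ Z₂ with hK₀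
    obtain ⟨X, hKX, hzX, hXi⟩ := exists_sub2 (A := ↥R) (K₀.subgroupOf R) ⟨z, hZR hz⟩
      (by
        rw [Subgroup.mem_subgroupOf]
        exact fun h => hzZ₂ h.2)
      (by
        intro a
        rw [Subgroup.mem_subgroupOf]
        exact ⟨C.sqW (hRW a.2), ha2 _ (hRW₂ a.2)⟩)
      (by
        intro a b
        rw [Subgroup.mem_subgroupOf]
        exact ⟨C.comm (hRW a.2) (hRW b.2), ha1 _ (hRW₂ a.2) _ (hRW₂ b.2)⟩)
    set U : Subgroup T := X.map R.subtype with hU
    have hUR : U ≤ R := Subgroup.map_subtype_le _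
    have hUrel : U.relIndex R = X.index := by
      have h2 : U.subgroupOf R = X := Subgroup.comap_map_eq_self_of_injective R.subtype_injective X
      rw [Subgroup.relIndex, h2]
    have hrel : U.relIndex W ≤ 16 := by
      have h1 := Subgroup.relIndex_mul_relIndex U R W hUR hRW
      rw [← h1, hUrel]
      exact Nat.mul_le_mul hXi hi1
    have hF := FrHyp.le (h := hh) hrel
    rw [C.hN.eF] at hF
    obtain ⟨y, hy, hyu⟩ := hF hz
    apply hzX
    have : y = ⟨z, hZR hz⟩ := Subtype.ext hyu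
    exact this ▸ hy
  have heq : Zs T 3 = Z₂ := Subgroup.eq_of_le_of_card_ge hle (by rw [hcardZ₂, C.hc.c3])
  have hW₂W : W₂ ≤ W := by
    intro x hx
    rw [C.hW, Subgroup.mem_centralizer_iff]
    intro z hz
    exact hb2 z (heq ▸ hz) x hx
  exact Subgroup.eq_of_le_of_card_ge hW₂W (by rw [hcardW₂])

end Weak

section Aut

variable {W : Subgroup T} (C : Ctx W)

omit [Finite T] in
/-- Fixed by an odd order automorphism after squaring. -/
theorem fix_of_pow_two {α : MulAut T} (hα : Odd (orderOf α)) {x : T} {k : ℕ} (h : (α ^ (2 ^ k)) x = x) :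
    α x = x := by
  have hcop : Nat.Coprime (2 ^ k) (orderOf α) :=
    Nat.Coprime.pow_left _ (Nat.coprime_two_left.2 hα)
  obtain ⟨m, hm⟩ := exists_pow_eq_self_of_coprime hcop
  have hfix : ∀ n : ℕ, ((α ^ (2 ^ k)) ^ n) x = x := by
    intro n
    induction n with
    | zero => simp
    | succ n ih =>
      rw [pow_succ, MulAut.mul_apply, h, ih]
  rw [← hm]
  exact hfix m

theorem Zs_char (α : MulAut T) (k : ℕ) : ∀ x ∈ Zs T k, α x ∈ Zs T k := by
  induction k generalizing α with
  | zero =>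
    intro x hx
    have : x = 1 := by simpa [Zs, Subgroup.upperCentralSeries_zero] using hx
    rw [this, map_one]
    exact one_mem _
  | succ k ih =>
    intro x hx
    rw [mem_Zs_succ] at hx ⊢
    intro y
    have h1 := ih α _ (hx (α⁻¹ y))
    have h2 : α (x * α⁻¹ y * x⁻¹ * (α⁻¹ y)⁻¹) = α x * y * (α x)⁻¹ * y⁻¹ := by
      simp [map_mul, map_inv]
    rwa [h2] at h1

include C in
theorem fix_Z {α : MulAut T} (hα : Odd (orderOf α)) : ∀ k ≤ 4, ∀ x ∈ Zs T k, α x = x := by
  intro k
  induction k with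
  | zero =>
    intro _ x hx
    have : x = 1 := by simpa [Zs, Subgroup.upperCentralSeries_zero] using hx
    rw [this, map_one]
  | succ k ih =>
    intro hk x hx
    have hk' : k ≤ 4 := by omega
    have hstep : Nat.card (Zs T (k + 1)) = 2 * Nat.card (Zs T k) := by
      have h4 : k = 0 ∨ k = 1 ∨ k = 2 ∨ k = 3 := by omega
      rcases h4 with rfl | rfl | rfl | rfl
      · rw [C.hc.c0, C.hc.c1]
      · rw [C.hc.c1, C.hc.c2]
      · rw [C.hc.c2, C.hc.c3]
      · rw [C.hc.c3, C.hc.c4]
    have hf : α x * x⁻¹ ∈ Zs T k := by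
      by_cases hxk : x ∈ Zs T k
      · exact (Zs T k).mul_mem (Zs_char α k x hxk) ((Zs T k).inv_mem hxk)
      · refine mul_inv_mem_of_two (Zs_le (Nat.le_succ k)) hstep (Zs_char α _ x hx) hx ?_ hxk
        intro h
        apply hxk
        have := Zs_char α⁻¹ k _ h
        simpa using this
    obtain ⟨f, hfe⟩ : ∃ f, f = α x * x⁻¹ := ⟨_, rfl⟩
    rw [← hfe] at hf
    have h1 : α x = f * x := by rw [hfe]; group
    have hfix := ih hk' f hf
    have hf3 : f ∈ Zs T 3 := by
      have hk3 : k ≤ 3 := by omega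
      exact Zs_le hk3 hf
    have hsq : f * f = 1 := by
      have := C.sq hf3
      rwa [pow_two] at this
    apply fix_of_pow_two hα (k := 1)
    have h2 : (α ^ (2 ^ 1)) x = α (α x) := by
      rw [pow_one, pow_two, MulAut.mul_apply]
    rw [h2, h1, map_mul, hfix, h1, ← mul_assoc, hsq, one_mul]

include C in
/-- The main result on automorphisms. -/
theorem aut_trivial (α : MulAut T) (hα : Odd (orderOf α)) : α = 1 := by
  classical
  haveI hWn := C.normal
  haveI : Fact (Nat.Prime 2) := ⟨Nat.prime_two⟩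
  letI : Fintype (T ⧸ W) := Fintype.ofFinite _
  have hT := C.hT
  have hfixZ3 : ∀ z ∈ Zs T 3, α z = z := fix_Z C hα 3 (by norm_num)
  -- Modulo `W`
  have hW : ∀ x : T, x⁻¹ * α x ∈ W := by
    intro x
    rw [C.hW, Subgroup.mem_centralizer_iff]
    intro z hz
    have hz' : z ∈ Zs T 3 := hz
    have h1 : x * z * x⁻¹ ∈ Zs T 3 := (inferInstance : (Zs T 3).Normal).conj_mem z hz' x
    have h2 := hfixZ3 _ h1
    rw [map_mul, map_mul, map_inv, hfixZ3 z hz'] at h2
    have h3 : x⁻¹ * α x * z = z * (x⁻¹ * α x) := by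
      calc x⁻¹ * α x * z = x⁻¹ * (α x * z * (α x)⁻¹) * α x := by group
        _ = x⁻¹ * (x * z * x⁻¹) * α x := by rw [h2]
        _ = z * (x⁻¹ * α x) := by group
    exact h3.symm
  have hWchar : ∀ x ∈ W, α x ∈ W := by
    intro x hx
    have := W.mul_mem hx (hW x)
    simpa using this
  -- the Frattini quotient
  obtain ⟨V, _, _, π, hπ, hker⟩ := FrattiniBasis.exists_vector_space hT
  have hsq : ∀ x : T, π x * π x = 1 := by
    intro x
    rw [← map_mul, ← MonoidHom.mem_ker, hker, ← pow_two]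
    exact FrattiniBasis.pow_mem_frattini hT x
  have hfr : ∀ x, π x = 1 → π (α x) = 1 := by
    intro x hx
    rw [← MonoidHom.mem_ker, hker] at hx ⊢
    exact (ActionFrattini.char_mem (frattini T) α).2 hx
  have hfr' : ∀ x, π (α x) = 1 → π x = 1 := by
    intro x hx
    rw [← MonoidHom.mem_ker, hker] at hx ⊢
    exact (ActionFrattini.char_mem (frattini T) α).1 hx
  have hZ3π : ∀ z ∈ Zs T 3, π z = 1 := by
    intro z hz
    rw [← C.hD] at hz
    obtain ⟨w, hw, rfl⟩ := hz
    have : commutator ↥W ≤ (π.comp W.subtype).ker := by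
      rw [commutator_def, Subgroup.commutator_le]
      intro a _ b _
      rw [MonoidHom.mem_ker, commutatorElement_def]
      simp only [MonoidHom.comp_apply, map_mul, map_inv, Subgroup.coe_subtype]
      rw [mul_comm (π (a : T)) (π (b : T))]
      simp
    exact this hw
  obtain ⟨u, hu, hu3⟩ := exists_not_mem_of_card_lt (A := Zs T 3) (B := Zs T 4)
    (by rw [C.hc.c3, C.hc.c4]; norm_num)
  obtain ⟨H, e, G, _⟩ := exists_gen C hu hu3
  have hP : ∀ x ∈ W, π x = 1 ∨ π x = π e := by
    refine ind_bad C G (fun x => π x = 1 ∨ π x = π e) ?_ ?_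
    · intro z hz
      exact Or.inl (hZ3π z hz)
    · intro x _ q _ h1
      have h2 : π (x * (q.out * e * q.out⁻¹)) = π x * π e := by
        rw [map_mul, map_mul, map_mul, map_inv, mul_comm (π q.out), mul_assoc, mul_inv_cancel, mul_one]
      rw [h2] at h1
      rcases h1 with h1 | h1
      · right
        have h3 : π x = (π e)⁻¹ := eq_inv_of_mul_eq_one_left h1
        have h4 : (π e)⁻¹ = π e := inv_eq_of_mul_eq_one_left (hsq e)
        rw [h3, h4]
      · left
        have h3 : π x * π e = 1 * π e := by rw [h1, one_mul]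
        exact mul_right_cancel h3
  have hπW : ∀ x ∈ W, π (α x) = π x := by
    intro x hx
    rcases hP x hx with h | h
    · rw [h]
      exact hfr x h
    · by_cases h1 : π x = 1
      · rw [h1]
        exact hfr x h1
      · have h2 : π (α x) ≠ 1 := fun h3 => h1 (hfr' x h3)
        rcases hP (α x) (hWchar x hx) with h3 | h3
        · exact absurd h3 h2
        · rw [h3, h]
  -- chain
  let D : ℕ → Subgroup T := fun i => if i = 0 then frattini T else if i = 1 then W ⊔ frattini T else ⊤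
  have hD0 : D 0 = frattini T := rfl
  have hD1 : D 1 = W ⊔ frattini T := rfl
  have hD2 : D 2 = ⊤ := rfl
  refine Cfsg.Agent.Lib.Fusion.EssentialSmall.eq_one_of_stab_frattini_chain hT hD0 hD2 (β := α) ?_ ?_
    (Nat.coprime_two_right.2 hα)
  · intro i hi x hx
    have h3 : i = 0 ∨ i = 1 ∨ i = 2 := by omega
    rcases h3 with rfl | rfl | rfl
    · exact (ActionFrattini.char_mem (frattini T) α).2 hx
    · rw [hD1] at hx ⊢
      rw [Subgroup.mem_sup_of_normal_left] at hx
      obtain ⟨a, ha, b, hb, rfl⟩ := hx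
      rw [map_mul]
      exact Subgroup.mul_mem _ (Subgroup.mem_sup_left (hWchar a ha))
        (Subgroup.mem_sup_right ((ActionFrattini.char_mem (frattini T) α).2 hb))
    · exact Subgroup.mem_top _
  · intro i hi x hx
    have h3 : i = 0 ∨ i = 1 := by omega
    rcases h3 with rfl | rfl
    · rw [hD0]
      have hx' : x ∈ W ⊔ frattini T := hx
      rw [Subgroup.mem_sup_of_normal_left] at hx'
      obtain ⟨a, ha, b, hb, rfl⟩ := hx'
      rw [← hker, MonoidHom.mem_ker]
      have hb1 : π b = 1 := by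
        rw [← MonoidHom.mem_ker, hker]; exact hb
      have hb2 := hfr b hb1
      rw [map_mul, map_mul, map_mul, map_inv, map_mul, hb1, hb2, hπW a ha]
      simp
    · rw [hD1]
      exact Subgroup.mem_sup_left (hW x)

end Aut

end Cfsg.Agent.Lib.Components.TwoGroup14
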