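import Mathlib
import Cfsg.Prelude.Def_Transfer
import Cfsg.Agent.Lib.Components.TwoGroup14K

set_option autoImplicit false
open scoped commutatorElement

namespace Cfsg.Agent.Lib.Components.TwoGroup14

open Cfsg.Agent.Lib.PGroup

universe u

theorem ctx_of {T : Type u} [Group T] [Finite T]
    (hT : IsPGroup 2 T) (ha : 2 ^ 14 ≤ Nat.card T) (hb : Nat.card ↥(Subgroup.upperCentralSeries T 4) = 16)
    (W : Subgroup T) (hW : W = Subgroup.centralizer ((Subgroup.upperCentralSeries T 3 : Subgroup T) : Set T))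
    (hc : Nat.card ↥(frattini ↥W) ≤ 8) (hd : ∀ U : Subgroup ↥W, U.index ≤ 16 → frattini ↥W ≤ U) :
    Ctx W := by
  have h : FrHyp W := ⟨hc, hd⟩
  have hcZ : CardZ T := cardZ_of hT (by omega) hb
  obtain ⟨E⟩ := exists_eBasis hcZ
  have hN := num_of hT ha hb hW h
  haveI hWn : W.Normal := by rw [hW]; infer_instance
  have hD : Dc W = Zs T 3 := dc_eq hT hcZ E h hN
  exact ⟨hT, hcZ, hW, h, hN, hD⟩

variable {G : Type u} [Group G] [Finite G]

theorem complement_of (T : Sylow 2 G) (haut : ∀ α : MulAut ↥(T : Subgroup G), Odd (orderOf α) → α = 1) :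
    Cfsg.HasNormalPComplement 2 ↥(Subgroup.normalizer ((T : Subgroup G) : Set G)) := by
  classical
  haveI : Fact (Nat.Prime 2) := ⟨Nat.prime_two⟩
  set N : Subgroup G := Subgroup.normalizer ((T : Subgroup G) : Set G) with hN
  have hTN : (T : Subgroup G) ≤ N := Subgroup.le_normalizer
  let P : Sylow 2 ↥N := T.subtype hTN
  have hPe : (P : Subgroup ↥N) = (T : Subgroup G).subgroupOf N := rfl
  haveI hPn : (P : Subgroup ↥N).Normal := by
    rw [hPe]
    exact Subgroup.normal_in_normalizer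
  obtain ⟨K, hK⟩ := Subgroup.exists_right_complement'_of_coprime (P.card_coprime_index)
  have hKc : (P : Subgroup ↥N).index = Nat.card K := hK.symm.index_eq_card
  have hodd : Odd (Nat.card K) := by
    rw [← hKc]
    rw [← Nat.not_even_iff_odd, even_iff_two_dvd]
    exact P.not_dvd_index
  have hcent : ∀ k ∈ K, ∀ t ∈ (T : Subgroup G), (k : G) * t = t * (k : G) := by
    intro k hk t ht
    have horder : Odd (orderOf k) := by
      have h1 : orderOf (⟨k, hk⟩ : K) ∣ Nat.card K := orderOf_dvd_natCard _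
      have h2 : orderOf (⟨k, hk⟩ : K) = orderOf k := Subgroup.orderOf_mk k hk
      rw [h2] at h1
      exact Odd.of_dvd_nat hodd h1
    have hα : Odd (orderOf ((T : Subgroup G).normalizerMonoidHom k)) :=
      Odd.of_dvd_nat horder (orderOf_map_dvd _ _)
    have h1 := haut _ hα
    have h2 : ((T : Subgroup G).normalizerMonoidHom k) ⟨t, ht⟩ = ⟨t, ht⟩ := by
      rw [h1]
      rfl
    have h3 : (k : G) * t * (k : G)⁻¹ = t := congrArg Subtype.val h2
    calc (k : G) * t = (k : G) * t * (k : G)⁻¹ * k := by group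
      _ = t * k := by rw [h3]
  have hKn : K.Normal := by
    constructor
    intro x hx n
    obtain ⟨⟨⟨p, hp⟩, ⟨k', hk'⟩⟩, hpk⟩ := hK.2 n
    have hpk' : p * k' = n := hpk
    subst hpk'
    have hy : k' * x * k'⁻¹ ∈ K := K.mul_mem (K.mul_mem hk' hx) (K.inv_mem hk')
    have hpT : ((p : ↥N) : G) ∈ (T : Subgroup G) := hp
    have hcomm := hcent _ hy _ hpT
    have hcomm2 : (k' * x * k'⁻¹) * p = p * (k' * x * k'⁻¹) := Subtype.ext hcomm
    have h5 : p * k' * x * (p * k')⁻¹ = k' * x * k'⁻¹ := by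
      calc p * k' * x * (p * k')⁻¹ = (p * (k' * x * k'⁻¹)) * p⁻¹ := by group
        _ = ((k' * x * k'⁻¹) * p) * p⁻¹ := by rw [hcomm2]
        _ = k' * x * k'⁻¹ := by group
    rw [h5]
    exact hy
  exact ⟨P, K, hKn, hK.symm⟩

theorem weak_of (T : Sylow 2 G) (W : Subgroup ↥(T : Subgroup G)) (C : Ctx W) :
    Cfsg.IsWeaklyClosed (W.map (T : Subgroup G).subtype) (T : Subgroup G) := by
  refine ⟨Subgroup.map_subtype_le _, ?_⟩
  intro g hg
  let f : ↥W →* G := (MulAut.conj g).toMonoidHom.comp ((T : Subgroup G).subtype.comp W.subtype)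
  have hf : ∀ x, f x ∈ (T : Subgroup G) := by
    intro x
    apply hg
    exact ⟨(x : ↥(T : Subgroup G)), ⟨x, x.2, rfl⟩, rfl⟩
  let φ : ↥W →* ↥(T : Subgroup G) := f.codRestrict (T : Subgroup G) hf
  have hφ : Function.Injective φ := by
    intro a b hab
    have h1 : f a = f b := congrArg Subtype.val hab
    have h2 : g * ((a : ↥(T : Subgroup G)) : G) * g⁻¹ = g * ((b : ↥(T : Subgroup G)) : G) * g⁻¹ := h1
    have h3 : ((a : ↥(T : Subgroup G)) : G) = ((b : ↥(T : Subgroup G)) : G) := by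
      simpa using h2
    exact Subtype.ext (Subtype.ext h3)
  have hr := weak_core C φ hφ
  conv_rhs => rw [← hr]
  ext x
  constructor
  · rintro ⟨_, ⟨w, hw, rfl⟩, rfl⟩
    exact ⟨φ ⟨w, hw⟩, ⟨⟨w, hw⟩, rfl⟩, rfl⟩
  · rintro ⟨_, ⟨w, rfl⟩, rfl⟩
    exact ⟨_, ⟨(w : ↥(T : Subgroup G)), w.2, rfl⟩, rfl⟩

end Cfsg.Agent.Lib.Components.TwoGroup14
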