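import Cfsg.Agent.Lib.PSL2.Basic
import Cfsg.Agent.Lib.PSL2.Torus

set_option autoImplicit false

namespace Cfsg.Agent.Lib.Components.TwoSL2

open Matrix Matrix.SpecialLinearGroup
open scoped MatrixGroups
open Cfsg.Agent.Lib.PSL2.Basic

section SL2
variable {F : Type*} [Field F] [Fintype F]

theorem two_ne (hF : Odd (Fintype.card F)) : (2 : F) ≠ 0 := by
  intro h
  have h2 : ringChar F = 2 := by
    have := CharTwo.of_one_ne_zero_of_two_eq_zero (one_ne_zero) h
    exact ringChar.eq F 2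
  have := FiniteField.even_card_of_char_two h2
  exact (Nat.not_even_iff_odd.mpr hF) (Nat.even_iff.mpr this)

theorem comm_of_center {A : SL(2, F)} (h2 : (2 : F) ≠ 0) {g : SL(2, F)} (hg : tr g = 2)
    (h : A * g * A⁻¹ * g⁻¹ ∈ Subgroup.center SL(2, F)) : A * g = g * A := by
  rcases (mem_center_iff₂).1 h with h1 | h1
  · have : A * g * A⁻¹ = g := by
      have := congrArg (· * g) h1
      simpa using this
    calc A * g = (A * g * A⁻¹) * A := by group
      _ = g * A := by rw [this]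
  · exfalso
    have : A * g * A⁻¹ = - g := by
      have := congrArg (· * g) h1
      simpa using this
    have ht := congrArg tr this
    rw [tr_conj, tr_neg, hg] at ht
    apply h2
    have h4 : (2 : F) + 2 = 0 := by linear_combination ht
    have : (2 : F) * 2 = 0 := by linear_combination h4
    exact (mul_self_eq_zero.mp this)

/-- A noncentral element has a noncentral commutator. -/
theorem exists_comm_notMem (hF : Odd (Fintype.card F)) {A : SL(2, F)}
    (hA : A ∉ Subgroup.center SL(2, F)) :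
    ∃ h : SL(2, F), A * h * A⁻¹ * h⁻¹ ∉ Subgroup.center SL(2, F) := by
  have h2 := two_ne hF
  by_contra hc
  push Not at hc
  have hx := comm_of_center h2 (tr_x (1 : F)) (hc (x 1))
  have hy := comm_of_center h2 (tr_y (1 : F)) (hc (y 1))
  apply hA
  rw [mem_center_iff₂]
  have e1 := congrArg (fun M : SL(2, F) => M.1 0 0) hx
  have e2 := congrArg (fun M : SL(2, F) => M.1 0 1) hx
  have e3 := congrArg (fun M : SL(2, F) => M.1 0 0) hy
  simp at e1 e2 e3
  have hc0 : A.1 1 0 = 0 := e1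
  have hda : A.1 1 1 = A.1 0 0 := by linear_combination -e2
  have hb0 : A.1 0 1 = 0 := e3
  have hdet := det_entries A
  rw [hda, hb0, hc0] at hdet
  have : (A.1 0 0 - 1) * (A.1 0 0 + 1) = 0 := by linear_combination hdet
  rcases mul_eq_zero.mp this with h | h
  · left
    apply ext2
    · simp; linear_combination h
    · simp [hb0]
    · simp [hc0]
    · simp; rw [hda]; linear_combination h
  · right
    apply ext2
    · simp; linear_combination h
    · simp [hb0]
    · simp [hc0]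
    · simp; rw [hda]; linear_combination h

/-- A noncentral normal subgroup contains an element with square `-1`. -/
theorem exists_sq_neg_one (hF : Odd (Fintype.card F)) (K : Subgroup SL(2, F)) (hK : K.Normal)
    {g : SL(2, F)} (hg : g ∈ K) (hgc : g ∉ Subgroup.center SL(2, F)) :
    ∃ u ∈ K, u * u = -1 := by
  have h2 := two_ne hF
  by_cases h4 : 4 ≤ Nat.card F
  · have hs := Matrix.ProjectiveSpecialLinearGroup.rank_two_simple h4
    have hnorm : (K.map (mkP : SL(2, F) →* PSL(2, F))).Normal :=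
      hK.map _ mkP_surjective
    rcases hs.eq_bot_or_eq_top_of_normal _ hnorm with h | h
    · exfalso
      apply hgc
      have : mkP g = 1 := by
        have hm : mkP g ∈ K.map (mkP : SL(2, F) →* PSL(2, F)) := ⟨g, hg, rfl⟩
        rw [h] at hm
        exact hm
      exact (QuotientGroup.eq_one_iff g).mp this
    · have hm : mkP (w : SL(2, F)) ∈ K.map (mkP : SL(2, F) →* PSL(2, F)) := by
        rw [h]; trivial
      obtain ⟨k, hk, hkw⟩ := hm
      refine ⟨k, hk, ?_⟩
      have hc : w⁻¹ * k ∈ Subgroup.center SL(2, F) := by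
        have : mkP (w⁻¹ * k) = 1 := by
          rw [map_mul, map_inv, hkw, inv_mul_cancel]
        exact (QuotientGroup.eq_one_iff _).mp this
      rcases (mem_center_iff₂).1 hc with h1 | h1
      · have : k = w := by
          have := congrArg (w * ·) h1
          simpa using this
        rw [this, w_mul_w]
      · have : k = - w := by
          have := congrArg (w * ·) h1
          simpa using this
        rw [this]
        simp [w_mul_w]
  · -- card F = 3
    have hcard : Fintype.card F = 3 := by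
      rw [Nat.card_eq_fintype_card] at h4
      have h1 : 1 < Fintype.card F := Fintype.one_lt_card
      rcases hF with ⟨k, hk⟩
      omega
    have h30 : (3 : F) = 0 := by
      have := FiniteField.cast_card_eq_zero F
      rw [hcard] at this
      exact_mod_cast this
    have hsq : ∀ a : F, a ≠ 0 → a * a = 1 := by
      intro a ha
      have := FiniteField.pow_card_sub_one_eq_one a ha
      rw [hcard] at this
      simpa [pow_two] using this
    have hdet := det_entries g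
    by_cases hc : g.1 1 0 = 0
    · by_cases hb : g.1 0 1 = 0
      · exfalso
        apply hgc
        rw [mem_center_iff₂]
        rw [hb, hc] at hdet
        have ha : g.1 0 0 ≠ 0 := by
          intro h; rw [h] at hdet; simp at hdet
        have hd : g.1 1 1 ≠ 0 := by
          intro h; rw [h] at hdet; simp at hdet
        have had : g.1 0 0 = g.1 1 1 := by
          have h1 := hsq _ ha
          calc g.1 0 0 = g.1 0 0 * (g.1 0 0 * g.1 1 1) := by
                rw [show g.1 0 0 * g.1 1 1 = 1 by linear_combination hdet]; ring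
            _ = (g.1 0 0 * g.1 0 0) * g.1 1 1 := by ring
            _ = g.1 1 1 := by rw [h1, one_mul]
        have : (g.1 0 0 - 1) * (g.1 0 0 + 1) = 0 := by
          have h1 := hsq _ ha
          linear_combination h1
        rcases mul_eq_zero.mp this with h | h
        · left
          apply ext2
          · simp; linear_combination h
          · simp [hb]
          · simp [hc]
          · simp; rw [← had]; linear_combination h
        · right
          apply ext2
          · simp; linear_combination h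
          · simp [hb]
          · simp [hc]
          · simp; rw [← had]; linear_combination h
      · refine ⟨g * y 1 * g⁻¹ * (y 1)⁻¹, ?_, ?_⟩
        · have : g * y 1 * g⁻¹ * (y 1)⁻¹ = g * (y 1 * g⁻¹ * (y 1)⁻¹) := by group
          rw [this]
          exact K.mul_mem hg (hK.conj_mem _ (K.inv_mem hg) _)
        · rw [Cfsg.Agent.Lib.PSL2.Torus.mul_self_eq_neg_one_iff]
          simp [tr, y_inv]
          linear_combination 2 * hdet + hsq _ hb + h30
    · refine ⟨g * x 1 * g⁻¹ * (x 1)⁻¹, ?_, ?_⟩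
      · have : g * x 1 * g⁻¹ * (x 1)⁻¹ = g * (x 1 * g⁻¹ * (x 1)⁻¹) := by group
        rw [this]
        exact K.mul_mem hg (hK.conj_mem _ (K.inv_mem hg) _)
      · rw [Cfsg.Agent.Lib.PSL2.Torus.mul_self_eq_neg_one_iff]
        simp [tr, x_inv]
        linear_combination 2 * hdet + hsq _ hc + h30

end SL2

section Abstract
variable {G : Type*} [Group G]

/-- The properties of a copy of `SL(2, F)` that are used. -/
structure LProp (L : Subgroup G) (j : G) : Prop where
  mem : j ∈ L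
  ne : j ≠ 1
  sq : j * j = 1
  inv : ∀ t ∈ L, t * t = 1 → t = 1 ∨ t = j
  comm : ∀ A ∈ L, A ≠ 1 → A ≠ j → ∃ h ∈ L, A * h * A⁻¹ * h⁻¹ ≠ 1 ∧ A * h * A⁻¹ * h⁻¹ ≠ j
  norm : ∀ K : Subgroup G, K ≤ L → (∀ a ∈ L, ∀ k ∈ K, a * k * a⁻¹ ∈ K) →
    ∀ g ∈ K, g ≠ 1 → g ≠ j → ∃ u ∈ K, u * u = j
  ex : ∃ u ∈ L, u * u = j

theorem lprop {F : Type*} [Field F] [Fintype F] (hF : Odd (Fintype.card F)) {L : Subgroup G}
    (e : ↥L ≃* SL(2, F)) {j : G} (hj : orderOf j = 2) (hjL : j ∈ L) : LProp L j := by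
  have h2 := two_ne hF
  have hj1 : j ≠ 1 := by
    rintro rfl
    simp at hj
  have hj2 : j * j = 1 := by
    rw [← pow_two, ← hj, pow_orderOf_eq_one]
  have hneg1 : (-1 : SL(2, F)) ≠ 1 := by
    intro h
    have := congrArg (fun M : SL(2, F) => M.1 0 0) h
    simp at this
    apply h2
    linear_combination -this
  have hej : e ⟨j, hjL⟩ = -1 := by
    have hsq : e ⟨j, hjL⟩ * e ⟨j, hjL⟩ = 1 := by
      rw [← map_mul]
      have : (⟨j, hjL⟩ : ↥L) * ⟨j, hjL⟩ = 1 := Subtype.ext hj2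
      rw [this, map_one]
    rcases (Cfsg.Agent.Lib.PSL2.Torus.mul_self_eq_one_iff h2 _).1 hsq with h | h
    · exfalso
      have : (⟨j, hjL⟩ : ↥L) = 1 := by
        apply e.injective; rw [h, map_one]
      exact hj1 (congrArg Subtype.val this)
    · exact h
  have hcen : ∀ t : ↥L, e t ∈ Subgroup.center SL(2, F) ↔ ((t : G) = 1 ∨ (t : G) = j) := by
    intro t
    rw [mem_center_iff₂]
    constructor
    · rintro (h | h)
      · left
        have : t = 1 := by apply e.injective; rw [h, map_one]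
        exact congrArg Subtype.val this
      · right
        have : t = ⟨j, hjL⟩ := by apply e.injective; rw [h, hej]
        exact congrArg Subtype.val this
    · rintro (h | h)
      · left
        have : t = 1 := Subtype.ext h
        rw [this, map_one]
      · right
        have : t = ⟨j, hjL⟩ := Subtype.ext h
        rw [this, hej]
  refine ⟨hjL, hj1, hj2, ?_, ?_, ?_, ?_⟩
  · intro t ht h
    have hsq : e ⟨t, ht⟩ * e ⟨t, ht⟩ = 1 := by
      rw [← map_mul]
      have : (⟨t, ht⟩ : ↥L) * ⟨t, ht⟩ = 1 := Subtype.ext h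
      rw [this, map_one]
    have := (Cfsg.Agent.Lib.PSL2.Torus.mul_self_eq_one_iff h2 _).1 hsq
    exact (hcen ⟨t, ht⟩).1 (mem_center_iff₂.2 this)
  · intro A hA h1 hjA
    have hc : e ⟨A, hA⟩ ∉ Subgroup.center SL(2, F) := by
      intro h
      rcases (hcen _).1 h with h | h
      · exact h1 h
      · exact hjA h
    obtain ⟨h, hh⟩ := exists_comm_notMem hF hc
    obtain ⟨k, rfl⟩ := e.surjective h
    refine ⟨k, k.2, ?_⟩
    have hmem : A * k * A⁻¹ * (k : G)⁻¹ ∈ L :=
      L.mul_mem (L.mul_mem (L.mul_mem hA k.2) (L.inv_mem hA)) (L.inv_mem k.2)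
    have heq : e ⟨A, hA⟩ * e k * (e ⟨A, hA⟩)⁻¹ * (e k)⁻¹ = e ⟨_, hmem⟩ := by
      rw [← map_inv, ← map_inv, ← map_mul, ← map_mul, ← map_mul]
      rfl
    rw [heq, hcen] at hh
    push Not at hh
    exact hh
  · intro K hKL hnorm g hg hg1 hgj
    let K' : Subgroup SL(2, F) := (K.subgroupOf L).map e.toMonoidHom
    have hK' : K'.Normal := by
      refine ⟨?_⟩
      rintro _ ⟨k, hk, rfl⟩ a
      obtain ⟨a, rfl⟩ := e.surjective a
      refine ⟨a * k * a⁻¹, ?_, by simp⟩
      exact hnorm a a.2 k hk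
    have hgm : e ⟨g, hKL hg⟩ ∈ K' := ⟨⟨g, hKL hg⟩, hg, rfl⟩
    have hgc : e ⟨g, hKL hg⟩ ∉ Subgroup.center SL(2, F) := by
      intro h
      rcases (hcen _).1 h with h | h
      · exact hg1 h
      · exact hgj h
    obtain ⟨u, ⟨v, hv, rfl⟩, huu⟩ := exists_sq_neg_one hF K' hK' hgm hgc
    refine ⟨v, hv, ?_⟩
    have : v * v = ⟨j, hjL⟩ := by
      apply e.injective
      rw [map_mul, hej]
      exact huu
    exact congrArg Subtype.val this
  · obtain ⟨k, hk⟩ := e.surjective (w : SL(2, F))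
    refine ⟨k, k.2, ?_⟩
    have : k * k = ⟨j, hjL⟩ := by
      apply e.injective
      rw [map_mul, hej, hk, w_mul_w]
    exact congrArg Subtype.val this

variable {L₁ L₂ : Subgroup G} {j : G}

theorem mem_sup_iff (hc : ∀ x ∈ L₁, ∀ y ∈ L₂, x * y = y * x) {z : G} (hz : z ∈ L₁ ⊔ L₂) :
    ∃ a ∈ L₁, ∃ b ∈ L₂, z = a * b := by
  have hle : L₁ ≤ Subgroup.normalizer (L₂ : Set G) := by
    intro x hx
    rw [Subgroup.mem_normalizer_iff]
    intro y
    constructor
    · intro hy
      have : x * y * x⁻¹ = y := by rw [hc x hx y hy]; group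
      rw [this]; exact hy
    · intro hy
      have h1 := hc x hx _ hy
      have : y = x * y * x⁻¹ := by
        have h3 : x * (x * y * x⁻¹) = x * y := by rw [h1]; group
        exact (mul_left_cancel h3).symm
      rw [this]; exact hy
  have := Subgroup.coe_mul_of_left_le_normalizer_right L₁ L₂ hle
  have hz' : z ∈ ((L₁ ⊔ L₂ : Subgroup G) : Set G) := hz
  rw [this, Set.mem_mul] at hz'
  obtain ⟨a, ha, b, hb, rfl⟩ := hz'
  exact ⟨a, ha, b, hb, rfl⟩

theorem aux (hc : ∀ x ∈ L₁, ∀ y ∈ L₂, x * y = y * x) (h1 : LProp L₁ j) (hj2 : j ∈ L₂)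
    {Y : Subgroup G} (hY : Y ≤ L₁ ⊔ L₂) (hnorm : ∀ g ∈ L₁ ⊔ L₂, ∀ y ∈ Y, g * y * g⁻¹ ∈ Y)
    {y : G} (hy : y ∈ Y) (hy2 : y ∉ L₂) : ∃ u ∈ Y, u ∈ L₁ ∧ u * u = j := by
  obtain ⟨a, ha, b, hb, rfl⟩ := mem_sup_iff hc (hY hy)
  have ha1 : a ≠ 1 := by
    rintro rfl
    apply hy2
    simpa using hb
  have haj : a ≠ j := by
    rintro rfl
    exact hy2 (L₂.mul_mem hj2 hb)
  obtain ⟨h, hh, h3, h4⟩ := h1.comm a ha ha1 haj
  have hcomm : ∀ k ∈ L₁, b * k = k * b := fun k hk => (hc k hk b hb).symm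
  have heq : a * h * a⁻¹ * h⁻¹ = (a * b) * h * (a * b)⁻¹ * h⁻¹ := by
    have : b * h * b⁻¹ = h := by rw [hcomm h hh]; group
    calc a * h * a⁻¹ * h⁻¹ = a * (b * h * b⁻¹) * a⁻¹ * h⁻¹ := by rw [this]
      _ = _ := by group
  have hcY : a * h * a⁻¹ * h⁻¹ ∈ Y := by
    rw [heq]
    have : (a * b) * h * (a * b)⁻¹ * h⁻¹ = (a * b) * (h * (a * b)⁻¹ * h⁻¹) := by group
    rw [this]
    exact Y.mul_mem hy (hnorm h (Subgroup.mem_sup_left hh) _ (Y.inv_mem hy))
  have hcL : a * h * a⁻¹ * h⁻¹ ∈ L₁ :=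
    L₁.mul_mem (L₁.mul_mem (L₁.mul_mem ha hh) (L₁.inv_mem ha)) (L₁.inv_mem hh)
  obtain ⟨u, hu, huu⟩ := h1.norm (Y ⊓ L₁) inf_le_right
    (fun a' ha' k hk => Subgroup.mem_inf.mpr ⟨hnorm a' (Subgroup.mem_sup_left ha') k hk.1,
      L₁.mul_mem (L₁.mul_mem ha' hk.2) (L₁.inv_mem ha')⟩)
    _ (Subgroup.mem_inf.mpr ⟨hcY, hcL⟩) h3 h4
  exact ⟨u, hu.1, hu.2, huu⟩

theorem le_or_le (hc : ∀ x ∈ L₁, ∀ y ∈ L₂, x * y = y * x) (h1 : LProp L₁ j) (h2 : LProp L₂ j)
    (hm : L₁ ⊓ L₂ = Subgroup.zpowers j)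
    {Y : Subgroup G} (hY : Y ≤ L₁ ⊔ L₂) (hnorm : ∀ g ∈ L₁ ⊔ L₂, ∀ y ∈ Y, g * y * g⁻¹ ∈ Y)
    (hinv : ∀ t ∈ Y, t * t = 1 → t = 1 ∨ t = j) : Y ≤ L₁ ∨ Y ≤ L₂ := by
  by_contra hcon
  push Not at hcon
  obtain ⟨h3, h4⟩ := hcon
  obtain ⟨y₁, hy₁, hy₁'⟩ := SetLike.not_le_iff_exists.mp h3
  obtain ⟨y₂, hy₂, hy₂'⟩ := SetLike.not_le_iff_exists.mp h4
  obtain ⟨u₁, hu₁Y, hu₁L, hu₁⟩ := aux hc h1 h2.mem hY hnorm hy₂ hy₂'
  have hc' : ∀ x ∈ L₂, ∀ y ∈ L₁, x * y = y * x := fun x hx y hy => (hc y hy x hx).symm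
  obtain ⟨u₂, hu₂Y, hu₂L, hu₂⟩ := aux hc' h2 h1.mem (by rwa [sup_comm]) (by rwa [sup_comm]) hy₁ hy₁'
  have hcomm := hc u₁ hu₁L u₂ hu₂L
  have hsq : (u₁ * u₂) * (u₁ * u₂) = 1 := by
    calc (u₁ * u₂) * (u₁ * u₂) = (u₁ * u₁) * (u₂ * u₂) := by
          rw [mul_assoc, ← mul_assoc u₂, ← hcomm]; group
      _ = 1 := by rw [hu₁, hu₂, h1.sq]
  have hfin : u₁ ∈ L₂ := by
    rcases hinv _ (Y.mul_mem hu₁Y hu₂Y) hsq with h | h
    · have : u₁ = u₂⁻¹ := eq_inv_of_mul_eq_one_left h
      rw [this]; exact L₂.inv_mem hu₂L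
    · have : u₁ = j * u₂⁻¹ := by rw [← h]; group
      rw [this]; exact L₂.mul_mem h2.mem (L₂.inv_mem hu₂L)
  have hz : u₁ ∈ Subgroup.zpowers j := by
    rw [← hm]; exact Subgroup.mem_inf.mpr ⟨hu₁L, hfin⟩
  obtain ⟨k, rfl⟩ := Subgroup.mem_zpowers_iff.mp hz
  have h5 : j ^ k * j ^ k = 1 := by
    rw [← (Commute.refl j).mul_zpow, h1.sq, _root_.one_zpow]
  exact h1.ne (hu₁.symm.trans h5)

end Abstract

section Final

theorem card_inj {a b : ℕ} (ha : 1 ≤ a) (hb : 1 ≤ b) (h : a * (a ^ 2 - 1) = b * (b ^ 2 - 1)) : a = b := by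
  have key : ∀ {a b : ℕ}, 1 ≤ a → a < b → a * (a ^ 2 - 1) < b * (b ^ 2 - 1) := by
    intro a b ha hab
    have h1 : a ^ 2 - 1 < b ^ 2 - 1 := by
      have h2 : a ^ 2 < b ^ 2 := Nat.pow_lt_pow_left hab two_ne_zero
      have h3 : 1 ≤ a ^ 2 := Nat.one_le_pow _ _ ha
      omega
    calc a * (a ^ 2 - 1) ≤ b * (a ^ 2 - 1) := Nat.mul_le_mul_right _ hab.le
      _ < b * (b ^ 2 - 1) := Nat.mul_lt_mul_of_pos_left h1 (by omega)
  rcases lt_trichotomy a b with h1 | h1 | h1
  · exact absurd h (key ha h1).ne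
  · exact h1
  · exact absurd h.symm (key hb h1).ne

end Final

variable {G : Type*} [Group G] [Finite G]

theorem main {F₁ : Type*} [Field F₁] [Fintype F₁] {F₂ : Type*} [Field F₂] [Fintype F₂]
    (hF₁ : Odd (Fintype.card F₁)) (hF₂ : Odd (Fintype.card F₂)) (L₁ L₂ : Subgroup G)
    (e₁ : ↥L₁ ≃* Matrix.SpecialLinearGroup (Fin 2) F₁) (e₂ : ↥L₂ ≃* Matrix.SpecialLinearGroup (Fin 2) F₂)
    (hc : ∀ x ∈ L₁, ∀ y ∈ L₂, x * y = y * x) (j : G) (hj : orderOf j = 2) (hm : L₁ ⊓ L₂ = Subgroup.zpowers j)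
    (hle : L₁ ⊔ L₂ ≤ Subgroup.centralizer ({j} : Set G)) (hi : (L₁ ⊔ L₂).relIndex (Subgroup.centralizer ({j} : Set G)) = 2) (n : G) (hn : n ∈ Subgroup.centralizer ({j} : Set G)) (hn' : n ∉ L₁ ⊔ L₂) :
    (L₁.map (MulAut.conj n).toMonoidHom = L₁ ∧ L₂.map (MulAut.conj n).toMonoidHom = L₂) ∨
      (L₁.map (MulAut.conj n).toMonoidHom = L₂ ∧ Fintype.card F₁ = Fintype.card F₂ ∧
        ∃ n' ∈ Subgroup.centralizer ({j} : Set G), n' ∉ L₁ ⊔ L₂ ∧ L₁.map (MulAut.conj n').toMonoidHom = L₂ ∧ n' ^ 2 ∈ Subgroup.zpowers j) := by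
  classical
  have hjm : j ∈ L₁ ⊓ L₂ := by rw [hm]; exact Subgroup.mem_zpowers j
  have hp1 : LProp L₁ j := lprop hF₁ e₁ hj hjm.1
  have hp2 : LProp L₂ j := lprop hF₂ e₂ hj hjm.2
  have hc' : ∀ x ∈ L₂, ∀ y ∈ L₁, x * y = y * x := fun x hx y hy => (hc y hy x hx).symm
  set X := L₁ ⊔ L₂ with hX
  set C := Subgroup.centralizer ({j} : Set G) with hC
  -- normality of `X` in `C`
  have hXn : (X.subgroupOf C).Normal := Subgroup.normal_of_index_eq_two hi
  have hconjX : ∀ c ∈ C, ∀ z ∈ X, c * z * c⁻¹ ∈ X := by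
    intro c hc z hz
    have hz' : (⟨z, hle hz⟩ : ↥C) ∈ X.subgroupOf C := hz
    have := hXn.conj_mem _ hz' ⟨c, hc⟩
    exact this
  have hn1 : n⁻¹ ∈ C := C.inv_mem hn
  -- `L₁`, `L₂` are normal in `X`
  have hnL : ∀ {L L' : Subgroup G}, (∀ x ∈ L, ∀ y ∈ L', x * y = y * x) → (L ⊔ L' = X) →
      ∀ g ∈ X, ∀ s ∈ L, g * s * g⁻¹ ∈ L := by
    intro L L' hcc hLL g hg s hs
    rw [← hLL] at hg
    obtain ⟨a, ha, b, hb, rfl⟩ := mem_sup_iff hcc hg
    have : b * s * b⁻¹ = s := by rw [← hcc s hs b hb]; group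
    have h2 : (a * b) * s * (a * b)⁻¹ = a * (b * s * b⁻¹) * a⁻¹ := by group
    rw [h2, this]
    exact L.mul_mem (L.mul_mem ha hs) (L.inv_mem ha)
  have hconj_conj : ∀ {L L' : Subgroup G}, (∀ x ∈ L, ∀ y ∈ L', x * y = y * x) → (L ⊔ L' = X) →
      LProp L j → ∃ h : L.map (MulAut.conj n).toMonoidHom ≤ X,
      (∀ g ∈ X, ∀ y ∈ L.map (MulAut.conj n).toMonoidHom, g * y * g⁻¹ ∈ L.map (MulAut.conj n).toMonoidHom) ∧
      (∀ t ∈ L.map (MulAut.conj n).toMonoidHom, t * t = 1 → t = 1 ∨ t = j) := by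
    intro L L' hcc hLL hp
    refine ⟨?_, ?_, ?_⟩
    · rintro _ ⟨s, hs, rfl⟩
      refine hconjX n hn s ?_
      rw [← hLL]; exact Subgroup.mem_sup_left hs
    · rintro g hg _ ⟨s, hs, rfl⟩
      have hg' : n⁻¹ * g * n ∈ X := by
        have := hconjX n⁻¹ hn1 g hg
        simpa using this
      refine ⟨(n⁻¹ * g * n) * s * (n⁻¹ * g * n)⁻¹, hnL hcc hLL _ hg' s hs, ?_⟩
      simp only [MulEquiv.coe_toMonoidHom, MulAut.conj_apply]
      group
    · rintro _ ⟨s, hs, rfl⟩ h
      simp only [MulEquiv.coe_toMonoidHom, MulAut.conj_apply] at h ⊢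
      have hss : s * s = 1 := by
        have h2 : n * (s * s) * n⁻¹ = 1 := by
          calc n * (s * s) * n⁻¹ = n * s * n⁻¹ * (n * s * n⁻¹) := by group
            _ = 1 := h
        have h3 : s * s = n⁻¹ * (n * (s * s) * n⁻¹) * n := by group
        rw [h3, h2]; group
      rcases hp.inv s hs hss with h | h
      · left; rw [h]; simp
      · right
        rw [h]
        have hnj : n * j = j * n := (Subgroup.mem_centralizer_singleton_iff.mp hn)
        rw [hnj]; group
  have hsup : X = L₂ ⊔ L₁ := by rw [hX, sup_comm]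
  obtain ⟨h1le, h1norm, h1inv⟩ := hconj_conj hc rfl hp1
  obtain ⟨h2le, h2norm, h2inv⟩ := hconj_conj hc' (by rw [hX, sup_comm]) hp2
  have hor1 := le_or_le hc hp1 hp2 hm h1le h1norm h1inv
  have hor2 := le_or_le hc hp1 hp2 hm h2le h2norm h2inv
  have hcard : ∀ L : Subgroup G, Nat.card (L.map (MulAut.conj n).toMonoidHom) = Nat.card L := by
    intro L
    exact Nat.card_congr (L.equivMapOfInjective _ (MulAut.conj n).injective).toEquiv.symm
  -- the image of `X` lies in the join of the images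
  have hXsub : X ≤ L₁.map (MulAut.conj n).toMonoidHom ⊔ L₂.map (MulAut.conj n).toMonoidHom := by
    intro z hz
    have hz' : n⁻¹ * z * n ∈ X := by
      have := hconjX n⁻¹ hn1 z hz
      simpa using this
    obtain ⟨a, ha, b, hb, hab⟩ := mem_sup_iff hc hz'
    have : z = n * a * n⁻¹ * (n * b * n⁻¹) := by
      calc z = n * (n⁻¹ * z * n) * n⁻¹ := by group
        _ = n * (a * b) * n⁻¹ := by rw [hab]
        _ = _ := by group
    rw [this]
    exact Subgroup.mul_mem _ (Subgroup.mem_sup_left ⟨a, ha, rfl⟩) (Subgroup.mem_sup_right ⟨b, hb, rfl⟩)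
  -- `L₂` is not inside `L₁` and conversely
  have hnot : ∀ {L L' : Subgroup G}, LProp L j → L ≤ L' → L ⊓ L' = Subgroup.zpowers j → False := by
    intro L L' hp hle hmm
    obtain ⟨u, hu, huu⟩ := hp.ex
    have hz : u ∈ Subgroup.zpowers j := by
      rw [← hmm]; exact Subgroup.mem_inf.mpr ⟨hu, hle hu⟩
    obtain ⟨k, rfl⟩ := Subgroup.mem_zpowers_iff.mp hz
    have h5 : j ^ k * j ^ k = 1 := by
      rw [← (Commute.refl j).mul_zpow, hp.sq, _root_.one_zpow]
    exact hp.ne (huu.symm.trans h5)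
  rcases hor1 with h1 | h1 <;> rcases hor2 with h2 | h2
  · -- both in `L₁`
    exfalso
    have : X ≤ L₁ := hXsub.trans (sup_le h1 h2)
    exact hnot hp2 ((le_sup_right).trans this) (by rw [inf_comm]; exact hm)
  · left
    exact ⟨Subgroup.eq_of_le_of_card_ge h1 (hcard L₁).ge, Subgroup.eq_of_le_of_card_ge h2 (hcard L₂).ge⟩
  · -- swap
    right
    have hc1 : Nat.card L₁ ≤ Nat.card L₂ := by
      rw [← hcard L₁]; exact Subgroup.card_le_of_le h1
    have hc2 : Nat.card L₂ ≤ Nat.card L₁ := by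
      rw [← hcard L₂]; exact Subgroup.card_le_of_le h2
    have h1eq : L₁.map (MulAut.conj n).toMonoidHom = L₂ :=
      Subgroup.eq_of_le_of_card_ge h1 (by rw [hcard]; exact hc2)
    have h2eq : L₂.map (MulAut.conj n).toMonoidHom = L₁ :=
      Subgroup.eq_of_le_of_card_ge h2 (by rw [hcard]; exact hc1)
    refine ⟨h1eq, ?_, ?_⟩
    · have hq1 : Nat.card L₁ = Fintype.card F₁ * (Fintype.card F₁ ^ 2 - 1) := by
        rw [Nat.card_congr e₁.toEquiv, card_SL2]
      have hq2 : Nat.card L₂ = Fintype.card F₂ * (Fintype.card F₂ ^ 2 - 1) := by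
        rw [Nat.card_congr e₂.toEquiv, card_SL2]
      refine card_inj Fintype.card_pos Fintype.card_pos ?_
      rw [← hq1, ← hq2]
      exact le_antisymm hc1 hc2
    · -- the element `n'`
      have hnn : n * n ∈ X := by
        have := Subgroup.mul_self_mem_of_index_two hi ⟨n, hn⟩
        exact this
      obtain ⟨u₁, hu₁, u₂, hu₂, huu⟩ := mem_sup_iff hc hnn
      have hu₂C : u₂ ∈ C := hle (Subgroup.mem_sup_right hu₂)
      refine ⟨n * u₂⁻¹, C.mul_mem hn (C.inv_mem hu₂C), ?_, ?_, ?_⟩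
      · intro h
        apply hn'
        have : n = (n * u₂⁻¹) * u₂ := by group
        rw [this]
        exact X.mul_mem h (Subgroup.mem_sup_right hu₂)
      · have hmap : L₁.map (MulAut.conj (n * u₂⁻¹)).toMonoidHom = L₁.map (MulAut.conj n).toMonoidHom := by
          ext z
          simp only [Subgroup.mem_map, MulEquiv.coe_toMonoidHom, MulAut.conj_apply]
          constructor
          · rintro ⟨s, hs, rfl⟩
            refine ⟨s, hs, ?_⟩
            have : u₂⁻¹ * s * u₂ = s := by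
              have := hc s hs u₂ hu₂
              calc u₂⁻¹ * s * u₂ = u₂⁻¹ * (s * u₂) := by group
                _ = u₂⁻¹ * (u₂ * s) := by rw [this]
                _ = s := by group
            calc n * s * n⁻¹ = n * (u₂⁻¹ * s * u₂) * n⁻¹ := by rw [this]
              _ = _ := by group
          · rintro ⟨s, hs, rfl⟩
            refine ⟨s, hs, ?_⟩
            have : u₂⁻¹ * s * u₂ = s := by
              have := hc s hs u₂ hu₂
              calc u₂⁻¹ * s * u₂ = u₂⁻¹ * (s * u₂) := by group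
                _ = u₂⁻¹ * (u₂ * s) := by rw [this]
                _ = s := by group
            calc n * u₂⁻¹ * s * (n * u₂⁻¹)⁻¹ = n * (u₂⁻¹ * s * u₂) * n⁻¹ := by group
              _ = _ := by rw [this]
        rw [hmap, h1eq]
      · -- `n'^2` lies in both factors
        set m := n * u₂⁻¹ with hm'
        have hv : n⁻¹ * u₂⁻¹ * n ∈ L₁ := by
          have : u₂⁻¹ ∈ L₁.map (MulAut.conj n).toMonoidHom := by
            rw [h1eq]; exact L₂.inv_mem hu₂
          obtain ⟨s, hs, hss⟩ := this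
          simp only [MulEquiv.coe_toMonoidHom, MulAut.conj_apply] at hss
          have : n⁻¹ * u₂⁻¹ * n = s := by rw [← hss]; group
          rwa [this]
        set v := n⁻¹ * u₂⁻¹ * n with hvdef
        have hw : m ^ 2 = u₁ * v := by
          have hcv : u₂ * v = v * u₂ := (hc v hv u₂ hu₂).symm
          calc m ^ 2 = (n * n) * (n⁻¹ * u₂⁻¹ * n) * u₂⁻¹ := by
                rw [hm', pow_two]; group
            _ = u₁ * (u₂ * v) * u₂⁻¹ := by rw [huu, ← hvdef]; group
            _ = u₁ * (v * u₂) * u₂⁻¹ := by rw [hcv]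
            _ = u₁ * v := by group
        have hw1 : m ^ 2 ∈ L₁ := by rw [hw]; exact L₁.mul_mem hu₁ hv
        have hmap2 : L₁.map (MulAut.conj m).toMonoidHom = L₂ := by
          have : L₁.map (MulAut.conj m).toMonoidHom = L₁.map (MulAut.conj n).toMonoidHom := by
            ext z
            simp only [Subgroup.mem_map, MulEquiv.coe_toMonoidHom, MulAut.conj_apply]
            have hcomm : ∀ s ∈ L₁, u₂⁻¹ * s * u₂ = s := by
              intro s hs
              have := hc s hs u₂ hu₂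
              calc u₂⁻¹ * s * u₂ = u₂⁻¹ * (s * u₂) := by group
                _ = u₂⁻¹ * (u₂ * s) := by rw [this]
                _ = s := by group
            constructor
            · rintro ⟨s, hs, rfl⟩
              refine ⟨s, hs, ?_⟩
              calc n * s * n⁻¹ = n * (u₂⁻¹ * s * u₂) * n⁻¹ := by rw [hcomm s hs]
                _ = _ := by rw [hm']; group
            · rintro ⟨s, hs, rfl⟩
              refine ⟨s, hs, ?_⟩
              calc m * s * m⁻¹ = n * (u₂⁻¹ * s * u₂) * n⁻¹ := by rw [hm']; group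
                _ = _ := by rw [hcomm s hs]
          rw [this, h1eq]
        have hw2 : m ^ 2 ∈ L₂ := by
          rw [← hmap2]
          refine ⟨m ^ 2, hw1, ?_⟩
          simp only [MulEquiv.coe_toMonoidHom, MulAut.conj_apply]
          have : m * m ^ 2 = m ^ 2 * m := (Commute.pow_right (Commute.refl m) 2).eq
          rw [this]; group
        rw [← hm]
        exact Subgroup.mem_inf.mpr ⟨hw1, hw2⟩
  · -- both in `L₂`
    exfalso
    have : X ≤ L₂ := hXsub.trans (sup_le h1 h2)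
    exact hnot hp1 ((le_sup_left).trans this) hm

end Cfsg.Agent.Lib.Components.TwoSL2
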