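import Mathlib
import Cfsg.Prelude.Def_Local
import Cfsg.Agent.Lib.Components.ThompsonWielandt

/-!
# Wielandt's bound toward the Sims conjecture
-/

set_option autoImplicit false
set_option linter.unusedSectionVars false
set_option linter.style.haveILetI false
open Cfsg

namespace Cfsg.Agent.Lib.Components.Wielandt

open Subgroup Cfsg.Agent.Lib.Components.BenderPair Cfsg.Agent.Lib.Components.BenderUniq
  Cfsg.Agent.Lib.Components.ThompsonWielandt

section General

variable {K : Type*} [Group K] [Finite K]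

theorem index_normalCore_dvd (H : Subgroup K) : H.normalCore.index ∣ (H.index).factorial := by
  rw [Subgroup.normalCore_eq_ker, Subgroup.index_ker]
  have h1 := Subgroup.card_subgroup_dvd_card (MulAction.toPermHom K (K ⧸ H)).range
  have h2 : Nat.card (Equiv.Perm (K ⧸ H)) = (H.index).factorial := by
    rw [Nat.card_perm]; rfl
  rw [← h2]
  exact h1

/-- `H/core(H)` acts faithfully on the non-trivial cosets. -/
theorem relIndex_normalCore_dvd (H : Subgroup K) :
    H.normalCore.relIndex H ∣ (H.index - 1).factorial := by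
  classical
  let pt : K ⧸ H := ((1 : K) : K ⧸ H)
  have hpt : ∀ h : ↥H, (h : K) • pt = pt := by
    intro h
    show ((((h : K) * 1 : K)) : K ⧸ H) = ((1 : K) : K ⧸ H)
    rw [mul_one, QuotientGroup.eq]
    simp
  let φ : ↥H →* Equiv.Perm {x : K ⧸ H // x ≠ pt} :=
    { toFun := fun h => (MulAction.toPerm (h : K)).subtypePerm (by
        intro x
        show (h : K) • x ≠ pt ↔ x ≠ pt
        constructor
        · intro hx h2
          apply hx
          rw [h2, hpt]
        · intro hx h2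
          apply hx
          have : (h : K) • x = (h : K) • pt := by rw [h2, hpt]
          exact MulAction.injective (h : K) this)
      map_one' := by
        ext x
        simp
      map_mul' := fun a b => by
        ext x
        show ((a * b : ↥H) : K) • (x : K ⧸ H) = (a : K) • (b : K) • (x : K ⧸ H)
        rw [Subgroup.coe_mul, mul_smul] }
  have hker : φ.ker = H.normalCore.subgroupOf H := by
    ext h
    rw [MonoidHom.mem_ker, Subgroup.mem_subgroupOf, Subgroup.normalCore_eq_ker, MonoidHom.mem_ker]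
    constructor
    · intro h1
      ext x
      show (h : K) • x = x
      by_cases hx : x = pt
      · rw [hx, hpt]
      · have := congrArg (fun f : Equiv.Perm {x : K ⧸ H // x ≠ pt} => ((f ⟨x, hx⟩ : {x : K ⧸ H // x ≠ pt}) : K ⧸ H)) h1
        simpa [φ] using this
    · intro h1
      ext x
      have := congrArg (fun f : Equiv.Perm (K ⧸ H) => f x.1) h1
      simpa [φ] using this
  have h1 : H.normalCore.relIndex H = Nat.card φ.range := by
    rw [Subgroup.relIndex, ← hker, Subgroup.index_ker]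
  rw [h1]
  have h2 := Subgroup.card_subgroup_dvd_card φ.range
  have h3 : Nat.card (Equiv.Perm {x : K ⧸ H // x ≠ pt}) = (H.index - 1).factorial := by
    rw [Nat.card_perm]
    congr 1
    haveI := Fintype.ofFinite (K ⧸ H)
    rw [Nat.card_eq_fintype_card, Subgroup.index, Nat.card_eq_fintype_card,
      Fintype.card_subtype_compl, Fintype.card_subtype_eq]
  rw [← h3]
  exact h2

theorem index_iInf_dvd {ι : Type*} (s : Finset ι) (N : ι → Subgroup K) (hN : ∀ i, (N i).Normal) :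
    (⨅ i ∈ s, N i).index ∣ ∏ i ∈ s, (N i).index := by
  classical
  induction s using Finset.induction_on with
  | empty => simp
  | insert a s ha ih =>
    rw [Finset.prod_insert ha, Finset.iInf_insert]
    have h1 : (N a ⊓ ⨅ i ∈ s, N i).index = (N a).index * ((⨅ i ∈ s, N i).relIndex (N a)) := by
      have h2 := Subgroup.relIndex_mul_index (H := N a ⊓ ⨅ i ∈ s, N i) (K := N a) inf_le_left
      rw [Subgroup.inf_relIndex_left] at h2
      rw [← h2, mul_comm]
    rw [h1]
    apply mul_dvd_mul_left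
    have hn : (⨅ i ∈ s, N i).Normal := by
      refine ⟨fun x hx g => ?_⟩
      simp only [Subgroup.mem_iInf] at hx ⊢
      intro i hi
      exact (hN i).conj_mem x (hx i hi) g
    exact (Subgroup.relIndex_dvd_index_of_normal _ _).trans ih

end General

variable {G : Type*} [Group G] [Finite G]

/-- relative index of a normal subgroup does not grow on passing to a subgroup. -/
theorem relIndex_dvd_of_normal {A B D : Subgroup G} (hAD : A ≤ D) (hBD : D ≤ normalizer (B : Set G)) :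
    B.relIndex A ∣ B.relIndex D := by
  have hn : (B.subgroupOf D).Normal := Subgroup.normal_subgroupOf_of_le_normalizer hBD
  have h1 := Subgroup.relIndex_dvd_index_of_normal (B.subgroupOf D) (A.subgroupOf D)
  rw [Subgroup.relIndex_subgroupOf hAD] at h1
  exact h1

/-- The basic divisibility. -/
theorem relIndex_second_core_dvd {M₁ M₂ A₁ B₁ A₂ : Subgroup G}
    (hcard : Nat.card ↥M₁ = Nat.card ↥M₂)
    (hA₁ : A₁ = coreIn M₁ (M₁ ⊓ M₂)) (hB₁ : B₁ = coreIn M₂ (M₁ ⊓ M₂))
    (hA₂ : A₂ = coreIn M₁ (A₁ ⊓ B₁)) :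
    A₂.relIndex M₁ ∣ ((M₁ ⊓ M₂).relIndex M₁).factorial *
      (((M₁ ⊓ M₂).relIndex M₁ - 1).factorial) ^ ((M₁ ⊓ M₂).relIndex M₁) := by
  classical
  set D := M₁ ⊓ M₂ with hD
  set d := D.relIndex M₁ with hd
  have hDM₁ : D ≤ M₁ := inf_le_left
  have hDM₂ : D ≤ M₂ := inf_le_right
  -- equality of indices
  have hd' : D.relIndex M₂ = d := by
    have h1 : D.relIndex M₁ * Nat.card ↥D = Nat.card ↥M₁ := by
      rw [Subgroup.relIndex, mul_comm]
      have := (D.subgroupOf M₁).card_mul_index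
      rw [Nat.card_congr (Subgroup.subgroupOfEquivOfLe hDM₁).toEquiv] at this
      exact this
    have h2 : D.relIndex M₂ * Nat.card ↥D = Nat.card ↥M₂ := by
      rw [Subgroup.relIndex, mul_comm]
      have := (D.subgroupOf M₂).card_mul_index
      rw [Nat.card_congr (Subgroup.subgroupOfEquivOfLe hDM₂).toEquiv] at this
      exact this
    have h3 : 0 < Nat.card ↥D := Nat.card_pos
    exact Nat.eq_of_mul_eq_mul_right h3 (by rw [h2, ← hcard, ← h1])
  have hA₁D : A₁ ≤ D := hA₁ ▸ coreIn_le_right _ _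
  have hB₁D : B₁ ≤ D := hB₁ ▸ coreIn_le_right _ _
  have hA₁M₁ : A₁ ≤ M₁ := hA₁ ▸ coreIn_le_left _ _
  have hB₁M₂ : B₁ ≤ M₂ := hB₁ ▸ coreIn_le_left _ _
  have hnA₁ : M₁ ≤ normalizer (A₁ : Set G) := hA₁ ▸ le_normalizer_coreIn _ _
  have hnB₁ : M₂ ≤ normalizer (B₁ : Set G) := hB₁ ▸ le_normalizer_coreIn _ _
  -- (a)
  have ha : A₁.relIndex M₁ ∣ d.factorial := by
    have h1 : A₁.subgroupOf M₁ = (D.subgroupOf M₁).normalCore := by
      rw [hA₁]
      exact Subgroup.comap_map_eq_self_of_injective M₁.subtype_injective _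
    rw [Subgroup.relIndex, h1, hd, Subgroup.relIndex]
    exact index_normalCore_dvd _
  -- (b)
  have hb : B₁.relIndex D ∣ (d - 1).factorial := by
    have h1 : B₁.subgroupOf M₂ = (D.subgroupOf M₂).normalCore := by
      rw [hB₁]
      exact Subgroup.comap_map_eq_self_of_injective M₂.subtype_injective _
    have h2 := relIndex_normalCore_dvd (D.subgroupOf M₂)
    rw [← h1, Subgroup.relIndex_subgroupOf hDM₂] at h2
    rw [← hd']
    exact h2
  -- (c)
  set X := A₁ ⊓ B₁ with hX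
  have hc : X.relIndex A₁ ∣ (d - 1).factorial := by
    rw [hX, Subgroup.inf_relIndex_left]
    exact (relIndex_dvd_of_normal hA₁D (hDM₂.trans hnB₁)).trans hb
  have hXA : X ≤ A₁ := inf_le_left
  have hA₂X : A₂ ≤ X := hA₂ ▸ coreIn_le_right _ _
  have hA₂A₁ : A₂ ≤ A₁ := hA₂X.trans hXA
  -- `D` normalizes `X`
  have hDX : D ≤ normalizer (X : Set G) := by
    intro δ hδ
    apply Cfsg.Agent.Lib.Coprime.Three.mem_normalizer_of_conj_mem
    intro v hv
    refine mem_inf.mpr ⟨(mem_normalizer_iff.mp (hnA₁ (hDM₁ hδ)) v).mp (hXA hv),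
      (mem_normalizer_iff.mp (hnB₁ (hDM₂ hδ)) v).mp (inf_le_right (a := A₁) hv)⟩
  -- (d)
  have hdd : A₂.relIndex A₁ ∣ ((d - 1).factorial) ^ d := by
    let T := ↥M₁ ⧸ D.subgroupOf M₁
    haveI : Fintype T := Fintype.ofFinite T
    let rep : T → ↥M₁ := fun t => Quotient.out t
    let N : T → Subgroup ↥A₁ := fun t =>
      (X.map (MulAut.conj (rep t : G)).toMonoidHom).subgroupOf A₁
    have hN : ∀ t, (N t).Normal := by
      intro t
      apply Subgroup.normal_subgroupOf_of_le_normalizer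
      intro a ha
      apply Cfsg.Agent.Lib.Coprime.Three.mem_normalizer_of_conj_mem
      rintro _ ⟨x, hx, rfl⟩
      set m : G := (rep t : G) with hm
      have hmM : m ∈ M₁ := (rep t).2
      -- `a' = m⁻¹ a m ∈ A₁ ≤ D` normalizes `X`
      have ha' : m⁻¹ * a * m ∈ A₁ := by
        have := (mem_normalizer_iff.mp (hnA₁ (M₁.inv_mem hmM)) a).mp ha
        simpa using this
      have h3 : (m⁻¹ * a * m) * x * (m⁻¹ * a * m)⁻¹ ∈ X :=
        (mem_normalizer_iff.mp (hDX (hA₁D ha')) x).mp hx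
      refine ⟨_, h3, ?_⟩
      simp only [MulEquiv.coe_toMonoidHom, MulAut.conj_apply]
      group
    have hidx : ∀ t, (N t).index ∣ (d - 1).factorial := by
      intro t
      set m : G := (rep t : G) with hm
      have hmM : m ∈ M₁ := (rep t).2
      have h1 : (N t).index = (X.map (MulAut.conj m).toMonoidHom).relIndex A₁ := rfl
      have h2 : A₁.map (MulAut.conj m).toMonoidHom = A₁ := by
        apply le_antisymm
        · rintro _ ⟨a, ha, rfl⟩
          exact (mem_normalizer_iff.mp (hnA₁ hmM) a).mp ha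
        · intro a ha
          refine ⟨m⁻¹ * a * m, ?_, by simp [mul_assoc]⟩
          have := (mem_normalizer_iff.mp (hnA₁ (M₁.inv_mem hmM)) a).mp ha
          simpa using this
      rw [h1]
      have h3 := Subgroup.relIndex_map_map_of_injective (f := (MulAut.conj m).toMonoidHom) X A₁ (MulAut.conj m).injective
      rw [h2] at h3
      rw [h3]
      exact hc
    have hinf : A₂.subgroupOf A₁ = ⨅ t ∈ (Finset.univ : Finset T), N t := by
      ext a
      simp only [Finset.mem_univ, iInf_pos, Subgroup.mem_iInf, Subgroup.mem_subgroupOf]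
      constructor
      · intro ha t
        set m : G := (rep t : G) with hm
        have hmM : m ∈ M₁ := (rep t).2
        have hnA₂ : M₁ ≤ normalizer (A₂ : Set G) := hA₂ ▸ le_normalizer_coreIn _ _
        have h1 : m⁻¹ * (a : G) * m ∈ A₂ := by
          have := (mem_normalizer_iff.mp (hnA₂ (M₁.inv_mem hmM)) _).mp ha
          simpa using this
        refine ⟨_, hA₂X h1, ?_⟩
        show m * (m⁻¹ * (a : G) * m) * m⁻¹ = (a : G)
        group
      · intro h
        rw [hA₂]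
        apply mem_coreIn (hA₁M₁ a.2)
        intro y hy
        let t : T := ((⟨y⁻¹, M₁.inv_mem hy⟩ : ↥M₁) : T)
        have hrep : ((rep t : ↥M₁) : T) = t := Quotient.out_eq t
        obtain ⟨x, hx, hxe⟩ := h t
        simp only [MulEquiv.coe_toMonoidHom, MulAut.conj_apply] at hxe
        -- `y⁻¹ = rep t * δ`
        have hδ : (rep t)⁻¹ * ⟨y⁻¹, M₁.inv_mem hy⟩ ∈ D.subgroupOf M₁ := by
          rw [← QuotientGroup.eq]
          exact hrep
        have hδ' : ((rep t : G))⁻¹ * y⁻¹ ∈ D := by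
          have := Subgroup.mem_subgroupOf.mp hδ
          simpa using this
        set δ : G := ((rep t : G))⁻¹ * y⁻¹ with hδdef
        have h5 : y * (a : G) * y⁻¹ = δ⁻¹ * x * δ := by
          have h6 : (a : G) = (rep t : G) * x * ((rep t : G))⁻¹ := hxe.symm
          rw [h6, hδdef]
          group
        rw [h5]
        have := (mem_normalizer_iff.mp (hDX (D.inv_mem hδ')) x).mp hx
        simpa using this
    have h1 := index_iInf_dvd (Finset.univ : Finset T) N hN
    rw [← hinf] at h1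
    have h2 : ∏ t ∈ (Finset.univ : Finset T), (N t).index ∣ ((d - 1).factorial) ^ d := by
      have h3 : ((d - 1).factorial) ^ d = ∏ _t ∈ (Finset.univ : Finset T), (d - 1).factorial := by
        rw [Finset.prod_const, Finset.card_univ]
        congr 1
        rw [hd, Subgroup.relIndex, Subgroup.index, Nat.card_eq_fintype_card]
      rw [h3]
      exact Finset.prod_dvd_prod_of_dvd _ _ (fun t _ => hidx t)
    exact h1.trans h2
  rw [← Subgroup.relIndex_mul_relIndex A₂ A₁ M₁ hA₂A₁ hA₁M₁, mul_comm]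
  exact mul_dvd_mul ha hdd


/-- The group-level core of Wielandt's argument. -/
theorem wielandt_core (M₁ : Subgroup G) (hmax : IsCoatom M₁) (g : G)
    (hne : M₁ ≠ M₁.map (MulAut.conj g).toMonoidHom) (hcore : M₁.normalCore = ⊥)
    (d : ℕ) (hd : (M₁ ⊓ M₁.map (MulAut.conj g).toMonoidHom).relIndex M₁ = d) :
    ∃ A₁ B₁ A₂ B₂ : Subgroup G,
      A₁ = coreIn M₁ (M₁ ⊓ M₁.map (MulAut.conj g).toMonoidHom) ∧
      B₁ = coreIn (M₁.map (MulAut.conj g).toMonoidHom) (M₁ ⊓ M₁.map (MulAut.conj g).toMonoidHom) ∧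
      A₂ = coreIn M₁ (A₁ ⊓ B₁) ∧
      B₂ = coreIn (M₁.map (MulAut.conj g).toMonoidHom) (A₁ ⊓ B₁) ∧
      A₂.relIndex M₁ ∣ d.factorial * ((d - 1).factorial) ^ d ∧
      ((A₂ = ⊥ ∨ B₂ = ⊥) → Nat.card ↥M₁ ∣ d.factorial * ((d - 1).factorial) ^ d) ∧
      ((A₂ ≠ ⊥ ∧ B₂ ≠ ⊥) → ∃ p : ℕ, p.Prime ∧ IsPGroup p ↥(A₂ ⊔ B₂) ∧
        generalizedFittingSubgroup ↥M₁ = pCore p ↥M₁) := by
  set M₂ := M₁.map (MulAut.conj g).toMonoidHom with hM₂
  have hcard : Nat.card ↥M₁ = Nat.card ↥M₂ :=
    Nat.card_congr (M₁.equivMapOfInjective _ (MulAut.conj g).injective).toEquiv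
  refine ⟨coreIn M₁ (M₁ ⊓ M₂), coreIn M₂ (M₁ ⊓ M₂), _, _, rfl, rfl, rfl, rfl, ?_, ?_, ?_⟩
  · have := relIndex_second_core_dvd (M₁ := M₁) (M₂ := M₂) hcard rfl rfl rfl
    rwa [hd] at this
  · have hd' : (M₁ ⊓ M₂).relIndex M₂ = d := by
      have hDM₁ : M₁ ⊓ M₂ ≤ M₁ := inf_le_left
      have hDM₂ : M₁ ⊓ M₂ ≤ M₂ := inf_le_right
      have h1 : (M₁ ⊓ M₂).relIndex M₁ * Nat.card ↥(M₁ ⊓ M₂) = Nat.card ↥M₁ := by
        rw [Subgroup.relIndex, mul_comm]
        have := ((M₁ ⊓ M₂).subgroupOf M₁).card_mul_index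
        rw [Nat.card_congr (Subgroup.subgroupOfEquivOfLe hDM₁).toEquiv] at this
        exact this
      have h2 : (M₁ ⊓ M₂).relIndex M₂ * Nat.card ↥(M₁ ⊓ M₂) = Nat.card ↥M₂ := by
        rw [Subgroup.relIndex, mul_comm]
        have := ((M₁ ⊓ M₂).subgroupOf M₂).card_mul_index
        rw [Nat.card_congr (Subgroup.subgroupOfEquivOfLe hDM₂).toEquiv] at this
        exact this
      have h3 : 0 < Nat.card ↥(M₁ ⊓ M₂) := Nat.card_pos
      rw [← hd]
      exact Nat.eq_of_mul_eq_mul_right h3 (by rw [h2, ← hcard, ← h1])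
    rintro (h | h)
    · have := relIndex_second_core_dvd (M₁ := M₁) (M₂ := M₂) hcard rfl rfl rfl
      rw [h, hd, Subgroup.relIndex_bot_left] at this
      exact this
    · have := relIndex_second_core_dvd (M₁ := M₂) (M₂ := M₁) hcard.symm
        (A₁ := coreIn M₂ (M₁ ⊓ M₂)) (B₁ := coreIn M₁ (M₁ ⊓ M₂))
        (A₂ := coreIn M₂ (coreIn M₁ (M₁ ⊓ M₂) ⊓ coreIn M₂ (M₁ ⊓ M₂)))
        (by rw [inf_comm]) (by rw [inf_comm]) (by rw [inf_comm])
      rw [h, inf_comm M₂ M₁, hd', Subgroup.relIndex_bot_left, ← hcard] at this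
      exact this
  · rintro ⟨hA0, hB0⟩
    obtain ⟨p, hp, h1, h2, -⟩ := thompson_wielandt M₁ hmax g hne hcore _ _ _ _ rfl rfl rfl rfl hA0 hB0
    exact ⟨p, hp, h1, h2⟩


/-- If `F(M₁ ⊓ M₂)` lies in the core of `M₁ ⊓ M₂` in `M₁`, it is trivial. -/
theorem fi_inf_eq_bot (M₁ : Subgroup G) (hmax : IsCoatom M₁) (g : G)
    (hne : M₁ ≠ M₁.map (MulAut.conj g).toMonoidHom) (hcore : M₁.normalCore = ⊥)
    (h : fi (M₁ ⊓ M₁.map (MulAut.conj g).toMonoidHom) ≤
      coreIn M₁ (M₁ ⊓ M₁.map (MulAut.conj g).toMonoidHom)) :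
    fi (M₁ ⊓ M₁.map (MulAut.conj g).toMonoidHom) = ⊥ := by
  set M₂ := M₁.map (MulAut.conj g).toMonoidHom with hM₂
  set D := M₁ ⊓ M₂ with hD
  set A₁ := coreIn M₁ D with hA₁
  by_contra h0
  obtain ⟨q, hq, hf, hU⟩ := exists_prime_of_fi_ne_bot h0
  set U := oc q D with hUdef
  have hS₁ : SelfN M₁ := selfN_of_coatom_of_core hmax hcore
  have hS₂ : SelfN M₂ := selfN_conj hmax hcore g
  have hDM₁ : D ≤ M₁ := inf_le_left
  have hDM₂ : D ≤ M₂ := inf_le_right
  have hUD : U ≤ D := BenderPair.map_subtype_le _ _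
  have hUA₁ : U ≤ A₁ := (oc_le_fi q D).trans h
  have hA₁D : A₁ ≤ D := coreIn_le_right _ _
  have hA₁M₁ : A₁ ≤ M₁ := coreIn_le_left _ _
  have hnA₁ : M₁ ≤ normalizer (A₁ : Set G) := le_normalizer_coreIn _ _
  have hUp : IsPGroup q ↥U := isPGroup_oc q D
  -- `U = O_q(A₁)`
  have hUeq : U = oc q A₁ := by
    apply le_antisymm
    · have hle := Cfsg.Agent.Lib.Components.LocalFStar.le_map_pCore hUp
        (Y := A₁) (hA₁D.trans (le_normalizer_map_of_normal D _ inferInstance))
      rwa [inf_eq_left.mpr hUA₁] at hle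
    · have hnorm : D ≤ normalizer (oc q A₁ : Set G) :=
        (hA₁D.trans hDM₁ |> fun _ => hDM₁.trans hnA₁).trans
          (normalizer_le_normalizer_map_of_char A₁ _ (Cfsg.Agent.Lib.Basic.PCore.pCore_char q ↥A₁))
      have hle := Cfsg.Agent.Lib.Components.LocalFStar.le_map_pCore (isPGroup_oc q A₁) hnorm
      rwa [inf_eq_left.mpr ((BenderPair.map_subtype_le _ _).trans hA₁D)] at hle
  have hnU₁ : M₁ ≤ normalizer (U : Set G) := by
    rw [hUeq]
    exact hnA₁.trans (normalizer_le_normalizer_map_of_char A₁ _ (Cfsg.Agent.Lib.Basic.PCore.pCore_char q ↥A₁))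
  have hUM₁ : U ≤ M₁ := hUD.trans hDM₁
  -- the conjugate
  set Y := U.map (MulAut.conj g).toMonoidHom with hY
  have hYM₂ : Y ≤ M₂ := Subgroup.map_mono hUM₁
  have hnY : M₂ ≤ normalizer (Y : Set G) := by
    rintro _ ⟨m, hm, rfl⟩
    apply Cfsg.Agent.Lib.Coprime.Three.mem_normalizer_of_conj_mem
    rintro _ ⟨u, hu, rfl⟩
    refine ⟨m * u * m⁻¹, (mem_normalizer_iff.mp (hnU₁ hm) u).mp hu, ?_⟩
    simp only [MulEquiv.coe_toMonoidHom, MulAut.conj_apply]
    group
  have hYp : IsPGroup q ↥Y := hUp.map _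
  have hcardY : Nat.card ↥U = Nat.card ↥Y :=
    Nat.card_congr (U.equivMapOfInjective _ (MulAut.conj g).injective).toEquiv
  have hUNY : U ≤ normalizer (Y : Set G) := (hUD.trans hDM₂).trans hnY
  have hSp : IsPGroup q ↥(U ⊔ Y) := IsPGroup.to_sup_of_normal_right' hUp hYp hUNY
  have hYD : Y ⊓ D ≤ U := by
    have := Cfsg.Agent.Lib.Components.LocalFStar.le_map_pCore hYp (Y := D) (hDM₂.trans hnY)
    exact this
  have hYU : Y ≤ U := by
    by_contra hYU
    have hlt : U < U ⊔ Y := lt_of_le_of_ne le_sup_left (fun h => hYU (h ▸ le_sup_right))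
    have hlt' := Cfsg.Agent.Lib.Components.LocalFStar.lt_inf_normalizer hSp hlt
    obtain ⟨s, hs, hsU⟩ := SetLike.exists_of_lt hlt'
    have hsM₁ : s ∈ M₁ := hS₁ U hU hUM₁ hnU₁ (mem_inf.mp hs).2
    have hsS : s ∈ ((U ⊔ Y : Subgroup G) : Set G) := (mem_inf.mp hs).1
    rw [Subgroup.coe_mul_of_left_le_normalizer_right U Y hUNY] at hsS
    obtain ⟨u, hu, y, hy, rfl⟩ := Set.mem_mul.mp hsS
    have hyM₁ : y ∈ M₁ := by
      have := M₁.mul_mem (M₁.inv_mem (hUM₁ hu)) hsM₁
      simpa using this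
    have hyU : y ∈ U := hYD (mem_inf.mpr ⟨hy, hyM₁, hYM₂ hy⟩)
    exact hsU (U.mul_mem hu hyU)
  have hYeq : Y = U := Subgroup.eq_of_le_of_card_ge hYU (le_of_eq hcardY)
  exact hne ((isPrim_of_selfN hS₁ hS₂).eq_of_common hU (le_inf hUM₁ (hUD.trans hDM₂)) hnU₁
    (hYeq ▸ hnY))


section Action

variable {Ω : Type*} [MulAction G Ω] [FaithfulSMul G Ω] [Finite Ω]

open MulAction

/-- Translation from primitive actions to maximal subgroups. -/
theorem setup (hprim : IsPreprimitive G Ω) (a b : Ω) (d : ℕ)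
    (hd : Nat.card (orbit (stabilizer G a) b) = d) (h2 : 2 ≤ d) :
    ∃ g : G, stabilizer G b = (stabilizer G a).map (MulAut.conj g).toMonoidHom ∧
      IsCoatom (stabilizer G a) ∧ (stabilizer G a).normalCore = ⊥ ∧
      stabilizer G a ≠ (stabilizer G a).map (MulAut.conj g).toMonoidHom ∧
      (stabilizer G a ⊓ (stabilizer G a).map (MulAut.conj g).toMonoidHom).relIndex
        (stabilizer G a) = d := by
  classical
  haveI := hprim
  obtain ⟨g, hg⟩ := MulAction.exists_smul_eq G a b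
  have hstab : stabilizer G b = (stabilizer G a).map (MulAut.conj g).toMonoidHom := by
    rw [← hg]
    exact stabilizer_smul_eq_stabilizer_map_conj g a
  haveI : Nontrivial Ω := by
    have h1 : 1 < Nat.card (orbit (stabilizer G a) b) := by omega
    haveI : Finite (orbit (stabilizer G a) b) := inferInstance
    obtain ⟨x, y, hxy⟩ := (Finite.one_lt_card_iff_nontrivial.mp h1).exists_pair_ne
    exact ⟨x.1, y.1, fun h => hxy (Subtype.ext h)⟩
  refine ⟨g, hstab, IsPreprimitive.isCoatom_stabilizer_of_isPreprimitive G a, ?_, ?_, ?_⟩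
  · rw [eq_bot_iff]
    intro x hx
    rw [Subgroup.mem_bot]
    apply FaithfulSMul.eq_of_smul_eq_smul (α := Ω)
    intro c
    rw [one_smul]
    obtain ⟨k, hk⟩ := MulAction.exists_smul_eq G a c
    have h3 : k⁻¹ * x * k⁻¹⁻¹ ∈ stabilizer G a :=
      Subgroup.normalCore_le _ ((Subgroup.normalCore_normal _).conj_mem x hx k⁻¹)
    rw [mem_stabilizer_iff] at h3
    rw [← hk]
    have h4 : x • k • a = k • (k⁻¹ * x * k⁻¹⁻¹) • a := by
      simp [mul_smul]
    rw [h4, h3]
  · rw [← hstab]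
    intro heq
    have hone : Nat.card (orbit (stabilizer G a) b) ≤ 1 := by
      apply Finite.card_le_one_iff_subsingleton.mpr
      refine ⟨?_⟩
      rintro ⟨_, ⟨k, rfl⟩⟩ ⟨_, ⟨l, rfl⟩⟩
      apply Subtype.ext
      have h5 : ∀ k : ↥(stabilizer G a), k • b = b := by
        intro k
        have : (k : G) ∈ stabilizer G b := heq ▸ k.2
        exact this
      show k • b = l • b
      rw [h5, h5]
    omega
  · rw [← hstab, Subgroup.inf_relIndex_left, Subgroup.relIndex, ← hd]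
    have h5 : (stabilizer G b).subgroupOf (stabilizer G a) =
        stabilizer (↥(stabilizer G a)) b := by
      ext k
      rfl
    rw [h5, MulAction.index_stabilizer, Nat.card_coe_set_eq]

/-- Common statement for the three Wielandt theorems. -/
theorem action_core (hprim : IsPreprimitive G Ω) (a b : Ω) (d : ℕ)
    (hd : Nat.card (orbit (stabilizer G a) b) = d) (h2 : 2 ≤ d) :
    ∃ A₂ : Subgroup G, A₂ ≤ stabilizer G a ∧ A₂ ≤ stabilizer G b ∧
      stabilizer G a ≤ normalizer (A₂ : Set G) ∧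
      A₂.relIndex (stabilizer G a) ∣ d.factorial * ((d - 1).factorial) ^ d ∧
      (Nat.card ↥(stabilizer G a) ∣ d.factorial * ((d - 1).factorial) ^ d ∨
        ∃ p : ℕ, p.Prime ∧ IsPGroup p ↥A₂ ∧ A₂ ≠ ⊥ ∧
          generalizedFittingSubgroup ↥(stabilizer G a) = pCore p ↥(stabilizer G a)) := by
  obtain ⟨g, hstab, hmax, hcore, hne, hrel⟩ := setup hprim a b d hd h2
  obtain ⟨A₁, B₁, A₂, B₂, hA₁, hB₁, hA₂, hB₂, hdvd, hbot, hnb⟩ :=
    wielandt_core (stabilizer G a) hmax g hne hcore d hrel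
  refine ⟨A₂, ?_, ?_, ?_, hdvd, ?_⟩
  · rw [hA₂]; exact coreIn_le_left _ _
  · rw [hstab]
    have h1 : A₂ ≤ A₁ ⊓ B₁ := by rw [hA₂]; exact coreIn_le_right _ _
    have h3 : B₁ ≤ (stabilizer G a).map (MulAut.conj g).toMonoidHom := by
      rw [hB₁]; exact coreIn_le_left _ _
    exact h1.trans (inf_le_right.trans h3)
  · rw [hA₂]; exact le_normalizer_coreIn _ _
  · by_cases h : A₂ = ⊥ ∨ B₂ = ⊥
    · exact Or.inl (hbot h)
    · push Not at h
      obtain ⟨p, hp, h3, h4⟩ := hnb h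
      exact Or.inr ⟨p, hp, h3.to_le le_sup_left, h.1, h4⟩

/-- The elements of `F(G_{ab})` act trivially on the orbit of `b` when the induced group has
trivial Fitting subgroup. -/
theorem fi_le_core (a b : Ω)
    (hF : fittingSubgroup ↥(((stabilizer G b).subgroupOf (stabilizer G a)).map
      (toPermHom (stabilizer G a) (orbit (stabilizer G a) b))) = ⊥) :
    fi (stabilizer G a ⊓ stabilizer G b) ≤
      coreIn (stabilizer G a) (stabilizer G a ⊓ stabilizer G b) := by
  set M₁ := stabilizer G a with hM₁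
  set M₂ := stabilizer G b with hM₂
  set D := M₁ ⊓ M₂ with hD
  let φ : ↥M₁ →* Equiv.Perm (orbit ↥M₁ b) := toPermHom ↥M₁ (orbit ↥M₁ b)
  set K := (M₂.subgroupOf M₁).map φ with hK
  let ψ : ↥D →* ↥K :=
    { toFun := fun x => ⟨φ ⟨x.1, (mem_inf.mp x.2).1⟩, ⟨_, Subgroup.mem_subgroupOf.mpr (mem_inf.mp x.2).2, rfl⟩⟩
      map_one' := by
        apply Subtype.ext
        exact φ.map_one
      map_mul' := fun x y => by
        apply Subtype.ext
        exact φ.map_mul ⟨x.1, (mem_inf.mp x.2).1⟩ ⟨y.1, (mem_inf.mp y.2).1⟩ }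
  have hψ : Function.Surjective ψ := by
    rintro ⟨_, ⟨x, hx, rfl⟩⟩
    exact ⟨⟨x.1, mem_inf.mpr ⟨x.2, Subgroup.mem_subgroupOf.mp hx⟩⟩, rfl⟩
  have hnil : (fittingSubgroup ↥D).map ψ ≤ fittingSubgroup ↥K := by
    apply Cfsg.Agent.Lib.Basic.PCore.le_fittingSubgroup
    · exact Subgroup.Normal.map inferInstance ψ hψ
    · exact Cfsg.Agent.Lib.Basic.PCore.isNilpotent_map
        Cfsg.Agent.Lib.Components.Fitting.fitting_isNilpotent ψ
  rw [hF, le_bot_iff, Subgroup.map_eq_bot_iff] at hnil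
  rintro _ ⟨x, hx, rfl⟩
  have hk : ψ x = 1 := hnil hx
  have hk' : φ ⟨x.1, (mem_inf.mp x.2).1⟩ = 1 := congrArg Subtype.val hk
  apply mem_coreIn (mem_inf.mp x.2).1
  intro y hy
  refine mem_inf.mpr ⟨M₁.mul_mem (M₁.mul_mem hy (mem_inf.mp x.2).1) (M₁.inv_mem hy), ?_⟩
  have h1 : ((x : G)) • ((y⁻¹ : G) • b) = (y⁻¹ : G) • b := by
    have h2 : (y⁻¹ : G) • b ∈ orbit ↥M₁ b := ⟨⟨y⁻¹, M₁.inv_mem hy⟩, rfl⟩
    have := congrArg (fun f : Equiv.Perm (orbit ↥M₁ b) => ((f ⟨_, h2⟩ : orbit ↥M₁ b) : Ω)) hk'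
    exact this
  show (y * x.1 * y⁻¹ : G) • b = b
  rw [mul_smul, mul_smul, h1, ← mul_smul, mul_inv_cancel, one_smul]

end Action

end Cfsg.Agent.Lib.Components.Wielandt
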