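import Mathlib
import Cfsg.Agent.Lib.Components.ZStarMain
import Cfsg.Agent.Lib.Coprime.InvSylow
import Cfsg.Agent.Lib.Char.Kazarin

/-!
# Corollaries of Glauberman's `Z*`-theorem: classes of involutions with products of `p`-power order
-/

set_option autoImplicit false
set_option linter.style.haveILetI false

namespace Cfsg.Agent.Lib.Components.ZStarCor

open Cfsg Cfsg.Agent.Lib.Components.ZStarIso Cfsg.Agent.Lib.Components.ZStarMain
open scoped commutatorElement

universe u

variable {G : Type u} [Group G]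

/-- If `x ^ 2` lies in `K` and `x` has odd order, then `x` lies in `K`. -/
lemma mem_of_sq_mem_of_odd {K : Subgroup G} {x : G} (h : x ^ 2 ∈ K) (ho : Odd (orderOf x)) : x ∈ K := by
  obtain ⟨k, hk⟩ := ho
  have h1 : x = (x ^ 2) ^ (k + 1) := by
    rw [← pow_mul]
    have : 2 * (k + 1) = orderOf x + 1 := by omega
    rw [this, pow_succ, pow_orderOf_eq_one, one_mul]
  rw [h1]
  exact Subgroup.pow_mem _ h _

/-- When `G = N C` with `N` normal, the index of `C` is the relative index in `N`. -/
lemma index_eq_relIndex_of_sup {N C : Subgroup G} [N.Normal] [Finite G] (h : N ⊔ C = ⊤) :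
    C.index = C.relIndex N := by
  have h1 : (C ⊓ N).relIndex N * N.index = (C ⊓ N).index := Subgroup.relIndex_mul_index inf_le_right
  have h2 : (C ⊓ N).relIndex C * C.index = (C ⊓ N).index := Subgroup.relIndex_mul_index inf_le_left
  have h3 : (C ⊓ N).relIndex C = N.relIndex C := Subgroup.inf_relIndex_left C N
  have h4 : N.relIndex C = N.index := by
    have := Subgroup.relIndex_sup_left C N
    rw [h] at this
    rw [← this, Subgroup.relIndex_top_right]
  have h5 : (C ⊓ N).relIndex N = C.relIndex N := Subgroup.inf_relIndex_right C N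
  have hN0 : N.index ≠ 0 := Subgroup.index_ne_zero_of_finite
  rw [h5] at h1
  rw [h3, h4] at h2
  have h6 : C.relIndex N * N.index = N.index * C.index := by rw [h1, h2]
  rw [mul_comm] at h6
  exact (Nat.eq_of_mul_eq_mul_left (Nat.pos_of_ne_zero hN0) h6).symm

/-- The class of an involution whose conjugates have products of `p`-power order has `p`-power size. -/
theorem exists_index_eq_pow (hBS : BrauerSuzuki.{u}) [Finite G] {p : ℕ} (hp : p.Prime) (hp2 : p ≠ 2) (d : G)
    (hd : orderOf d = 2)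
    (hprod : ∀ a ∈ conjugatesOf d, ∀ b ∈ conjugatesOf d, ∃ k : ℕ, orderOf (a * b) = p ^ k) :
    ∃ a : ℕ, (Subgroup.centralizer ({d} : Set G)).index = p ^ a := by
  classical
  have hoddp : Odd p := hp.odd_of_ne_two hp2
  have hself : d ∈ conjugatesOf d := mem_conjugatesOf_self
  have hIso : IsIso d := by
    refine ⟨hd, fun g _ => ?_⟩
    obtain ⟨k, hk⟩ := hprod (g * d * g⁻¹) (isConj_iff.2 ⟨g, rfl⟩) d hself
    rw [hk]
    exact hoddp.pow
  obtain ⟨N, hN, hNodd, hcomm⟩ := zstar hBS _ G rfl d hIso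
  have hdi := hIso.inv
  have hdd := hIso.sq
  set C := Subgroup.centralizer ({d} : Set G) with hC
  have hmemC : ∀ {x : G}, x ∈ C ↔ x * d = d * x := by
    intro x
    rw [hC, Subgroup.mem_centralizer_singleton_iff]
  -- `G = N C`
  have hsup : N ⊔ C = ⊤ := by
    rw [eq_top_iff]
    intro g _
    by_cases hg : g * d * g⁻¹ = d
    · have : g ∈ C := by
        rw [hmemC]
        calc g * d = (g * d * g⁻¹) * g := by group
          _ = d * g := by rw [hg]
      exact (le_sup_right : C ≤ N ⊔ C) this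
    · set a := g * d * g⁻¹ with ha
      have hIa : IsIso a := hIso.conj g
      have hmem : a * d ∈ N := by
        have h1 := N.inv_mem (hcomm g)
        have h2 : (d * g * d⁻¹ * g⁻¹)⁻¹ = a * d := by
          rw [ha, mul_inv_rev, mul_inv_rev, mul_inv_rev, inv_inv, inv_inv, hdi]
          group
        rwa [h2] at h1
      obtain ⟨c, hc, hcd⟩ := conj_of_odd_mul hIa.sq hdd (hIso.2 g hg)
      have hcN : c ∈ N := by
        have : Subgroup.zpowers (a * d) ≤ N := by
          rw [Subgroup.zpowers_le]; exact hmem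
        exact this hc
      have hcg : c⁻¹ * g ∈ C := by
        rw [hmemC]
        have h3 : g * d = c * d * c⁻¹ * g := by
          rw [hcd, ha]; group
        calc c⁻¹ * g * d = c⁻¹ * (g * d) := by group
          _ = c⁻¹ * (c * d * c⁻¹ * g) := by rw [h3]
          _ = d * (c⁻¹ * g) := by group
      have : g = c * (c⁻¹ * g) := by group
      rw [this]
      exact Subgroup.mul_mem _ ((le_sup_left : N ≤ N ⊔ C) hcN) ((le_sup_right : C ≤ N ⊔ C) hcg)
  haveI := hN
  have hidx := index_eq_relIndex_of_sup hsup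
  -- primes other than `p` do not divide the index
  have hq : ∀ {q : ℕ}, q.Prime → q ∣ C.index → q = p := by
    intro q hq hdvd
    by_contra hne
    haveI : Fact q.Prime := ⟨hq⟩
    have hAK : Subgroup.zpowers d ≤ Subgroup.normalizer (N : Set G) := by
      rw [Subgroup.normalizer_eq_top_iff.2 hN]; exact le_top
    have hcop : (Nat.card (Subgroup.zpowers d)).Coprime (Nat.card N) := by
      rw [Nat.card_zpowers, hd, Nat.coprime_two_left]
      exact hNodd
    obtain ⟨Q, hQ⟩ := Cfsg.Agent.Lib.Coprime.InvSylow.exists_invariant_sylow hAK hcop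
      (Or.inl inferInstance) q
    have hQle : (Q : Subgroup N) ≤ C.subgroupOf N := by
      intro x hx
      rw [Subgroup.mem_subgroupOf, hmemC]
      -- the element `y = x * (d * x⁻¹ * d⁻¹)` is a `q`-element
      have hdm : d ∈ Subgroup.normalizer (((Q : Subgroup N).map N.subtype : Subgroup G) : Set G) :=
        hQ (Subgroup.mem_zpowers d)
      have hx' : (x : G) ∈ (Q : Subgroup N).map N.subtype := ⟨x, hx, rfl⟩
      have hx'' : (x : G)⁻¹ ∈ (Q : Subgroup N).map N.subtype := Subgroup.inv_mem _ hx'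
      have hconj : d * (x : G)⁻¹ * d⁻¹ ∈ (Q : Subgroup N).map N.subtype := by
        have := (Subgroup.mem_normalizer_iff.1 hdm ((x : G)⁻¹)).1 hx''
        exact this
      have hy : (x : G) * (d * (x : G)⁻¹ * d⁻¹) ∈ (Q : Subgroup N).map N.subtype :=
        Subgroup.mul_mem _ hx' hconj
      obtain ⟨w, hw, hwy⟩ := hy
      obtain ⟨e, he⟩ := Q.isPGroup' ⟨w, hw⟩
      have hqe : ((x : G) * (d * (x : G)⁻¹ * d⁻¹)) ^ q ^ e = 1 := by
        rw [← hwy]
        have := congrArg (fun y : (Q : Subgroup N) => (((y : N) : G))) he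
        simpa using this
      -- and a `p`-element
      have hyform : (x : G) * (d * (x : G)⁻¹ * d⁻¹) = ((x : G) * d * (x : G)⁻¹) * d := by
        rw [hdi]; group
      obtain ⟨k, hk⟩ := hprod ((x : G) * d * (x : G)⁻¹) (isConj_iff.2 ⟨x, rfl⟩) d hself
      rw [hyform] at hqe
      have h1 : orderOf ((x : G) * d * (x : G)⁻¹ * d) ∣ q ^ e := orderOf_dvd_of_pow_eq_one hqe
      rw [hk] at h1
      have h2 : Nat.Coprime (p ^ k) (q ^ e) := Nat.Coprime.pow _ _ ((Nat.coprime_primes hp hq).2 (Ne.symm hne))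
      have h3 : p ^ k = 1 := h2.eq_one_of_dvd h1
      rw [h3, orderOf_eq_one_iff] at hk
      have h4 : (x : G) * d * (x : G)⁻¹ = d := by
        have := mul_eq_one_iff_eq_inv.1 hk
        rw [this, hdi]
      calc (x : G) * d = ((x : G) * d * (x : G)⁻¹) * x := by group
        _ = d * x := by rw [h4]
    have h1 : (C.subgroupOf N).index ∣ (Q : Subgroup N).index := Subgroup.index_dvd_of_le hQle
    have h2 := Q.not_dvd_index
    rw [hidx] at hdvd
    exact h2 (hdvd.trans h1)
  have hne : C.index ≠ 0 := Subgroup.index_ne_zero_of_finite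
  exact ⟨_, Nat.eq_prime_pow_of_unique_prime_dvd hne hq⟩

/-- **S5560** given the Brauer–Suzuki theorem. -/
theorem prod_mem_pCore (hBS : BrauerSuzuki.{u}) [Finite G] {p : ℕ} (hp : p.Prime) (hp2 : p ≠ 2) (d : G)
    (hd : orderOf d = 2)
    (hprod : ∀ a ∈ conjugatesOf d, ∀ b ∈ conjugatesOf d, ∃ k : ℕ, orderOf (a * b) = p ^ k) :
    ∀ a ∈ conjugatesOf d, ∀ b ∈ conjugatesOf d, a * b ∈ pCore p G := by
  haveI : Fact p.Prime := ⟨hp⟩
  have hind := exists_index_eq_pow hBS hp hp2 d hd hprod
  intro a ha b hb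
  obtain ⟨g, rfl⟩ := isConj_iff.1 ha
  obtain ⟨h, rfl⟩ := isConj_iff.1 hb
  have hkaz := Cfsg.Agent.Lib.Char.Kazarin.commutator_conj_mem_pCore p d hind g h
  have hdd : d * d = 1 := by
    have := pow_orderOf_eq_one d
    rwa [hd, pow_two] at this
  have hdi : d⁻¹ = d := inv_eq_of_mul_eq_one_left hdd
  have hform : (g * d * g⁻¹) * (h * d * h⁻¹) * (g * d * g⁻¹)⁻¹ * (h * d * h⁻¹)⁻¹ =
      ((g * d * g⁻¹) * (h * d * h⁻¹)) ^ 2 := by
    rw [pow_two, mul_inv_rev (g * d), mul_inv_rev g d, mul_inv_rev (h * d), mul_inv_rev h d, hdi, inv_inv, inv_inv]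
    group
  rw [hform] at hkaz
  obtain ⟨k, hk⟩ := hprod _ ha _ hb
  apply mem_of_sq_mem_of_odd hkaz
  rw [hk]
  exact (hp.odd_of_ne_two hp2).pow

/-- **S1618** given the Brauer–Suzuki theorem. -/
theorem commutator_nilpotent (hBS : BrauerSuzuki.{u}) [Finite G] (p : ℕ) (hp : p.Prime) (hodd : p ≠ 2) {D : Set G}
    (hinv : ∀ d ∈ D, orderOf d = 2) (hconj : ∃ d ∈ D, D = conjugatesOf d) (hgen : Subgroup.closure D = ⊤)
    (hprod : ∀ x ∈ D, ∀ y ∈ D, x ≠ y → ∃ k : ℕ, orderOf (x * y) = p ^ k) :
    Group.IsNilpotent ↥(commutator G) := by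
  haveI : Fact p.Prime := ⟨hp⟩
  obtain ⟨d, hdD, rfl⟩ := hconj
  have hd := hinv d hdD
  have hprod' : ∀ a ∈ conjugatesOf d, ∀ b ∈ conjugatesOf d, ∃ k : ℕ, orderOf (a * b) = p ^ k := by
    intro a ha b hb
    by_cases hab : a = b
    · refine ⟨0, ?_⟩
      subst hab
      have h1 := hinv a ha
      have h2 : a * a = 1 := by
        have := pow_orderOf_eq_one a
        rwa [h1, pow_two] at this
      rw [h2, orderOf_one, pow_zero]
    · exact hprod a ha b hb hab
  have hmem := prod_mem_pCore hBS hp hodd d hd hprod'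
  set K := pCore p G with hK
  haveI hKn : K.Normal := Cfsg.Agent.Lib.Basic.PCore.pCore_normal p G
  -- the image of the class is one element
  let f : G →* G ⧸ K := QuotientGroup.mk' K
  have himg : ∀ a ∈ conjugatesOf d, f a = (f d)⁻¹ := by
    intro a ha
    have h1 := hmem a ha d mem_conjugatesOf_self
    have h2 : f (a * d) = 1 := (QuotientGroup.eq_one_iff _).2 h1
    rw [map_mul] at h2
    exact eq_inv_of_mul_eq_one_left h2
  have hall : ∀ g : G, f g ∈ Subgroup.zpowers (f d) := by
    have h1 : Subgroup.closure (conjugatesOf d) ≤ (Subgroup.zpowers (f d)).comap f := by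
      rw [Subgroup.closure_le]
      intro a ha
      show f a ∈ Subgroup.zpowers (f d)
      rw [himg a ha]
      exact Subgroup.inv_mem _ (Subgroup.mem_zpowers _)
    intro g
    have h2 : g ∈ Subgroup.closure (conjugatesOf d) := by rw [hgen]; trivial
    exact h1 h2
  have hcomm : commutator G ≤ K := by
    rw [commutator_def, Subgroup.commutator_le]
    intro x _ y _
    have h1 := hall x
    have h2 := hall y
    obtain ⟨i, hi⟩ := Subgroup.mem_zpowers_iff.1 h1
    obtain ⟨j, hj⟩ := Subgroup.mem_zpowers_iff.1 h2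
    have h3 : f ⁅x, y⁆ = 1 := by
      rw [map_commutatorElement, ← hi, ← hj]
      have : Commute ((f d) ^ i) ((f d) ^ j) := Commute.zpow_zpow_self _ _ _
      exact commutatorElement_eq_one_iff_commute.2 this
    exact (QuotientGroup.eq_one_iff _).1 h3
  have hP : IsPGroup p (commutator G) :=
    (Cfsg.Agent.Lib.Basic.PCore.pCore_isPGroup p).to_le hcomm
  exact hP.isNilpotent

end Cfsg.Agent.Lib.Components.ZStarCor
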