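import Mathlib
import Cfsg.Prelude
import Cfsg.Agent.S0215
import Cfsg.Agent.Lib.Basic.PCore
import Cfsg.Agent.Lib.Components.InvolutionP

/-!
# Involutions all of whose pairwise products have `p`-power order (`p` odd)
-/

set_option autoImplicit false

namespace Cfsg.Agent.Lib.Components.ZStarProducts

open Subgroup

variable {G : Type*} [Group G] [Finite G]

/-- Z*-type result: if the product of any two conjugates of the involution `d` has `p`-power order,
`p` odd, then these products generate a normal `p`-subgroup. -/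
theorem products_mem_pCore {p : ℕ} (hp : p.Prime) (hp2 : p ≠ 2) (d : G) (hd : orderOf d = 2)
    (hprod : ∀ a ∈ conjugatesOf d, ∀ b ∈ conjugatesOf d, ∃ k : ℕ, orderOf (a * b) = p ^ k) :
    ∀ a ∈ conjugatesOf d, ∀ b ∈ conjugatesOf d, a * b ∈ Cfsg.pCore p G := by
  classical
  haveI : Fact p.Prime := ⟨hp⟩
  have hd2 : d * d = 1 := by
    have := pow_orderOf_eq_one d
    rw [hd, sq] at this
    exact this
  have hdi : d⁻¹ = d := inv_eq_of_mul_eq_one_left hd2
  have hdmem : d ∈ conjugatesOf d := mem_conjugatesOf_self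
  have hconj : ∀ g : G, g * d * g⁻¹ ∈ conjugatesOf d := by
    intro g
    exact isConj_iff.mpr ⟨g, rfl⟩
  -- a Sylow 2-subgroup containing `d`
  have hdp : IsPGroup 2 (zpowers d) := by
    apply IsPGroup.of_card (n := 1)
    rw [Nat.card_zpowers, hd, pow_one]
  obtain ⟨S, hS⟩ := hdp.exists_le_sylow
  have hdS : d ∈ S := hS (mem_zpowers d)
  have hiso : ∀ g : G, g * d * g⁻¹ ∈ S → g * d * g⁻¹ = d := by
    intro g hg
    obtain ⟨k, hk⟩ := hprod d hdmem _ (hconj g)
    have hmem : d * (g * d * g⁻¹) ∈ (S : Subgroup G) := mul_mem hdS hg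
    have h2 : IsPGroup 2 (S : Subgroup G) := S.isPGroup'
    obtain ⟨l, hl⟩ := h2 ⟨_, hmem⟩
    have hl' : (d * (g * d * g⁻¹)) ^ (2 ^ l) = 1 := congrArg Subtype.val hl
    have h3 : orderOf (d * (g * d * g⁻¹)) ∣ 2 ^ l := orderOf_dvd_of_pow_eq_one hl'
    rw [hk] at h3
    have hk0 : k = 0 := by
      by_contra hne
      have hpd : p ∣ 2 ^ l := (dvd_pow_self p hne).trans h3
      have := (Nat.prime_dvd_prime_iff_eq hp Nat.prime_two).mp (hp.dvd_of_dvd_pow hpd)
      exact hp2 this
    rw [hk0, pow_zero, orderOf_eq_one_iff] at hk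
    have := eq_inv_of_mul_eq_one_right hk
    rw [this, hdi]
  obtain ⟨N, hNn, hNodd, hN⟩ := Cfsg.Agent.S0215.result S d hd hdS hiso
  -- the elements `d * a`
  have hda : ∀ a ∈ conjugatesOf d, d * a ∈ N := by
    intro a ha
    obtain ⟨g, rfl⟩ := isConj_iff.mp ha
    have := hN g
    rw [hdi] at this
    have e : d * (g * d * g⁻¹) = d * g * d * g⁻¹ := by group
    rw [e]
    exact this
  have hinvM : ∀ m ∈ N, d * m * d⁻¹ ∈ N := fun m hm => hNn.conj_mem m hm d
  obtain ⟨P, hPp, hPN, hPinv⟩ := Cfsg.Agent.Lib.Components.InvolutionP.exists_pgroup_of_inverted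
    (p := p) d hd2 N hinvM hNodd (by
      intro m hm hminv
      -- `m` is a product of two conjugates of `d`, up to inverse
      have hodd : Odd (orderOf (⟨m, hm⟩ : ↥N)) := Odd.of_dvd_nat hNodd (orderOf_dvd_natCard _)
      obtain ⟨r, hr⟩ := hodd
      have hmo : m ^ (2 * r + 1) = 1 := by
        have h1 : (⟨m, hm⟩ : ↥N) ^ (2 * r + 1) = 1 := by
          rw [← hr]; exact pow_orderOf_eq_one _
        exact congrArg Subtype.val h1
      set b : G := m ^ (r + 1) with hb
      have hbb : b * b = m := by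
        rw [hb, ← pow_add]
        have : r + 1 + (r + 1) = (2 * r + 1) + 1 := by ring
        rw [this, pow_succ, hmo, one_mul]
      have hbinv : d * b * d⁻¹ = b⁻¹ := by
        rw [hb]
        have h1 : d * m ^ (r + 1) * d⁻¹ = (d * m * d⁻¹) ^ (r + 1) := conj_pow.symm
        rw [h1, hminv, inv_pow]
      have hprodm : d * (b * d * b⁻¹) = m⁻¹ := by
        have h1 : d * (b * d * b⁻¹) = (d * b * d⁻¹) * b⁻¹ := by
          rw [hdi]; group
        rw [h1, hbinv, ← hbb]
        group
      obtain ⟨k, hk⟩ := hprod d hdmem _ (hconj b)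
      refine ⟨k, ?_⟩
      rw [hprodm, orderOf_inv] at hk
      rw [← hk]
      exact pow_orderOf_eq_one m)
  -- the products lie in `P`
  have hdaP : ∀ a ∈ conjugatesOf d, d * a ∈ P := by
    intro a ha
    apply hPinv _ (hda a ha)
    have h1 : a * a = 1 := by
      obtain ⟨g, rfl⟩ := isConj_iff.mp ha
      calc g * d * g⁻¹ * (g * d * g⁻¹) = g * (d * d) * g⁻¹ := by group
        _ = 1 := by rw [hd2]; group
    have hai : a⁻¹ = a := inv_eq_of_mul_eq_one_left h1
    calc d * (d * a) * d⁻¹ = (d * d) * a * d⁻¹ := by group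
      _ = a * d⁻¹ := by rw [hd2, one_mul]
      _ = (d * a)⁻¹ := by rw [mul_inv_rev, hai]
  have hprodP : ∀ a ∈ conjugatesOf d, ∀ b ∈ conjugatesOf d, a * b ∈ P := by
    intro a ha b hb
    have : a * b = (d * a)⁻¹ * (d * b) := by
      have h1 : a * a = 1 := by
        obtain ⟨g, rfl⟩ := isConj_iff.mp ha
        calc g * d * g⁻¹ * (g * d * g⁻¹) = g * (d * d) * g⁻¹ := by group
          _ = 1 := by rw [hd2]; group
      have hai : a⁻¹ = a := inv_eq_of_mul_eq_one_left h1
      rw [mul_inv_rev, hdi, hai, mul_assoc, ← mul_assoc d d b, hd2, one_mul]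
    rw [this]
    exact mul_mem (inv_mem (hdaP a ha)) (hdaP b hb)
  -- the subgroup generated by the products is normal
  let X : Set G := {x | ∃ a ∈ conjugatesOf d, ∃ b ∈ conjugatesOf d, x = a * b}
  let J : Subgroup G := closure X
  have hJP : J ≤ P := by
    rw [closure_le]
    rintro _ ⟨a, ha, b, hb, rfl⟩
    exact hprodP a ha b hb
  have hJn : J.Normal := by
    constructor
    intro n hn g
    induction hn using closure_induction with
    | mem x hx =>
      obtain ⟨a, ha, b, hb, rfl⟩ := hx
      apply Subgroup.subset_closure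
      refine ⟨g * a * g⁻¹, ?_, g * b * g⁻¹, ?_, by group⟩
      · obtain ⟨h, rfl⟩ := isConj_iff.mp ha
        have := hconj (g * h)
        convert this using 1
        group
      · obtain ⟨h, rfl⟩ := isConj_iff.mp hb
        have := hconj (g * h)
        convert this using 1
        group
    | one => simp [J.one_mem]
    | mul x y _ _ hx hy =>
      have := J.mul_mem hx hy
      convert this using 1
      group
    | inv x _ hx =>
      have := J.inv_mem hx
      convert this using 1
      group
  have hJp : IsPGroup p J := hPp.to_le hJP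
  have hJcore : J ≤ Cfsg.pCore p G := Cfsg.Agent.Lib.Basic.PCore.le_pCore hJn hJp
  intro a ha b hb
  exact hJcore (Subgroup.subset_closure ⟨a, ha, b, hb, rfl⟩)

end Cfsg.Agent.Lib.Components.ZStarProducts
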