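import Mathlib
import Cfsg.Agent.Lib.Components.ZStarMain

/-!
# Simple groups with an involution whose centralizer contains at most three involutions
-/

set_option autoImplicit false
set_option linter.style.haveILetI false

open scoped Pointwise

namespace Cfsg.Agent.Lib.Components.ZStarThree

open Cfsg Cfsg.Agent.Lib.Components.ZStarIso Cfsg.Agent.Lib.Components.ZStarMain

universe u

variable {G : Type u} [Group G]

lemma sq_of_order {x : G} (hx : orderOf x = 2) : x * x = 1 := by
  have := pow_orderOf_eq_one x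
  rwa [hx, pow_two] at this

lemma inv_of_order {x : G} (hx : orderOf x = 2) : x⁻¹ = x := inv_eq_of_mul_eq_one_left (sq_of_order hx)

lemma order_conj {x : G} (hx : orderOf x = 2) (g : G) : orderOf (g * x * g⁻¹) = 2 := by
  have : g * x * g⁻¹ = MulAut.conj g x := rfl
  rw [this, MulEquiv.orderOf_eq, hx]

/-- The central involution of a dihedral group of even rotation order. -/
lemma exists_central_inv [Finite G] {x y : G} (hx : x * x = 1) (hy : y * y = 1) (h : Even (orderOf (x * y))) :
    ∃ w, orderOf w = 2 ∧ Commute w x ∧ Commute w y := by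
  have hxi : x⁻¹ = x := inv_eq_of_mul_eq_one_left hx
  have hyi : y⁻¹ = y := inv_eq_of_mul_eq_one_left hy
  set m := x * y with hm
  obtain ⟨r, hr⟩ := h
  have hm0 : orderOf m ≠ 0 := (orderOf_pos m).ne'
  have hr2 : orderOf m = 2 * r := by omega
  have hrpos : 0 < r := by
    have := Nat.pos_of_ne_zero hm0
    omega
  set w := m ^ r with hw
  have hw1 : w ≠ 1 := by
    apply pow_ne_one_of_lt_orderOf hrpos.ne'
    omega
  have hww : w ^ 2 = 1 := by
    rw [hw, ← pow_mul, mul_comm, ← hr2, pow_orderOf_eq_one]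
  have hword : orderOf w = 2 := orderOf_eq_prime hww hw1
  have hwi : w⁻¹ = w := by
    have : w * w = 1 := by rw [← pow_two, hww]
    exact inv_eq_of_mul_eq_one_left this
  have hma : x * m * x⁻¹ = m⁻¹ := by
    rw [hm, hxi, mul_inv_rev, hyi, hxi]
    calc x * (x * y) * x = (x * x) * y * x := by group
      _ = y * x := by rw [hx, one_mul]
  have hmt : y * m * y⁻¹ = m⁻¹ := by
    rw [hm, hyi, mul_inv_rev, hyi, hxi]
    calc y * (x * y) * y = y * x * (y * y) := by group
      _ = y * x := by rw [hy, mul_one]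
  have hwa : x * w * x⁻¹ = w := by
    rw [hw, ← conj_pow, hma, inv_pow, ← hw, hwi]
  have hwt : y * w * y⁻¹ = w := by
    rw [hw, ← conj_pow, hmt, inv_pow, ← hw, hwi]
  refine ⟨w, hword, ?_, ?_⟩
  · show w * x = x * w
    calc w * x = (x * w * x⁻¹) * x := by rw [hwa]
      _ = x * w := by group
  · show w * y = y * w
    calc w * y = (y * w * y⁻¹) * y := by rw [hwt]
      _ = y * w := by group

/-- The data of the three-involution case. -/
structure Three (x u v : G) : Prop where
  hx : orderOf x = 2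
  hu : orderOf u = 2
  hv : orderOf v = 2
  hxu : x ≠ u
  hxv : x ≠ v
  huv : u ≠ v
  cxu : Commute x u
  cxv : Commute x v
  cuv : Commute u v
  hI : ∀ t : G, orderOf t = 2 → Commute t x → t = x ∨ t = u ∨ t = v

lemma Three.conj {x u v : G} (h : Three x u v) (g : G) : Three (g * x * g⁻¹) (g * u * g⁻¹) (g * v * g⁻¹) := by
  have hinj : ∀ {a b : G}, a ≠ b → g * a * g⁻¹ ≠ g * b * g⁻¹ := by
    intro a b hab hc
    apply hab
    have := congrArg (fun y => g⁻¹ * y * g) hc
    simpa [mul_assoc] using this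
  have hcm : ∀ {a b : G}, Commute a b → Commute (g * a * g⁻¹) (g * b * g⁻¹) := by
    intro a b hab
    show g * a * g⁻¹ * (g * b * g⁻¹) = g * b * g⁻¹ * (g * a * g⁻¹)
    have h1 : g * a * g⁻¹ * (g * b * g⁻¹) = g * (a * b) * g⁻¹ := by group
    have h2 : g * b * g⁻¹ * (g * a * g⁻¹) = g * (b * a) * g⁻¹ := by group
    rw [h1, h2, hab.eq]
  refine ⟨order_conj h.hx g, order_conj h.hu g, order_conj h.hv g, hinj h.hxu, hinj h.hxv, hinj h.huv, hcm h.cxu,
    hcm h.cxv, hcm h.cuv, ?_⟩
  intro t ht hc
  have h1 : orderOf (g⁻¹ * t * g) = 2 := by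
    have := order_conj ht g⁻¹
    simpa using this
  have h2 : Commute (g⁻¹ * t * g) x := by
    show g⁻¹ * t * g * x = x * (g⁻¹ * t * g)
    have h3 : t * (g * x * g⁻¹) = (g * x * g⁻¹) * t := hc
    have h4 : g⁻¹ * (t * (g * x * g⁻¹)) * g = g⁻¹ * (g * x * g⁻¹ * t) * g := by rw [h3]
    calc g⁻¹ * t * g * x = g⁻¹ * (t * (g * x * g⁻¹)) * g := by group
      _ = g⁻¹ * (g * x * g⁻¹ * t) * g := h4
      _ = x * (g⁻¹ * t * g) := by group
  have hback : ∀ {a : G}, g⁻¹ * t * g = a → t = g * a * g⁻¹ := by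
    intro a ha
    rw [← ha]; group
  rcases h.hI _ h1 h2 with h5 | h5 | h5
  · exact Or.inl (hback h5)
  · exact Or.inr (Or.inl (hback h5))
  · exact Or.inr (Or.inr (hback h5))

lemma Three.swap {x u v : G} (h : Three x u v) : Three x v u :=
  ⟨h.hx, h.hv, h.hu, h.hxv, h.hxu, h.huv.symm, h.cxv, h.cxu, h.cuv.symm, fun t ht hc => by
    rcases h.hI t ht hc with h1 | h1 | h1
    · exact Or.inl h1
    · exact Or.inr (Or.inr h1)
    · exact Or.inr (Or.inl h1)⟩

/-- If `x` is conjugate to `u`, the involutions commuting with `u` are those of `E`. -/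
lemma Three.hI_u {x u v : G} (h : Three x u v) (hc : IsConj x u) :
    ∀ t : G, orderOf t = 2 → Commute t u → t = x ∨ t = u ∨ t = v := by
  obtain ⟨g, rfl⟩ := isConj_iff.1 hc
  intro t ht hcomm
  have h1 : orderOf (g⁻¹ * t * g) = 2 := by
    have := order_conj ht g⁻¹
    simpa using this
  have h2 : Commute (g⁻¹ * t * g) x := by
    show g⁻¹ * t * g * x = x * (g⁻¹ * t * g)
    have h3 : t * (g * x * g⁻¹) = (g * x * g⁻¹) * t := hcomm
    have h4 : g⁻¹ * (t * (g * x * g⁻¹)) * g = g⁻¹ * (g * x * g⁻¹ * t) * g := by rw [h3]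
    calc g⁻¹ * t * g * x = g⁻¹ * (t * (g * x * g⁻¹)) * g := by group
      _ = g⁻¹ * (g * x * g⁻¹ * t) * g := h4
      _ = x * (g⁻¹ * t * g) := by group
  -- the images of `x` and `v`
  have hX : orderOf (g⁻¹ * x * g) = 2 := by
    have := order_conj h.hx g⁻¹
    simpa using this
  have hV : orderOf (g⁻¹ * v * g) = 2 := by
    have := order_conj h.hv g⁻¹
    simpa using this
  have hcX : Commute (g⁻¹ * x * g) x := by
    show g⁻¹ * x * g * x = x * (g⁻¹ * x * g)
    have h3 : x * (g * x * g⁻¹) = (g * x * g⁻¹) * x := h.cxu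
    have h4 : g⁻¹ * (x * (g * x * g⁻¹)) * g = g⁻¹ * (g * x * g⁻¹ * x) * g := by rw [h3]
    calc g⁻¹ * x * g * x = g⁻¹ * (x * (g * x * g⁻¹)) * g := by group
      _ = g⁻¹ * (g * x * g⁻¹ * x) * g := h4
      _ = x * (g⁻¹ * x * g) := by group
  have hcV : Commute (g⁻¹ * v * g) x := by
    show g⁻¹ * v * g * x = x * (g⁻¹ * v * g)
    have h3 : (g * x * g⁻¹) * v = v * (g * x * g⁻¹) := h.cuv
    have h4 : g⁻¹ * (g * x * g⁻¹ * v) * g = g⁻¹ * (v * (g * x * g⁻¹)) * g := by rw [h3]
    calc g⁻¹ * v * g * x = g⁻¹ * (v * (g * x * g⁻¹)) * g := by group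
      _ = g⁻¹ * (g * x * g⁻¹ * v) * g := h4.symm
      _ = x * (g⁻¹ * v * g) := by group
  have hinj : ∀ {a b : G}, g⁻¹ * a * g = g⁻¹ * b * g → a = b := by
    intro a b hab
    have := congrArg (fun y => g * y * g⁻¹) hab
    simpa [mul_assoc] using this
  have hXx : g⁻¹ * x * g ≠ x := fun h5 => h.hxu (by
    have h6 : g * (g⁻¹ * x * g) * g⁻¹ = x := by group
    rw [h5] at h6
    exact h6.symm)
  have hVx : g⁻¹ * v * g ≠ x := fun h5 => h.huv (by
    have h6 : g * (g⁻¹ * v * g) * g⁻¹ = v := by group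
    rw [h5] at h6
    exact h6)
  have hXV : g⁻¹ * x * g ≠ g⁻¹ * v * g := fun h5 => h.hxv (hinj h5)
  have hback : ∀ {a b : G}, g⁻¹ * t * g = g⁻¹ * a * g → b = a → t = b := by
    intro a b ha hb
    rw [hb]; exact hinj ha
  -- case analysis
  have hXcases := h.hI _ hX hcX
  have hVcases := h.hI _ hV hcV
  rcases h.hI _ h1 h2 with h3 | h3 | h3
  · -- `t = g x g⁻¹`
    refine Or.inr (Or.inl ?_)
    rw [← h3]; group
  · -- `g⁻¹ t g = u`
    rcases hXcases with h4 | h4 | h4
    · exact absurd h4 hXx
    · exact Or.inl (hinj (h3.trans h4.symm))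
    · rcases hVcases with h5 | h5 | h5
      · exact absurd h5 hVx
      · exact Or.inr (Or.inr (hinj (h3.trans h5.symm)))
      · exact absurd (h4.trans h5.symm) hXV
  · -- `g⁻¹ t g = v`
    rcases hXcases with h4 | h4 | h4
    · exact absurd h4 hXx
    · rcases hVcases with h5 | h5 | h5
      · exact absurd h5 hVx
      · exact absurd (h4.trans h5.symm) hXV
      · exact Or.inr (Or.inr (hinj (h3.trans h5.symm)))
    · exact Or.inl (hinj (h3.trans h4.symm))

/-- If `x ~ u` and `x ≁ v`, every involution not conjugate to `x` commutes with `v`. -/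
lemma Three.comm_v [Finite G] {x u v : G} (h : Three x u v) (hc : IsConj x u) (y : G) (hy : orderOf y = 2)
    (hyx : ¬ IsConj x y) : Commute y v := by
  by_cases hcy : Commute y x
  · rcases h.hI y hy hcy with h1 | h1 | h1
    · exact absurd (by rw [h1]) hyx
    · exact absurd (by rw [h1]; exact hc) hyx
    · rw [h1]
  · have heven : Even (orderOf (x * y)) := by
      by_contra hodd
      rw [Nat.not_even_iff_odd] at hodd
      obtain ⟨c, -, hc'⟩ := conj_of_odd_mul (sq_of_order h.hx) (sq_of_order hy) hodd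
      exact hyx (isConj_iff.2 ⟨c⁻¹, by rw [← hc']; group⟩)
    obtain ⟨w, hw, hwx, hwy⟩ := exists_central_inv (sq_of_order h.hx) (sq_of_order hy) heven
    rcases h.hI w hw hwx with h1 | h1 | h1
    · rw [h1] at hwy
      exact absurd hwy.symm hcy
    · rw [h1] at hwy
      exfalso
      rcases h.hI_u hc y hy hwy.symm with h2 | h2 | h2
      · exact hcy (by rw [h2])
      · exact hcy (by rw [h2]; exact h.cxu.symm)
      · exact hcy (by rw [h2]; exact h.cxv.symm)
    · rw [h1] at hwy
      exact hwy.symm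

/-- A simple commutative group has at most one involution. -/
lemma simple_abelian_contra [IsSimpleGroup G] (hcomm : ∀ a b : G, a * b = b * a) {x u : G} (hx : orderOf x = 2)
    (hu : orderOf u = 2) (hne : x ≠ u) : False := by
  have hN : (Subgroup.zpowers x).Normal := by
    constructor
    intro n hn g
    have : g * n * g⁻¹ = n := by rw [hcomm g n]; group
    rwa [this]
  have hx1 : x ≠ 1 := by
    rintro rfl
    rw [orderOf_one] at hx
    omega
  rcases hN.eq_bot_or_eq_top with h | h
  · have : x ∈ Subgroup.zpowers x := Subgroup.mem_zpowers x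
    rw [h, Subgroup.mem_bot] at this
    exact hx1 this
  · have h1 : u ∈ Subgroup.zpowers x := by rw [h]; trivial
    obtain ⟨k, hk⟩ := Subgroup.mem_zpowers_iff.1 h1
    have h2 : x ^ k = x ^ (k % 2) := by
      have h3 := zpow_mod_orderOf x k
      rw [hx] at h3
      exact_mod_cast h3.symm
    rcases Int.emod_two_eq_zero_or_one k with h3 | h3
    · rw [h3, zpow_zero] at h2
      rw [h2] at hk
      rw [← hk, orderOf_one] at hu
      omega
    · rw [h3, zpow_one] at h2
      rw [h2] at hk
      exact hne hk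

/-- A simple group generated by a commuting class is commutative. -/
lemma comm_of_conj_comm [IsSimpleGroup G] {v : G} (hv : v ≠ 1) (h1 : ∀ g : G, Commute v (g * v * g⁻¹)) :
    ∀ a b : G, a * b = b * a := by
  have hN : (Subgroup.normalClosure ({v} : Set G)).Normal := Subgroup.normalClosure_normal
  have hvm : v ∈ Subgroup.normalClosure ({v} : Set G) := Subgroup.subset_normalClosure rfl
  have htop : Subgroup.normalClosure ({v} : Set G) = ⊤ := by
    rcases hN.eq_bot_or_eq_top with h | h
    · rw [h, Subgroup.mem_bot] at hvm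
      exact absurd hvm hv
    · exact h
  have hcomm : ∀ x ∈ Group.conjugatesOfSet ({v} : Set G), ∀ y ∈ Group.conjugatesOfSet ({v} : Set G), x * y = y * x := by
    intro x hx y hy
    rw [Group.mem_conjugatesOfSet_iff] at hx hy
    obtain ⟨b, hb, hx⟩ := hx
    obtain ⟨b', hb', hy⟩ := hy
    rw [Set.mem_singleton_iff] at hb hb'
    rw [hb] at hx
    rw [hb'] at hy
    obtain ⟨g, rfl⟩ := isConj_iff.1 hx
    obtain ⟨k, rfl⟩ := isConj_iff.1 hy
    have h2 : v * ((g⁻¹ * k) * v * (g⁻¹ * k)⁻¹) = ((g⁻¹ * k) * v * (g⁻¹ * k)⁻¹) * v := h1 (g⁻¹ * k)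
    have h3 : g * (v * ((g⁻¹ * k) * v * (g⁻¹ * k)⁻¹)) * g⁻¹ = g * (((g⁻¹ * k) * v * (g⁻¹ * k)⁻¹) * v) * g⁻¹ := by
      rw [h2]
    calc g * v * g⁻¹ * (k * v * k⁻¹) = g * (v * ((g⁻¹ * k) * v * (g⁻¹ * k)⁻¹)) * g⁻¹ := by group
      _ = g * (((g⁻¹ * k) * v * (g⁻¹ * k)⁻¹) * v) * g⁻¹ := h3
      _ = k * v * k⁻¹ * (g * v * g⁻¹) := by group
  have inst := Subgroup.isMulCommutative_closure hcomm
  intro a b
  have ha : a ∈ Subgroup.closure (Group.conjugatesOfSet ({v} : Set G)) := by
    change a ∈ Subgroup.normalClosure ({v} : Set G)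
    rw [htop]; trivial
  have hb : b ∈ Subgroup.closure (Group.conjugatesOfSet ({v} : Set G)) := by
    change b ∈ Subgroup.normalClosure ({v} : Set G)
    rw [htop]; trivial
  have := inst.is_comm.comm (⟨a, ha⟩ : Subgroup.closure (Group.conjugatesOfSet ({v} : Set G))) ⟨b, hb⟩
  exact congrArg Subtype.val this

/-- If `x ~ u` then `x ~ v`. -/
lemma Three.conj_v [Finite G] [IsSimpleGroup G] {x u v : G} (h : Three x u v) (hc : IsConj x u) : IsConj x v := by
  by_contra hv
  -- all conjugates of `v` commute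
  have h1 : ∀ g : G, Commute v (g * v * g⁻¹) := by
    intro g
    have hc' : IsConj (g * x * g⁻¹) (g * u * g⁻¹) := by
      obtain ⟨c, rfl⟩ := isConj_iff.1 hc
      exact isConj_iff.2 ⟨g * c * g⁻¹, by group⟩
    exact (h.conj g).comm_v hc' v h.hv (by
      intro h3
      apply hv
      have h4 : IsConj x (g * x * g⁻¹) := isConj_iff.2 ⟨g, rfl⟩
      exact h4.trans h3)
  have hv1 : v ≠ 1 := by
    intro h2
    have := h.hv
    rw [h2, orderOf_one] at this
    omega
  exact simple_abelian_contra (comm_of_conj_comm hv1 h1) h.hx h.hu h.hxu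

/-- A central involution of a Sylow `2`-subgroup containing an involution. -/
lemma exists_central_inv_sylow [Finite G] (S : Sylow 2 G) {x : G} (hx : x ∈ (S : Subgroup G)) (hx2 : orderOf x = 2) :
    ∃ t ∈ (S : Subgroup G), orderOf t = 2 ∧ ∀ s ∈ (S : Subgroup G), Commute s t := by
  classical
  haveI hp2 : Fact (Nat.Prime 2) := ⟨Nat.prime_two⟩
  haveI : Nontrivial (S : Subgroup G) := by
    refine ⟨⟨⟨x, hx⟩, 1, ?_⟩⟩
    intro h
    have h1 : x = 1 := congrArg Subtype.val h
    rw [h1, orderOf_one] at hx2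
    omega
  have hP : IsPGroup 2 (S : Subgroup G) := S.isPGroup'
  have hZ : Nontrivial (Subgroup.center (S : Subgroup G)) := hP.center_nontrivial
  have hPZ : IsPGroup 2 (Subgroup.center (S : Subgroup G)) := hP.to_subgroup _
  obtain ⟨n, hn⟩ := IsPGroup.iff_card.1 hPZ
  have h2 : 2 ∣ Nat.card (Subgroup.center (S : Subgroup G)) := by
    rw [hn]
    apply dvd_pow_self
    rintro rfl
    rw [pow_zero] at hn
    have := Finite.one_lt_card_iff_nontrivial.2 hZ
    omega
  obtain ⟨t, ht⟩ := exists_prime_orderOf_dvd_card' 2 h2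
  refine ⟨((t : (S : Subgroup G)) : G), (t : (S : Subgroup G)).2, ?_, fun s hs => ?_⟩
  · rw [Subgroup.orderOf_coe, Subgroup.orderOf_coe]; exact ht
  · have h3 := Subgroup.mem_center_iff.1 t.2 ⟨s, hs⟩
    exact congrArg Subtype.val h3

/-- A Sylow subgroup through `x` lies in `C(x)`, if `x` is conjugate to no other involution of `C(x)`. -/
lemma sylow_le_of_not_fused [Finite G] {x : G} (S : Sylow 2 G) (hx : x ∈ (S : Subgroup G)) (hx2 : orderOf x = 2)
    (hI : ∀ g : G, orderOf (g * x * g⁻¹) = 2 → Commute (g * x * g⁻¹) x → g * x * g⁻¹ = x) :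
    (S : Subgroup G) ≤ Subgroup.centralizer ({x} : Set G) := by
  classical
  haveI hp2 : Fact (Nat.Prime 2) := ⟨Nat.prime_two⟩
  by_contra hle
  set B : Subgroup (S : Subgroup G) := (Subgroup.centralizer ({x} : Set G)).subgroupOf (S : Subgroup G) with hB
  have hBlt : B < ⊤ := by
    rw [lt_top_iff_ne_top]
    intro h
    apply hle
    intro s hs
    have : (⟨s, hs⟩ : (S : Subgroup G)) ∈ B := by rw [h]; trivial
    simpa [hB, Subgroup.mem_subgroupOf] using this
  haveI : Group.IsNilpotent (S : Subgroup G) := S.isPGroup'.isNilpotent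
  have hcond := Group.normalizerCondition_of_isNilpotent (G := (S : Subgroup G)) B hBlt
  obtain ⟨g, hg, hgB⟩ := SetLike.exists_of_lt hcond
  have hxB : (⟨x, hx⟩ : (S : Subgroup G)) ∈ B := by
    rw [hB, Subgroup.mem_subgroupOf, Subgroup.mem_centralizer_singleton_iff]
  have h1 := (Subgroup.mem_normalizer_iff.1 hg _).1 hxB
  rw [hB, Subgroup.mem_subgroupOf, Subgroup.mem_centralizer_singleton_iff] at h1
  simp only [Subgroup.coe_mul, Subgroup.coe_inv] at h1
  have h2 := hI g (order_conj hx2 g) h1
  apply hgB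
  rw [hB, Subgroup.mem_subgroupOf, Subgroup.mem_centralizer_singleton_iff]
  calc (g : G) * x = ((g : G) * x * (g : G)⁻¹) * g := by group
    _ = x * g := by rw [h2]

/-- **Contradiction in the isolated case.** -/
lemma Three.not_isolated (hBS : BrauerSuzuki.{u}) [Finite G] [IsSimpleGroup G] {x u v : G} (h : Three x u v)
    (h1 : ¬ IsConj x u) (h2 : ¬ IsConj x v) : False := by
  classical
  haveI hp2 : Fact (Nat.Prime 2) := ⟨Nat.prime_two⟩
  have hz2 : IsPGroup 2 (Subgroup.zpowers x) :=
    IsPGroup.of_card (n := 1) (by rw [Nat.card_zpowers, h.hx, pow_one])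
  obtain ⟨S, hS⟩ := hz2.exists_le_sylow
  have hxS : x ∈ (S : Subgroup G) := hS (Subgroup.mem_zpowers x)
  -- involutions commuting with `x` conjugate to `x` are `x`
  have hI : ∀ g : G, orderOf (g * x * g⁻¹) = 2 → Commute (g * x * g⁻¹) x → g * x * g⁻¹ = x := by
    intro g h3 h4
    rcases h.hI _ h3 h4 with h5 | h5 | h5
    · exact h5
    · exact absurd (isConj_iff.2 ⟨g, h5⟩) h1
    · exact absurd (isConj_iff.2 ⟨g, h5⟩) h2
  have hle := sylow_le_of_not_fused S hxS h.hx hI
  have hiso : ∀ g : G, g * x * g⁻¹ ∈ S → g * x * g⁻¹ = x := by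
    intro g hg
    have h3 : g * x * g⁻¹ ∈ (S : Subgroup G) := hg
    have h4 := hle h3
    rw [Subgroup.mem_centralizer_singleton_iff] at h4
    exact hI g (order_conj h.hx g) h4
  obtain ⟨N, hN, hNodd, hcomm⟩ := zstar_sylow hBS S x h.hx hxS hiso
  -- `N` is trivial
  have hNbot : N = ⊥ := by
    rcases hN.eq_bot_or_eq_top with h3 | h3
    · exact h3
    · exfalso
      apply not_inv_of_odd hNodd ⟨x, by rw [h3]; trivial⟩
      rw [Subgroup.orderOf_mk]; exact h.hx
  have hcen : ∀ g : G, g * x = x * g := by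
    intro g
    have h3 := hcomm g
    rw [hNbot, Subgroup.mem_bot] at h3
    have h4 : x * g * x⁻¹ = g := mul_inv_eq_one.1 h3
    exact (mul_inv_eq_iff_eq_mul.1 h4).symm
  -- so `x` generates `G`
  have hN2 : (Subgroup.zpowers x).Normal := by
    constructor
    intro n hn g
    obtain ⟨k, rfl⟩ := Subgroup.mem_zpowers_iff.1 hn
    have h3 : Commute g (x ^ k) := Commute.zpow_right (hcen g) k
    have h4 : g * x ^ k * g⁻¹ = x ^ k := by rw [h3.eq]; group
    rw [h4]
    exact hn
  have hx1 : x ≠ 1 := by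
    intro h3
    have := h.hx
    rw [h3, orderOf_one] at this
    omega
  rcases hN2.eq_bot_or_eq_top with h3 | h3
  · have h4 : x ∈ Subgroup.zpowers x := Subgroup.mem_zpowers x
    rw [h3, Subgroup.mem_bot] at h4
    exact hx1 h4
  · have hcomm2 : ∀ a b : G, a * b = b * a := by
      intro a b
      have ha : a ∈ Subgroup.zpowers x := by rw [h3]; trivial
      have hb : b ∈ Subgroup.zpowers x := by rw [h3]; trivial
      obtain ⟨i, rfl⟩ := Subgroup.mem_zpowers_iff.1 ha
      obtain ⟨j, rfl⟩ := Subgroup.mem_zpowers_iff.1 hb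
      exact (Commute.zpow_zpow_self x i j).eq
    exact simple_abelian_contra hcomm2 h.hx h.hu h.hxu

/-- **S3279**, given the Brauer–Suzuki theorem. -/
theorem main (hBS : BrauerSuzuki.{u}) [Finite G] [IsSimpleGroup G] (x : G) (hx : orderOf x = 2)
    (h3 : Nat.card {u : ↥(Subgroup.centralizer ({x} : Set G)) // orderOf u = 2} ≤ 3) :
    (∃ S : Sylow 2 G, (S : Subgroup G) ≤ Subgroup.centralizer ({x} : Set G)) ∧
      ∀ u v : G, orderOf u = 2 → orderOf v = 2 → IsConj u v := by
  classical
  haveI hp2 : Fact (Nat.Prime 2) := ⟨Nat.prime_two⟩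
  have hz2 : IsPGroup 2 (Subgroup.zpowers x) :=
    IsPGroup.of_card (n := 1) (by rw [Nat.card_zpowers, hx, pow_one])
  obtain ⟨S, hS⟩ := hz2.exists_le_sylow
  have hxS : x ∈ (S : Subgroup G) := hS (Subgroup.mem_zpowers x)
  -- final step: a Sylow subgroup in `C(x)` all of whose involutions are conjugate to `x`
  have hfinal : ∀ S' : Sylow 2 G, (S' : Subgroup G) ≤ Subgroup.centralizer ({x} : Set G) →
      (∀ t : G, orderOf t = 2 → Commute t x → IsConj x t) →
      (∃ S : Sylow 2 G, (S : Subgroup G) ≤ Subgroup.centralizer ({x} : Set G)) ∧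
      ∀ u v : G, orderOf u = 2 → orderOf v = 2 → IsConj u v := by
    intro S' hS' hall
    refine ⟨⟨S', hS'⟩, ?_⟩
    have hone : ∀ y : G, orderOf y = 2 → IsConj x y := by
      intro y hy
      have hy2 : IsPGroup 2 (Subgroup.zpowers y) :=
        IsPGroup.of_card (n := 1) (by rw [Nat.card_zpowers, hy, pow_one])
      obtain ⟨R, hR⟩ := hy2.exists_le_sylow
      obtain ⟨c, hc⟩ := MulAction.exists_smul_eq G R S'
      have h1 : MulAut.conj c • y ∈ MulAut.conj c • (R : Subgroup G) :=
        Subgroup.smul_mem_pointwise_smul _ _ _ (hR (Subgroup.mem_zpowers y))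
      rw [← Sylow.coe_subgroup_smul, hc] at h1
      have h2 : c * y * c⁻¹ ∈ (S' : Subgroup G) := by simpa [MulAut.smul_def] using h1
      have h4 := hS' h2
      rw [Subgroup.mem_centralizer_singleton_iff] at h4
      have h5 := hall _ (order_conj hy c) h4
      have h6 : IsConj (c * y * c⁻¹) y := isConj_iff.2 ⟨c⁻¹, by group⟩
      exact h5.trans h6
    intro u v hu hv
    exact (hone u hu).symm.trans (hone v hv)
  -- the dichotomy
  by_cases hone : ∀ t : G, orderOf t = 2 → Commute t x → t = x
  · -- case 1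
    obtain ⟨t, ht, ht2, htc⟩ := exists_central_inv_sylow S hxS hx
    have h1 := hone t ht2 (htc x hxS).symm
    subst h1
    refine hfinal S ?_ ?_
    · intro s hs
      rw [Subgroup.mem_centralizer_singleton_iff]
      exact htc s hs
    · intro t' ht' hc
      rw [hone t' ht' hc]
  · -- case 2
    push Not at hone
    obtain ⟨u, hu, hcu, hux⟩ := hone
    set v := x * u with hv
    have hxx := sq_of_order hx
    have huu := sq_of_order hu
    have hcxu : Commute x u := hcu.symm
    have hvv : v * v = 1 := by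
      rw [hv]
      calc x * u * (x * u) = x * (u * x) * u := by group
        _ = x * (x * u) * u := by rw [hcxu.symm.eq]
        _ = (x * x) * (u * u) := by group
        _ = 1 := by rw [hxx, huu, one_mul]
    have hxu : x ≠ u := fun h => hux h.symm
    have hv1 : v ≠ 1 := by
      intro h
      apply hxu
      have h1 := eq_inv_of_mul_eq_one_left h
      rw [h1, inv_of_order hu]
    have hvord : orderOf v = 2 := orderOf_eq_prime (by rw [pow_two]; exact hvv) hv1
    have hu1 : u ≠ 1 := by
      intro h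
      rw [h, orderOf_one] at hu
      omega
    have hx1 : x ≠ 1 := by
      intro h
      rw [h, orderOf_one] at hx
      omega
    have hxv : x ≠ v := by
      intro h
      apply hu1
      have h1 : x * 1 = x * u := by rw [mul_one]; exact h
      exact (mul_left_cancel h1).symm
    have huv : u ≠ v := by
      intro h
      apply hx1
      have h1 : 1 * u = x * u := by rw [one_mul]; exact h
      exact (mul_right_cancel h1).symm
    have hcxv : Commute x v := (Commute.refl x).mul_right hcxu
    have hcuv : Commute u v := hcxu.symm.mul_right (Commute.refl u)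
    -- the card bound
    have hI : ∀ t : G, orderOf t = 2 → Commute t x → t = x ∨ t = u ∨ t = v := by
      intro t ht hct
      by_contra hno
      push Not at hno
      obtain ⟨h1, h2, h4⟩ := hno
      let C := Subgroup.centralizer ({x} : Set G)
      have memC : ∀ {a : G}, Commute a x → a ∈ C := fun h => by
        rw [Subgroup.mem_centralizer_singleton_iff]; exact h
      let mk : ∀ a : G, Commute a x → orderOf a = 2 → {w : C // orderOf w = 2} := fun a h h' =>
        ⟨⟨a, memC h⟩, by rw [Subgroup.orderOf_mk]; exact h'⟩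
      haveI : Fintype {w : C // orderOf w = 2} := Fintype.ofFinite _
      let val : {w : C // orderOf w = 2} → G := fun w => ((w : C) : G)
      let A := mk x (Commute.refl x) hx
      let B := mk u hcu hu
      let V := mk v hcxv.symm hvord
      let T := mk t hct ht
      have hAB : A ≠ B := fun hc => hxu (congrArg val hc)
      have hAV : A ≠ V := fun hc => hxv (congrArg val hc)
      have hAT : A ≠ T := fun hc => h1 (congrArg val hc).symm
      have hBV : B ≠ V := fun hc => huv (congrArg val hc)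
      have hBT : B ≠ T := fun hc => h2 (congrArg val hc).symm
      have hVT : V ≠ T := fun hc => h4 (congrArg val hc).symm
      let F : Finset {w : C // orderOf w = 2} := {A, B, V, T}
      have hFcard : F.card = 4 := by
        simp only [F]
        rw [Finset.card_insert_of_notMem, Finset.card_insert_of_notMem, Finset.card_insert_of_notMem,
          Finset.card_singleton]
        · simp only [Finset.mem_singleton]
          exact hVT
        · simp only [Finset.mem_insert, Finset.mem_singleton, not_or]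
          exact ⟨hBV, hBT⟩
        · simp only [Finset.mem_insert, Finset.mem_singleton, not_or]
          exact ⟨hAB, hAV, hAT⟩
      have h5 : F.card ≤ Fintype.card {w : C // orderOf w = 2} := Finset.card_le_univ F
      rw [hFcard, ← Nat.card_eq_fintype_card] at h5
      exact absurd (h5.trans h3) (by norm_num)
    have hT : Three x u v := ⟨hx, hu, hvord, hxu, hxv, huv, hcxu, hcxv, hcuv, hI⟩
    -- the classes
    have hconj : IsConj x u ∧ IsConj x v := by
      by_cases h1 : IsConj x u
      · exact ⟨h1, hT.conj_v h1⟩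
      · by_cases h2 : IsConj x v
        · exact ⟨hT.swap.conj_v h2, h2⟩
        · exact (hT.not_isolated hBS h1 h2).elim
    obtain ⟨hc1, hc2⟩ := hconj
    have hall : ∀ t : G, orderOf t = 2 → Commute t x → IsConj x t := by
      intro t ht hct
      rcases hI t ht hct with h1 | h1 | h1
      · rw [h1]
      · rw [h1]; exact hc1
      · rw [h1]; exact hc2
    -- a Sylow subgroup in `C(x)`
    obtain ⟨t, ht, ht2, htc⟩ := exists_central_inv_sylow S hxS hx
    obtain ⟨g, hg⟩ := isConj_iff.1 (hall t ht2 (htc x hxS).symm)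
    let S' : Sylow 2 G := g⁻¹ • S
    refine hfinal S' ?_ hall
    intro y hy
    have h1 : y ∈ MulAut.conj g⁻¹ • (S : Subgroup G) := by
      have := hy
      rwa [show (S' : Subgroup G) = MulAut.conj g⁻¹ • (S : Subgroup G) from Sylow.coe_subgroup_smul] at this
    rw [Subgroup.mem_pointwise_smul_iff_inv_smul_mem] at h1
    have h2 : g * y * g⁻¹ ∈ (S : Subgroup G) := by
      simpa [MulAut.smul_def] using h1
    have h3 := htc _ h2
    rw [← hg] at h3
    rw [Subgroup.mem_centralizer_singleton_iff]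
    have h4 : g * y * g⁻¹ * (g * x * g⁻¹) = g * x * g⁻¹ * (g * y * g⁻¹) := h3
    have h5 : g⁻¹ * (g * y * g⁻¹ * (g * x * g⁻¹)) * g = g⁻¹ * (g * x * g⁻¹ * (g * y * g⁻¹)) * g := by rw [h4]
    calc y * x = g⁻¹ * (g * y * g⁻¹ * (g * x * g⁻¹)) * g := by group
      _ = g⁻¹ * (g * x * g⁻¹ * (g * y * g⁻¹)) * g := h5
      _ = x * y := by group

end Cfsg.Agent.Lib.Components.ZStarThree
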